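/-
A system with a normalizer system having a component in the centralizer has a component in the
centralizer of an element of order `p`.
-/
import Cfsg.Agent.Fusion.ComponentExists
import Cfsg.Agent.Fusion.LocalModel
import Cfsg.Agent.Fusion.TateMore
set_option autoImplicit false
set_option linter.style.haveILetI false
set_option linter.unusedSectionVars false
set_option maxHeartbeats 1000000

namespace Cfsg.Agent.Fusion.CharTypeDichotomy

open Cfsg Cfsg.FusionSystem Cfsg.Agent.Fusion Cfsg.Agent.Fusion.SatCrit Cfsg.Agent.Fusion.WeakResidual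
open Cfsg.Agent.Fusion.CentFix (cent_mor exists_pprime_power iterate_agree)
open scoped commutatorElement

variable {Ω : Type*} [Group Ω] {S P Q : Subgroup Ω} {F : FusionSystem S} {p : ℕ}

/-- An automorphism of order prime to `p` of a `p`-group `Q` commuting with the action of a `p`-group
and fixing its centralizer in `Q` fixes `Q`. -/
theorem fix_of_commute [Fact p.Prime] [Finite S] (hS : IsPGroup p S) (hP : P ≤ S) (hQ : Q ≤ S)
    (hn : ∀ a ∈ P, ∀ x ∈ Q, a * x * a⁻¹ ∈ Q) {k : Ω → Ω} (hkQ : ∀ x ∈ Q, k x ∈ Q)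
    (hmul : ∀ x ∈ Q, ∀ y ∈ Q, k (x * y) = k x * k y)
    (hcomm : ∀ a ∈ P, ∀ x ∈ Q, k (a * x * a⁻¹) = a * k x * a⁻¹)
    (hfix : ∀ x ∈ Q, x ∈ Subgroup.centralizer (P : Set Ω) → k x = x)
    {l : ℕ} (hl : l.Coprime p) (hkl : ∀ x ∈ Q, k^[l] x = x) : ∀ x ∈ Q, k x = x := by
  have h1 : k 1 = 1 := by
    have h := hmul 1 Q.one_mem 1 Q.one_mem
    rw [one_mul] at h
    exact left_eq_mul.mp h
  have hinv : ∀ x ∈ Q, k x⁻¹ = (k x)⁻¹ := fun x hx => eq_inv_of_mul_eq_one_left (by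
    rw [← hmul _ (Q.inv_mem hx) _ hx, inv_mul_cancel, h1])
  let Y : Subgroup Ω :=
    { carrier := {x | x ∈ Q ∧ k x = x}
      one_mem' := ⟨Q.one_mem, h1⟩
      mul_mem' := fun {x y} hx hy => ⟨Q.mul_mem hx.1 hy.1, by rw [hmul _ hx.1 _ hy.1, hx.2, hy.2]⟩
      inv_mem' := fun {x} hx => ⟨Q.inv_mem hx.1, by rw [hinv _ hx.1, hx.2]⟩ }
  suffices hQY : Q ≤ Y from fun x hx => (hQY hx).2
  have hYQ : Y ≤ Q := fun x hx => hx.1
  haveI := finite_of_le hQ
  by_contra hlt
  obtain ⟨b₀, hb₀Q, hb₀Y, hb₀n⟩ := exists_mem_normalizer_of_lt (hS.to_le hQ)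
    (lt_of_le_of_ne hYQ fun e => hlt e.ge)
  set M := Q ⊓ Subgroup.normalizer (Y : Set Ω)
  have hYc : ∀ a ∈ P, ∀ y ∈ Y, a * y * a⁻¹ ∈ Y := fun a ha y hy =>
    ⟨hn a ha y hy.1, by rw [hcomm a ha y hy.1, hy.2]⟩
  have hMc : ∀ a ∈ P, ∀ b ∈ M, a * b * a⁻¹ ∈ M := fun a ha b hb =>
    ⟨hn a ha b hb.1, mul_mem (mul_mem (Subgroup.mem_normalizer_iff.mpr fun y =>
      ⟨hYc a ha y, fun h => by simpa [mul_assoc] using hYc a⁻¹ (P.inv_mem ha) _ h⟩) hb.2)
      (Subgroup.inv_mem _ (Subgroup.mem_normalizer_iff.mpr fun y =>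
      ⟨hYc a ha y, fun h => by simpa [mul_assoc] using hYc a⁻¹ (P.inv_mem ha) _ h⟩))⟩
  haveI := hS.isNilpotent
  obtain ⟨n, hnil⟩ := Subgroup.nilpotent_iff_lowerCentralSeries.mp (inferInstance : Group.IsNilpotent S)
  have step : ∀ i, ∀ x : S, x ∈ Subgroup.lowerCentralSeries (⊤ : Subgroup S) i → (x : Ω) ∈ M → (x : Ω) ∈ Y := by
    suffices h : ∀ j i, i + j = n → ∀ x : S, x ∈ Subgroup.lowerCentralSeries (⊤ : Subgroup S) i →
        (x : Ω) ∈ M → (x : Ω) ∈ Y by
      intro i x hx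
      rcases le_total i n with hi | hi
      · exact h (n - i) i (by omega) x hx
      · exact h 0 n rfl x (Subgroup.lowerCentralSeries_antitone _ hi hx)
    intro j
    induction j with
    | zero =>
      intro i hi x hx _
      obtain rfl : i = n := hi
      rw [hnil, Subgroup.mem_bot] at hx
      exact hx ▸ Y.one_mem
    | succ j ih =>
      intro i hi b hb hbM
      by_contra hbY
      set u := (b : Ω)⁻¹ * k b with hu
      have hkb : k b = b * u := by rw [hu, mul_inv_cancel_left]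
      have hua : ∀ a ∈ P, a * u = u * a := by
        intro a ha
        have hc : (a * b * a⁻¹ * (b : Ω)⁻¹) ∈ Y := by
          refine ih (i + 1) (by omega) ⟨_, S.mul_mem (S.mul_mem (S.mul_mem (hP ha) b.2)
            (S.inv_mem (hP ha))) (S.inv_mem b.2)⟩ ?_ (mul_mem (hMc a ha b hbM) (inv_mem hbM))
          have hq : ⁅(⟨a, hP ha⟩ : S), b⁆ ∈ Subgroup.lowerCentralSeries (⊤ : Subgroup S) (i + 1) := by
            rw [Subgroup.lowerCentralSeries_succ, Subgroup.commutator_comm]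
            exact Subgroup.commutator_mem_commutator (Subgroup.mem_top _) hb
          exact hq
        set c := a * b * a⁻¹ * (b : Ω)⁻¹ with hcdef
        have e : k (a * b * a⁻¹) = c * k b := by
          rw [show a * (b : Ω) * a⁻¹ = c * b by rw [hcdef, inv_mul_cancel_right], hmul _ hc.1 _ hbM.1, hc.2]
        rw [hcomm a ha _ hbM.1, hkb, hcdef] at e
        calc a * u = (a * b * a⁻¹)⁻¹ * (a * ((b : Ω) * u) * a⁻¹) * a := by group
          _ = u * a := by rw [e]; group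
      have huQ : u ∈ Q := Q.mul_mem (Q.inv_mem hbM.1) (hkQ _ hbM.1)
      have hku : k u = u := hfix u huQ fun a ha => hua a ha
      have hit : ∀ i : ℕ, k^[i] (b : Ω) = b * u ^ i := by
        intro i
        induction i with
        | zero => simp
        | succ i ih =>
          have hpow : k (u ^ i) = u ^ i :=
            (pow_mem (show u ∈ Y from ⟨huQ, hku⟩) i : u ^ i ∈ Y).2
          rw [Function.iterate_succ_apply', ih, hmul _ hbM.1 _ (pow_mem huQ i), hpow, hkb, mul_assoc,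
            ← pow_succ']
      have h2 : u ^ l = 1 := mul_eq_left.mp ((hit l).symm.trans (hkl _ hbM.1))
      have h3 := eq_one_of_pow_eq_one hS (hQ huQ)
        ((Fact.out : p.Prime).coprime_iff_not_dvd.mp hl.symm) h2
      exact hbY ⟨hbM.1, by rw [hkb, h3, mul_one]⟩
  exact hb₀Y (step 0 ⟨b₀, hQ hb₀Q⟩ (by simp) ⟨hb₀Q, hb₀n⟩)

/-- The main step of the dichotomy. -/
theorem componentType [Fact p.Prime] [Finite S] (hS : IsPGroup p S) (hF : F.IsSaturated p)
    (hP : P ≠ ⊥) (hPn : F.IsFullyNormalized P) {N : FusionSystem (normalizerIn S P)}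
    (hN : F.IsNormalizerSystem P N) (hNc : ¬ N.IsConstrained p) : F.IsOfComponentType p := by
  have hPS := hPn.1
  haveI := finite_of_le hPS
  haveI := finite_of_le (normalizerIn_le : normalizerIn S P ≤ S)
  have hNp := hS.to_le (normalizerIn_le : normalizerIn S P ≤ S)
  have hNs := normalizerSystem_saturated hS hF hPn hN
  have hPN := normalizerSystem_isNormal hPS hN
  obtain ⟨CN, hCN⟩ := exists_centralizerSystem N P hPN.1
  have hCNn := ComponentCore.cent_normal hNp hNs hPN hCN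
  have hCNle : centralizerIn (normalizerIn S P) P ≤ normalizerIn S P := centralizerIn_le
  haveI := finite_of_le hCNle
  have hCNp := hNp.to_le hCNle
  have hCNs := hCNn.1.1
  obtain ⟨U, C, hC⟩ : ∃ (U : Subgroup Ω) (C : FusionSystem U), C.IsComponentIn CN p := by
    refine ComponentExists.exists_component _ rfl _ CN rfl hCNp hCNs fun hc => hNc ?_
    obtain ⟨R, hRc, hRle⟩ := ComponentExists.exists_centric_le_core hNp hCNn hc
    refine ⟨hNs, _, core_isNormal, ComponentExists.centric_of_normal core_isNormal fun x hx => hRle ?_⟩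
    refine hRc.2 R (isConj_refl hRc.1) ⟨⟨hx.1, fun y hy => hx.2 y ?_⟩, fun y hy => hx.2 y (hRle hy)⟩
    exact le_sSup (show P ∈ {Q : Subgroup Ω | N.IsNormal Q} from hPN) hy
  -- a central subgroup of order `p`
  obtain ⟨X, hXP, hXcard, hXc⟩ : ∃ X, X ≤ P ∧ Nat.card X = p ∧ ∀ x ∈ X, ∀ y ∈ P, y * x = x * y := by
    haveI : Nontrivial P := (Subgroup.nontrivial_iff_ne_bot P).mpr hP
    haveI := (hS.to_le hPS).center_nontrivial
    obtain ⟨k, hk⟩ := IsPGroup.iff_card.mp ((hS.to_le hPS).to_subgroup (Subgroup.center P))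
    have hk0 : k ≠ 0 := fun e => by
      rw [e, pow_zero] at hk
      exact absurd hk Finite.one_lt_card.ne'
    obtain ⟨z, hz⟩ := exists_prime_orderOf_dvd_card' p (hk ▸ dvd_pow_self p hk0)
    refine ⟨Subgroup.zpowers (((z : P)) : Ω), Subgroup.zpowers_le.mpr (z : P).2, ?_, fun x hx y hy => ?_⟩
    · rw [Nat.card_zpowers, Subgroup.orderOf_coe, Subgroup.orderOf_coe, hz]
    · obtain ⟨i, rfl⟩ := Subgroup.mem_zpowers_iff.mp hx
      have := congrArg Subtype.val (Subgroup.mem_center_iff.mp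
        (zpow_mem z.2 i : (z : P) ^ i ∈ Subgroup.center P) ⟨y, hy⟩)
      simpa using this
  have hXS := hXP.trans hPS
  obtain ⟨X', hconj, hX'n⟩ := exists_fullyNormalized (F := F) hXS
  obtain ⟨f₀, hf₀⟩ := isConj_iff.mp hconj
  obtain ⟨-, a, -, ha, -, -, haX⟩ := exists_map_to_fullyNormalized hS hF hf₀ hX'n
  set D := centralizerIn S P with hDdef
  have hcx : ∀ m ∈ D ⊔ P, ∀ x ∈ X, x * m = m * x := by
    have : D ⊔ P ≤ Subgroup.centralizer (X : Set Ω) := sup_le (fun m hm x hx => hm.2 x (hXP hx))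
      fun y hy x hx => (hXc x hx y hy).symm
    exact fun m hm x hx => this hm x hx
  have hMN : D ⊔ P ≤ normalizerIn S X := le_inf (sup_le centralizerIn_le hPS)
    fun m hm => Subgroup.centralizer_le_normalizer _ (fun x hx => hcx m hm x hx)
  have hm : Mor F (D ⊔ P) a := ha.restrict hMN
  set M' := hm.img with hM'def
  have hai : Iso F a (D ⊔ P) M' := hm.toIso
  obtain ⟨b, hb, hba, hab⟩ := hai.exists_symm
  set P' := (hm.restrict le_sup_right).img with hP'def
  have hPconj : F.IsConj P P' := (hm.restrict le_sup_right).toIso.isConj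
  have hmemP' : ∀ y, y ∈ P' ↔ ∃ x ∈ P, a x = y := fun y => (hm.restrict le_sup_right).mem_img
  have hP'M : P' ≤ M' := fun y hy => by
    obtain ⟨x, hx, rfl⟩ := (hmemP' y).mp hy
    exact hai.mapsTo (Subgroup.mem_sup_right hx)
  have hX'P : X' ≤ P' := fun y hy => by
    obtain ⟨x, hx, rfl⟩ := haX.surj hy
    exact (hmemP' _).mpr ⟨x, hXP hx, rfl⟩
  have hM'C : M' ≤ centralizerIn S X' := fun y hy => by
    obtain ⟨m, hm', rfl⟩ := hm.mem_img.mp hy
    refine ⟨hm.map_mem hm', fun z hz => ?_⟩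
    obtain ⟨x, hx, rfl⟩ := haX.surj hz
    have hxM : x ∈ D ⊔ P := Subgroup.mem_sup_right (hXP hx)
    rw [← hm.map_mul hxM hm', ← hm.map_mul hm' hxM, hcx m hm' x hx]
  have hM'S : M' ≤ S := hM'C.trans centralizerIn_le
  obtain ⟨CX, hCX⟩ := exists_centralizerSystem F X' hX'n.1
  have hXfc := (IsSaturated_fullyNormalized hS hF hX'n).1
  have hCXs := centralizerSystem_saturated hS hF hXfc hCX
  refine ⟨X', haX.card_eq ▸ hXcard, hX'n, CX, hCX, ?_⟩
  have hXle : centralizerIn S X' ≤ S := centralizerIn_le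
  haveI := finite_of_le hXle
  have hCXp := hS.to_le hXle
  refine ComponentExists.exists_component _ rfl _ CX rfl hCXp hCXs ?_
  rintro ⟨-, Q, hQ, hQc⟩
  have hQC : Q ≤ centralizerIn S X' := hQ.1
  have hQS : Q ≤ S := hQC.trans centralizerIn_le
  -- the centralizer of `P'`
  have hD' : ∀ y ∈ S, (∀ z ∈ P', z * y = y * z) → ∃ d ∈ D, a d = y := by
    have hle : (hm.restrict le_sup_left).img ≤ centralizerIn S P' := fun y hy => by
      obtain ⟨d, hd, rfl⟩ := (hm.restrict le_sup_left).mem_img.mp hy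
      refine ⟨hm.map_mem (Subgroup.mem_sup_left hd), fun z hz => ?_⟩
      obtain ⟨x, hx, rfl⟩ := (hmemP' z).mp hz
      rw [← hm.map_mul (Subgroup.mem_sup_right hx) (Subgroup.mem_sup_left hd),
        ← hm.map_mul (Subgroup.mem_sup_left hd) (Subgroup.mem_sup_right hx), hd.2 x hx]
    haveI := finite_of_le (centralizerIn_le : centralizerIn S P' ≤ S)
    have heq := eq_of_le_of_card hle
      ((((IsSaturated_fullyNormalized hS hF hPn).1.2 _ hPconj).trans
        (hm.restrict (le_sup_left : D ≤ D ⊔ P)).toIso.card_eq.le))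
    intro y hyS hy
    have : y ∈ (hm.restrict (le_sup_left : D ≤ D ⊔ P)).img := heq.symm ▸ ⟨hyS, hy⟩
    exact (hm.restrict le_sup_left).mem_img.mp this
  set R' := Q ⊓ Subgroup.centralizer (P' : Set Ω) with hR'def
  have hR'M : R' ≤ M' := fun y hy => by
    obtain ⟨d, hd, rfl⟩ := hD' y (hQS hy.1) fun z hz => hy.2 z hz
    exact hai.mapsTo (Subgroup.mem_sup_left hd)
  set R := (hb.mor.restrict hR'M).img with hRdef
  have hmemR : ∀ y, y ∈ R ↔ ∃ r ∈ R', b r = y := fun y => (hb.mor.restrict hR'M).mem_img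
  have hRD : R ≤ D := fun y hy => by
    obtain ⟨r, hr, rfl⟩ := (hmemR y).mp hy
    obtain ⟨d, hd, rfl⟩ := hD' r (hQS hr.1) fun z hz => hr.2 z hz
    rwa [hba d (Subgroup.mem_sup_left hd)]
  have haR : ∀ x ∈ R, a x ∈ R' := fun x hx => by
    obtain ⟨r, hr, rfl⟩ := (hmemR x).mp hx
    rwa [hab r (hR'M hr)]
  have hDC : ∀ x, x ∈ centralizerIn (normalizerIn S P) P ↔ x ∈ D := fun x =>
    ⟨fun h => ⟨h.1.1, h.2⟩, fun h => ⟨centralizerIn_le_normalizerIn h, h.2⟩⟩
  -- transfer to the centralizer of `X'`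
  have tr : ∀ (W : Subgroup Ω) (g : Ω → Ω) (hW : W ≤ D), Mor F (W ⊔ P) g → (∀ x ∈ W, g x ∈ D) →
      (∀ x ∈ P, g x = x) →
      Mor CX (hm.restrict (sup_le_sup hW le_rfl : W ⊔ P ≤ D ⊔ P)).img (a ∘ g ∘ b) := by
    intro W g hW hg hv hgP
    set hmW := hm.restrict (sup_le_sup hW le_rfl : W ⊔ P ≤ D ⊔ P)
    have hgM : ∀ x ∈ W ⊔ P, g x ∈ D ⊔ P := fun x hx => hg.map_sup
      (fun y hy => Subgroup.mem_sup_left (hv y hy))
      (fun y hy => Subgroup.mem_sup_right (by rw [hgP y hy]; exact hy)) x hx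
    have hWM : hmW.img ≤ M' := fun y hy => by
      obtain ⟨x, hx, rfl⟩ := hmW.mem_img.mp hy
      exact hai.mapsTo (sup_le_sup hW le_rfl hx)
    have hbW : ∀ y ∈ hmW.img, b y ∈ W ⊔ P := fun y hy => by
      obtain ⟨x, hx, rfl⟩ := hmW.mem_img.mp hy
      rwa [hba x (sup_le_sup hW le_rfl hx)]
    have hF' : Mor F hmW.img (a ∘ g ∘ b) :=
      ((hb.mor.restrict hWM).comp hg hbW).comp hm fun y hy => hgM _ (hbW y hy)
    have hX'W : X' ≤ hmW.img := fun y hy => by
      obtain ⟨x, hx, rfl⟩ := (hmemP' y).mp (hX'P hy)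
      exact hmW.mem_img.mpr ⟨x, Subgroup.mem_sup_right hx, rfl⟩
    refine (cent_mor hCX).mpr ⟨hWM.trans hM'C,
      fun y hy => hM'C (hai.mapsTo (hgM _ (hbW y hy))), a ∘ g ∘ b,
      hF'.restrict (sup_le le_rfl hX'W), fun _ _ => rfl, fun y hy => ?_⟩
    obtain ⟨x, hx, rfl⟩ := (hmemP' y).mp (hX'P hy)
    show a (g (b (a x))) = a x
    rw [hba x (Subgroup.mem_sup_right hx), hgP x hx]
  -- the pulled back subgroup is normal
  have hRn : CN.IsNormal R := by
    refine isNormal_of_extStab (fun x hx => (hDC x).mpr (hRD hx)) fun W f hf => ?_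
    obtain ⟨hWC, hv, g, hgN, eg, hgP⟩ := (cent_mor hCN).mp hf
    have hW : W ≤ D := fun x hx => (hDC x).mp (hWC hx)
    have hg := (normalizerSystem_mor hN hgN).1
    have hgD : ∀ x ∈ W, g x ∈ D := fun x hx => by rw [eg x hx]; exact (hDC _).mp (hv x hx)
    have ht := tr W g hW hg hgD hgP
    obtain ⟨k, hk, ek, kQ⟩ := ExtStab.of_isNormal hQ ht
    set hmW := hm.restrict (sup_le_sup hW le_rfl : W ⊔ P ≤ D ⊔ P)
    have hkF : Mor F (hmW.img ⊔ Q) k := by
      obtain ⟨-, -, g', hg', eg', -⟩ := (cent_mor hCX).mp hk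
      exact (hg'.restrict le_sup_left).congr eg'
    have hkP : ∀ x ∈ P, k (a x) = a x := fun x hx => by
      rw [ek _ (hmW.mem_img.mpr ⟨x, Subgroup.mem_sup_right hx, rfl⟩)]
      show a (g (b (a x))) = a x
      rw [hba x (Subgroup.mem_sup_right hx), hgP x hx]
    have hkR : ∀ r ∈ R', k r ∈ R' := fun r hr => by
      refine ⟨kQ r hr.1, fun z hz => ?_⟩
      obtain ⟨x, hx, rfl⟩ := (hmemP' z).mp hz
      have h1 : a x ∈ hmW.img ⊔ Q :=
        Subgroup.mem_sup_left (hmW.mem_img.mpr ⟨x, Subgroup.mem_sup_right hx, rfl⟩)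
      conv_lhs => rw [← hkP x hx]
      conv_rhs => rw [← hkP x hx]
      rw [← hkF.map_mul h1 (Subgroup.mem_sup_right hr.1), ← hkF.map_mul (Subgroup.mem_sup_right hr.1) h1,
        hr.2 _ hz]
    have hdom : (W ⊔ R) ⊔ P ≤ D ⊔ P := sup_le_sup (sup_le hW hRD) le_rfl
    have hamap : ∀ x ∈ (W ⊔ R) ⊔ P, a x ∈ hmW.img ⊔ Q := fun x hx => (hm.restrict hdom).map_sup
      (fun y hy => (hm.restrict (hdom.trans' le_sup_left)).map_sup
        (fun z hz => Subgroup.mem_sup_left (hmW.mem_img.mpr ⟨z, Subgroup.mem_sup_left hz, rfl⟩))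
        (fun z hz => Subgroup.mem_sup_right (haR z hz).1) y hy)
      (fun y hy => Subgroup.mem_sup_left (hmW.mem_img.mpr ⟨y, Subgroup.mem_sup_right hy, rfl⟩)) x hx
    have hkM : ∀ x ∈ (W ⊔ R) ⊔ P, k (a x) ∈ M' := fun x hx => by
      refine ((hm.restrict hdom).comp hkF hamap).map_sup (fun y hy =>
        ((hm.restrict (hdom.trans' le_sup_left)).comp hkF (fun z hz => hamap z (Subgroup.mem_sup_left hz))).map_sup
          (fun z hz => ?_) (fun z hz => hR'M (hkR _ (haR z hz))) y hy)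
        (fun y hy => by
          show k (a y) ∈ M'
          rw [hkP y hy]; exact hP'M ((hmemP' _).mpr ⟨y, hy, rfl⟩)) x hx
      show k (a z) ∈ M'
      rw [ek _ (hmW.mem_img.mpr ⟨z, Subgroup.mem_sup_left hz, rfl⟩)]
      show a (g (b (a z))) ∈ M'
      rw [hba z (Subgroup.mem_sup_left (hW hz))]
      exact hai.mapsTo (Subgroup.mem_sup_left (hgD z hz))
    have hh : Mor F ((W ⊔ R) ⊔ P) (b ∘ k ∘ a) :=
      ((hm.restrict hdom).comp hkF hamap).comp hb.mor hkM
    have hhW : ∀ x ∈ W, b (k (a x)) = f x := fun x hx => by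
      rw [ek _ (hmW.mem_img.mpr ⟨x, Subgroup.mem_sup_left hx, rfl⟩)]
      show b (a (g (b (a x)))) = f x
      rw [hba x (Subgroup.mem_sup_left (hW hx)), hba _ (Subgroup.mem_sup_left (hgD x hx)), eg x hx]
    have hhR : ∀ x ∈ R, b (k (a x)) ∈ R := fun x hx => (hmemR _).mpr ⟨_, hkR _ (haR x hx), rfl⟩
    have hhP : ∀ x ∈ P, b (k (a x)) = x := fun x hx => by
      rw [hkP x hx, hba x (Subgroup.mem_sup_right hx)]
    have hhD : ∀ x ∈ W ⊔ R, b (k (a x)) ∈ D := fun x hx =>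
      (hh.restrict le_sup_left).map_sup (fun y hy => by
          show b (k (a y)) ∈ D
          rw [hhW y hy]; exact (hDC _).mp (hv y hy))
        (fun y hy => hRD (hhR y hy)) x hx
    have hhN : Mor N ((W ⊔ R) ⊔ P) (b ∘ k ∘ a) := by
      refine mor_normalizerSystem hN (g := b ∘ k ∘ a) (hh.restrict (sup_le le_rfl le_sup_right))
        (fun _ _ => rfl) ?_ (sup_le (fun x hx => centralizerIn_le_normalizerIn (sup_le hW hRD hx))
          (le_normalizerIn hPS)) fun x hx => ?_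
      · ext y
        refine ⟨fun h => ?_, fun hy => ⟨y, hy, hhP y hy⟩⟩
        obtain ⟨x, hx, rfl⟩ := h
        show b (k (a x)) ∈ (P : Set Ω)
        rw [hhP x hx]; exact hx
      · exact hh.map_sup (fun y hy => centralizerIn_le_normalizerIn (hhD y hy))
          (fun y hy => (show (b ∘ k ∘ a) y = y from hhP y hy).symm ▸ le_normalizerIn hPS hy) x hx
    exact ⟨b ∘ k ∘ a, (cent_mor hCN).mpr ⟨fun x hx => (hDC x).mpr (sup_le hW hRD hx),
      fun x hx => (hDC _).mpr (hhD x hx), b ∘ k ∘ a, hhN, fun _ _ => rfl, hhP⟩, hhW, hhR⟩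
  obtain ⟨hUR, hfx⟩ := ComponentCore.component_fix hC.1 hCNp hCNs hC.2 R hRn
  have hUC : U ≤ centralizerIn (normalizerIn S P) P := hUR.trans centralizerIn_le
  haveI := finite_of_le hUC
  suffices hle : U ≤ R from quasisimple_nonabelian (hCNp.to_le hUC) hC.2
    ⟨⟨fun x y => Subtype.ext ((hUR y.2).2 x (hle x.2))⟩⟩
  rw [← hC.2.2.1]
  refine hyperfocal_le_of fun W f k hf hk hfk w hw => ?_
  obtain ⟨e, he, ee, eR⟩ := hfx W f hf.mor
  obtain ⟨hWRC, hv, g, hgN, eg, hgP⟩ := (cent_mor hCN).mp he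
  have hWR : W ⊔ R ≤ D := fun x hx => (hDC x).mp (hWRC hx)
  have hg := (normalizerSystem_mor hN hgN).1
  have hgW : ∀ x ∈ W, g x = f x := fun x hx =>
    (eg x (Subgroup.mem_sup_left hx)).trans (ee x hx)
  have hgR : ∀ x ∈ R, g x = x := fun x hx => (eg x (Subgroup.mem_sup_right hx)).trans (eR x hx)
  have ht := tr (W ⊔ R) g hWR hg (fun x hx => by rw [eg x hx]; exact (hDC _).mp (hv x hx)) hgP
  set hmW := hm.restrict (sup_le_sup hWR le_rfl : (W ⊔ R) ⊔ P ≤ D ⊔ P)
  obtain ⟨k', hk', ek, kQ⟩ := ExtStab.of_isNormal hQ ht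
  have hgself : ∀ x ∈ (W ⊔ R) ⊔ P, g x ∈ (W ⊔ R) ⊔ P := fun x hx => hg.map_sup
    (fun y hy => Subgroup.mem_sup_left ((hg.restrict le_sup_left).map_sup
      (fun z hz => Subgroup.mem_sup_left (hgW z hz ▸ hf.mapsTo hz))
      (fun z hz => Subgroup.mem_sup_right ((hgR z hz).symm ▸ hz)) y hy))
    (fun y hy => Subgroup.mem_sup_right ((hgP y hy).symm ▸ hy)) x hx
  have hk'a : ∀ x ∈ (W ⊔ R) ⊔ P, k' (a x) = a (g x) := fun x hx => by
    rw [ek _ (hmW.mem_img.mpr ⟨x, hx, rfl⟩)]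
    show a (g (b (a x))) = a (g x)
    rw [hba x (sup_le_sup hWR le_rfl hx)]
  haveI := finite_of_le hk'.dom_le
  have hki : Iso CX k' (hmW.img ⊔ Q) (hmW.img ⊔ Q) := hk'.iso_of_card (fun x hx => hk'.map_sup
    (fun y hy => by
      obtain ⟨z, hz, rfl⟩ := hmW.mem_img.mp hy
      rw [hk'a z hz]
      exact Subgroup.mem_sup_left (hmW.mem_img.mpr ⟨_, hgself z hz, rfl⟩))
    (fun y hy => Subgroup.mem_sup_right (kQ y hy)) x hx) le_rfl
  obtain ⟨m, l, hmk, hl, hml⟩ := exists_pprime_power hki hk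
  have hit : ∀ n, ∀ x ∈ (W ⊔ R) ⊔ P, k'^[n] (a x) = a (g^[n] x) := by
    intro n
    induction n with
    | zero => intro x _; rfl
    | succ n ih =>
      intro x hx
      rw [Function.iterate_succ_apply', Function.iterate_succ_apply', ih x hx,
        hk'a _ (iterate_mapsTo hgself n x hx)]
  have hfixa : ∀ x ∈ (W ⊔ R) ⊔ P, g x = x → k'^[m] (a x) = a x := fun x hx hgx => by
    rw [hit m x hx, Function.iterate_fixed hgx]
  have hkm := (iso_pow hki m)
  have haW : a w ∈ hmW.img :=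
    hmW.mem_img.mpr ⟨w, Subgroup.mem_sup_left (Subgroup.mem_sup_left hw), rfl⟩
  have hfixQ : ∀ x ∈ Q, k'^[m] x = x := by
    refine fix_of_commute (P := P') hS (hP'M.trans hM'S) hQS (fun z hz x hx => ?_)
      (fun x hx => iterate_mapsTo kQ m x hx)
      (fun x hx y hy => hkm.mor.map_mul (Subgroup.mem_sup_right hx) (Subgroup.mem_sup_right hy))
      (fun z hz x hx => ?_) (fun x hx hxc => ?_) hl fun x hx => hml x (Subgroup.mem_sup_right hx)
    · exact stronglyClosed_mem (isNormal_stronglyClosed hQ) (Mor.conj (F := CX) hQC (hM'C (hP'M hz))) hx hx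
    · obtain ⟨y, hy, rfl⟩ := (hmemP' z).mp hz
      have hy' : y ∈ (W ⊔ R) ⊔ P := Subgroup.mem_sup_right hy
      have h1 : a y ∈ hmW.img ⊔ Q := Subgroup.mem_sup_left (hmW.mem_img.mpr ⟨y, hy', rfl⟩)
      rw [hkm.mor.map_conj h1 (Subgroup.mem_sup_right hx), hfixa y hy' (hgP y hy)]
    · have hxR : b x ∈ R := (hmemR _).mpr ⟨x, ⟨hx, hxc⟩, rfl⟩
      have := hfixa (b x) (Subgroup.mem_sup_left (Subgroup.mem_sup_right hxR)) (hgR _ hxR)
      rwa [hab x (hR'M ⟨hx, hxc⟩)] at this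
  have hkw : k'^[m] (a w) = a (f w) := by
    rw [hit m w (Subgroup.mem_sup_left (Subgroup.mem_sup_left hw)),
      iterate_agree (fun z hz => hf.mapsTo hz) hgW m w hw, iterate_mod hfk m hw, hmk,
      ← iterate_mod hfk 1 hw, Function.iterate_one]
  have hUD : U ≤ D := fun x hx => (hDC x).mp (hUC hx)
  have hwD : w ∈ D := hUD (hf.dom_le hw)
  have hfwD : f w ∈ D := hUD (hf.dom_le (hf.mapsTo hw))
  have haw : ∀ d ∈ D, a d ∈ centralizerIn S X' ∧ ∀ z ∈ P', z * a d = a d * z := fun d hd => by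
    refine ⟨hM'C (hai.mapsTo (Subgroup.mem_sup_left hd)), fun z hz => ?_⟩
    obtain ⟨x, hx, rfl⟩ := (hmemP' z).mp hz
    rw [← hm.map_mul (Subgroup.mem_sup_right hx) (Subgroup.mem_sup_left hd),
      ← hm.map_mul (Subgroup.mem_sup_left hd) (Subgroup.mem_sup_right hx), hd.2 x hx]
  set u := (a w)⁻¹ * a (f w) with hu
  have hqconj : ∀ q ∈ Q, q * u = u * q := fun q hq => by
    have hc : a w * q * (a w)⁻¹ ∈ Q :=
      stronglyClosed_mem (isNormal_stronglyClosed hQ) (Mor.conj (F := CX) hQC (haw w hwD).1) hq hq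
    have e1 := hkm.mor.map_conj (Subgroup.mem_sup_left haW) (Subgroup.mem_sup_right hq)
    rw [hfixQ _ hc, hfixQ q hq, hkw] at e1
    calc q * u = (a w)⁻¹ * (a w * q * (a w)⁻¹) * a (f w) := by rw [hu]; group
      _ = u * q := by rw [e1, hu]; group
  have huC : u ∈ centralizerIn S X' := mul_mem (inv_mem (haw w hwD).1) (haw _ hfwD).1
  have huQ : u ∈ Q := hQc.2 Q (isConj_refl hQ.1) ⟨huC, fun q hq => hqconj q hq⟩
  have huR : u ∈ R' := by
    refine ⟨huQ, ?_⟩
    exact mul_mem (Subgroup.inv_mem _ (show a w ∈ Subgroup.centralizer (P' : Set Ω) from (haw w hwD).2))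
      (show a (f w) ∈ Subgroup.centralizer (P' : Set Ω) from (haw _ hfwD).2)
  refine (hmemR _).mpr ⟨u, huR, ?_⟩
  rw [hu, ← hm.map_inv (Subgroup.mem_sup_left hwD),
    ← hm.map_mul (Subgroup.mem_sup_left (D.inv_mem hwD)) (Subgroup.mem_sup_left hfwD),
    hba _ (Subgroup.mem_sup_left (D.mul_mem (D.inv_mem hwD) hfwD))]

end Cfsg.Agent.Fusion.CharTypeDichotomy
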