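/-
Membership tests and orders for the certificate criterion in the four large Mathieu groups.
-/
import Cfsg.Agent.Fusion.GolayM12
import Cfsg.Agent.Fusion.GolayM22
import Cfsg.Agent.Fusion.GolayM23
import Cfsg.Agent.Fusion.GolayM24
import Cfsg.Agent.Golay.Mathieu
set_option autoImplicit false

namespace Cfsg.Agent.Fusion.GolayTwo

open Cfsg Cfsg.FusionSystem Cfsg.Agent.Golay
open scoped Pointwise

theorem factorization_two {n k m : ℕ} (h : n = 2 ^ k * m) (hm : ¬ 2 ∣ m) : n.factorization 2 = k := by
  have hm0 : m ≠ 0 := fun e => hm (e ▸ dvd_zero 2)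
  rw [h, Nat.factorization_mul (by positivity) hm0, Finsupp.add_apply,
    Nat.Prime.factorization_pow Nat.prime_two, Finsupp.single_eq_same,
    Nat.factorization_eq_zero_of_not_dvd hm, add_zero]

theorem fix_of_app {c : ℕ} (hc : permOK c = true) {p : GolayPt} (h : app c (idx p) = idx p) :
    permOf c p = p := idx_injective (by rw [idx_permOf hc, h])

theorem m24_simple (S : Sylow 2 Cfsg.M24) :
    (groupFusionSystem (S : Subgroup Cfsg.M24)).IsSimple 2 :=
  isSimple_of_cert Cfsg.M24 M24.valid
    (fun _ h => ⟨permOK_of_isAut h, permOf_mem_M24 h⟩) (fun _ _ _ => by rw [show M24.cert.extra = 0 from rfl]; simp)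
    (factorization_two (m := 239085) (show _ = 2 ^ M24.cert.k * _ by rw [M24_card, show M24.cert.k = 10 from rfl]; norm_num) (by norm_num))
    (by rw [show M24.cert.k = 10 from rfl]; decide) S

theorem m23_simple (S : Sylow 2 Cfsg.Spor.M23) :
    (groupFusionSystem (S : Subgroup Cfsg.Spor.M23)).IsSimple 2 :=
  isSimple_of_cert Cfsg.Spor.M23 M23.valid
    (fun c h => by
      simp only [M23.mem, Bool.and_eq_true, beq_iff_eq] at h
      exact ⟨permOK_of_isAut h.1, permOf_mem_M24 h.1, fix_of_app (permOK_of_isAut h.1) h.2⟩)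
    (fun _ _ _ => by rw [show M23.cert.extra = 0 from rfl]; simp)
    (factorization_two (m := 79695) (show _ = 2 ^ M23.cert.k * _ by rw [spor_M23_card, show M23.cert.k = 7 from rfl]; norm_num) (by norm_num))
    (by rw [show M23.cert.k = 7 from rfl]; decide) S

theorem m22_simple (S : Sylow 2 Cfsg.Spor.M22) :
    (groupFusionSystem (S : Subgroup Cfsg.Spor.M22)).IsSimple 2 :=
  isSimple_of_cert Cfsg.Spor.M22 M22.valid
    (fun c h => by
      simp only [M22.mem, Bool.and_eq_true, beq_iff_eq] at h
      have hok := permOK_of_isAut h.1.1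
      exact ⟨hok, ⟨permOf_mem_M24 h.1.1, fix_of_app hok h.1.2⟩, fix_of_app hok h.2⟩)
    (fun _ _ _ => by rw [show M22.cert.extra = 0 from rfl]; simp)
    (factorization_two (m := 3465) (show _ = 2 ^ M22.cert.k * _ by rw [spor_M22_card, show M22.cert.k = 7 from rfl]; norm_num) (by norm_num))
    (by rw [show M22.cert.k = 7 from rfl]; decide) S

theorem m12_simple (S : Sylow 2 Cfsg.Spor.M12) :
    (groupFusionSystem (S : Subgroup Cfsg.Spor.M12)).IsSimple 2 :=
  isSimple_of_cert Cfsg.Spor.M12 M12.valid
    (fun c h => by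
      simp only [M12.mem, Bool.and_eq_true, beq_iff_eq] at h
      have hok := permOK_of_isAut h.1
      refine ⟨hok, permOf_mem_M24 h.1, ?_⟩
      show permOf c • Spor.squareDodecad = Spor.squareDodecad
      rw [squareDodecad_eq, ← bset_mapMask hok, h.2])
    (fun g hg p => by
      have hfix : g • bset sqMask = bset sqMask := by rw [← squareDodecad_eq]; exact hg.2
      show sqMask.testBit (idx (g p)) = sqMask.testBit (idx p)
      rw [Bool.eq_iff_iff, ← mem_bset, ← mem_bset]
      conv_lhs => rw [← hfix]
      exact Finset.smul_mem_smul_finset_iff g)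
    (factorization_two (m := 1485) (show _ = 2 ^ M12.cert.k * _ by rw [spor_M12_card, show M12.cert.k = 6 from rfl]; norm_num) (by norm_num))
    (by rw [show M12.cert.k = 6 from rfl]; decide) S

end Cfsg.Agent.Fusion.GolayTwo
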