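/-
A certificate criterion for simplicity of the 2-fusion systems of subgroups of M₂₄.
-/
import Cfsg.Agent.Fusion.SimpleCriterion
import Cfsg.Agent.FGS3.FrattiniAction
import Cfsg.Agent.Golay.Perms
set_option autoImplicit false

namespace Cfsg.Agent.Fusion.GolayTwo

open Cfsg Cfsg.FusionSystem Cfsg.Agent.Golay

/-- An element of the candidate Sylow subgroup: packed code, Frattini label, successors under the
generators, parent, generator leading from the parent, invariant. -/
structure Ent where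
  code : ℕ
  lab : ℕ
  succ : List ℕ
  par : ℕ
  gen : ℕ
  val : ℕ

/-- A generator `s = g y g⁻¹` with the code of `g y` and the index of `y`. -/
structure Gen where
  s : ℕ
  g : ℕ
  gz : ℕ
  y : ℕ
  l : ℕ

/-- The certificate. -/
structure Cert where
  k : ℕ
  d : ℕ
  dim : ℕ
  rows : List (List Ent)
  gens : List Gen
  z : ℕ
  extra : ℕ
  w : List ℕ
  ker : List (ℕ × ℕ)
  srt : List ℕ

namespace Cert

variable (C : Cert)

/-- The number of elements. -/
abbrev n : ℕ := 2 ^ C.k
/-- The entry with a given index. -/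
def ent (i : ℕ) : Ent := (C.rows.getD (i / 32) []).getD (i % 32) ⟨0, 0, [], 0, 0, 0⟩
/-- Code of an element. -/
def cd (i : ℕ) : ℕ := (C.ent i).code
/-- Successor. -/
def nx (i j : ℕ) : ℕ := (C.ent i).succ.getD j 0
/-- Generator. -/
def gn (j : ℕ) : Gen := C.gens.getD j ⟨0, 0, 0, 0, 0⟩
/-- The weight of a point. -/
def wt (t : ℕ) : ℕ := C.w.getD t 0

/-- Class invariant of a permutation. -/
def fval (c : ℕ) : ℕ :=
  ((List.range 24).map fun t => bif app c t == t then C.wt t * C.wt t + 1 else 0).sum ^ 2 +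
    ((List.range 24).map fun t => bif app c (app c t) == t then C.wt t + 3 else 0).sum

/-- Invariant of a Frattini coset. -/
def isum (l : ℕ) : ℕ :=
  ((List.range C.n).map fun i => bif (C.ent i).lab == l then (C.ent i).val else 0).sum

/-- Strictly increasing. -/
def incr : List ℕ → Bool
  | a :: b :: l => decide (a < b) && incr (b :: l)
  | _ => true

/-- The kernel is generated by squares. -/
def okKer : ℕ → List (ℕ × ℕ) → Bool
  | _, [] => true
  | prev, (i, x) :: l => decide (i < C.n) && decide (x < C.n) &&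
      ((List.range 24).all fun t => app (C.cd i) t == app (C.cd x) (app (C.cd x) (app (C.cd prev) t))) &&
      okKer i l

/-- The element is a product of generators with index below `j`. -/
def below (j : ℕ) : ℕ → ℕ → Bool
  | 0, i => i == 0
  | f + 1, i => i == 0 || (decide ((C.ent i).gen < j) && below j f (C.ent i).par)

/-- Validity. -/
structure Valid (mem : ℕ → Bool) : Prop where
  gens_mem : ∀ j < C.d, mem (C.gn j).g = true ∧ permOK (C.gn j).s = true ∧ permOK (C.gn j).gz = true ∧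
    isComp (C.gn j).gz (C.gn j).g (C.cd (C.gn j).y) = true ∧ isComp (C.gn j).gz (C.gn j).s (C.gn j).g = true ∧
      (C.gn j).y < C.n ∧ ((C.gn j).y = C.z ∨ C.below j C.n (C.gn j).y = true)
  z_mem : mem (C.cd C.z) = true ∧ 0 < C.z ∧ C.z < C.n
  entries : ∀ i < C.n, permOK (C.cd i) = true ∧ C.cd i < 2 ^ 120 ∧
    ∀ j < C.d, C.nx i j < C.n ∧ isComp (C.cd (C.nx i j)) (C.gn j).s (C.cd i) = true ∧
      (C.ent (C.nx i j)).lab = ((C.gn j).l ^^^ (C.ent i).lab)
  parents : ∀ i < C.n, i = 0 ∨ (C.ent i).par < i ∧ (C.ent i).gen < C.d ∧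
    C.nx (C.ent i).par (C.ent i).gen = i
  one : (C.ent 0).lab = 0 ∧ ∀ t < 24, app (C.cd 0) t = t
  sorted : C.srt.length = C.n ∧ (∀ i ∈ C.srt, i < C.n) ∧ incr (C.srt.map C.cd) = true
  centre : ∀ i < C.n, i = 0 ∨ i = C.z ∨ ∃ j < C.d, isComp (C.cd (C.nx i j)) (C.cd i) (C.gn j).s = false
  kerok : C.okKer 0 C.ker = true
  kerall : ∀ i < C.n, (C.ent i).lab = 0 → i = 0 ∨ (C.ker.any fun e => e.1 == i) = true
  labs : ∀ i < C.n, (C.ent i).lab < 2 ^ C.dim
  weights : ∀ t < 24, C.wt t =
    2 * ((List.range C.n).countP fun i => app (C.cd i) t == t) + (bif C.extra.testBit t then 1 else 0)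
  vals : ∀ i < C.n, (C.ent i).val = C.fval (C.cd i)
  distinct : ∀ j < C.d, ∀ l < 2 ^ C.dim, l ≠ (C.gn j).l → C.isum l ≠ C.isum (C.gn j).l

end Cert

theorem code_ext {a b : ℕ} (ha : a < 2 ^ 120) (hb : b < 2 ^ 120)
    (h : ∀ i < 24, app a i = app b i) : a = b := by
  refine Nat.eq_of_testBit_eq fun m => ?_
  by_cases hm : m < 120
  · have hr : ∀ r < 5, (31 : ℕ).testBit r = true := by decide
    have key : ∀ c : ℕ, (app c (m / 5)).testBit (m % 5) = c.testBit m := fun c => by
      rw [app, Nat.testBit_and, Nat.testBit_shiftRight, Nat.div_add_mod,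
        hr _ (Nat.mod_lt _ (by norm_num)), Bool.and_true]
    rw [← key a, ← key b, h (m / 5) (by omega)]
  · rw [Nat.testBit_lt_two_pow (ha.trans_le (Nat.pow_le_pow_right two_pos (by omega))),
      Nat.testBit_lt_two_pow (hb.trans_le (Nat.pow_le_pow_right two_pos (by omega)))]

theorem incr_pairwise : ∀ l : List ℕ, Cert.incr l = true → l.Pairwise (· < ·)
  | [], _ => List.Pairwise.nil
  | [a], _ => List.pairwise_singleton _ a
  | a :: b :: l, h => by
    simp only [Cert.incr, Bool.and_eq_true, decide_eq_true_eq] at h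
    have ih := incr_pairwise (b :: l) h.2
    refine List.pairwise_cons.mpr ⟨fun x hx => ?_, ih⟩
    rcases List.mem_cons.mp hx with rfl | hx
    · exact h.1
    · exact h.1.trans ((List.pairwise_cons.mp ih).1 x hx)

/-- What has to be known about one Sylow 2-subgroup. -/
def Good {G : Type*} [Group G] (S : Subgroup G) : Prop :=
  (∀ T : Subgroup G, T ≤ S → (∀ z ∈ T, ∀ s ∈ S, _root_.IsConj z s → s ∈ T) →
      ∀ z ∈ T, orderOf z = 2 → (∀ s ∈ S, s * z = z * s) → T = S) ∧
    ∀ g ∈ Subgroup.normalizer (S : Set G), (orderOf g).Coprime 2 →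
      g ∈ Subgroup.centralizer (S : Set G)

theorem good_map {G : Type*} [Group G] (e : G ≃* G) {S : Subgroup G} (h : Good S) :
    Good (S.map e.toMonoidHom) := by
  constructor
  · intro T hT hcl z hz hz2 hzc
    have hT' : T.map e.symm.toMonoidHom ≤ S := by
      rintro _ ⟨x, hx, rfl⟩
      obtain ⟨y, hy, hye⟩ := hT hx
      rw [← hye]; simpa using hy
    have := h.1 (T.map e.symm.toMonoidHom) hT' ?_ (e.symm z) (Subgroup.mem_map_of_mem e.symm.toMonoidHom hz)
      ((MulEquiv.orderOf_eq e.symm z).trans hz2) ?_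
    · rw [← this, Subgroup.map_map]
      convert (Subgroup.map_id T).symm using 2
      exact MonoidHom.ext fun x => e.apply_symm_apply x
    · rintro _ ⟨y, hy, rfl⟩ s hs hc
      refine ⟨e s, hcl y hy _ (Subgroup.mem_map_of_mem e.toMonoidHom hs) ?_, e.symm_apply_apply s⟩
      simpa using MonoidHom.map_isConj e.toMonoidHom hc
    · intro s hs
      apply e.injective
      simpa using hzc _ (Subgroup.mem_map_of_mem e.toMonoidHom hs)
  · intro g hg hgo
    obtain ⟨a, rfl⟩ := e.surjective g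
    rw [← Subgroup.map_equiv_normalizer_eq, Subgroup.mem_map] at hg
    obtain ⟨b, hb, hba⟩ := hg
    obtain rfl : b = a := e.injective hba
    have hc := h.2 b hb (by rwa [MulEquiv.orderOf_eq] at hgo)
    rw [Subgroup.mem_centralizer_iff] at hc ⊢
    rintro _ ⟨s, hs, rfl⟩
    show e s * e b = e b * e s
    rw [← map_mul, ← map_mul, hc s hs]

theorem isSimple_of_good {G : Type*} [Group G] [Finite G] (P S : Sylow 2 G) (h : Good (P : Subgroup G))
    (hne : (P : Subgroup G) ≠ ⊥) :
    (groupFusionSystem (S : Subgroup G)).IsSimple 2 := by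
  haveI : Fact (Nat.Prime 2) := ⟨Nat.prime_two⟩
  obtain ⟨c, rfl⟩ := MulAction.exists_smul_eq G P S
  have hc : ((c • P : Sylow 2 G) : Subgroup G) = (P : Subgroup G).map (MulAut.conj c).toMonoidHom := rfl
  have hg : Good ((c • P : Sylow 2 G) : Subgroup G) := hc ▸ good_map (MulAut.conj c) h
  refine group_isSimple_of_pAut _ (fun he => hne ?_)
    (fun T hT => ?_) ?_
  · rw [hc, Subgroup.map_eq_bot_iff_of_injective _ (MulAut.conj c).injective] at he
    exact he
  · refine (em (T = ⊥)).imp_right fun h0 => ?_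
    obtain ⟨z, hz, hz2, hzc⟩ := stronglyClosed_exists_central (c • P).isPGroup' hT h0
    exact hg.1 T hT.1 (fun a ha b hb => stronglyClosed_conj_mem hT ha hb) z hz hz2 hzc
  · intro α
    obtain ⟨g, -, hgn, e⟩ := mem_autInducedBy.mp α.2
    obtain ⟨k, m, hm, hgm⟩ := Nat.exists_eq_two_pow_mul_odd (orderOf_pos g).ne'
    refine ⟨k, Subtype.ext ?_⟩
    have hcent := hg.2 (g ^ 2 ^ k) (pow_mem hgn _) (by
      rw [orderOf_pow' _ (by positivity), hgm, Nat.gcd_mul_right_left, Nat.mul_div_cancel_left _ (by positivity)]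
      exact Nat.coprime_two_right.mpr hm)
    have hpow : ∀ (i : ℕ) (x : (c • P : Sylow 2 G)),
        ((((α : MulAut _) ^ i) x : (c • P : Sylow 2 G)) : G) = cj (g ^ i) x := by
      intro i
      induction i with
      | zero => intro x; simp
      | succ i ih =>
        intro x
        rw [pow_succ', MulAut.mul_apply, e, ih]
        show g * (g ^ i * (x : G) * (g ^ i)⁻¹) * g⁻¹ = g ^ (i + 1) * (x : G) * (g ^ (i + 1))⁻¹
        rw [pow_succ']
        group
    refine MulEquiv.ext fun x => Subtype.ext ?_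
    rw [SubmonoidClass.coe_pow, hpow]
    show g ^ 2 ^ k * (x : G) * (g ^ 2 ^ k)⁻¹ = x
    rw [← Subgroup.mem_centralizer_iff.mp hcent x x.2, mul_inv_cancel_right]

variable {C : Cert} {mem : ℕ → Bool}

/-- The permutation with a given index. -/
noncomputable def σ (C : Cert) (i : ℕ) : Equiv.Perm GolayPt := permOf (C.cd i)
/-- A generator. -/
noncomputable def τ (C : Cert) (j : ℕ) : Equiv.Perm GolayPt := permOf (C.gn j).s
/-- The subgroup generated. -/
def PP (C : Cert) : Subgroup (Equiv.Perm GolayPt) := Subgroup.closure {x | ∃ j < C.d, x = τ C j}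
/-- The label of a permutation. -/
noncomputable def χ (C : Cert) (x : Equiv.Perm GolayPt) : ℕ :=
  open scoped Classical in if h : ∃ i < C.n, σ C i = x then (C.ent h.choose).lab else 0

section Valid

variable (hC : C.Valid mem)
include hC

theorem τ_mul {i j : ℕ} (hi : i < C.n) (hj : j < C.d) : τ C j * σ C i = σ C (C.nx i j) := by
  obtain ⟨hn, hcomp, -⟩ := (hC.entries i hi).2.2 j hj
  exact (permOf_mul (hC.entries _ hn).1 (hC.gens_mem j hj).2.1 (hC.entries i hi).1 hcomp).symm

theorem σ_zero : σ C 0 = 1 := by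
  ext1 p
  apply idx_injective
  rw [σ, idx_permOf (hC.entries 0 (by positivity)).1, hC.one.2 _ (idx_lt p)]
  rfl

theorem mem_PP_iff {x : Equiv.Perm GolayPt} : x ∈ PP C ↔ ∃ i < C.n, σ C i = x := by
  constructor
  · intro hx
    have h : x ∈ Submonoid.closure {x | ∃ j < C.d, x = τ C j} := by
      rw [← Subgroup.closure_toSubmonoid_of_finite]; exact hx
    induction h using Submonoid.closure_induction_left with
    | one => exact ⟨0, by positivity, σ_zero hC⟩
    | mul_left a ha y hy ih =>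
      obtain ⟨j, hj, rfl⟩ := ha
      obtain ⟨i, hi, rfl⟩ := ih (by
        rw [← Subgroup.closure_toSubmonoid_of_finite] at hy; exact hy)
      exact ⟨_, ((hC.entries i hi).2.2 j hj).1, (τ_mul hC hi hj).symm⟩
  · rintro ⟨i, hi, rfl⟩
    induction i using Nat.strong_induction_on with
    | _ i IH =>
      rcases hC.parents i hi with rfl | ⟨hp, hg, he⟩
      · rw [σ_zero hC]; exact one_mem _
      · rw [← he, ← τ_mul hC (hp.trans hi) hg]
        exact mul_mem (Subgroup.subset_closure ⟨_, hg, rfl⟩) (IH _ hp (hp.trans hi))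

theorem τ_mem {j : ℕ} (hj : j < C.d) : τ C j ∈ PP C := Subgroup.subset_closure ⟨j, hj, rfl⟩

theorem σ_injective {i i' : ℕ} (hi : i < C.n) (hi' : i' < C.n) (h : σ C i = σ C i') : i = i' := by
  have hcd : C.cd i = C.cd i' := code_ext (hC.entries i hi).2.1 (hC.entries i' hi').2.1 fun t ht => by
    have e := congrArg (fun f : Equiv.Perm GolayPt => idx (f (pt t))) h
    simpa [σ, idx_permOf (hC.entries i hi).1, idx_permOf (hC.entries i' hi').1, idx_pt ht] using e
  have hnd : (C.srt.map C.cd).Nodup :=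
    (incr_pairwise _ hC.sorted.2.2).imp fun hab => ne_of_lt hab
  have hsrt : C.srt.Nodup := hnd.of_map _
  have hall : ∀ m < C.n, m ∈ C.srt := by
    intro m hm
    have hsub : C.srt.toFinset ⊆ Finset.range C.n := fun a ha =>
      Finset.mem_range.mpr (hC.sorted.2.1 a (List.mem_toFinset.mp ha))
    have : C.srt.toFinset = Finset.range C.n := Finset.eq_of_subset_of_card_le hsub (by
      rw [List.toFinset_card_of_nodup hsrt, hC.sorted.1, Finset.card_range])
    exact List.mem_toFinset.mp (this ▸ Finset.mem_range.mpr hm)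
  exact List.inj_on_of_nodup_map hnd (hall i hi) (hall i' hi') hcd

theorem χ_σ {i : ℕ} (hi : i < C.n) : χ C (σ C i) = (C.ent i).lab := by
  have h : ∃ i' < C.n, σ C i' = σ C i := ⟨i, hi, rfl⟩
  rw [χ, dif_pos h, σ_injective hC h.choose_spec.1 hi h.choose_spec.2]

theorem χ_τ_mul {j : ℕ} (hj : j < C.d) {x : Equiv.Perm GolayPt} (hx : x ∈ PP C) :
    χ C (τ C j * x) = (C.gn j).l ^^^ χ C x := by
  obtain ⟨i, hi, rfl⟩ := (mem_PP_iff hC).mp hx
  obtain ⟨hn, -, hl⟩ := (hC.entries i hi).2.2 j hj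
  rw [τ_mul hC hi hj, χ_σ hC hn, χ_σ hC hi, hl]

theorem χ_one : χ C 1 = 0 := by
  rw [← σ_zero hC, χ_σ hC (by positivity), hC.one.1]

theorem χ_mul {x y : Equiv.Perm GolayPt} (hx : x ∈ PP C) (hy : y ∈ PP C) :
    χ C (x * y) = χ C x ^^^ χ C y := by
  obtain ⟨i, hi, rfl⟩ := (mem_PP_iff hC).mp hx
  induction i using Nat.strong_induction_on with
  | _ i IH =>
    rcases hC.parents i hi with rfl | ⟨hp, hg, he⟩
    · rw [σ_zero hC, one_mul, χ_one hC, Nat.zero_xor]
    · have hp' : σ C (C.ent i).par ∈ PP C := (mem_PP_iff hC).mpr ⟨_, hp.trans hi, rfl⟩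
      rw [← he, ← τ_mul hC (hp.trans hi) hg, mul_assoc, χ_τ_mul hC hg (mul_mem hp' hy),
        χ_τ_mul hC hg hp', IH _ hp (hp.trans hi) hp', Nat.xor_assoc]

theorem χ_inv {x : Equiv.Perm GolayPt} (hx : x ∈ PP C) : χ C x⁻¹ = χ C x := by
  have := χ_mul hC (inv_mem hx) hx
  rw [inv_mul_cancel, χ_one hC] at this
  exact Nat.xor_eq_zero_iff.mp this.symm

theorem card_PP : Nat.card (PP C) = C.n := by
  rw [← Nat.card_fin C.n]
  refine (Nat.card_congr (Equiv.ofBijective
    (fun i : Fin C.n => (⟨σ C i, (mem_PP_iff hC).mpr ⟨i, i.2, rfl⟩⟩ : PP C)) ⟨?_, ?_⟩)).symm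
  · exact fun a b h => Fin.ext (σ_injective hC a.2 b.2 (congrArg Subtype.val h))
  · rintro ⟨x, hx⟩
    obtain ⟨i, hi, rfl⟩ := (mem_PP_iff hC).mp hx
    exact ⟨⟨i, hi⟩, rfl⟩

theorem ker_mem {H : Subgroup (Equiv.Perm GolayPt)} (hsq : ∀ x ∈ PP C, x * x ∈ H) :
    ∀ (l : List (ℕ × ℕ)) (prev : ℕ), prev < C.n → σ C prev ∈ H → C.okKer prev l = true →
      ∀ e ∈ l, σ C e.1 ∈ H := by
  intro l
  induction l with
  | nil => intro _ _ _ _ e he; cases he
  | cons a l ih =>
    obtain ⟨i, x⟩ := a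
    intro prev hp hH hok
    simp only [Cert.okKer, Bool.and_eq_true, decide_eq_true_eq, List.all_eq_true, beq_iff_eq,
      List.mem_range] at hok
    obtain ⟨⟨⟨hi, hx⟩, hc⟩, hl⟩ := hok
    have he : σ C i = σ C x * σ C x * σ C prev := by
      ext1 p
      apply idx_injective
      simp only [σ, Equiv.Perm.mul_apply, idx_permOf (hC.entries i hi).1,
        idx_permOf (hC.entries x hx).1, idx_permOf (hC.entries prev hp).1]
      exact hc _ (idx_lt p)
    have hiH : σ C i ∈ H := he ▸ mul_mem (hsq _ ((mem_PP_iff hC).mpr ⟨x, hx, rfl⟩)) hH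
    intro e he'
    rcases List.mem_cons.mp he' with rfl | he'
    · exact hiH
    · exact ih i hi hiH hl e he'

theorem z_central_eq {x : Equiv.Perm GolayPt} (hx : x ∈ PP C) (hne : x ≠ 1)
    (hc : ∀ s ∈ PP C, s * x = x * s) : x = σ C C.z := by
  obtain ⟨i, hi, rfl⟩ := (mem_PP_iff hC).mp hx
  rcases hC.centre i hi with rfl | rfl | ⟨j, hj, hf⟩
  · exact absurd (σ_zero hC) hne
  · rfl
  · exfalso
    obtain ⟨hn, -, -⟩ := (hC.entries i hi).2.2 j hj
    have h : σ C (C.nx i j) = σ C i * τ C j := by rw [← τ_mul hC hi hj, hc _ (τ_mem hC hj)]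
    have : isComp (C.cd (C.nx i j)) (C.cd i) (C.gn j).s = true := by
      simp only [isComp, List.all_eq_true, beq_iff_eq, List.mem_range]
      intro t ht
      have e := congrArg (fun f : Equiv.Perm GolayPt => idx (f (pt t))) h
      simpa [σ, τ, idx_permOf (hC.entries _ hn).1, idx_permOf (hC.entries i hi).1,
        idx_permOf (hC.gens_mem j hj).2.1, idx_pt ht] using e
    rw [hf] at this
    exact Bool.false_ne_true this

theorem cnt_conj {h : Equiv.Perm GolayPt} (hn : ∀ x, x ∈ PP C ↔ h * x * h⁻¹ ∈ PP C) (p : GolayPt) :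
    Nat.card {x : PP C // (x : Equiv.Perm GolayPt) p = p} =
      Nat.card {x : PP C // (x : Equiv.Perm GolayPt) (h p) = h p} := by
  refine Nat.card_congr (Equiv.ofBijective (fun x => ⟨⟨h * x.1.1 * h⁻¹, (hn _).mp x.1.2⟩, ?_⟩) ⟨?_, ?_⟩)
  · simp [x.2]
  · intro a b e
    exact Subtype.ext (Subtype.ext (by simpa using congrArg (fun u => u.1.1) e))
  · rintro ⟨⟨y, hy⟩, hyp⟩
    refine ⟨⟨⟨h⁻¹ * y * h, (hn _).mpr (by simpa [mul_assoc] using hy)⟩, ?_⟩, ?_⟩
    · show h⁻¹ (y (h p)) = p
      simp [hyp]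
    · exact Subtype.ext (Subtype.ext (by simp [mul_assoc]))

theorem countP_eq (p : GolayPt) :
    ((List.range C.n).countP fun i => app (C.cd i) (idx p) == idx p) =
      Nat.card {x : PP C // (x : Equiv.Perm GolayPt) p = p} := by
  classical
  have e1 : ((List.range C.n).countP fun i => app (C.cd i) (idx p) == idx p) =
      ((Finset.range C.n).filter fun i => σ C i p = p).card := by
    rw [List.countP_eq_length_filter, ← List.toFinset_card_of_nodup (List.nodup_range.filter _)]
    congr 1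
    ext i
    simp only [List.mem_toFinset, List.mem_filter, List.mem_range, Finset.mem_filter, Finset.mem_range,
      beq_iff_eq]
    refine and_congr_right fun hi => ?_
    rw [σ, ← idx_injective.eq_iff, idx_permOf (hC.entries i hi).1]
  rw [e1, ← Nat.card_eq_finsetCard]
  refine Nat.card_congr (Equiv.ofBijective (fun i => ⟨⟨σ C i.1, (mem_PP_iff hC).mpr ⟨i.1, ?_, rfl⟩⟩, ?_⟩) ⟨?_, ?_⟩)
  · exact Finset.mem_range.mp (Finset.mem_filter.mp i.2).1
  · exact (Finset.mem_filter.mp i.2).2
  · intro a b e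
    exact Subtype.ext (σ_injective hC (Finset.mem_range.mp (Finset.mem_filter.mp a.2).1)
      (Finset.mem_range.mp (Finset.mem_filter.mp b.2).1) (congrArg (fun u => u.1.1) e))
  · intro x
    have hy := x.1.2
    rw [mem_PP_iff hC] at hy
    refine ⟨⟨hy.choose, ?_⟩, Subtype.ext (Subtype.ext hy.choose_spec.2)⟩
    have hxp := x.2
    rw [← hy.choose_spec.2] at hxp
    simp only [Finset.mem_filter, Finset.mem_range]
    exact ⟨hy.choose_spec.1, hxp⟩

omit hC in
theorem list_sum_range (f : ℕ → ℕ) (m : ℕ) : ((List.range m).map f).sum = ∑ i ∈ Finset.range m, f i := rfl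

omit hC in
theorem sum_points (f : ℕ → ℕ) : ((List.range 24).map f).sum = ∑ p : GolayPt, f (idx p) := by
  rw [list_sum_range, Finset.sum_range]
  exact (Fintype.sum_equiv (Equiv.mk (fun p : GolayPt => (⟨idx p, idx_lt p⟩ : Fin 24)) (fun i => pt i)
    (fun p => pt_idx p) (fun i => Fin.ext (idx_pt i.2))) _ _ fun p => rfl).symm

theorem fval_eq (v : GolayPt → ℕ) (hv : ∀ p, C.wt (idx p) = v p) {i : ℕ} (hi : i < C.n) :
    C.fval (C.cd i) = (∑ p, bif decide (σ C i p = p) then v p * v p + 1 else 0) ^ 2 +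
      ∑ p, bif decide (σ C i (σ C i p) = p) then v p + 3 else 0 := by
  have b1 : ∀ p : GolayPt, (app (C.cd i) (idx p) == idx p) = decide (σ C i p = p) := fun p => by
    rw [Bool.eq_iff_iff, beq_iff_eq, decide_eq_true_eq, ← idx_injective.eq_iff, σ,
      idx_permOf (hC.entries i hi).1]
  have b2 : ∀ p : GolayPt, (app (C.cd i) (app (C.cd i) (idx p)) == idx p) =
      decide (σ C i (σ C i p) = p) := fun p => by
    rw [Bool.eq_iff_iff, beq_iff_eq, decide_eq_true_eq, ← idx_injective.eq_iff, σ,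
      idx_permOf (hC.entries i hi).1, idx_permOf (hC.entries i hi).1]
  simp only [Cert.fval, sum_points, b1, b2, hv]

theorem lab_conj {H : Subgroup (Equiv.Perm GolayPt)}
    (hH : H ≤ PP C) (hker : ∀ x ∈ PP C, (x ∈ H ↔ χ C x = 0))
    {h : Equiv.Perm GolayPt} (hn : ∀ x, x ∈ PP C ↔ h * x * h⁻¹ ∈ PP C)
    (hK : ∀ x ∈ H, h * x * h⁻¹ ∈ H) (hex : ∀ p, C.extra.testBit (idx (h p)) = C.extra.testBit (idx p))
    {j : ℕ} (hj : j < C.d) : χ C (h * τ C j * h⁻¹) = (C.gn j).l := by
  classical
  have hτ := τ_mem hC hj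
  have hτ' : χ C (τ C j) = (C.gn j).l := by
    have := χ_τ_mul hC hj (one_mem (PP C))
    rwa [mul_one, χ_one hC, Nat.xor_zero] at this
  set l := χ C (h * τ C j * h⁻¹) with hl
  let v : GolayPt → ℕ := fun p => C.wt (idx p)
  have hv : ∀ p, v (h p) = v p := by
    intro p
    show C.wt (idx (h p)) = C.wt (idx p)
    rw [hC.weights _ (idx_lt _), hC.weights _ (idx_lt _), countP_eq hC, countP_eq hC, ← cnt_conj hC hn, hex]
  let Φ : Equiv.Perm GolayPt → ℕ := fun x =>
    (∑ p, bif decide (x p = p) then v p * v p + 1 else 0) ^ 2 +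
      ∑ p, bif decide (x (x p) = p) then v p + 3 else 0
  have hΦ : ∀ x, Φ (h * x * h⁻¹) = Φ x := by
    intro x
    simp only [Φ]
    refine congrArg₂ (fun a b : ℕ => a ^ 2 + b) ?_ ?_
    · refine (Fintype.sum_equiv h _ _ fun p => ?_).symm
      simp [Equiv.Perm.mul_apply, hv]
    · refine (Fintype.sum_equiv h _ _ fun p => ?_).symm
      simp [Equiv.Perm.mul_apply, hv]
  let cs : ℕ → Finset (Equiv.Perm GolayPt) := fun m =>
    ((Finset.range C.n).filter fun i => (C.ent i).lab = m).image (σ C)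
  have hcs : ∀ (m : ℕ) (x : Equiv.Perm GolayPt), x ∈ cs m ↔ x ∈ PP C ∧ χ C x = m := by
    intro m x
    simp only [cs, Finset.mem_filter, Finset.mem_image, Finset.mem_range]
    constructor
    · rintro ⟨i, ⟨hi, hm⟩, rfl⟩
      exact ⟨(mem_PP_iff hC).mpr ⟨i, hi, rfl⟩, (χ_σ hC hi).trans hm⟩
    · rintro ⟨hx, hm⟩
      obtain ⟨i, hi, rfl⟩ := (mem_PP_iff hC).mp hx
      exact ⟨i, ⟨hi, (χ_σ hC hi).symm.trans hm⟩, rfl⟩
  have hsum : ∀ m, C.isum m = ∑ x ∈ cs m, Φ x := by
    intro m
    rw [Finset.sum_image fun a ha b hb hab => σ_injective hC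
      (Finset.mem_range.mp (Finset.mem_filter.mp ha).1) (Finset.mem_range.mp (Finset.mem_filter.mp hb).1) hab,
      Finset.sum_filter, Cert.isum, list_sum_range]
    refine Finset.sum_congr rfl fun i hi => ?_
    have hi' := Finset.mem_range.mp hi
    by_cases hm : (C.ent i).lab = m
    · simp only [hm, beq_self_eq_true, cond_true, if_true]
      rw [hC.vals i hi', fval_eq hC v (fun _ => rfl) hi']
    · rw [if_neg hm, beq_eq_false_iff_ne.mpr hm, cond_false]
  by_contra hne
  have hlt : l < 2 ^ C.dim := by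
    obtain ⟨i, hi, e⟩ := (mem_PP_iff hC).mp ((hn _).mp hτ)
    rw [hl, ← e, χ_σ hC hi]; exact hC.labs i hi
  apply hC.distinct j hj l hlt hne
  rw [hsum, hsum]
  have hcoset : ∀ x ∈ PP C, χ C x = (C.gn j).l → χ C (h * x * h⁻¹) = l := by
    intro x hx hm
    have hz : χ C ((τ C j)⁻¹ * x) = 0 := by rw [χ_mul hC (inv_mem hτ) hx, χ_inv hC hτ, hτ', hm, Nat.xor_self]
    have h0 := (hker _ (hn _ |>.mp (mul_mem (inv_mem hτ) hx))).mp
      (hK _ ((hker _ (mul_mem (inv_mem hτ) hx)).mpr hz))
    have := χ_mul hC ((hn _).mp hτ) ((hn _).mp (mul_mem (inv_mem hτ) hx))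
    rw [h0, Nat.xor_zero, ← hl] at this
    rw [← this]
    congr 1
    group
  have hK' : ∀ y ∈ H, h⁻¹ * y * h ∈ H := by
    have hfin : Function.Surjective fun x : H => (⟨h * x * h⁻¹, hK _ x.2⟩ : H) :=
      Finite.injective_iff_surjective.mp fun a b e => Subtype.ext (by simpa using congrArg Subtype.val e)
    intro y hy
    obtain ⟨x, hx⟩ := hfin ⟨y, hy⟩
    have : h * (x : Equiv.Perm GolayPt) * h⁻¹ = y := congrArg Subtype.val hx
    rw [← this]
    simp [mul_assoc]
  refine (Finset.sum_nbij' (fun x => h * x * h⁻¹) (fun y => h⁻¹ * y * h) ?_ ?_ ?_ ?_ ?_).symm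
  · intro x hx
    simp only [Finset.mem_coe, hcs] at hx ⊢
    exact ⟨(hn x).mp hx.1, hcoset x hx.1 hx.2⟩
  · intro y hy
    simp only [Finset.mem_coe, hcs] at hy ⊢
    have hy' : h⁻¹ * y * h ∈ PP C := (hn _).mpr (by simpa [mul_assoc] using hy.1)
    refine ⟨hy', ?_⟩
    have hz : χ C ((h * τ C j * h⁻¹)⁻¹ * y) = 0 := by
      rw [χ_mul hC (inv_mem ((hn _).mp hτ)) hy.1, χ_inv hC ((hn _).mp hτ), ← hl, hy.2, Nat.xor_self]
    have h1 := hK' _ ((hker _ (mul_mem (inv_mem ((hn _).mp hτ)) hy.1)).mpr hz)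
    have h2 := (hker _ (hH h1)).mp h1
    rw [show h⁻¹ * ((h * τ C j * h⁻¹)⁻¹ * y) * h = (τ C j)⁻¹ * (h⁻¹ * y * h) by group,
      χ_mul hC (inv_mem hτ) hy', χ_inv hC hτ, hτ', Nat.xor_eq_zero_iff] at h2
    exact h2.symm
  · intro x _; group
  · intro y _; group
  · intro x _; exact (hΦ x).symm

end Valid

/-- The certificate criterion. -/
theorem isSimple_of_cert (G : Subgroup (Equiv.Perm GolayPt)) {C : Cert} {mem : ℕ → Bool}
    (hC : C.Valid mem) (hmem : ∀ c, mem c = true → permOK c = true ∧ permOf c ∈ G)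
    (hex : ∀ g ∈ G, ∀ p, C.extra.testBit (idx (g p)) = C.extra.testBit (idx p))
    (hk : (Nat.card G).factorization 2 = C.k) (hk0 : C.k ≠ 0) (S : Sylow 2 G) :
    (groupFusionSystem (S : Subgroup G)).IsSimple 2 := by
  haveI : Fact (Nat.Prime 2) := ⟨Nat.prime_two⟩
  have hzG : σ C C.z ∈ G := (hmem _ hC.z_mem.1).2
  have hbelow : ∀ (j : ℕ) (K : Subgroup (Equiv.Perm GolayPt)), (∀ l < j, l < C.d → τ C l ∈ K) →
      ∀ f i, i < C.n → C.below j f i = true → σ C i ∈ K := by
    intro j K hK f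
    induction f with
    | zero =>
      intro i _ hb
      simp only [Cert.below, beq_iff_eq] at hb
      rw [hb, σ_zero hC]; exact one_mem _
    | succ f ih =>
      intro i hi hb
      simp only [Cert.below, Bool.or_eq_true, beq_iff_eq, Bool.and_eq_true, decide_eq_true_eq] at hb
      rcases hb with rfl | ⟨hgj, hb⟩
      · rw [σ_zero hC]; exact one_mem _
      rcases hC.parents i hi with rfl | ⟨hp, hg, he⟩
      · rw [σ_zero hC]; exact one_mem _
      · rw [← he, ← τ_mul hC (hp.trans hi) hg]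
        exact mul_mem (hK _ hgj hg) (ih _ (hp.trans hi) hb)
  have hτG : ∀ j < C.d, τ C j ∈ G ∧ ∃ g ∈ G, τ C j = g * σ C (C.gn j).y * g⁻¹ := by
    intro j
    induction j using Nat.strong_induction_on with
    | _ j IH =>
    intro hj
    obtain ⟨hg, hs, hgz, e1, e2, hy, hcase⟩ := hC.gens_mem j hj
    obtain ⟨hgok, hgG⟩ := hmem _ hg
    have hyG : σ C (C.gn j).y ∈ G := by
      rcases hcase with e | hb
      · rw [e]; exact hzG
      · exact hbelow j G (fun l hl hld => (IH l hl hld).1) _ _ hy hb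
    have e : τ C j = permOf (C.gn j).g * σ C (C.gn j).y * (permOf (C.gn j).g)⁻¹ := by
      rw [eq_mul_inv_iff_mul_eq]
      exact (permOf_mul hgz hs hgok e2).symm.trans
        (permOf_mul hgz hgok (hC.entries _ hy).1 e1)
    exact ⟨e ▸ mul_mem (mul_mem hgG hyG) (inv_mem hgG), _, hgG, e⟩
  have hle : PP C ≤ G := (Subgroup.closure_le _).mpr fun x ⟨j, hj, e⟩ => e ▸ (hτG j hj).1
  have hcard : Nat.card ((PP C).subgroupOf G) = 2 ^ (Nat.card G).factorization 2 := by
    rw [Nat.card_congr (Subgroup.subgroupOfEquivOfLe hle).toEquiv, card_PP hC, hk]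
  let P : Sylow 2 G := Sylow.ofCard _ hcard
  have hP : (P : Subgroup G) = (PP C).subgroupOf G := Sylow.coe_ofCard _ hcard
  have hzP : σ C C.z ∈ PP C := (mem_PP_iff hC).mpr ⟨_, hC.z_mem.2.2, rfl⟩
  refine isSimple_of_good P S ⟨?_, ?_⟩ ?_
  · intro T hTP hcl z hzT hz2 hzc
    have hz : z ∈ (P : Subgroup G) := hTP hzT
    rw [hP, Subgroup.mem_subgroupOf] at hz
    have he : (z : Equiv.Perm GolayPt) = σ C C.z := by
      refine z_central_eq hC hz (fun h1 => ?_) fun s hs => ?_
      · rw [show z = 1 from Subtype.ext h1, orderOf_one] at hz2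
        exact absurd hz2 (by norm_num)
      · exact congrArg Subtype.val (hzc ⟨s, hle hs⟩ (hP ▸ hs))
    refine le_antisymm hTP ?_
    intro x hx
    have hmemT : ∀ j < C.d, τ C j ∈ T.map G.subtype := by
      intro j
      induction j using Nat.strong_induction_on with
      | _ j IH =>
      intro hj
      obtain ⟨-, -, -, -, -, hy, hcase⟩ := hC.gens_mem j hj
      obtain ⟨hG, g, hg, e⟩ := hτG j hj
      have hyT : σ C (C.gn j).y ∈ T.map G.subtype := by
        rcases hcase with e' | hb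
        · rw [e', ← he]; exact Subgroup.mem_map_of_mem _ hzT
        · exact hbelow j _ (fun l hl hld => IH l hl hld) _ _ hy hb
      obtain ⟨y, hyT', hye⟩ := hyT
      refine ⟨⟨_, hG⟩, hcl _ hyT' _ ((SetLike.ext_iff.mp hP _).mpr (τ_mem hC hj))
        (_root_.isConj_iff.mpr ⟨⟨g, hg⟩, Subtype.ext ?_⟩), rfl⟩
      show g * (G.subtype y) * g⁻¹ = τ C j
      rw [hye, e]
    have : PP C ≤ T.map G.subtype := (Subgroup.closure_le _).mpr fun y ⟨j, hj, e⟩ => e ▸ hmemT j hj
    obtain ⟨y, hy, e⟩ := this ((SetLike.ext_iff.mp hP x).mp hx)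
    rwa [show x = y from Subtype.ext e.symm]
  · intro g hg hgo
    refine FGS3.mem_centralizer_of_frattini P.isPGroup' hg hgo ?_
    set F := (frattini (P : Subgroup G)).map (P : Subgroup G).subtype with hF
    set H := F.map G.subtype with hHdef
    have hsq : ∀ x ∈ PP C, x * x ∈ H := by
      intro x hx
      refine ⟨⟨x * x, hle (mul_mem hx hx)⟩, ⟨(⟨⟨x, hle hx⟩, hP ▸ hx⟩ : (P : Subgroup G)) ^ 2,
        FGS3.pow_mem_frattini P.isPGroup' _, ?_⟩, rfl⟩
      rw [pow_two]
      rfl
    have hHle : H ≤ PP C := by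
      rintro _ ⟨y, hy, rfl⟩
      have h1 := Subgroup.map_subtype_le _ hy
      rw [hP] at h1
      exact h1
    have hn' : ∀ x : G, x ∈ (P : Subgroup G) ↔ g * x * g⁻¹ ∈ (P : Subgroup G) :=
      Subgroup.mem_normalizer_iff.mp hg
    have hn : ∀ x, x ∈ PP C ↔ (g : Equiv.Perm GolayPt) * x * (g : Equiv.Perm GolayPt)⁻¹ ∈ PP C := by
      intro x
      by_cases hx : x ∈ G
      · have := hn' ⟨x, hx⟩
        rw [hP] at this
        exact this
      · refine iff_of_false (fun h => hx (hle h)) fun h => hx ?_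
        have := mul_mem (mul_mem (inv_mem g.2) (hle h)) g.2
        simpa [mul_assoc] using this
    -- the kernel of the label is the image of the Frattini subgroup
    have hker : ∀ x ∈ PP C, (x ∈ H ↔ χ C x = 0) := by
      intro x hx
      constructor
      · rintro ⟨_, ⟨y, hy, rfl⟩, rfl⟩
        have hmem' : ∀ a : (P : Subgroup G), ((a : G) : Equiv.Perm GolayPt) ∈ PP C := fun a => by
          exact (SetLike.ext_iff.mp hP (a : G)).mp a.2
        let N : Subgroup (P : Subgroup G) :=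
          { carrier := {y | χ C ((y : G) : Equiv.Perm GolayPt) = 0}
            one_mem' := χ_one hC
            mul_mem' := fun {a b} ha hb => by
              show χ C (((a : G) : Equiv.Perm GolayPt) * ((b : G) : Equiv.Perm GolayPt)) = 0
              rw [χ_mul hC (hmem' a) (hmem' b),
                show χ C ((a : G) : Equiv.Perm GolayPt) = 0 from ha,
                show χ C ((b : G) : Equiv.Perm GolayPt) = 0 from hb, Nat.xor_self]
            inv_mem' := fun {a} ha => by
              show χ C (((a : G) : Equiv.Perm GolayPt))⁻¹ = 0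
              rw [χ_inv hC (hmem' a)]
              exact ha }
        haveI : N.Normal := ⟨fun a ha b => by
          show χ C _ = 0
          have h1 := χ_mul hC (mul_mem (hmem' b) (hmem' a)) (inv_mem (hmem' b))
          rw [χ_mul hC (hmem' b) (hmem' a), χ_inv hC (hmem' b), show χ C ((a : G) : Equiv.Perm GolayPt) = 0 from ha,
            Nat.xor_zero, Nat.xor_self] at h1
          exact h1⟩
        refine (FGS3.frattini_le_of_elementary (p := 2) (N := N) ?_ ?_) hy
        · rw [commutator_def, Subgroup.commutator_le]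
          intro a _ b _
          show χ C _ = 0
          rw [commutatorElement_def]
          simp only [Subgroup.coe_mul, InvMemClass.coe_inv]
          rw [χ_mul hC (mul_mem (mul_mem (hmem' a) (hmem' b)) (inv_mem (hmem' a))) (inv_mem (hmem' b)),
            χ_mul hC (mul_mem (hmem' a) (hmem' b)) (inv_mem (hmem' a)), χ_mul hC (hmem' a) (hmem' b),
            χ_inv hC (hmem' a), χ_inv hC (hmem' b), Nat.xor_comm (χ C _) (χ C _), Nat.xor_assoc (χ C _),
            Nat.xor_self, Nat.xor_zero, Nat.xor_self]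
        · intro a
          show χ C _ = 0
          simp only [pow_two, Subgroup.coe_mul]
          rw [χ_mul hC (hmem' a) (hmem' a), Nat.xor_self]
      · intro h0
        obtain ⟨i, hi, rfl⟩ := (mem_PP_iff hC).mp hx
        rw [χ_σ hC hi] at h0
        rcases hC.kerall i hi h0 with rfl | he
        · rw [σ_zero hC]; exact one_mem _
        · obtain ⟨e, hel, hei⟩ := List.any_eq_true.mp he
          rw [beq_iff_eq] at hei
          subst hei
          exact ker_mem hC hsq C.ker 0 (by positivity) (σ_zero hC ▸ one_mem _) hC.kerok e hel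
    have hK : ∀ x ∈ H, (g : Equiv.Perm GolayPt) * x * (g : Equiv.Perm GolayPt)⁻¹ ∈ H := by
      intro x hx
      have hxP := hHle hx
      refine (hker _ ((hn x).mp hxP)).mpr ?_
      obtain ⟨_, ⟨y, hy, rfl⟩, rfl⟩ := hx
      let e : (P : Subgroup G) ≃* (P : Subgroup G) :=
        Subgroup.normalizerMonoidHom (P : Subgroup G) ⟨g, hg⟩
      have hy' : e y ∈ frattini (P : Subgroup G) :=
        FGS3.map_frattini_le_of_surjective (f := e.toMonoidHom) e.surjective
          (Subgroup.mem_map_of_mem e.toMonoidHom hy)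
      exact (hker _ ((hn _).mp hxP)).mp
        ⟨(e y : G), Subgroup.mem_map_of_mem _ hy', rfl⟩
    -- every label is fixed
    have hfix : ∀ x ∈ PP C, χ C ((g : Equiv.Perm GolayPt) * x * (g : Equiv.Perm GolayPt)⁻¹) = χ C x := by
      intro x hx
      obtain ⟨i, hi, rfl⟩ := (mem_PP_iff hC).mp hx
      induction i using Nat.strong_induction_on with
      | _ i IH =>
        rcases hC.parents i hi with rfl | ⟨hp, hg', he⟩
        · rw [σ_zero hC, mul_one, mul_inv_cancel]
        · have hp' : σ C (C.ent i).par ∈ PP C := (mem_PP_iff hC).mpr ⟨_, hp.trans hi, rfl⟩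
          rw [← he, ← τ_mul hC (hp.trans hi) hg', χ_τ_mul hC hg' hp', ← IH _ hp (hp.trans hi) hp',
            ← lab_conj hC hHle hker hn hK (hex _ g.2) hg',
            ← χ_mul hC ((hn _).mp (τ_mem hC hg')) ((hn _).mp hp')]
          congr 1
          group
    intro x hx
    have hxP : (x : Equiv.Perm GolayPt) ∈ PP C := (hP ▸ hx : x ∈ (PP C).subgroupOf G)
    have hc : (g : Equiv.Perm GolayPt) * x * (g : Equiv.Perm GolayPt)⁻¹ * (x : Equiv.Perm GolayPt)⁻¹ ∈ H := by
      refine (hker _ (mul_mem ((hn _).mp hxP) (inv_mem hxP))).mpr ?_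
      rw [χ_mul hC ((hn _).mp hxP) (inv_mem hxP), χ_inv hC hxP, hfix _ hxP, Nat.xor_self]
    obtain ⟨y, hy, e⟩ := hc
    rw [show g * x * g⁻¹ * x⁻¹ = y from Subtype.ext e.symm]
    exact hy
  · intro h
    have := hcard
    rw [← hP, h, Subgroup.card_bot, hk] at this
    exact absurd this.symm (Nat.one_lt_two_pow hk0).ne'

end Cfsg.Agent.Fusion.GolayTwo
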