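/-
Simplicity from the automorphisms a weakly normal system is forced to contain.
-/
import Cfsg.Agent.Fusion.GroupSimple
set_option autoImplicit false

namespace Cfsg.Agent.Fusion

open Cfsg Cfsg.FusionSystem

variable {G : Type*} [Group G] [Finite G] {p : ℕ} [Fact p.Prime]

theorem weaklyNormal_pElement_fn (T₀ : Sylow p G) {E : FusionSystem (T₀ : Subgroup G)}
    (hE : E.IsWeaklyNormalIn (groupFusionSystem (T₀ : Subgroup G)) p) {R : Subgroup G}
    (hRn : (groupFusionSystem (T₀ : Subgroup G)).IsFullyNormalized R) {g : G}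
    (hn : g ∈ Subgroup.normalizer (R : Set G)) {k : ℕ} (hk : orderOf g = p ^ k) :
    Mor E R (cj g) := by
  have hS : IsPGroup p (T₀ : Subgroup G) := T₀.isPGroup'
  have hF : (groupFusionSystem (T₀ : Subgroup G)).IsSaturated p := groupFusion_saturated T₀
  have hI : IsInducedBy (groupFusionSystem (T₀ : Subgroup G)) ⊤ := groupFusion_inducedBy (T₀ : Subgroup G)
  have hEI := hE.2.2
  haveI := finite_mulAut (G := R)
  haveI := weaklyNormal_autGroup_normal hEI hRn.1
  have hF' := ((fullyAutomized_iff hS).mp (IsSaturated_fullyNormalized hS hF hRn).2.1).2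
  have hidx : ¬ p ∣ ((E.autGroup R).subgroupOf ((groupFusionSystem (T₀ : Subgroup G)).autGroup R)).index := fun hd => hF'
    (hd.trans (Subgroup.index_dvd_of_le fun β hβ =>
      autInducedBy_le_autGroup hRn.1 (show (β : MulAut R) ∈ autInducedBy (T₀ : Subgroup G) R from hβ)))
  have hgα : ∃ β ∈ (groupFusionSystem (T₀ : Subgroup G)).autGroup R, (∀ x : R, ((β x : R) : G) = cj g x) := by
    rw [hI.autGroup_eq hRn.1]
    refine ⟨actHom ⊤ R ⟨g, trivial, hn⟩, range_actHom ⊤ R ▸ ⟨_, rfl⟩, actHom_apply ⊤ R _⟩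
  obtain ⟨β, hβ, eβ⟩ := hgα
  have hpow : β ^ p ^ k = 1 := by
    have hit : ∀ (m : ℕ) (x : R), (((β ^ m) x : R) : G) = cj (g ^ m) x := by
      intro m
      induction m with
      | zero => intro x; simp
      | succ m ih => intro x; rw [pow_succ', MulAut.mul_apply, eβ, ih, pow_succ', cj_mul]
    refine MulEquiv.ext fun x => Subtype.ext ?_
    rw [hit, ← hk, pow_orderOf_eq_one, cj_one]; rfl
  obtain ⟨i, -, hi⟩ := (Nat.dvd_prime_pow (Fact.out : p.Prime)).mp
    (show orderOf (⟨β, hβ⟩ : (groupFusionSystem (T₀ : Subgroup G)).autGroup R) ∣ p ^ k from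
      orderOf_dvd_of_pow_eq_one (Subtype.ext hpow))
  obtain ⟨e, he, ee⟩ := (mem_autGroup_iff hRn.1).mp
    (show β ∈ E.autGroup R from mem_of_normal_index hidx hi)
  exact he.mor.congr fun x hx => (ee ⟨x, hx⟩).trans (eβ ⟨x, hx⟩)

/-- A weakly normal system on `(T₀ : Subgroup G)` contains conjugation by `p`-elements normalizing a subgroup. -/
theorem weaklyNormal_pElement (T₀ : Sylow p G) {E : FusionSystem (T₀ : Subgroup G)}
    (hE : E.IsWeaklyNormalIn (groupFusionSystem (T₀ : Subgroup G)) p) {R : Subgroup G}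
    (hR : R ≤ (T₀ : Subgroup G)) {y : G} (hy : y ∈ Subgroup.normalizer (R : Set G)) {k : ℕ}
    (hk : orderOf y = p ^ k) : Mor E R (cj y) := by
  have hI : IsInducedBy (groupFusionSystem (T₀ : Subgroup G)) ⊤ := groupFusion_inducedBy (T₀ : Subgroup G)
  obtain ⟨Q, hRQ, hQ⟩ := exists_fullyNormalized (F := (groupFusionSystem (T₀ : Subgroup G))) hR
  obtain ⟨f, hf⟩ := isConj_iff.mp hRQ
  obtain ⟨-, -, g, -, eg⟩ := (hI _ _).mp hf.mor
  have hy' : g * y * g⁻¹ ∈ Subgroup.normalizer (Q : Set G) := by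
    refine Subgroup.mem_normalizer_fintype fun q hq => ?_
    obtain ⟨r, hr, rfl⟩ := hf.surj hq
    have hr' : cj y r ∈ R := (cj_mem_iff hy r).mpr hr
    have : g * y * g⁻¹ * f r * (g * y * g⁻¹)⁻¹ = f (cj y r) := by
      rw [eg r hr, eg _ hr', cj_apply, cj_apply, cj_apply]; group
    rw [SetLike.mem_coe, this]
    exact hf.mapsTo hr'
  have hk' : orderOf (g * y * g⁻¹) = p ^ k := by
    rw [← MulAut.conj_apply, MulEquiv.orderOf_eq, hk]
  have hm := weaklyNormal_pElement_fn T₀ hE hQ hy' hk'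
  obtain ⟨a, e, ha, he, hfe⟩ := invariant_frattini hE.2.2 hf.mor hR
  obtain ⟨a', ha', hl, hr'⟩ := ha.exists_symm
  have hP : ∀ z, z ∈ he.img ↔ ∃ q ∈ Q, a' q = z := by
    intro z
    rw [he.mem_img]
    constructor
    · rintro ⟨r, hr, rfl⟩
      exact ⟨f r, hf.mapsTo hr, by rw [hfe r hr, hl _ (he.map_mem hr)]⟩
    · rintro ⟨q, hq, rfl⟩
      obtain ⟨r, hr, rfl⟩ := hf.surj hq
      exact ⟨r, hr, by rw [hfe r hr, hl _ (he.map_mem hr)]⟩
  have hp := invariant_push hE.2.2 ha' hr' hm hP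
  obtain ⟨e', he', hl', -⟩ := he.toIso.exists_symm
  have hmaps : ∀ r ∈ R, (a' ∘ cj (g * y * g⁻¹) ∘ a) (e r) = e (cj y r) := by
    intro r hr
    have hyr : cj y r ∈ R := (cj_mem_iff hy r).mpr hr
    show a' (cj (g * y * g⁻¹) (a (e r))) = e (cj y r)
    rw [← hfe r hr, eg r hr, ← cj_mul, show g * y * g⁻¹ * g = g * y by group, cj_mul, ← eg _ hyr,
      hfe _ hyr, hl _ (he.map_mem hyr)]
  have h1 : Mor E R ((a' ∘ cj (g * y * g⁻¹) ∘ a) ∘ e) :=
    he.toIso.mor.comp hp fun r hr => he.toIso.mapsTo hr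
  refine (h1.comp he'.mor fun r hr => ?_).congr fun r hr => ?_
  · show (a' ∘ cj (g * y * g⁻¹) ∘ a) (e r) ∈ he.img
    rw [hmaps r hr]; exact he.toIso.mapsTo ((cj_mem_iff hy r).mpr hr)
  · show e' ((a' ∘ cj (g * y * g⁻¹) ∘ a) (e r)) = cj y r
    rw [hmaps r hr, hl' _ ((cj_mem_iff hy r).mpr hr)]

/-- Simplicity when every weakly normal system on `(T₀ : Subgroup G)` contains the automorphisms of `(T₀ : Subgroup G)`. -/
theorem group_isSimple_of_extend (T₀ : Sylow p G) (hS1 : (T₀ : Subgroup G) ≠ ⊥)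
    (ha : ∀ T : Subgroup G, (groupFusionSystem (T₀ : Subgroup G)).StronglyClosed T →
      T = ⊥ ∨ T = (T₀ : Subgroup G))
    (hb : ∀ E : FusionSystem (T₀ : Subgroup G),
      E.IsWeaklyNormalIn (groupFusionSystem (T₀ : Subgroup G)) p →
      ∀ g ∈ Subgroup.normalizer ((T₀ : Subgroup G) : Set G), Mor E (T₀ : Subgroup G) (cj g)) :
    (groupFusionSystem (T₀ : Subgroup G)).IsSimple p := by
  have hI : IsInducedBy (groupFusionSystem (T₀ : Subgroup G)) ⊤ := groupFusion_inducedBy (T₀ : Subgroup G)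
  refine ⟨groupFusion_saturated T₀, hS1, fun T E hE => ?_⟩
  obtain ⟨hWN, -⟩ := hE
  rcases ha T hWN.2.2.2.1 with h | h
  · exact Or.inl h
  subst h
  refine Or.inr ⟨rfl, fun P => Set.Subset.antisymm (hWN.2.2.1 P) fun φ hφ => ?_⟩
  obtain ⟨a, e, ha', he, hfe⟩ := invariant_frattini hWN.2.2 (mor_of_mem hφ) ((groupFusionSystem (T₀ : Subgroup G)).le_of_mem hφ).1
  obtain ⟨-, -, c, -, ec⟩ := (hI _ _).mp ha'.mor
  have hc : c ∈ Subgroup.normalizer ((T₀ : Subgroup G) : Set G) :=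
    Subgroup.mem_normalizer_fintype fun s hs => by
      show cj c s ∈ (T₀ : Subgroup G)
      rw [← ec s hs]; exact ha'.mapsTo hs
  have hcE := hb E hWN c hc
  refine mem_of_mor (he.comp hcE fun x hx => he.map_mem hx) fun x => ?_
  show φ x = cj c (e x)
  rw [← ec _ (he.map_mem x.2), ← hfe x x.2, extFun_coe]

end Cfsg.Agent.Fusion
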