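/-
Constrained systems of subnormal subgroups.
-/
import Cfsg.Agent.Fusion.Constrained
import Cfsg.Agent.Fusion.GroupNormal
import Cfsg.Agent.Fusion.Transport
set_option autoImplicit false
set_option linter.style.haveILetI false

namespace Cfsg.Agent.Fusion

open Cfsg Cfsg.FusionSystem IsInducedBy

universe u v

theorem sysIso_constrained {Ω : Type u} [Group Ω] {S : Subgroup Ω} {Ω' : Type v} [Group Ω'] {S' : Subgroup Ω'}
    {F : FusionSystem S} {F' : FusionSystem S'} {e : Ω → Ω'} {e' : Ω' → Ω} {p : ℕ} [Fact p.Prime]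
    [Finite S] [Finite S'] (hS : IsPGroup p S) (hS' : IsPGroup p S') (h : SysIso F F' e e')
    (hF : F.IsConstrained p) : F'.IsConstrained p := by
  obtain ⟨hsat, Q, hn, hc⟩ := hF
  have hQ : Q ≤ S := hn.1
  haveI : Finite Q := finite_of_le hQ
  refine ⟨h.saturated hS hS' hsat, h.img Q, isNormal_of_extStab (h.img_le Q) fun P' f' hf' => ?_,
    h.img_le Q, fun R hR x hx => ?_⟩
  · obtain ⟨g', hg', eg, hm⟩ := h.isNormal hQ (fun P f hf => by
      obtain ⟨g, hg, eg, mg⟩ := ExtStab.of_isNormal hn hf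
      exact ⟨g, hg, eg, ((hg.restrict le_sup_right).iso_of_card mg le_rfl).bij.image_eq⟩) P' f' hf'
    exact ⟨g', hg', eg, fun x hx => hm.le ⟨x, hx, rfl⟩⟩
  · have hRS : R ≤ S' := by
      obtain ⟨f, hf⟩ := isConj_iff.mp hR
      exact hf.cod_le
    have hR' := h.symm.isConj hR
    rw [show h.symm.img (h.img Q) = Q from h.img_img hQ] at hR'
    have h1 : e' x ∈ h.symm.img (centralizerIn S' R) :=
      (h.symm.mem_img centralizerIn_le).mpr ⟨x, hx, rfl⟩
    rw [h.symm.img_centralizerIn hRS] at h1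
    exact (h.symm.mem_img_apply hRS hx.1).mp (hc.2 _ hR' h1)

variable {G : Type u} [Group G] [Finite G] {p : ℕ} [Fact p.Prime]

theorem subnormal_system_constrained (S : Sylow p G) (hF : (groupFusionSystem (S : Subgroup G)).IsConstrained p)
    {H : Subgroup G} (hH : H.IsSubnormal) :
    ¬ p ∣ ((S : Subgroup G) ⊓ H).relIndex H ∧
      (fusionSystemOfSubgroup H ((S : Subgroup G) ⊓ H) inf_le_right).IsConstrained p := by
  induction hH with
  | top =>
    have hSp : ¬ p ∣ ((S : Subgroup G) ⊓ ⊤).relIndex ⊤ := by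
      rw [inf_top_eq, Subgroup.relIndex_top_right]; exact S.not_dvd_index
    refine ⟨hSp, subsystem_constrained (T := (S : Subgroup G) ⊓ ⊤) S.isPGroup' hF ?_ ?_ ?_⟩
    · exact (fusionOfSubgroup_inducedBy _ _ _).saturated inf_le_right (S.isPGroup'.to_le inf_le_left) hSp
    · exact fun P φ hφ => ⟨hφ.1.trans inf_le_left, fun x => (hφ.2.1 x).1, hφ.2.2.choose, hφ.2.2.choose_spec.2⟩
    · exact stronglyClosed_of_mor inf_le_left fun P f hf x hxP _ => ⟨hf.map_mem hxP, trivial⟩
  | step H K hle _ hN ih =>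
    obtain ⟨hKp, hKc⟩ := ih
    have hTH : ¬ p ∣ ((S : Subgroup G) ⊓ H).relIndex H := by
      have hn : (S : Subgroup G) ⊓ K ≤ Subgroup.normalizer (H : Set G) :=
        haveI := hN; inf_le_right.trans (Subgroup.le_normalizer_of_normal_subgroupOf hle)
      rw [show (S : Subgroup G) ⊓ H = ((S : Subgroup G) ⊓ K) ⊓ H by rw [inf_assoc, inf_eq_right.mpr hle],
        ← relIndex_sup_normalized (L := K) inf_le_right hle hn]
      exact fun hd => hKp (hd.trans (Dvd.intro _ (Subgroup.relIndex_mul_relIndex _ _ K le_sup_left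
        (sup_le inf_le_right hle))))
    refine ⟨hTH, subsystem_constrained (S.isPGroup'.to_le inf_le_left) hKc
      ((fusionOfSubgroup_inducedBy _ _ _).saturated inf_le_right (S.isPGroup'.to_le inf_le_left) hTH) ?_ ?_⟩
    · exact fun P φ hφ => ⟨hφ.1.trans (inf_le_inf_left _ hle), fun x => inf_le_inf_left _ hle (hφ.2.1 x),
        hφ.2.2.choose, hle hφ.2.2.choose_spec.1, hφ.2.2.choose_spec.2⟩
    · refine stronglyClosed_of_mor (inf_le_inf_left _ hle) fun P f hf x hxP hx => ?_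
      obtain ⟨-, hv, g, hg, eg⟩ := (fusionOfSubgroup_inducedBy _ _ _ _ _).mp hf
      refine ⟨(hv x hxP).1, ?_⟩
      rw [eg x hxP]
      exact (hN.conj_mem ⟨x, hle hx.2⟩ hx.2 ⟨g, hg⟩ :)

theorem subgroupOf_system_constrained (S : Sylow p G) (hF : (groupFusionSystem (S : Subgroup G)).IsConstrained p)
    {H : Subgroup G} (hH : H.IsSubnormal) :
    (groupFusionSystem ((S : Subgroup G).subgroupOf H)).IsConstrained p := by
  classical
  obtain ⟨-, hc⟩ := subnormal_system_constrained S hF hH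
  let e : G → H := fun g => if h : g ∈ H then ⟨g, h⟩ else 1
  have he : ∀ g (h : g ∈ H), e g = ⟨g, h⟩ := fun g h => dif_pos h
  refine sysIso_constrained (e := e) (e' := Subtype.val) (S.isPGroup'.to_le inf_le_left)
    (S.isPGroup'.comap_subtype) ⟨?_, ?_, ?_, ?_, ?_, ?_, ?_⟩ hc
  · exact fun x hx => Subgroup.mem_subgroupOf.mpr (by rw [he x hx.2]; exact hx.1)
  · exact fun y hy => ⟨hy, y.2⟩
  · exact fun x hx => by rw [he x hx.2]
  · exact fun y _ => he y y.2
  · exact fun x hx y hy => by rw [he x hx.2, he y hy.2, he _ (H.mul_mem hx.2 hy.2)]; rfl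
  · intro P f hf P' hP'
    obtain ⟨hP, hv, g, hg, eg⟩ := (fusionOfSubgroup_inducedBy _ _ _ _ _).mp hf
    refine (groupFusion_inducedBy _ _ _).mpr ⟨fun y hy => ?_, fun y hy => ?_, ⟨g, hg⟩, trivial, fun y hy => ?_⟩
    all_goals obtain ⟨x, hx, rfl⟩ := (hP' y).mp hy
    all_goals rw [he x (hP hx).2]
    · exact Subgroup.mem_subgroupOf.mpr (hP hx).1
    · show e (f x) ∈ _
      rw [he _ (hv x hx).2]
      exact Subgroup.mem_subgroupOf.mpr (hv x hx).1
    · show e (f x) = _
      rw [he _ (hv x hx).2]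
      exact Subtype.ext (eg x hx)
  · intro P' f hf P hP
    obtain ⟨hP', hv, g, -, eg⟩ := (groupFusion_inducedBy _ _ _).mp hf
    refine (fusionOfSubgroup_inducedBy _ _ _ _ _).mpr ⟨fun x hx => ?_, fun x hx => ?_, g, g.2, fun x hx => ?_⟩
    all_goals obtain ⟨y, hy, rfl⟩ := (hP x).mp hx
    · exact ⟨hP' hy, y.2⟩
    · show ((f (e y) : H) : G) ∈ _
      rw [he y y.2]
      exact ⟨hv y hy, (f y).2⟩
    · show ((f (e y) : H) : G) = _
      rw [he y y.2, eg y hy]
      rfl

end Cfsg.Agent.Fusion
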