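/-
An analogue of Gruen's lemma for fusion systems.
-/
import Cfsg.Agent.Fusion.Hyperfocal
import Cfsg.Agent.Fusion.Joins
import Cfsg.Agent.Fusion.GroupSimple
set_option autoImplicit false

namespace Cfsg.Agent.Fusion

open Cfsg Cfsg.FusionSystem

variable {Ω : Type*} [Group Ω] {S : Subgroup Ω} {F : FusionSystem S} {p : ℕ} {Z : Subgroup Ω}

theorem isCentral_fix [Fact p.Prime] [Finite S] (hS : IsPGroup p S) (hF : F.IsSaturated p)
    (hZ : F.IsCentral Z) {P : Subgroup Ω} {f : Ω → Ω} (hf : Mor F P f) {x : Ω} (hx : x ∈ Z)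
    (hxP : x ∈ P) : f x = x :=
  Mor.eq_of_singleton (((isCentral_iff hS hF).mp hZ).2 x hx) hf hxP

/-- An element fixed modulo a central subgroup is central when the system is perfect. -/
theorem grun_fixed [Fact p.Prime] [Finite S] (hS : IsPGroup p S) (hF : F.IsSaturated p)
    (hperf : F.hyperfocalSubgroup p = S) (hZ : F.IsCentral Z) {z : Ω} (hzS : z ∈ S)
    (hmod : ∀ P f, Mor F P f → z ∈ P → z⁻¹ * f z ∈ Z) : F.IsCentral (Subgroup.zpowers z) := by
  have hZc : ∀ s ∈ S, ∀ w ∈ Z, s * w = w * s := fun s hs w hw => by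
    have := isCentral_fix hS hF hZ (Mor.conj (F := F) le_rfl hs) hw (hZ.1 hw)
    exact mul_inv_eq_iff_eq_mul.mp this
  let c : Ω → Ω := fun x => z⁻¹ * cj x z
  have hcZ : ∀ x ∈ S, c x ∈ Z := fun x hx => hmod S _ (Mor.conj le_rfl hx) hzS
  have hcmul : ∀ x ∈ S, ∀ y ∈ S, c (x * y) = c x * c y := by
    intro x hx y hy
    have h1 : cj y z = z * c y := (mul_inv_cancel_left _ _).symm
    show z⁻¹ * cj (x * y) z = c x * c y
    rw [cj_mul, h1, cj_map_mul,
      show cj x (c y) = c y from mul_inv_eq_iff_eq_mul.mpr (hZc x hx _ (hcZ y hy)), ← mul_assoc]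
  -- the elements that `z` centralizes
  have hRmem : ∀ R, (R = S ∨ F.IsEssential p R) → z ∈ R := by
    rintro R (rfl | hR)
    · exact hzS
    have hRc := hR.1
    haveI := finite_of_le hRc.1
    have hZR : Z ≤ R := fun w hw =>
      hRc.2 R (isConj_refl hRc.1) ⟨hZ.1 hw, fun r hr => hZc r (hRc.1 hr) w hw⟩
    have hzn : z ∈ Subgroup.normalizer (R : Set Ω) := Subgroup.mem_normalizer_fintype fun r hr => by
      have h1 : r⁻¹ * cj z r ∈ Z := by
        have h2 := hcZ r (hRc.1 hr)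
        have h3 : r⁻¹ * cj z r = cj z (c r⁻¹) := by simp [c, cj, mul_assoc]
        rw [h3, show cj z (c r⁻¹) = c r⁻¹ from
          mul_inv_eq_iff_eq_mul.mpr (hZc z hzS _ (hcZ r⁻¹ (S.inv_mem (hRc.1 hr))))]
        exact hcZ r⁻¹ (S.inv_mem (hRc.1 hr))
      have h4 := R.mul_mem hr (hZR h1)
      rwa [mul_inv_cancel_left] at h4
    let D : ℕ → Subgroup R := fun j => if j = 0 then ⊥ else if j = 1 then Z.subgroupOf R else ⊤
    have hfixZ : ∀ α ∈ F.autGroup R, ∀ x : R, (x : Ω) ∈ Z → (α x : R) = x := by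
      intro α hα x hx
      obtain ⟨f, hf, ef⟩ := (mem_autGroup_iff hRc.1).mp hα
      exact Subtype.ext ((ef x).symm.trans (isCentral_fix hS hF hZ hf.mor hx x.2))
    refine mem_of_stabilizes hS hRc (essential_radical hS hR) ⟨hzS, hzn⟩ D 2 (by simp [D])
      (by simp [D]) (by intro j hj; interval_cases j <;> simp [D]) ?_ ?_
    · intro α hα j hj x hx
      interval_cases j
      · simp only [D, if_true, Subgroup.mem_bot] at hx ⊢
        rw [hx, map_one]
      · simp only [D, one_ne_zero, if_false, if_true, Subgroup.mem_subgroupOf] at hx ⊢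
        rw [hfixZ α hα x hx]; exact hx
      · simp [D]
    · intro j hj x hx
      interval_cases j
      · simp only [D, zero_add, one_ne_zero, if_false, if_true, Subgroup.mem_subgroupOf] at hx
        show _ ∈ D 0
        have : actHom S R ⟨z, hzS, hzn⟩ x = x := Subtype.ext <| by
          rw [actHom_apply]
          exact mul_inv_eq_iff_eq_mul.mpr (hZc z hzS x hx)
        simp [D, this]
      · show _ ∈ D 1
        simp only [D, one_ne_zero, if_false, if_true, Subgroup.mem_subgroupOf]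
        show (x : Ω)⁻¹ * cj z x ∈ Z
        have h3 : (x : Ω)⁻¹ * cj z x = cj z (c (x : Ω)⁻¹) := by simp [c, cj, mul_assoc]
        have hxi := hcZ (x : Ω)⁻¹ (S.inv_mem (hRc.1 x.2))
        rw [h3, show cj z (c (x : Ω)⁻¹) = c (x : Ω)⁻¹ from
          mul_inv_eq_iff_eq_mul.mpr (hZc z hzS _ hxi)]
        exact hxi
  -- the commutator map is invariant
  have hinv : ∀ P f, Mor F P f → ∀ x ∈ P, c (f x) = c x := by
    refine alperin hS hF ⟨?_, ?_, ?_, ?_⟩ ?_
    · intro P s hP hs x hx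
      have hxS := hP hx
      have hm := S.mul_mem hs hxS
      show c (cj s x) = c x
      rw [cj_apply, hcmul _ hm _ (S.inv_mem hs), hcmul _ hs _ hxS, mul_assoc,
        hZc _ (hZ.1 (hcZ _ hxS)) _ (hcZ _ (S.inv_mem hs)), ← mul_assoc,
        ← hcmul _ hs _ (S.inv_mem hs), mul_inv_cancel,
        show c 1 = 1 by simp [c], one_mul]
    · intro P f g _ e h x hx
      rw [← e x hx]; exact h x hx
    · intro P Q f g _ _ m hf hg x hx
      exact (hg _ (m x hx)).trans (hf x hx)
    · intro P Q f g hf hg e h y hy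
      obtain ⟨x, hx, rfl⟩ := hf.surj hy
      rw [e x hx, h x hx]
    · intro R hR _ _ f hf x hx
      have hz := hRmem R hR
      obtain ⟨w, hw, hwe⟩ : ∃ w ∈ Z, f z = z * w :=
        ⟨_, hmod R f hf.mor hz, (mul_inv_cancel_left _ _).symm⟩
      have hxS := hf.dom_le hx
      have h1 : f (c x) = c x :=
        isCentral_fix hS hF hZ hf.mor (hcZ x hxS)
          (mul_mem (inv_mem hz) (cj_mem hx hz))
      have h2 : f (c x) = w⁻¹ * z⁻¹ * cj (f x) (z * w) := by
        show f (z⁻¹ * cj x z) = _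
        rw [cj_apply, hf.mor.map_mul (inv_mem hz) (mul_mem (mul_mem hx hz) (inv_mem hx)),
          hf.mor.map_conj hx hz, hf.mor.map_inv hz, hwe, mul_inv_rev]
        rfl
      have hfxS := hf.mor.map_mem hx
      rw [cj_map_mul, show cj (f x) w = w from mul_inv_eq_iff_eq_mul.mpr (hZc _ hfxS w hw)] at h2
      have hcw := hZc _ (hZ.1 (hcZ _ hfxS)) w hw
      calc c (f x) = w⁻¹ * c (f x) * w := by rw [mul_assoc, hcw, inv_mul_cancel_left]
        _ = w⁻¹ * z⁻¹ * (cj (f x) z * w) := by simp [c, mul_assoc]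
        _ = c x := by rw [← h2, h1]
  have hker : ∀ x ∈ S, c x = 1 := by
    let H : Subgroup Ω :=
      { carrier := {x | x ∈ S ∧ c x = 1}
        one_mem' := ⟨S.one_mem, by simp [c]⟩
        mul_mem' := fun {a b} ha hb => ⟨S.mul_mem ha.1 hb.1, by
          rw [hcmul a ha.1 b hb.1, ha.2, hb.2, one_mul]⟩
        inv_mem' := fun {a} ha => ⟨S.inv_mem ha.1, by
          have := hcmul a ha.1 a⁻¹ (S.inv_mem ha.1)
          rwa [mul_inv_cancel, show c 1 = 1 by simp [c], ha.2, one_mul, eq_comm] at this⟩ }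
    have hle : F.hyperfocalSubgroup p ≤ H := hyperfocal_le_of fun P f k hf _ _ x hx => by
      have hxS := hf.dom_le hx
      refine ⟨S.mul_mem (S.inv_mem hxS) (hf.mor.map_mem hx), ?_⟩
      rw [hcmul _ (S.inv_mem hxS) _ (hf.mor.map_mem hx), hinv P f hf.mor x hx,
        ← hcmul _ (S.inv_mem hxS) _ hxS, inv_mul_cancel]
      simp [c]
    intro x hx
    exact (hle (hperf.symm ▸ hx : x ∈ F.hyperfocalSubgroup p)).2
  have hzc : ∀ x ∈ S, x * z = z * x := fun x hx => by
    exact mul_inv_eq_iff_eq_mul.mp (inv_mul_eq_one.mp (hker x hx)).symm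
  -- every automorphism of a centric subgroup fixes `z`
  have hfix : ∀ R, (R = S ∨ F.IsEssential p R) → F.IsFullyNormalized R → ∀ f, Iso F f R R →
      f z = z := by
    intro R hR hRn f hf
    have hz := hRmem R hR
    haveI := finite_of_le hRn.1
    haveI := finite_mulAut (G := R)
    let A := F.autGroup R
    have hmodA : ∀ a : A, z⁻¹ * (((a : MulAut R) ⟨z, hz⟩ : R) : Ω) ∈ Z := fun a => by
      obtain ⟨g, hg, eg⟩ := (mem_autGroup_iff hRn.1).mp a.2
      exact eg ⟨z, hz⟩ ▸ hmod R g hg.mor hz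
    have hfixA : ∀ (a : A) (y : R), (y : Ω) ∈ Z → (a : MulAut R) y = y := fun a y hy => by
      obtain ⟨g, hg, eg⟩ := (mem_autGroup_iff hRn.1).mp a.2
      exact Subtype.ext ((eg y).symm.trans (isCentral_fix hS hF hZ hg.mor hy y.2))
    let K : Subgroup A :=
      { carrier := {a | (a : MulAut R) ⟨z, hz⟩ = ⟨z, hz⟩}
        one_mem' := rfl
        mul_mem' := fun {a b} ha hb => by
          show (a : MulAut R) ((b : MulAut R) ⟨z, hz⟩) = _
          rw [hb]; exact ha
        inv_mem' := fun {a} ha => by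
          show (a : MulAut R)⁻¹ ⟨z, hz⟩ = _
          conv_lhs => rw [← (show (a : MulAut R) ⟨z, hz⟩ = ⟨z, hz⟩ from ha)]
          exact MulAut.inv_apply_self R (a : MulAut R) _ }
    haveI : K.Normal := ⟨fun b hb a => by
      show (a : MulAut R) ((b : MulAut R) ((a : MulAut R)⁻¹ ⟨z, hz⟩)) = _
      set y : R := ⟨z, hz⟩⁻¹ * (a : MulAut R)⁻¹ ⟨z, hz⟩ with hy
      have hyZ : (y : Ω) ∈ Z := hmodA a⁻¹
      rw [show (a : MulAut R)⁻¹ ⟨z, hz⟩ = ⟨z, hz⟩ * y from (mul_inv_cancel_left _ _).symm, map_mul,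
        show (b : MulAut R) ⟨z, hz⟩ = _ from hb, hfixA b y hyZ, hy, mul_inv_cancel_left,
        MulAut.apply_inv_self]⟩
    have hAS : (autInducedBy S R).subgroupOf A ≤ K := by
      intro a ha
      obtain ⟨s, hs, -, es⟩ := mem_autInducedBy.mp (show (a : MulAut R) ∈ autInducedBy S R from ha)
      refine Subtype.ext ?_
      rw [es]
      exact mul_inv_eq_iff_eq_mul.mpr (hzc s hs)
    have hidx : ¬ p ∣ K.index := fun hd =>
      ((fullyAutomized_iff hS).mp (IsSaturated_fullyNormalized hS hF hRn).2.1).2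
        (hd.trans (Subgroup.index_dvd_of_le hAS))
    set a : A := ⟨hf.equiv, hf.equiv_mem_autGroup⟩ with ha
    set n := orderOf a with hn
    have hn0 : n ≠ 0 := (orderOf_pos a).ne'
    set l := ordCompl[p] n
    have hpl : (a ^ l) ^ ordProj[p] n = 1 := by
      rw [← pow_mul, mul_comm, Nat.ordProj_mul_ordCompl_eq_self, pow_orderOf_eq_one]
    obtain ⟨i, -, hi⟩ := (Nat.dvd_prime_pow (Fact.out : p.Prime)).mp (orderOf_dvd_of_pow_eq_one hpl)
    have hK : a ^ l ∈ K := mem_of_normal_index hidx hi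
    obtain ⟨w, hw, hwe⟩ : ∃ w ∈ Z, f z = z * w :=
      ⟨_, hmod R f hf.mor hz, (mul_inv_cancel_left _ _).symm⟩
    have hwR : w ∈ R := by
      rw [show w = z⁻¹ * f z by rw [hwe, inv_mul_cancel_left]]
      exact mul_mem (inv_mem hz) (hf.mapsTo hz)
    have hit : ∀ m, f^[m] z = z * w ^ m := by
      intro m
      induction m with
      | zero => simp
      | succ m ih =>
        rw [Function.iterate_succ_apply', ih, hf.mor.map_mul hz (pow_mem hwR m), hwe,
          isCentral_fix hS hF hZ hf.mor (pow_mem hw m) (pow_mem hwR m), mul_assoc, ← pow_succ']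
    have h1 : f^[l] z = z := (equiv_pow_apply hf l ⟨z, hz⟩).symm.trans
      (congrArg Subtype.val (show ((a ^ l : A) : MulAut R) ⟨z, hz⟩ = _ from hK))
    rw [hit l] at h1
    have h2 : w ^ l = 1 := mul_eq_left.mp h1
    obtain ⟨e, he⟩ := IsPGroup.iff_orderOf.mp hS ⟨w, hZ.1 hw⟩
    rw [Subgroup.orderOf_mk] at he
    have h3 : orderOf w = 1 := by
      have hco : (p ^ e).Coprime l := (Nat.coprime_ordCompl (Fact.out : p.Prime) hn0).pow_left e
      exact Nat.dvd_one.mp (hco ▸ Nat.dvd_gcd (he ▸ dvd_rfl) (orderOf_dvd_of_pow_eq_one h2))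
    rw [hwe, orderOf_eq_one_iff.mp h3, mul_one]
  have hall : ∀ P f, Mor F P f → ∀ x ∈ P, ∀ w ∈ Subgroup.zpowers z, (x = w ↔ f x = w) := by
    refine alperin hS hF ⟨?_, ?_, ?_, ?_⟩ ?_
    · intro P s hP hs x hx w hw
      have hsw : cj s w = w := by
        obtain ⟨n, rfl⟩ := Subgroup.mem_zpowers_iff.mp hw
        exact mul_inv_eq_iff_eq_mul.mpr (Commute.zpow_right (hzc s hs) n).eq
      exact ⟨fun h => h ▸ hsw, fun h => cj_injective s (h.trans hsw.symm)⟩
    · intro P f g _ e h x hx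
      rw [← e x hx]; exact h x hx
    · intro P Q f g _ _ m hf hg x hx w hw
      exact (hf x hx w hw).trans (hg _ (m x hx) w hw)
    · intro P Q f g hf hg e h y hy w hw
      obtain ⟨x, hx, rfl⟩ := hf.surj hy
      rw [e x hx]; exact (h x hx w hw).symm
    · intro R hR hRn _ f hf x hx w hw
      have hz := hfix R hR hRn f hf
      have hzR := hRmem R hR
      obtain ⟨n, rfl⟩ := Subgroup.mem_zpowers_iff.mp hw
      have hfn : f (z ^ n) = z ^ n := by
        have h1 := map_zpow hf.mor.hom ⟨z, hzR⟩ n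
        change f (z ^ n) = f z ^ n at h1
        rwa [hz] at h1
      exact ⟨fun h => h ▸ hfn, fun h => hf.mor.injOn hx (zpow_mem hzR n) (h.trans hfn.symm)⟩
  refine (isCentral_iff hS hF).mpr ⟨Subgroup.zpowers_le.mpr hzS, fun x hx y hxy => ?_⟩
  obtain ⟨φ, hφ, e⟩ := hxy
  rw [← e, ← extFun_apply φ (Subgroup.mem_zpowers x)]
  exact (hall _ _ (mor_of_mem hφ) x (Subgroup.mem_zpowers x) x hx).mp rfl

/-- Grün's lemma: a perfect saturated system has trivial second centre. -/
theorem grun_center [Fact p.Prime] [Finite S] (hS : IsPGroup p S) (hF : F.IsSaturated p)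
    (hperf : F.hyperfocalSubgroup p = S)
    (E : FusionSystem (⊤ : Subgroup (↥S ⧸ (F.center).subgroupOf S)))
    [((F.center).subgroupOf S).Normal]
    (hE : F.IsFactorSystem F.center (QuotientGroup.mk' ((F.center).subgroupOf S)) E) :
    E.center = ⊥ := by
  set θ := QuotientGroup.mk' ((F.center).subgroupOf S)
  set Z := F.center
  have hZ : F.IsCentral Z := center_isCentral
  have hT : F.StronglyClosed Z := stronglyClosed_of_mor hZ.1 fun P f hf x hxP hx => by
    rw [isCentral_fix hS hF hZ hf hx hxP]; exact hx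
  have hEs := factor_saturated hS hF hT hE
  haveI : Finite (⊤ : Subgroup (↥S ⧸ Z.subgroupOf S)) := inferInstance
  have hE' : IsPGroup p (⊤ : Subgroup (↥S ⧸ Z.subgroupOf S)) :=
    (hS.to_quotient _).to_subgroup _
  rw [eq_bot_iff]
  intro w hw
  obtain ⟨⟨z, hzS⟩, rfl⟩ := QuotientGroup.mk'_surjective (Z.subgroupOf S) w
  have hmod : ∀ P f, Mor F P f → z ∈ P → z⁻¹ * f z ∈ Z := by
    intro P f hf hzP
    obtain ⟨φ, hg, eg, -⟩ := hZ.2 P hf.hom hf.hom_mem
    have hm : Mor F (P ⊔ Z) (extFun φ) := mor_of_mem hg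
    obtain ⟨g, hg', eg'⟩ := factor_push hT hE hm le_sup_right
    have h1 : g (extHom θ z) = extHom θ z := by
      refine isCentral_fix hE' hEs center_isCentral hg' ?_ ?_
      · rw [extHom_apply θ hzS]; exact hw
      · exact (mem_imageAlong (hP := hm.dom_le)).mpr ⟨z, Subgroup.mem_sup_left hzP, rfl⟩
    rw [eg' z (Subgroup.mem_sup_left hzP)] at h1
    have h2 : extFun φ z = f z := by
      rw [extFun_apply φ (Subgroup.mem_sup_left hzP)]; exact eg ⟨z, hzP⟩
    rw [h2] at h1
    exact (extHom_eq_iff hE.2.1 hzS (hf.map_mem hzP)).mp h1.symm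
  have hc := grun_fixed hS hF hperf hZ hzS hmod
  have hle : Subgroup.zpowers z ≤ Z := le_sSup hc
  exact (QuotientGroup.eq_one_iff _).mpr (hle (Subgroup.mem_zpowers z))

end Cfsg.Agent.Fusion
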