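/-
Centric subgroups meeting a normal subsystem in a noncentric subgroup are not radical.
-/
import Cfsg.Agent.Fusion.Normal
import Cfsg.Agent.Fusion.Invariant
import Cfsg.Agent.Fusion.SubsystemClosed
set_option autoImplicit false

namespace Cfsg.Agent.Fusion.MeetCentric

open Cfsg Cfsg.FusionSystem

variable {Ω : Type*} [Group Ω] {S T : Subgroup Ω} {F : FusionSystem S} {E : FusionSystem T}
  {p : ℕ} [Fact p.Prime] {P : Subgroup Ω}

theorem exists_witness [Finite S] (hS : IsPGroup p S) (hF : F.IsSaturated p)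
    (hsub : E.IsSubsystemOf F) (hT : F.StronglyClosed T) (hP : F.IsCentric P)
    (hPT : ¬ E.IsCentric (P ⊓ T)) :
    ∃ (f : Ω → Ω) (Q : Subgroup Ω), Iso F f P Q ∧ ∃ (c : Ω) (hc : c ∈ normalizerIn S Q), c ∉ Q ∧
      ∃ K : Subgroup (F.autGroup Q), K.Normal ∧ IsPGroup p K ∧
        ∀ h : actHom S Q ⟨c, hc⟩ ∈ F.autGroup Q, (⟨_, h⟩ : F.autGroup Q) ∈ K := by
  have hle : P ⊓ T ≤ S := inf_le_left.trans hP.1
  obtain ⟨R, hR, hRC⟩ : ∃ R, E.IsConj (P ⊓ T) R ∧ ¬ centralizerIn T R ≤ R := by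
    by_contra hcon
    push_neg at hcon
    exact hPT ⟨inf_le_right, hcon⟩
  obtain ⟨e, he⟩ := isConj_iff.mp hR
  have heF : Iso F e (P ⊓ T) R := ⟨subsystem_mor hsub he.mor, he.bij⟩
  obtain ⟨Q₀, hQ₀, hQn⟩ := exists_fullyNormalized (F := F) hle
  obtain ⟨-, hA, hRec⟩ := IsSaturated_fullyNormalized hS hF hQn
  -- from `R`
  obtain ⟨f, hf⟩ := isConj_iff.mp (isConj_trans (isConj_symm heF.isConj) hQ₀)
  obtain ⟨a₁, g₁, -, hg₁, -, -, hg₁Q⟩ := hf.exists_normalizer_map hS hA hRec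
  obtain ⟨z, hz, hzR⟩ := SetLike.not_le_iff_exists.mp hRC
  have hzS : z ∈ centralizerIn S R := ⟨hT.1 hz.1, hz.2⟩
  have hzN : z ∈ normalizerIn S R := centralizerIn_le_normalizerIn hzS
  have hRN : R ≤ normalizerIn S R := le_normalizerIn heF.cod_le
  have hz1 : g₁ z ∈ centralizerIn S Q₀ := hg₁Q.map_centralizer hg₁ hRN (fun _ _ => rfl) hzN hzS
  have hz2 : g₁ z ∈ T := stronglyClosed_mem hT hg₁ hzN hz.1
  have hz3 : g₁ z ∉ Q₀ := fun h => by
    obtain ⟨r, hr, hrz⟩ := hg₁Q.surj h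
    exact hzR (hg₁.injOn (hRN hr) hzN hrz ▸ hr)
  -- from `P`
  obtain ⟨f₂, hf₂⟩ := isConj_iff.mp hQ₀
  obtain ⟨a₂, g, -, hg, -, -, hgQ⟩ := hf₂.exists_normalizer_map hS hA hRec
  have hPN : P ≤ normalizerIn S (P ⊓ T) := fun x hx => by
    refine ⟨hP.1 hx, Subgroup.mem_normalizer_iff.mpr fun y => ?_⟩
    have hxT := Subgroup.mem_normalizer_iff.mp (stronglyClosed_normalizer hT (hP.1 hx)) y
    simp only [Subgroup.mem_inf]
    exact and_congr ⟨fun hy => P.mul_mem (P.mul_mem hx hy) (P.inv_mem hx), fun hy => by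
      simpa [mul_assoc] using P.mul_mem (P.mul_mem (P.inv_mem hx) hy) hx⟩ hxT
  have hgP : Mor F P g := hg.restrict hPN
  set Q := hgP.img
  have hiso : Iso F g P Q := hgP.toIso
  have hmeet : Q ⊓ T = Q₀ := by
    refine le_antisymm ?_ ?_
    · rintro y ⟨hy, hyT⟩
      obtain ⟨x, hx, rfl⟩ := hiso.surj hy
      obtain ⟨g', hg', hgg, -⟩ := hiso.exists_symm
      have := stronglyClosed_mem hT hg'.mor (hiso.mapsTo hx) hyT
      rw [hgg x hx] at this
      exact hgQ.mapsTo ⟨hx, this⟩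
    · intro y hy
      obtain ⟨x, hx, rfl⟩ := hgQ.surj hy
      exact ⟨hiso.mapsTo hx.1, stronglyClosed_mem hT hg (hPN hx.1) hx.2⟩
  -- an element of `C_T(Q₀)` normalizing `Q` outside it
  set C := centralizerIn T Q₀
  have hQS : Q ≤ S := hiso.cod_le
  have hCQ : ¬ C ≤ Q := fun h =>
    hz3 (hmeet.le ⟨h ⟨hz2, hz1.2⟩, hz2⟩)
  have hnC : Q ≤ Subgroup.normalizer (C : Set Ω) := fun x hx => by
    haveI : Finite C := finite_of_le (centralizerIn_le.trans hT.1)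
    have hxT := stronglyClosed_normalizer hT (hQS hx)
    have hx0 : x ∈ Subgroup.normalizer (Q₀ : Set Ω) := by
      rw [← hmeet]
      refine Subgroup.mem_normalizer_iff.mpr fun y => ?_
      simp only [Subgroup.mem_inf]
      exact and_congr ⟨fun hy => Q.mul_mem (Q.mul_mem hx hy) (Q.inv_mem hx), fun hy => by
        simpa [mul_assoc] using Q.mul_mem (Q.mul_mem (Q.inv_mem hx) hy) hx⟩
        (Subgroup.mem_normalizer_iff.mp hxT y)
    refine Subgroup.mem_normalizer_fintype fun y hy => ⟨(cj_mem_iff hxT y).mpr hy.1, fun w hw => ?_⟩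
    have h := hy.2 _ ((cj_mem_iff (inv_mem hx0) w).mpr hw)
    show w * (x * y * x⁻¹) = x * y * x⁻¹ * w
    calc w * (x * y * x⁻¹) = x * (cj x⁻¹ w * y) * x⁻¹ := by simp [cj, mul_assoc]
      _ = x * (y * cj x⁻¹ w) * x⁻¹ := by rw [h]
      _ = x * y * x⁻¹ * w := by simp [cj, mul_assoc]
  have hlt : Q < Q ⊔ C := lt_of_le_of_ne le_sup_left fun e => hCQ (e ▸ le_sup_right)
  have hHS : Q ⊔ C ≤ S := sup_le hQS (centralizerIn_le.trans hT.1)
  haveI := finite_of_le hHS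
  obtain ⟨b, hb, hbQ, hbn⟩ := exists_mem_normalizer_of_lt (hS.to_le hHS) hlt
  rw [← SetLike.mem_coe, Subgroup.coe_mul_of_left_le_normalizer_right Q C hnC] at hb
  obtain ⟨q, hq, c, hc, rfl⟩ := hb
  have hcQ : c ∉ Q := fun h => hbQ (Q.mul_mem hq h)
  have hcn : c ∈ Subgroup.normalizer (Q : Set Ω) := by
    have := Subgroup.mul_mem _ (inv_mem (Subgroup.le_normalizer hq : q ∈ Subgroup.normalizer (Q : Set Ω))) hbn
    rwa [inv_mul_cancel_left] at this
  have hcN : c ∈ normalizerIn S Q := ⟨hT.1 hc.1, hcn⟩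
  haveI := finite_of_le hQS
  haveI := finite_mulAut (G := Q)
  -- the series `1 ≤ Q ⊓ T ≤ Q`
  let D : ℕ → Subgroup Q := fun j => if j = 0 then ⊥ else if j = 1 then T.subgroupOf Q else ⊤
  have hinv : ∀ α ∈ F.autGroup Q, ∀ j ≤ 2, ∀ x ∈ D j, α x ∈ D j := by
    intro α hα j hj x hx
    rcases j with _ | _ | j
    · rw [show D 0 = ⊥ from rfl, Subgroup.mem_bot] at hx ⊢
      rw [hx, map_one]
    · have hm := autGroup_iso hQS hα
      have := stronglyClosed_mem hT hm.mor x.2 (show (x : Ω) ∈ T from hx)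
      rw [extFun_coe] at this
      exact this
    · trivial
  refine ⟨g, Q, hiso, c, hcN, hcQ, seriesStab _ D 2 hinv, seriesStab_normal _ D 2 hinv, ?_, ?_⟩
  · intro α
    obtain ⟨k, hk⟩ := stabilizes_pow_eq_one (hS.to_le hQS) ((α : F.autGroup Q) : MulAut Q) D 2 rfl rfl
      (fun j hj => by
        rcases j with _ | _ | j
        · exact bot_le
        · exact le_top
        · omega) α.2
    exact ⟨k, Subtype.ext (Subtype.ext hk)⟩
  · intro h j hj x hx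
    rcases j with _ | _ | j
    · rw [show D 0 = ⊥ from rfl, Subgroup.mem_bot]
      refine Subtype.ext ?_
      have hx0 : (x : Ω) ∈ Q₀ := hmeet.le ⟨x.2, hx⟩
      show (x : Ω)⁻¹ * ((actHom S Q ⟨c, hcN⟩ x : Q) : Ω) = 1
      rw [actHom_apply]
      show (x : Ω)⁻¹ * (c * x * c⁻¹) = 1
      rw [← hc.2 _ hx0]; group
    · show (x : Ω)⁻¹ * ((actHom S Q ⟨c, hcN⟩ x : Q) : Ω) ∈ T
      rw [actHom_apply]
      show (x : Ω)⁻¹ * (c * x * c⁻¹) ∈ T
      have := T.mul_mem ((cj_mem_iff (inv_mem (stronglyClosed_normalizer hT (hQS x.2))) c).mpr hc.1)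
        (T.inv_mem hc.1)
      simpa [cj, mul_assoc] using this
    · omega

/-- Radicality passes to conjugates. -/
theorem isRadical_conj {f : Ω → Ω} {Q : Subgroup Ω} (h : Iso F f P Q) (hr : F.IsRadical p P) :
    F.IsRadical p Q := by
  refine ⟨h.cod_le, ?_⟩
  let e : F.autGroup P ≃* F.autGroup Q :=
    (h.transport.subgroupMap (F.autGroup P)).trans (MulEquiv.subgroupCongr h.map_autGroup)
  have hI : (Inn P).map h.transport.toMonoidHom = Inn Q := by
    ext β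
    constructor
    · rintro ⟨_, ⟨d, rfl⟩, rfl⟩
      refine ⟨h.equiv d, MulEquiv.ext fun y => ?_⟩
      obtain ⟨x, rfl⟩ := h.equiv.surjective y
      rw [MulEquiv.coe_toMonoidHom, h.transport_apply]
      simp
    · rintro ⟨d, rfl⟩
      refine ⟨_, ⟨h.equiv.symm d, rfl⟩, MulEquiv.ext fun y => ?_⟩
      obtain ⟨x, rfl⟩ := h.equiv.surjective y
      rw [MulEquiv.coe_toMonoidHom, h.transport_apply]
      simp
  rw [← hI, ← hr.2, ← Core.pCore_map_equiv e, Subgroup.map_map, Subgroup.map_map]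
  rfl

/-- The statement about conjugates. -/
theorem meet_not_centric [Finite S] (hS : IsPGroup p S) (hF : F.IsSaturated p)
    (hE : E.IsNormalIn F p) (hP : F.IsCentric P) (hPT : ¬ E.IsCentric (P ⊓ T)) :
    (∃ φ ∈ F.Hom P, ∃ x ∈ S ⊓ Subgroup.normalizer (φ.range : Set Ω), x ∉ φ.range ∧
      ∃ α ∈ ((pCore p ↥(F.autGroup φ.range)).map (F.autGroup φ.range).subtype :
          Subgroup (MulAut ↥φ.range)),
        ∀ y : ↥φ.range, ((α y : ↥φ.range) : Ω) = x * (y : Ω) * x⁻¹) ∧ ¬ F.IsRadical p P := by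
  obtain ⟨⟨-, -, hsub, hT, -⟩, -⟩ := hE
  obtain ⟨f, Q, hf, c, hc, hcQ, K, hKn, hKp, hK⟩ := exists_witness hS hF hsub hT hP hPT
  have hQS := hf.cod_le
  have hmem : actHom S Q ⟨c, hc⟩ ∈ F.autGroup Q :=
    autInducedBy_le_autGroup hQS ((range_actHom S Q).le ⟨_, rfl⟩)
  refine ⟨?_, fun hr => hcQ ?_⟩
  · have hrange : hf.mor.hom.range = Q := by
      ext y
      exact ⟨fun ⟨x, hx⟩ => hx ▸ hf.mapsTo x.2,
        fun hy => by obtain ⟨x, hx, rfl⟩ := hf.surj hy; exact ⟨⟨x, hx⟩, rfl⟩⟩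
    refine ⟨hf.mor.hom, hf.mor.hom_mem, ?_⟩
    rw [hrange]
    exact ⟨c, hc, hcQ, _, ⟨_, Core.le_pCore hKn hKp (hK hmem), rfl⟩, fun y => actHom_apply S Q _ y⟩
  · refine mem_of_mem_normal_pGroup ⟨hQS, fun R hR => hP.2 R (isConj_trans hf.isConj hR)⟩
      (isRadical_conj hf hr) hc K hKn hKp (hK _)

end Cfsg.Agent.Fusion.MeetCentric
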