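import Cfsg.Agent.OddLocal.RankTwo.Metacyclic
import Cfsg.Agent.FGS3.ClassTwo
import Mathlib.GroupTheory.Abelianization.Defs
import Mathlib.Data.ZMod.Basic
import Cfsg.Agent.Transfer.Small

/-!
For odd `p`, a metacyclic `p`-group that is neither cyclic nor homocyclic has an invariant maximal subgroup.
-/

set_option autoImplicit false

namespace Cfsg.Agent.Fusion.MetacyclicLine

open Cfsg Subgroup
open scoped commutatorElement

variable {p : ℕ} [hp : Fact p.Prime]

theorem exists_gens {A : Type*} [Group A] (hm : IsMetacyclic A) :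
    ∃ x y : A, ∀ a : A, ∃ i j : ℤ, a = x ^ i * y ^ j := by
  obtain ⟨N, hNn, hN, hq⟩ := hm
  haveI := hNn; haveI := hN; haveI := hq
  obtain ⟨x, hx⟩ := IsCyclic.exists_generator (α := N)
  obtain ⟨y, hy⟩ := IsCyclic.exists_generator (α := A ⧸ N)
  induction y using QuotientGroup.induction_on with
  | _ y =>
  refine ⟨x, y, fun a => ?_⟩
  obtain ⟨j, hj⟩ := mem_zpowers_iff.mp (hy (QuotientGroup.mk a))
  have h : a * (y ^ j)⁻¹ ∈ N := by
    rw [← QuotientGroup.eq_one_iff, QuotientGroup.mk_mul, QuotientGroup.mk_inv, QuotientGroup.mk_zpow, hj,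
      mul_inv_cancel]
  obtain ⟨i, hi⟩ := mem_zpowers_iff.mp (hx ⟨_, h⟩)
  exact ⟨i, j, by rw [← Subgroup.coe_zpow, hi, inv_mul_cancel_right]⟩

/-- Powers in a two-generator abelian group. -/
theorem pow_range_or_prod {A : Type*} [CommGroup A] [Finite A] (x y : A)
    (hgen : ∀ a : A, ∃ i j : ℤ, a = x ^ i * y ^ j) {e : ℕ} (he : ∀ a : A, a ^ p ^ (e + 1) = 1) :
    Nat.card (powMonoidHom (p ^ e) : A →* A).range ≤ p ∨
      (Nat.card A = p ^ (e + 1) * p ^ (e + 1) ∧
        Nonempty (A ≃* Multiplicative (ZMod (p ^ (e + 1))) × Multiplicative (ZMod (p ^ (e + 1))))) := by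
  set P := p ^ e with hP
  have hor : ∀ z : A, z ^ P = 1 ∨ orderOf z = p ^ (e + 1) := fun z => by
    by_cases h : z ^ P = 1
    · exact Or.inl h
    · exact Or.inr (orderOf_eq_prime_pow h (he z))
  have hord : ∀ z : A, orderOf (z ^ P) ≤ p := fun z => Nat.le_of_dvd hp.out.pos
    (orderOf_dvd_of_pow_eq_one (by rw [← pow_mul, hP, ← pow_succ, he]))
  have hle : ∀ u : A, (∀ a : A, a ^ P ∈ zpowers u) → orderOf u ≤ p →
      Nat.card (powMonoidHom P : A →* A).range ≤ p := fun u hu ho =>
    le_trans (Subgroup.card_le_of_le (show (powMonoidHom P : A →* A).range ≤ zpowers u by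
      rintro _ ⟨a, rfl⟩; exact hu a)) (by rw [Nat.card_zpowers]; exact ho)
  have hzp : ∀ (z : A) (i : ℤ), (z ^ i) ^ P = (z ^ P) ^ i := fun z i => by
    rw [← zpow_natCast, ← zpow_mul, mul_comm, zpow_mul, zpow_natCast]
  rcases hor x with hx | hx
  · refine Or.inl (hle (y ^ P) (fun a => ?_) (hord y))
    obtain ⟨i, j, rfl⟩ := hgen a
    rw [mul_pow, hzp, hzp, hx, one_zpow, one_mul]
    exact zpow_mem (mem_zpowers _) _
  rcases hor y with hy | hy
  · refine Or.inl (hle (x ^ P) (fun a => ?_) (hord x))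
    obtain ⟨i, j, rfl⟩ := hgen a
    rw [mul_pow, hzp, hzp, hy, one_zpow, mul_one]
    exact zpow_mem (mem_zpowers _) _
  let ψ : zpowers x × zpowers y →* A := (zpowers x).subtype.coprod (zpowers y).subtype
  have hψs : Function.Surjective ψ := fun a => by
    obtain ⟨i, j, rfl⟩ := hgen a
    exact ⟨(⟨x ^ i, i, rfl⟩, ⟨y ^ j, j, rfl⟩), rfl⟩
  by_cases hinj : Function.Injective ψ
  · refine Or.inr ⟨?_, ?_⟩
    · rw [← Nat.card_congr (Equiv.ofBijective ψ ⟨hinj, hψs⟩), Nat.card_prod, Nat.card_zpowers, Nat.card_zpowers,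
        hx, hy]
    · haveI : IsCyclic (zpowers x) := Subgroup.isCyclic_zpowers x
      haveI : IsCyclic (zpowers y) := Subgroup.isCyclic_zpowers y
      exact ⟨(MulEquiv.ofBijective ψ ⟨hinj, hψs⟩).symm.trans (MulEquiv.prodCongr
        (mulEquivOfCyclicCardEq (by simp [Nat.card_zpowers, hx]))
        (mulEquivOfCyclicCardEq (by simp [Nat.card_zpowers, hy])))⟩
  left
  -- an element of order `p` in both cyclic subgroups
  obtain ⟨w, hw, hw1⟩ : ∃ w ∈ ψ.ker, w ≠ 1 := by
    by_contra h
    exact hinj ((MonoidHom.ker_eq_bot_iff ψ).mp (eq_bot_iff.mpr fun w hw => by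
      by_contra hw1; exact h ⟨w, hw, hw1⟩))
  obtain ⟨u, hu1, hu2, hu⟩ : ∃ u : A, u ∈ zpowers x ∧ u ∈ zpowers y ∧ u ≠ 1 := by
    have h1 : (w.1 : A) * w.2 = 1 := hw
    refine ⟨w.1, w.1.2, ?_, fun h => hw1 (Prod.ext (Subtype.ext h) (Subtype.ext ?_))⟩
    · rw [eq_inv_of_mul_eq_one_left h1]; exact inv_mem w.2.2
    · rwa [h, one_mul] at h1
  obtain ⟨l, hl⟩ : ∃ l, orderOf u = p ^ (l + 1) := by
    obtain ⟨l, -, hl⟩ := (Nat.dvd_prime_pow hp.out).mp (orderOf_dvd_of_pow_eq_one (he u))
    rcases l with _ | l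
    · exact absurd (orderOf_eq_one_iff.mp (by simpa using hl)) hu
    · exact ⟨l, hl⟩
  set v := u ^ p ^ l with hv
  have hvo : orderOf v = p := by
    rw [hv, orderOf_pow_of_dvd (pow_ne_zero _ hp.out.ne_zero) (by rw [hl, pow_succ]; exact dvd_mul_right _ _), hl,
      pow_succ, Nat.mul_div_cancel_left _ (pow_pos hp.out.pos _)]
  have hsame : ∀ z : A, orderOf z = p ^ (e + 1) → u ∈ zpowers z → zpowers (z ^ P) = zpowers v := by
    intro z hz huz
    have hzo : orderOf (z ^ P) = p := by
      rw [orderOf_pow_of_dvd (pow_ne_zero _ hp.out.ne_zero) (by rw [hz, pow_succ]; exact dvd_mul_right _ _), hz]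
      show p ^ (e + 1) / p ^ e = p
      rw [pow_succ, Nat.mul_div_cancel_left _ (pow_pos hp.out.pos _)]
    have hvm : v ∈ zpowers (z ^ P) := by
      obtain ⟨i, hi⟩ := mem_zpowers_iff.mp (pow_mem huz (p ^ l))
      have h1 : z ^ (i * (p : ℤ)) = 1 := by
        rw [zpow_mul, hi, zpow_natCast, ← hv, ← hvo, pow_orderOf_eq_one]
      rw [← orderOf_dvd_iff_zpow_eq_one, hz, pow_succ] at h1
      push_cast at h1
      obtain ⟨j, hj⟩ := Int.dvd_of_mul_dvd_mul_right (Nat.cast_ne_zero.mpr hp.out.ne_zero) h1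
      refine mem_zpowers_iff.mpr ⟨j, ?_⟩
      rw [hv, ← hi, hj, hP, zpow_mul, ← zpow_natCast z (p ^ e)]
      push_cast
      rfl
    refine (eq_of_le_of_card_ge (zpowers_le.mpr hvm) ?_).symm
    rw [Nat.card_zpowers, Nat.card_zpowers, hzo, hvo]
  refine hle v (fun a => ?_) hvo.le
  obtain ⟨i, j, rfl⟩ := hgen a
  rw [mul_pow, hzp, hzp]
  exact mul_mem (zpow_mem ((hsame x hx hu1).le (mem_zpowers _)) _) (zpow_mem ((hsame y hy hu2).le (mem_zpowers _)) _)

/-- An invariant subgroup of index `p`. -/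
theorem exists_line {G : Type*} [Group G] [Finite G] (hG : IsPGroup p G) (hp2 : p ≠ 2) (hm : IsMetacyclic G)
    (hnc : ¬ IsCyclic G)
    (hh : ¬ ∃ n : ℕ, 0 < n ∧ Nonempty (G ≃* Multiplicative (ZMod (p ^ n)) × Multiplicative (ZMod (p ^ n)))) :
    ∃ L : Subgroup G, L.index = p ∧ ∀ α : MulAut G, ∀ x ∈ L, α x ∈ L := by
  classical
  haveI : Nontrivial G := by
    by_contra h
    rw [not_nontrivial_iff_subsingleton] at h
    exact hnc inferInstance
  haveI : Group.IsNilpotent G := hG.isNilpotent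
  haveI : Finite (Abelianization G) := inferInstanceAs (Finite (G ⧸ commutator G))
  have hA : IsPGroup p (Abelianization G) := hG.of_surjective Abelianization.of
    (QuotientGroup.mk'_surjective (commutator G))
  haveI : Nontrivial (Abelianization G) := by
    refine QuotientGroup.nontrivial_iff.mpr ?_
    exact (IsSolvable.commutator_lt_top_of_nontrivial G).ne
  obtain ⟨c, hc⟩ := IsPGroup.iff_card.mp hA
  have hex : ∃ e, ∀ a : Abelianization G, a ^ p ^ e = 1 :=
    ⟨c, fun a => by rw [← hc]; exact pow_card_eq_one'⟩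
  obtain ⟨e, he⟩ : ∃ e, Nat.find hex = e + 1 := by
    refine ⟨Nat.find hex - 1, (Nat.succ_pred_eq_of_pos (Nat.pos_of_ne_zero fun h => ?_)).symm⟩
    obtain ⟨a, ha⟩ := exists_ne (1 : Abelianization G)
    have := Nat.find_spec hex a
    rw [h, pow_zero, pow_one] at this
    exact ha this
  have hexp : ∀ a : Abelianization G, a ^ p ^ (e + 1) = 1 := he ▸ Nat.find_spec hex
  obtain ⟨a₀, ha₀⟩ : ∃ a : Abelianization G, a ^ p ^ e ≠ 1 :=
    not_forall.mp (Nat.find_min hex (by omega : e < Nat.find hex))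
  obtain ⟨x, y, hgen⟩ := exists_gens (show IsMetacyclic (Abelianization G) from
    OddLocal.RankTwo.metacyclic_quotient hm (commutator G))
  rcases pow_range_or_prod x y hgen hexp with hcard | ⟨hcardA, ⟨φ⟩⟩
  · set f : G →* Abelianization G := (powMonoidHom (p ^ e)).comp Abelianization.of with hf
    refine ⟨f.ker, ?_, fun α z hz => ?_⟩
    · have htop : (Abelianization.of (G := G)).range = ⊤ :=
        MonoidHom.range_eq_top.mpr (QuotientGroup.mk'_surjective (commutator G))
      rw [index_ker, hf, MonoidHom.range_comp, htop, ← MonoidHom.range_eq_map]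
      obtain ⟨k, -, hk⟩ := (Nat.dvd_prime_pow hp.out).mp (hc ▸ Subgroup.card_subgroup_dvd_card
        (powMonoidHom (p ^ e) : Abelianization G →* Abelianization G).range)
      rw [hk] at hcard ⊢
      rcases k with _ | _ | k
      · exfalso
        rw [pow_zero, Subgroup.card_eq_one] at hk
        exact ha₀ (by
          have : a₀ ^ p ^ e ∈ (powMonoidHom (p ^ e) : Abelianization G →* Abelianization G).range := ⟨a₀, rfl⟩
          rwa [hk, mem_bot] at this)
      · exact pow_one p
      · exfalso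
        have : p ^ 1 < p ^ (k + 2) := Nat.pow_lt_pow_right hp.out.one_lt (by omega)
        rw [pow_one] at this
        exact absurd (this.trans_le hcard) (lt_irrefl p)
    · show Abelianization.of (α z) ^ p ^ e = 1
      rw [← map_pow, ← map_pow]
      refine (QuotientGroup.eq_one_iff _).mpr ((Subgroup.characteristic_iff_map_eq.mp
        (inferInstance : (commutator G).Characteristic) α).le ⟨z ^ p ^ e, ?_, rfl⟩)
      refine (QuotientGroup.eq_one_iff _).mp ?_
      show Abelianization.of (z ^ p ^ e) = 1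
      rw [map_pow]; exact hz
  -- the abelianization is homocyclic
  set q := p ^ (e + 1) with hq
  obtain ⟨N, hNn, hN, hNq⟩ := hm
  haveI := hNn; haveI := hN; haveI := hNq
  have hcN : commutator G ≤ N := by
    rw [commutator_eq_closure, closure_le]
    rintro _ ⟨a, b, rfl⟩
    rw [SetLike.mem_coe, ← QuotientGroup.eq_one_iff]
    show QuotientGroup.mk' N ⁅a, b⁆ = 1
    rw [map_commutatorElement, commutatorElement_eq_one_iff_mul_comm]
    exact (IsCyclic.commGroup (α := G ⧸ N)).mul_comm _ _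
  have hcne : commutator G ≠ ⊥ := fun h => hh ⟨e + 1, e.succ_pos,
    ⟨(MulEquiv.ofBijective (Abelianization.of (G := G))
      ⟨(MonoidHom.ker_eq_bot_iff _).mp (by rw [show (Abelianization.of (G := G)).ker = commutator G from
          QuotientGroup.ker_mk' _, h]), QuotientGroup.mk'_surjective _⟩).trans φ⟩⟩
  haveI hcc : IsCyclic (commutator G) :=
    isCyclic_of_injective (Subgroup.inclusion hcN) (Subgroup.inclusion_injective hcN)
  obtain ⟨z, hz⟩ := IsCyclic.exists_generator (α := commutator G)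
  set W : Subgroup G := zpowers ((z : G) ^ p) with hWdef
  have hzW : (z : G) ∉ W := by
    intro h
    obtain ⟨i, hi⟩ := mem_zpowers_iff.mp h
    obtain ⟨k, hk⟩ := IsPGroup.iff_orderOf.mp hG (z : G)
    rcases k with _ | k
    · rw [pow_zero, orderOf_eq_one_iff] at hk
      refine hcne (eq_bot_iff.mpr fun c hc' => ?_)
      obtain ⟨j, hj⟩ := mem_zpowers_iff.mp (hz ⟨c, hc'⟩)
      rw [mem_bot, show c = ((z ^ j : commutator G) : G) from congrArg Subtype.val hj.symm, Subgroup.coe_zpow,
        hk, one_zpow]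
    have h2 : (z : G) ^ ((p : ℤ) * i - 1) = 1 := by
      rw [zpow_sub_one, zpow_mul, zpow_natCast, hi, mul_inv_cancel]
    rw [← orderOf_dvd_iff_zpow_eq_one, hk, pow_succ] at h2
    push_cast at h2
    have h3 : (p : ℤ) ∣ 1 :=
      (dvd_sub_right (dvd_mul_right (p : ℤ) i)).mp ((dvd_mul_left _ _).trans h2)
    exact hp.out.ne_one (Nat.eq_one_of_dvd_one (Int.natCast_dvd_natCast.mp (by exact_mod_cast h3)))
  have hWinv : ∀ α : MulAut G, ∀ w ∈ W, α w ∈ W := by
    intro α w hw
    obtain ⟨i, rfl⟩ := mem_zpowers_iff.mp hw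
    rw [map_zpow, map_pow]
    obtain ⟨j, hj⟩ := mem_zpowers_iff.mp (hz ⟨α z, (Subgroup.characteristic_iff_map_eq.mp
      (inferInstance : (commutator G).Characteristic) α).le ⟨z, z.2, rfl⟩⟩)
    rw [show α (z : G) = (z : G) ^ j by rw [← Subgroup.coe_zpow, hj], ← zpow_natCast, ← zpow_mul, ← zpow_mul]
    exact mem_zpowers_iff.mpr ⟨j * i, by rw [← zpow_natCast, ← zpow_mul]; ring_nf⟩
  haveI : W.Normal := ⟨fun w hw g => hWinv (MulAut.conj g) w hw⟩
  let π := QuotientGroup.mk' W
  have hzp : π z ^ p = 1 := by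
    rw [← map_pow]; exact (QuotientGroup.eq_one_iff _).mpr (mem_zpowers _)
  have hzo : orderOf (π z) = p :=
    orderOf_eq_prime hzp fun h => hzW ((QuotientGroup.eq_one_iff _).mp h)
  have hcommQ : commutator (G ⧸ W) = zpowers (π z) := by
    rw [← show (commutator G).map π = commutator (G ⧸ W) by
      rw [_root_.commutator_def, _root_.commutator_def, map_commutator, ← MonoidHom.range_eq_map,
        MonoidHom.range_eq_top.mpr (QuotientGroup.mk'_surjective W)]]
    rw [← MonoidHom.map_zpowers]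
    congr 1
    refine le_antisymm (fun c hc' => ?_) (zpowers_le.mpr z.2)
    obtain ⟨j, hj⟩ := mem_zpowers_iff.mp (hz ⟨c, hc'⟩)
    exact mem_zpowers_iff.mpr ⟨j, by rw [← Subgroup.coe_zpow, hj]⟩
  have hQp : IsPGroup p (G ⧸ W) := hG.to_quotient W
  have hcard1 : Nat.card (commutator (G ⧸ W)) = p := by rw [hcommQ, Nat.card_zpowers, hzo]
  have hcent : commutator (G ⧸ W) ≤ center (G ⧸ W) := by
    exact Transfer.le_center_of_card_eq_prime hQp _ hcard1
  have hqodd : Odd q := (hp.out.odd_of_ne_two hp2).pow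
  have hpq : p ∣ q := dvd_pow_self p (Nat.succ_ne_zero e)
  let f : G ⧸ W →* G ⧸ W := MonoidHom.mk' (fun a => a ^ q) fun a b =>
    FGS3.mul_pow_of_center_odd hcent a b hqodd (by
      have h1 : ⁅b, a⁆ ∈ zpowers (π z) := hcommQ ▸ commutator_mem_commutator (mem_top b) (mem_top a)
      obtain ⟨i, hi⟩ := mem_zpowers_iff.mp h1
      obtain ⟨k, hk⟩ := hpq
      rw [hk, ← hi, ← zpow_natCast, ← zpow_mul, mul_comm, zpow_mul, zpow_natCast, pow_mul, hzp, one_pow, one_zpow])
  have hcA : Nat.card (G ⧸ W) = p * (q * q) := by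
    rw [← (commutator (G ⧸ W)).card_mul_index, hcard1, ← show (commutator G).map π = commutator (G ⧸ W) by
      rw [_root_.commutator_def, _root_.commutator_def, map_commutator, ← MonoidHom.range_eq_map,
        MonoidHom.range_eq_top.mpr (QuotientGroup.mk'_surjective W)],
      index_map_eq _ (QuotientGroup.mk'_surjective W) (by
        rw [QuotientGroup.ker_mk']; exact zpowers_le.mpr (pow_mem z.2 p)), ← hcardA]
    rfl
  obtain ⟨g, hg⟩ : ∃ g, f g ≠ 1 := by
    by_contra hall
    push_neg at hall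
    obtain ⟨M, hMn, hM, hMq⟩ := OddLocal.RankTwo.metacyclic_quotient ⟨N, hNn, hN, hNq⟩ W
    haveI := hMn; haveI := hM; haveI := hMq
    have h1 : Nat.card M ≤ q := by
      obtain ⟨u, hu⟩ := IsCyclic.exists_generator (α := M)
      rw [← orderOf_eq_card_of_forall_mem_zpowers hu]
      exact Nat.le_of_dvd (pow_pos hp.out.pos _) (orderOf_dvd_of_pow_eq_one (Subtype.ext (hall u)))
    have h2 : M.index ≤ q := by
      obtain ⟨u, hu⟩ := IsCyclic.exists_generator (α := (G ⧸ W) ⧸ M)
      rw [index, ← orderOf_eq_card_of_forall_mem_zpowers hu]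
      refine Nat.le_of_dvd (pow_pos hp.out.pos _) (orderOf_dvd_of_pow_eq_one ?_)
      induction u using QuotientGroup.induction_on with
      | _ u => rw [← QuotientGroup.mk_pow, show u ^ q = 1 from hall u]; rfl
    have h3 := Nat.mul_le_mul h1 h2
    rw [M.card_mul_index, hcA] at h3
    have h4 : 0 < q * q := Nat.mul_pos (pow_pos hp.out.pos _) (pow_pos hp.out.pos _)
    have h5 := Nat.mul_le_mul_right (q * q) hp.out.two_le
    omega
  have hran : f.range ≤ commutator (G ⧸ W) := by
    rintro _ ⟨a, rfl⟩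
    induction a using QuotientGroup.induction_on with
    | _ a =>
      show π a ^ q ∈ _
      rw [← map_pow, ← show (commutator G).map π = commutator (G ⧸ W) by
        rw [_root_.commutator_def, _root_.commutator_def, map_commutator, ← MonoidHom.range_eq_map,
          MonoidHom.range_eq_top.mpr (QuotientGroup.mk'_surjective W)]]
      refine ⟨a ^ q, (QuotientGroup.eq_one_iff _).mp ?_, rfl⟩
      show Abelianization.of (a ^ q) = 1
      rw [map_pow]; exact hexp _
  have hranp : Nat.card f.range = p := by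
    haveI : Fact ((Nat.card (commutator (G ⧸ W))).Prime) := ⟨hcard1.symm ▸ hp.out⟩
    rcases Subgroup.eq_bot_or_eq_top_of_prime_card (f.range.subgroupOf (commutator (G ⧸ W))) with h | h
    · exfalso
      have h1 : (⟨f g, hran ⟨g, rfl⟩⟩ : commutator (G ⧸ W)) ∈ f.range.subgroupOf (commutator (G ⧸ W)) := ⟨g, rfl⟩
      rw [h, mem_bot] at h1
      exact hg (congrArg Subtype.val h1)
    · rw [le_antisymm hran (subgroupOf_eq_top.mp h), hcard1]
  refine ⟨(f.comp π).ker, ?_, fun α a ha => ?_⟩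
  · rw [index_ker, MonoidHom.range_comp, MonoidHom.range_eq_top.mpr (QuotientGroup.mk'_surjective W),
      ← MonoidHom.range_eq_map, hranp]
  · show π (α a) ^ q = 1
    rw [← map_pow, ← map_pow]
    refine (QuotientGroup.eq_one_iff _).mpr (hWinv α _ ?_)
    refine (QuotientGroup.eq_one_iff _).mp ?_
    show π (a ^ q) = 1
    rw [map_pow]; exact ha

end Cfsg.Agent.Fusion.MetacyclicLine
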