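/-
A subgroup of a normal subgroup that is normal in its fusion system modulo central elements, and
strongly closed in the whole group, is normal in the system of the whole group.
-/
import Cfsg.Agent.Fusion.Normal
import Cfsg.Agent.Fusion.Group
import Cfsg.Agent.Core.Cores
set_option autoImplicit false
set_option linter.style.haveILetI false

namespace Cfsg.Agent.Fusion

open Cfsg Cfsg.FusionSystem
open scoped Pointwise

theorem mulAut_pow_of_fixed {U : Type*} [Group U] {α : MulAut U} {v d : U} (hd : α d = d)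
    (hv : α v = v * d) : ∀ n : ℕ, (α ^ n) v = v * d ^ n
  | 0 => by simp
  | n + 1 => by
    rw [pow_succ', MulAut.mul_apply, mulAut_pow_of_fixed hd hv n, map_mul, map_pow, hd, hv, mul_assoc,
      ← pow_succ']

theorem isNormal_of_local {G : Type*} [Group G] [Finite G] {p : ℕ} [Fact p.Prime] (T : Sylow p G)
    {R : Subgroup G} (hR : (groupFusionSystem (T : Subgroup G)).StronglyClosed R)
    (C : Subgroup G) [hC : C.Normal] (hRC : R ≤ C) {K : Type*} [Group K] (π : G →* K)
    (hker : ∀ z ∈ C, π z = 1 → ∀ g ∈ C, g * z = z * g)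
    (hext : ∀ U : Subgroup G, U ≤ (T : Subgroup G) → ∀ y ∈ C, y ∈ Subgroup.normalizer (U : Set G) →
      ∃ c ∈ C, (∀ u ∈ U, u ∈ C → π (c * u * c⁻¹) = π (y * u * y⁻¹)) ∧
        ∀ r ∈ R, ∃ r' ∈ R, π r' = π (c * r * c⁻¹)) :
    (groupFusionSystem (T : Subgroup G)).IsNormal R := by
  classical
  set F := groupFusionSystem (T : Subgroup G)
  have hI := groupFusion_inducedBy (T : Subgroup G)
  have hS := T.isPGroup'
  refine (isNormal_iff_centricRadical hS (groupFusion_saturated T)).mpr ⟨hR, fun U hUc hUr => ?_⟩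
  by_contra hle
  have hUS := hUc.1
  have hlt : U < R ⊔ U := lt_of_le_of_ne le_sup_right fun e => hle (e.symm ▸ le_sup_left)
  haveI : Finite ↥(R ⊔ U) := Subtype.finite
  haveI : Finite ↥U := Subtype.finite
  obtain ⟨a, haT, haU, han⟩ := exists_mem_normalizer_of_lt (hS.to_le (sup_le hR.1 hUS)) hlt
  obtain ⟨r, hr, u₀, hu₀, rfl⟩ : a ∈ (R : Set G) * (U : Set G) := by
    have h := Subgroup.coe_mul_of_left_le_normalizer_right U R
      (hUS.trans (stronglyClosed_normalizer hR))
    rw [sup_comm] at haT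
    have h' : a ∈ ((U ⊔ R : Subgroup G) : Set G) := haT
    rw [h] at h'
    obtain ⟨u, hu, r, hr, rfl⟩ := h'
    exact ⟨u * r * u⁻¹, (Subgroup.mem_normalizer_iff.mp (stronglyClosed_normalizer hR (hUS hu)) r).mp hr,
      u, hu, by simp [mul_assoc]⟩
  have hrn : r ∈ Subgroup.normalizer (U : Set G) := by
    have := Subgroup.mul_mem _ han (Subgroup.inv_mem _ (Subgroup.le_normalizer hu₀))
    rwa [mul_inv_cancel_right] at this
  have hrU : r ∉ U := fun h => haU (U.mul_mem h hu₀)
  have hle' : F.autGroup U = autInducedBy ⊤ U := hI.autGroup_eq hUS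
  set A := (autInducedBy C U).subgroupOf (F.autGroup U) with hA
  let V : Subgroup (F.autGroup U) :=
    { carrier := {α | (α : MulAut U) ∈ autInducedBy C U ∧ ∃ s ∈ R, ∀ u : U, (u : G) ∈ C →
        π (((α : MulAut U) u : U) : G) = π (s * u * s⁻¹)}
      one_mem' := ⟨(autInducedBy C U).one_mem, 1, R.one_mem, fun u _ => by simp⟩
      mul_mem' := by
        rintro α β ⟨hα, s, hs, es⟩ ⟨hβ, t, ht, et⟩
        refine ⟨(autInducedBy C U).mul_mem hα hβ, s * t, R.mul_mem hs ht, fun u hu => ?_⟩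
        have hβu : ((((β : MulAut U) u : U)) : G) ∈ C := by
          obtain ⟨g, -, -, eg⟩ := mem_autInducedBy.mp hβ
          rw [eg]; exact hC.conj_mem _ hu g
        rw [Subgroup.coe_mul, MulAut.mul_apply, es _ hβu, map_mul, map_mul, et u hu]
        simp only [map_mul, map_inv, mul_assoc, mul_inv_rev]
      inv_mem' := by
        rintro α ⟨hα, s, hs, es⟩
        refine ⟨(autInducedBy C U).inv_mem hα, s⁻¹, R.inv_mem hs, fun u hu => ?_⟩
        have hiu : ((((α : MulAut U)⁻¹) u : U) : G) ∈ C := by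
          obtain ⟨g, -, -, eg⟩ := mem_autInducedBy.mp ((autInducedBy C U).inv_mem hα)
          rw [eg]; exact hC.conj_mem _ hu g
        have h := es _ hiu
        rw [MulAut.apply_inv_self] at h
        rw [Subgroup.coe_inv, inv_inv]
        simp only [map_mul, map_inv] at h ⊢
        rw [h]
        simp [mul_assoc] }
  have hAn : A.Normal := by
    refine ⟨fun α hα β => ?_⟩
    obtain ⟨x, hx, hxn, ex⟩ := mem_autInducedBy.mp (show (α : MulAut U) ∈ autInducedBy C U from hα)
    obtain ⟨y, -, hyn, ey⟩ := mem_autInducedBy.mp (hle'.le β.2)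
    refine mem_autInducedBy.mpr ⟨y * x * y⁻¹, hC.conj_mem x hx y,
      Subgroup.mul_mem _ (Subgroup.mul_mem _ hyn hxn) (Subgroup.inv_mem _ hyn), fun u => ?_⟩
    have hinv : ((((β : MulAut U)⁻¹) u : U) : G) = y⁻¹ * u * y := by
      have h := ey ((β : MulAut U)⁻¹ u)
      rw [MulAut.apply_inv_self, cj_apply] at h
      rw [h]; group
    show ((((β : MulAut U) * (α : MulAut U) * (β : MulAut U)⁻¹) u : U) : G) = _
    rw [MulAut.mul_apply, MulAut.mul_apply, ey, cj_apply, ex, cj_apply, hinv, cj_apply]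
    group
  have hVA : V ≤ A := fun α hα => hα.1
  have hVn : (V.subgroupOf A).Normal := by
    refine ⟨fun α hα β => ?_⟩
    obtain ⟨-, s, hs, es⟩ := (show (α : F.autGroup U) ∈ V from hα)
    obtain ⟨y, hyC, hyn, ey⟩ := mem_autInducedBy.mp
      (show ((β : F.autGroup U) : MulAut U) ∈ autInducedBy C U from β.2)
    obtain ⟨c, hc, ec, mc⟩ := hext U hUS y hyC hyn
    obtain ⟨s', hs', es'⟩ := mc s hs
    refine ⟨(β * α * β⁻¹ : A).2, s', hs', fun u hu => ?_⟩
    set w : U := ((β : F.autGroup U) : MulAut U)⁻¹ u with hw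
    have ew : (u : G) = y * w * y⁻¹ := by
      rw [← cj_apply, ← ey, hw, MulAut.apply_inv_self]
    have hwC : (w : G) ∈ C := by
      have h1 : (w : G) = y⁻¹ * u * y := by rw [ew]; group
      rw [h1]
      exact C.mul_mem (C.mul_mem (C.inv_mem hyC) hu) hyC
    set z : U := ((α : F.autGroup U) : MulAut U) w with hz
    have hzC : (z : G) ∈ C := by
      obtain ⟨g, -, -, eg⟩ := mem_autInducedBy.mp
        (show ((α : F.autGroup U) : MulAut U) ∈ autInducedBy C U from α.2)
      rw [hz, eg]; exact hC.conj_mem _ hwC g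
    show π ((((β : F.autGroup U) : MulAut U) z : U) : G) = _
    rw [ey z, cj_apply, ← ec z z.2 hzC]
    simp only [map_mul, map_inv, es', hz, es w hwC]
    have h2 := ec w w.2 hwC
    rw [← ew] at h2
    simp only [map_mul, map_inv] at h2
    rw [← h2]
    group
  have hVp : IsPGroup p V := by
    rintro ⟨α, hαA, s, hs, es⟩
    obtain ⟨k, hk⟩ := hS ⟨s, hR.1 hs⟩
    have hk' : s ^ p ^ k = 1 := congrArg Subtype.val hk
    obtain ⟨m, hm⟩ := IsPGroup.iff_card.mp (hS.to_le hUS)
    have hpw : ∀ (n : ℕ) (u : U), (u : G) ∈ C →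
        ((((α : MulAut U) ^ n) u : U) : G) ∈ C ∧
        π ((((α : MulAut U) ^ n) u : U) : G) = π (s ^ n * u * (s ^ n)⁻¹) := by
      intro n
      induction n with
      | zero => intro u hu; simpa using hu
      | succ n ih =>
        intro u hu
        obtain ⟨h1, h2⟩ := ih u hu
        rw [pow_succ', MulAut.mul_apply]
        refine ⟨?_, ?_⟩
        · obtain ⟨g, -, -, eg⟩ := mem_autInducedBy.mp hαA
          rw [eg]; exact hC.conj_mem _ h1 g
        · rw [es _ h1, map_mul, map_mul, h2]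
          simp only [map_mul, map_inv, pow_succ', mul_assoc, mul_inv_rev]
    set α₁ : MulAut U := (α : MulAut U) ^ p ^ k with hα₁
    have hfix₁ : ∀ u : U, (u : G) ∈ C → (α₁ ^ p ^ m) u = u := by
      intro u hu
      set d : U := u⁻¹ * α₁ u with hd
      have hdC : (d : G) ∈ C := C.mul_mem (C.inv_mem hu) (hpw _ u hu).1
      have hπd : π (d : G) = 1 := by
        rw [hd, Subgroup.coe_mul, Subgroup.coe_inv, map_mul, map_inv, (hpw _ u hu).2, hk']
        simp
      have hαd : α₁ d = d := by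
        obtain ⟨g, hg, -, eg⟩ := mem_autInducedBy.mp ((autInducedBy C U).pow_mem hαA (p ^ k))
        exact Subtype.ext (by rw [eg, cj_apply, hker _ hdC hπd g hg, mul_inv_cancel_right])
      rw [mulAut_pow_of_fixed hαd (by rw [hd, mul_inv_cancel_left]) (p ^ m),
        show d ^ p ^ m = 1 from hm ▸ pow_card_eq_one', mul_one]
    refine ⟨k + m + m, Subtype.ext (Subtype.ext ?_)⟩
    show (α : MulAut U) ^ p ^ (k + m + m) = 1
    set α₂ : MulAut U := α₁ ^ p ^ m with hα₂
    refine MulEquiv.ext fun v => ?_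
    have hpow : (α : MulAut U) ^ p ^ (k + m + m) = α₂ ^ p ^ m := by
      rw [hα₂, hα₁, ← pow_mul, ← pow_mul, ← pow_add, ← pow_add, add_assoc]
    set d : U := v⁻¹ * α₂ v with hd
    have hdC : (d : G) ∈ C := by
      obtain ⟨g, hg, -, eg⟩ := mem_autInducedBy.mp
        ((autInducedBy C U).pow_mem ((autInducedBy C U).pow_mem hαA (p ^ k)) (p ^ m))
      rw [hd, Subgroup.coe_mul, Subgroup.coe_inv, eg, cj_apply,
        show (v : G)⁻¹ * (g * v * g⁻¹) = ((v : G)⁻¹ * g * v) * g⁻¹ by group]
      refine C.mul_mem ?_ (C.inv_mem hg)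
      simpa using hC.conj_mem g hg (v : G)⁻¹
    rw [hpow, mulAut_pow_of_fixed (hfix₁ d hdC) (by rw [hd, mul_inv_cancel_left]) (p ^ m),
      show d ^ p ^ m = 1 from hm ▸ pow_card_eq_one', mul_one]
    rfl
  haveI := finite_mulAut (G := U)
  have hsn : V.IsSubnormal := Subgroup.IsSubnormal.step V A hVA hAn.isSubnormal hVn
  have hVcore := Core.le_pCore_of_isSubnormal hsn hVp
  have hmem : actHom (T : Subgroup G) U ⟨r, hR.1 hr, hrn⟩ ∈ F.autGroup U := by
    rw [hle']
    exact mem_autInducedBy.mpr ⟨r, trivial, hrn, fun x => actHom_apply _ U _ x⟩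
  refine hrU (mem_of_mem_normal_pGroup hUc hUr ⟨hR.1 hr, hrn⟩ (pCore p (F.autGroup U))
    inferInstance (Core.isPGroup_pCore p _) (hVcore (x := ⟨_, hmem⟩) ⟨?_, r, hr, fun u _ => ?_⟩))
  · exact mem_autInducedBy.mpr ⟨r, hRC hr, hrn, fun x => actHom_apply _ U _ x⟩
  · exact congrArg π (actHom_apply _ U _ u)

end Cfsg.Agent.Fusion
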