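import Cfsg.Agent.Fusion.SupersolSystem
import Cfsg.Agent.Fusion.Transport
import Cfsg.Agent.Fusion.GL2Shapes
import Cfsg.Agent.Fusion.QuatDihedral
import Cfsg.Agent.Linear.SylowSL2
import Cfsg.Agent.Linear.PSL2FourCyclic
import Cfsg.Agent.TwoGroups.TwoExtIso
import Mathlib.NumberTheory.LSeries.PrimesInAP

/-!
Dihedral, semidihedral and generalized quaternion groups carry systems that are not supersoluble.
-/

set_option autoImplicit false

namespace Cfsg.Agent.Fusion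

open Cfsg Cfsg.FusionSystem Matrix

section Model

variable {Ω : Type*} [Group Ω] {S : Subgroup Ω} {G : Type*} [Group G]

/-- The system on `S` pulled back along an embedding of `S`. -/
def pullSystem (ι : S →* G) (hι : Function.Injective ι) : FusionSystem S where
  Hom P := {φ | ∃ (hP : P ≤ S) (hφ : ∀ x : P, φ x ∈ S), ∃ g : G,
    ∀ x : P, ι ⟨φ x, hφ x⟩ = g * ι ⟨x, hP x.2⟩ * g⁻¹}
  le_of_mem := fun ⟨hP, hφ, _⟩ => ⟨hP, hφ⟩
  injective_of_mem := fun ⟨hP, hφ, g, e⟩ x y h => by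
    have h1 : ι ⟨_, hφ x⟩ = ι ⟨_, hφ y⟩ := congrArg ι (Subtype.ext h)
    rw [e, e, mul_right_cancel_iff, mul_left_cancel_iff] at h1
    exact Subtype.ext (congrArg Subtype.val (hι h1) :)
  conj_mem := fun {P} {g} hP hg => ⟨hP, fun x => S.mul_mem (S.mul_mem hg (hP x.2)) (S.inv_mem hg), ι ⟨g, hg⟩,
    fun x => by
      rw [← map_inv, ← map_mul, ← map_mul]
      rfl⟩
  comp_mem := fun {P Q φ ψ} ⟨hP, hφ, g, e⟩ ⟨hQ, hψ, g', e'⟩ h => ⟨hP, fun x => hψ ⟨φ x, h x⟩, g' * g,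
    fun x => (e' ⟨φ x, h x⟩).trans (by rw [e x]; group)⟩
  inv_mem := fun {P φ} ⟨hP, hφ, g, e⟩ => by
    have hr : φ.range ≤ S := by rintro _ ⟨x, rfl⟩; exact hφ x
    have hinj : Function.Injective φ := fun x y h => by
      have h1 : ι ⟨_, hφ x⟩ = ι ⟨_, hφ y⟩ := congrArg ι (Subtype.ext h)
      rw [e, e, mul_right_cancel_iff, mul_left_cancel_iff] at h1
      exact Subtype.ext (congrArg Subtype.val (hι h1) :)
    let ψ : φ.range →* Ω := P.subtype.comp (MonoidHom.ofInjective hinj).symm.toMonoidHom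
    have hψ : ∀ x : P, ψ ⟨φ x, x, rfl⟩ = x := fun x =>
      congrArg Subtype.val ((MonoidHom.ofInjective hinj).symm_apply_apply x)
    refine ⟨ψ, ⟨hr, fun y => ?_, g⁻¹, fun y => ?_⟩, hψ⟩
    · obtain ⟨_, x, rfl⟩ := y
      rw [hψ]; exact hP x.2
    · obtain ⟨_, x, rfl⟩ := y
      rw [show ι ⟨φ x, _⟩ = ι ⟨φ x, hφ x⟩ from rfl, e x]
      simp only [hψ]
      group

theorem pullSystem_realized (ι : S →* G) (hι : Function.Injective ι) : (pullSystem ι hι).IsRealizedBy ι :=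
  ⟨hι, fun _ hP _ hφ => ⟨fun ⟨_, _, h⟩ => h, fun h => ⟨hP, hφ, h⟩⟩⟩

/-- A finite group with a `2`-subgroup having an automorphism of order three forbids supersolubility. -/
theorem exists_not_chain [Finite S] [Finite G] (hS : IsPGroup 2 S) (T : Sylow 2 G)
    (e : S ≃* (T : Subgroup G)) (R : Subgroup G) (hR : IsPGroup 2 R) (g : G) (hg : g ^ 3 = 1)
    (hn : ∀ x ∈ R, g * x * g⁻¹ ∈ R) {x₀ : G} (hx₀ : x₀ ∈ R) (hne : g * x₀ * g⁻¹ ≠ x₀) :
    ∃ F : FusionSystem S, F.IsSaturated 2 ∧ ¬ HasCyclicChain F := by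
  haveI := Fact.mk Nat.prime_two
  obtain ⟨T₁, hT₁⟩ := hR.exists_le_sylow
  obtain ⟨c, hc⟩ := MulAction.exists_smul_eq G T₁ T
  have hconj : ∀ x ∈ R, c * x * c⁻¹ ∈ (T : Subgroup G) := fun x hx => by
    rw [← hc]
    exact ⟨x, hT₁ hx, rfl⟩
  let ι : S →* G := (T : Subgroup G).subtype.comp e.toMonoidHom
  have hι : Function.Injective ι := Subtype.val_injective.comp e.injective
  have hran : ι.range = (T : Subgroup G) := by
    rw [MonoidHom.range_comp, MonoidHom.range_eq_top.mpr e.surjective, ← MonoidHom.range_eq_map,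
      Subgroup.range_subtype]
  refine ⟨pullSystem ι hι, realized_saturated hS (pullSystem_realized ι hι) ⟨T, hran.symm⟩, fun hch => ?_⟩
  set g' := c * g * c⁻¹ with hg'
  set R' : Subgroup S := (R.map (MulAut.conj c).toMonoidHom).comap ι
  set P : Subgroup Ω := R'.map S.subtype
  have hPS : P ≤ S := Subgroup.map_subtype_le _
  have hP : ∀ x : P, ∃ r ∈ R, ι ⟨x, hPS x.2⟩ = c * r * c⁻¹ := by
    rintro ⟨_, u, ⟨r, hr, e'⟩, rfl⟩
    exact ⟨r, hr, e'.symm⟩
  have hback : ∀ r ∈ R, ∃ x : P, ι ⟨x, hPS x.2⟩ = c * r * c⁻¹ := fun r hr => by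
    obtain ⟨u, hu⟩ := hran.ge (hconj r hr)
    exact ⟨⟨u, u, ⟨r, hr, hu.symm⟩, rfl⟩, hu⟩
  have hact : ∀ x : P, ∃ y : P, ι ⟨y, hPS y.2⟩ = g' * ι ⟨x, hPS x.2⟩ * g'⁻¹ := fun x => by
    obtain ⟨r, hr, e1⟩ := hP x
    obtain ⟨y, hy⟩ := hback _ (hn r hr)
    exact ⟨y, by rw [hy, e1, hg']; group⟩
  choose f hf using hact
  haveI := finite_of_le hPS
  have finj : ∀ x y : P, ι ⟨x, hPS x.2⟩ = ι ⟨y, hPS y.2⟩ → x = y := fun x y h =>
    Subtype.ext (congrArg Subtype.val (hι h) :)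
  have fmul : ∀ x y : P, f (x * y) = f x * f y := fun x y => by
    refine finj _ _ ?_
    rw [hf, show (⟨((x * y : P) : Ω), hPS (x * y).2⟩ : S) = ⟨x, hPS x.2⟩ * ⟨y, hPS y.2⟩ from rfl,
      show (⟨((f x * f y : P) : Ω), hPS (f x * f y).2⟩ : S) = ⟨f x, hPS (f x).2⟩ * ⟨f y, hPS (f y).2⟩ from rfl,
      map_mul, map_mul, hf, hf]
    group
  have fbij : Function.Bijective f := Finite.injective_iff_bijective.mp fun x y h => by
    refine finj _ _ ?_
    have h1 := hf x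
    rw [h, hf y, mul_right_cancel_iff, mul_left_cancel_iff] at h1
    exact h1.symm
  set a : MulAut P := MulEquiv.ofBijective (MonoidHom.mk' f fmul) fbij with ha
  have ha3 : a ^ 3 = 1 := MulEquiv.ext fun x => finj _ _ (by
    show ι ⟨f (f (f x)), _⟩ = ι ⟨x, _⟩
    rw [hf, hf, hf]
    calc _ = (g' * g' * g') * ι ⟨x, hPS x.2⟩ * (g' * g' * g')⁻¹ := by group
      _ = _ := by
        rw [show g' * g' * g' = c * g ^ 3 * c⁻¹ by rw [hg', pow_succ, pow_two]; group, hg]
        group)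
  have hane : a ≠ 1 := fun h => by
    obtain ⟨x, hx⟩ := hback x₀ hx₀
    have h1 := hf x
    rw [show f x = x from DFunLike.congr_fun h x, hx, hg'] at h1
    exact hne (mul_left_cancel (a := c) (mul_right_cancel (b := c⁻¹) (h1.trans (by group)))).symm
  have haF : a ∈ (pullSystem ι hι).autGroup P :=
    (autGroup_set_eq hPS).mpr ⟨hPS, fun x => hPS (f x).2, g', fun x => hf x⟩
  haveI := finite_mulAut (G := P)
  obtain ⟨n, D, h0, hn', hmono, hinv, hnor, hcyc⟩ := hch.series hPS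
  have hcop : (Nat.card (Subgroup.zpowers a)).Coprime 2 := by
    rw [Nat.card_zpowers]
    exact (by norm_num : Nat.Coprime 3 2).coprime_dvd_left (orderOf_dvd_of_pow_eq_one ha3)
  have h1 := (cyclicSeries_coprime (hS.to_le hPS) _ hcop D n h0 hn' hmono
    (fun α hα => hinv α (Subgroup.zpowers_le.mpr haF hα)) hnor hcyc).2 a (Subgroup.mem_zpowers a)
  rw [Nat.add_one_sub_one, pow_one] at h1
  exact hane h1

end Model

/-- The quaternion subgroup of `SL₂` with its automorphism of order three. -/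
theorem exists_Q8_auto {K : Type*} [Field K] [Finite K] (h2 : (2 : K) ≠ 0) :
    ∃ (R : Subgroup (SpecialLinearGroup (Fin 2) K)) (g x₀ : SpecialLinearGroup (Fin 2) K),
      IsPGroup 2 R ∧ g ^ 3 = 1 ∧ (∀ x ∈ R, g * x * g⁻¹ ∈ R) ∧ x₀ ∈ R ∧
      g * x₀ * g⁻¹ ≠ x₀ ∧ g * x₀ * g⁻¹ ≠ -x₀ := by
  classical
  haveI := Fintype.ofFinite K
  haveI := Fact.mk Nat.prime_two
  obtain ⟨q, hq⟩ := CharP.exists K
  haveI := hq
  haveI : Fact q.Prime := ⟨CharP.char_is_prime K q⟩
  haveI : NeZero q := ⟨(Fact.out : q.Prime).ne_zero⟩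
  obtain ⟨a₀, b₀, hab₀⟩ := CharP.sq_add_sq K q (-1)
  obtain ⟨a, b, hab⟩ : ∃ a b : K, a ^ 2 + b ^ 2 = -1 := ⟨_, _, hab₀.trans (by simp)⟩
  let i : SpecialLinearGroup (Fin 2) K := ⟨!![0, 1; -1, 0], by simp [det_fin_two]⟩
  let j : SpecialLinearGroup (Fin 2) K := ⟨!![a, b; b, -a], by
    simp [det_fin_two]; linear_combination -hab⟩
  have hi : (i.1 : Matrix (Fin 2) (Fin 2) K) = !![0, 1; -1, 0] := rfl
  have hj : (j.1 : Matrix (Fin 2) (Fin 2) K) = !![a, b; b, -a] := rfl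
  obtain ⟨t, ht2⟩ : ∃ t : K, 2 * t = 1 := ⟨2⁻¹, mul_inv_cancel₀ h2⟩
  let g : SpecialLinearGroup (Fin 2) K :=
    ⟨!![t * (-1 + a + b), t * (1 + b - a); t * (-1 + b - a), t * (-1 - a - b)], by
      simp [det_fin_two]; linear_combination (-2 * t ^ 2) * hab + (2 * t + 1) * ht2⟩
  have hg : (g.1 : Matrix (Fin 2) (Fin 2) K) =
      !![t * (-1 + a + b), t * (1 + b - a); t * (-1 + b - a), t * (-1 - a - b)] := rfl
  have hii : i * i = -1 := Subtype.ext (by
    show i.1 * i.1 = -(1 : Matrix (Fin 2) (Fin 2) K)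
    ext u v; fin_cases u <;> fin_cases v <;> simp [hi])
  have hjj : j * j = -1 := Subtype.ext (by
    show j.1 * j.1 = -(1 : Matrix (Fin 2) (Fin 2) K)
    ext u v
    fin_cases u <;> fin_cases v <;> simp [hj] <;> first | linear_combination hab | ring)
  have hji : j * i * j⁻¹ = i⁻¹ := by
    have e : j * i = -(i * j) := Subtype.ext (by
      show j.1 * i.1 = -(i.1 * j.1)
      ext u v; fin_cases u <;> fin_cases v <;> simp [hi, hj])
    have hi' : i⁻¹ = -i := inv_eq_of_mul_eq_one_right (by rw [mul_neg, hii, neg_neg])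
    rw [e, neg_mul, mul_assoc, mul_inv_cancel, mul_one, hi']
  have hgg : g.1 * g.1 = -g.1 - 1 := by
    rw [hg]
    ext u v
    fin_cases u <;> fin_cases v <;> simp
    · linear_combination (2 * t ^ 2) * hab + (-(t * (a + b)) - t - 1) * ht2
    · linear_combination (-(t * (1 + b - a))) * ht2
    · linear_combination (-(t * (-1 + b - a))) * ht2
    · linear_combination (2 * t ^ 2) * hab + (t * (a + b) - t - 1) * ht2
  have hg3 : g ^ 3 = 1 := by
    rw [pow_succ', pow_two]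
    refine Subtype.ext ?_
    show g.1 * (g.1 * g.1) = 1
    rw [hgg, mul_sub, mul_neg, hgg, mul_one]
    abel
  have hgi : g * i = (i * j) * g := Subtype.ext (by
    show g.1 * i.1 = i.1 * j.1 * g.1
    ext u v
    fin_cases u <;> fin_cases v <;> simp [hi, hj, hg] <;>
      first | ring1 | linear_combination t * hab | linear_combination (-t) * hab)
  have hgj : g * j = i * g := Subtype.ext (by
    show g.1 * j.1 = i.1 * g.1
    ext u v
    fin_cases u <;> fin_cases v <;> simp [hi, hj, hg] <;>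
      first | ring1 | linear_combination t * hab | linear_combination (-t) * hab)
  have h4 : ∀ z : SpecialLinearGroup (Fin 2) K, z * z = -1 → IsPGroup 2 (Subgroup.zpowers z) := fun z hz => by
    obtain ⟨k, -, hk⟩ := (Nat.dvd_prime_pow Nat.prime_two).mp (orderOf_dvd_of_pow_eq_one (n := 2 ^ 2) (x := z)
      (by rw [show (2 : ℕ) ^ 2 = 2 * 2 from rfl, pow_mul, pow_two z, hz, neg_one_sq]))
    exact IsPGroup.of_card (n := k) (by rw [Nat.card_zpowers, hk])
  have hnorm : Subgroup.zpowers j ≤ Subgroup.normalizer (Subgroup.zpowers i : Set _) := by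
    rw [Subgroup.zpowers_le]
    refine Subgroup.mem_normalizer_iff_map_conj_eq.mpr ?_
    rw [MonoidHom.map_zpowers]
    show Subgroup.zpowers (j * i * j⁻¹) = _
    rw [hji, Subgroup.zpowers_inv]
  have hiR : i ∈ Subgroup.zpowers i ⊔ Subgroup.zpowers j := Subgroup.mem_sup_left (Subgroup.mem_zpowers i)
  have hjR : j ∈ Subgroup.zpowers i ⊔ Subgroup.zpowers j := Subgroup.mem_sup_right (Subgroup.mem_zpowers j)
  have hconj : g * i * g⁻¹ = i * j := by rw [hgi, mul_inv_cancel_right]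
  refine ⟨Subgroup.zpowers i ⊔ Subgroup.zpowers j, g, i, (h4 i hii).to_sup_of_normal_left' (h4 j hjj) hnorm, hg3, ?_,
    hiR, ?_, ?_⟩
  · have hle : Subgroup.zpowers i ⊔ Subgroup.zpowers j ≤
        (Subgroup.zpowers i ⊔ Subgroup.zpowers j).comap (MulAut.conj g).toMonoidHom := by
      refine sup_le (Subgroup.zpowers_le.mpr ?_) (Subgroup.zpowers_le.mpr ?_)
      · rw [Subgroup.mem_comap, MulEquiv.coe_toMonoidHom, MulAut.conj_apply]
        rw [hconj]; exact Subgroup.mul_mem _ hiR hjR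
      · rw [Subgroup.mem_comap, MulEquiv.coe_toMonoidHom, MulAut.conj_apply]
        rw [hgj, mul_inv_cancel_right]; exact hiR
    exact fun x hx => hle hx
  · rw [hconj]
    intro h
    have h1 : (i.1 * j.1) 0 1 = i.1 0 1 := congrArg (fun z : SpecialLinearGroup (Fin 2) K => z.1 0 1) h
    have h3 : (i.1 * j.1) 1 0 = i.1 1 0 := congrArg (fun z : SpecialLinearGroup (Fin 2) K => z.1 1 0) h
    simp [hi, hj] at h1 h3
    exact h2 (by linear_combination -(h1 + h3))
  · rw [hconj]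
    intro h
    have h1 : (i.1 * j.1) 0 1 = (-i.1) 0 1 := congrArg (fun z : SpecialLinearGroup (Fin 2) K => z.1 0 1) h
    have h3 : (i.1 * j.1) 1 0 = (-i.1) 1 0 := congrArg (fun z : SpecialLinearGroup (Fin 2) K => z.1 1 0) h
    simp [hi, hj] at h1 h3
    exact h2 (by linear_combination -(h1 + h3))

/-- A prime field with prescribed two-parts of `q - 1` and `q + 1`. -/
theorem exists_field (m : ℕ) (hm : 2 ≤ m) : ∃ (q : ℕ) (_ : Fact q.Prime), q ≠ 2 ∧ q % 4 = 3 ∧
    ∀ P : Sylow 2 (SpecialLinearGroup (Fin 2) (ZMod q)),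
      Nat.card (P : Subgroup (SpecialLinearGroup (Fin 2) (ZMod q))) = 2 ^ (m + 1) ∧
      ∀ P' : Sylow 2 (GL (Fin 2) (ZMod q)), Nat.card (P' : Subgroup (GL (Fin 2) (ZMod q))) = 2 ^ (m + 2) := by
  have h4 : 4 ≤ 2 ^ m := le_trans (by norm_num) (Nat.pow_le_pow_right two_pos hm)
  have hodd : Odd (2 ^ m - 1) := by
    rw [Nat.odd_iff]
    have : 2 ^ m = 2 * 2 ^ (m - 1) := by rw [← pow_succ']; congr 1; omega
    omega
  obtain ⟨q, -, hq, hmod⟩ := Nat.forall_exists_prime_gt_and_modEq 2 (q := 2 ^ (m + 1))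
    (a := 2 ^ m - 1) (by positivity) (Nat.Coprime.pow_right _ hodd.coprime_two_right)
  haveI hqf := Fact.mk hq
  rw [Nat.ModEq, Nat.mod_eq_of_lt (show 2 ^ m - 1 < 2 ^ (m + 1) by rw [pow_succ]; omega)] at hmod
  set a := q / 2 ^ (m + 1) with ha
  have e : q = 2 * 2 ^ m * a + (2 ^ m - 1) := by
    have := Nat.div_add_mod q (2 ^ (m + 1))
    rw [hmod, ← ha] at this
    rw [← pow_succ']
    omega
  obtain ⟨m', rfl⟩ : ∃ m', m = m' + 2 := ⟨m - 2, by omega⟩
  set P2 := 2 ^ m' with hP2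
  have hP : 2 ^ (m' + 2) = 4 * P2 := by rw [pow_add, hP2]; ring
  rw [hP] at e h4
  have e1 : q - 1 = 2 * (2 * (2 * P2 * a + P2 - 1) + 1) := by
    have : 0 < P2 := by positivity
    have : 2 * (4 * P2) * a = 4 * (2 * P2 * a) := by ring
    omega
  have e2 : q + 1 = 2 ^ (m' + 2) * (2 * a + 1) := by
    rw [hP]
    have : 4 * P2 * (2 * a + 1) = 2 * (4 * P2) * a + 4 * P2 := by ring
    omega
  refine ⟨q, hqf, by omega, by omega, fun P => ?_⟩
  have hq2 : q ^ 2 - 1 = (q + 1) * (q - 1) := by rw [← Nat.sq_sub_sq, one_pow]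
  have hqo : ¬ 2 ∣ q := by omega
  have key : ∀ (N u k : ℕ), N = 2 ^ k * u → ¬ 2 ∣ u → N.factorization 2 = k := fun N u k hN hu => by
    have hu0 : u ≠ 0 := fun h => hu (h ▸ dvd_zero 2)
    rw [hN, Nat.factorization_mul (pow_ne_zero _ two_ne_zero) hu0, Finsupp.add_apply,
      Nat.prime_two.factorization_pow, Finsupp.single_eq_same, Nat.factorization_eq_zero_of_not_dvd hu, add_zero]
  have hu : ¬ 2 ∣ q * ((2 * a + 1) * (2 * (2 * P2 * a + P2 - 1) + 1)) := by
    intro h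
    rcases Nat.prime_two.dvd_mul.mp h with h | h
    · exact hqo h
    · rcases Nat.prime_two.dvd_mul.mp h with h | h <;> omega
  have hSL : Nat.card (SpecialLinearGroup (Fin 2) (ZMod q)) =
      2 ^ (m' + 2 + 1) * (q * ((2 * a + 1) * (2 * (2 * P2 * a + P2 - 1) + 1))) := by
    rw [Linear.card_SL_two, ZMod.card, hq2, e1, e2]
    ring
  refine ⟨by rw [P.card_eq_multiplicity, key _ _ _ hSL hu], fun P' => ?_⟩
  rw [P'.card_eq_multiplicity, key _ ((2 * (2 * P2 * a + P2 - 1) + 1) *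
    (q * ((2 * a + 1) * (2 * (2 * P2 * a + P2 - 1) + 1)))) (m' + 2 + 2)]
  · rw [Linear.card_GL_two, ← Linear.card_SL_two, hSL, ZMod.card, e1]
    ring
  · intro h
    rcases Nat.prime_two.dvd_mul.mp h with h | h
    · omega
    · exact hu h

variable {Ω : Type*} [Group Ω] {S : Subgroup Ω}

theorem two_ne_zero_zmod {q : ℕ} [Fact q.Prime] (hq : q ≠ 2) : (2 : ZMod q) ≠ 0 := fun h =>
  hq ((Nat.prime_dvd_prime_iff_eq Fact.out Nat.prime_two).mp ((ZMod.natCast_eq_zero_iff 2 q).mp (by exact_mod_cast h)))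

theorem quaternion_not_chain [Finite S] {k : ℕ} (hk : 1 ≤ k) (e : S ≃* QuaternionGroup (2 ^ k)) :
    ∃ F : FusionSystem S, F.IsSaturated 2 ∧ ¬ HasCyclicChain F := by
  haveI := Fact.mk Nat.prime_two
  haveI : NeZero (2 ^ k) := ⟨pow_ne_zero _ two_ne_zero⟩
  obtain ⟨q, _, hq2, -, hc⟩ := exists_field (k + 1) (by omega)
  obtain ⟨P⟩ : Nonempty (Sylow 2 (SpecialLinearGroup (Fin 2) (ZMod q))) := inferInstance
  obtain ⟨j, -, ⟨eP⟩⟩ := Linear.sylow_two_SL2 q hq2 P
  haveI : NeZero (2 ^ j) := ⟨pow_ne_zero _ two_ne_zero⟩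
  have hj : k = j := by
    have h1 := (hc P).1
    rw [Nat.card_congr eP.toEquiv, Nat.card_eq_fintype_card, QuaternionGroup.card,
      show (4 : ℕ) = 2 ^ 2 from rfl, ← pow_add] at h1
    have := Nat.pow_right_injective le_rfl h1
    omega
  subst hj
  obtain ⟨R, g, x₀, hR, hg, hn, hx, hne, -⟩ := exists_Q8_auto (two_ne_zero_zmod hq2)
  exact exists_not_chain (IsPGroup.of_card (n := k + 2) (by
    rw [Nat.card_congr e.toEquiv, Nat.card_eq_fintype_card, QuaternionGroup.card, pow_add]; ring))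
    P (e.trans eP.symm) R hR g hg hn hx hne

theorem quasiDihedral_not_chain [Finite S] (h : IsQuasiDihedral S) :
    ∃ F : FusionSystem S, F.IsSaturated 2 ∧ ¬ HasCyclicChain F := by
  haveI := Fact.mk Nat.prime_two
  obtain ⟨n, x, y, hn, hcard, hext⟩ := TwoGroups.isTwoExt_quasiDihedral h
  obtain ⟨q, _, hq2, hq4, hc⟩ := exists_field (n - 1) (by omega)
  obtain ⟨P⟩ : Nonempty (Sylow 2 (GL (Fin 2) (ZMod q))) := inferInstance
  obtain ⟨P₀⟩ : Nonempty (Sylow 2 (SpecialLinearGroup (Fin 2) (ZMod q))) := inferInstance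
  obtain ⟨n', x', y', -, hcard', hext'⟩ :=
    TwoGroups.isTwoExt_quasiDihedral (GL2Two.quasiDihedral_GL2 (by rwa [ZMod.card]) P)
  have hn' : n = n' := by
    have h1 := (hc P₀).2 P
    rw [hcard'] at h1
    have := Nat.pow_right_injective le_rfl h1
    omega
  subst hn'
  obtain ⟨e⟩ := hext.nonempty_equiv hext'
  obtain ⟨R, g, x₀, hR, hg, hn, hx, hne, -⟩ := exists_Q8_auto (two_ne_zero_zmod hq2)
  let τ : SpecialLinearGroup (Fin 2) (ZMod q) →* GL (Fin 2) (ZMod q) := SpecialLinearGroup.toGL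
  have hτ : Function.Injective τ := fun a b h => Subtype.ext (congrArg Units.val h)
  exact exists_not_chain (IsPGroup.of_card hcard) P e (R.map τ) (hR.map τ) (τ g) (by rw [← map_pow, hg, map_one])
    (by rintro _ ⟨r, hr, rfl⟩; exact ⟨_, hn r hr, by simp⟩) ⟨x₀, hx, rfl⟩
    (fun h => hne (hτ (by simpa using h)))

theorem dihedral_not_chain [Finite S] {k : ℕ} (hk : 1 ≤ k) (e : S ≃* DihedralGroup (2 ^ k)) :
    ∃ F : FusionSystem S, F.IsSaturated 2 ∧ ¬ HasCyclicChain F := by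
  haveI := Fact.mk Nat.prime_two
  obtain ⟨q, _, hq2, -, hc⟩ := exists_field (k + 1) (by omega)
  obtain ⟨Q⟩ : Nonempty (Sylow 2 (SpecialLinearGroup (Fin 2) (ZMod q))) := inferInstance
  obtain ⟨j, -, ⟨eQ⟩⟩ := Linear.sylow_two_SL2 q hq2 Q
  haveI : NeZero (2 ^ j) := ⟨pow_ne_zero _ two_ne_zero⟩
  have hj : k = j := by
    have h1 := (hc Q).1
    rw [Nat.card_congr eQ.toEquiv, Nat.card_eq_fintype_card, QuaternionGroup.card,
      show (4 : ℕ) = 2 ^ 2 from rfl, ← pow_add] at h1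
    have := Nat.pow_right_injective le_rfl h1
    omega
  subst hj
  let T := Q.mapSurjective (Linear.toPSL_surjective (F := ZMod q))
  let θ := (Linear.toPSL (F := ZMod q)).subgroupMap (Q : Subgroup (SpecialLinearGroup (Fin 2) (ZMod q)))
  have hθ : Function.Surjective θ := MonoidHom.subgroupMap_surjective _ _
  let ψ : (Q : Subgroup (SpecialLinearGroup (Fin 2) (ZMod q))) →* DihedralGroup (2 ^ k) :=
    (quatToDihedral (2 ^ k)).comp eQ.toMonoidHom
  have hψ : Function.Surjective ψ := (quatToDihedral_surjective _).comp eQ.surjective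
  have hker : θ.ker = ψ.ker := by
    ext x
    rw [MonoidHom.mem_ker, MonoidHom.mem_ker]
    have h1 : θ x = 1 ↔ x * x = 1 := by
      rw [← Subtype.coe_inj]
      show Linear.toPSL (x : SpecialLinearGroup (Fin 2) (ZMod q)) = 1 ↔ _
      rw [Linear.toPSL_eq_one_iff]
      constructor
      · rintro (h | h) <;> refine Subtype.ext ?_
        · show (x : SpecialLinearGroup (Fin 2) (ZMod q)) * x = 1
          rw [h, one_mul]
        · show (x : SpecialLinearGroup (Fin 2) (ZMod q)) * x = 1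
          rw [h]
          exact Subtype.ext (by simp)
      · intro h
        exact Dickson.eq_one_or_of_sq hq2 (congrArg Subtype.val h)
    rw [h1]
    show _ ↔ quatToDihedral _ (eQ x) = 1
    rw [quatToDihedral_eq_one_iff, ← map_mul, MulEquiv.map_eq_one_iff]
  let eT := (QuotientGroup.quotientKerEquivOfSurjective θ hθ).symm.trans
    ((QuotientGroup.quotientMulEquivOfEq hker).trans (QuotientGroup.quotientKerEquivOfSurjective ψ hψ))
  obtain ⟨R, g, x₀, hR, hg, hn, hx, hne, hne'⟩ := exists_Q8_auto (two_ne_zero_zmod hq2)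
  let π := Linear.toPSL (F := ZMod q)
  refine exists_not_chain (IsPGroup.of_card (n := k + 1) (by
    rw [Nat.card_congr e.toEquiv, DihedralGroup.nat_card, pow_succ']))
    T ((e.trans eT.symm).trans (MulEquiv.subgroupCongr (Sylow.coe_mapSurjective _ Q).symm))
    (R.map π) (hR.map π) (π g) (by rw [← map_pow, hg, map_one])
    (by rintro _ ⟨r, hr, rfl⟩; exact ⟨_, hn r hr, by simp⟩) (x₀ := π x₀) ⟨x₀, hx, rfl⟩ fun h => ?_
  rw [← map_mul, ← map_inv, ← map_mul, ← mul_inv_eq_one, ← map_inv, ← map_mul,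
    Linear.toPSL_eq_one_iff] at h
  rcases h with h | h
  · exact hne (mul_inv_eq_one.mp h)
  · exact hne' (by rw [mul_inv_eq_iff_eq_mul.mp h, neg_one_mul])

end Cfsg.Agent.Fusion
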