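/-
Every fusion system is realized inside a finite group (Park).
-/
import Cfsg.Agent.Fusion.Biset
set_option autoImplicit false

namespace Cfsg.Agent.Fusion

open Cfsg Cfsg.FusionSystem

universe u

theorem exists_realizing_group {Ω : Type u} [Group Ω] {S : Subgroup Ω} [Finite S]
    (F : FusionSystem S) :
    ∃ (G : Type u) (_ : Group G) (_ : Finite G) (ι : ↥S →* G), F.IsRealizedBy ι := by
  classical
  haveI hfin : Finite ↥(S.prod S) := Finite.of_equiv _ (S.prodEquiv S).symm.toEquiv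
  set E := prodSystem F (innerFusionSystem S)
  let D₀ := (graphHom (1 : MulAut S)).range
  have hD₀ : IsDiag F D₀ := isDiag_graph (one_mem _)
  let n₀ : Subgroup ↥(S.prod S) → ℕ := fun K => if K = D₀ then 1 else 0
  obtain ⟨n, hn, hn₀, hst⟩ := exists_stable_scaled (F := E) {K | IsDiag F K}
    (fun K hK L hKL => isDiag_fconj hKL hK) (fun K hK L hL => isDiag_mono hK hL) n₀
    (fun Q h => by
      by_cases hQ : Q = D₀
      · exact hQ ▸ hD₀
      · exact absurd (if_neg hQ) h)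
  let X := NSet n
  have hstab : ∀ x : X, IsDiag F (MulAction.stabilizer ↥(S.prod S) x) := fun x => by
    obtain ⟨Q, i, c⟩ := x
    obtain ⟨a, rfl⟩ := QuotientGroup.mk_surjective c
    have hQ : IsDiag F Q := hn Q fun h0 => by rw [h0] at i; exact i.elim0
    refine isDiag_fconj (fconj_conj (F := E) (MulAction.stabilizer _ _) a⁻¹).symm (isDiag_mono hQ ?_)
    rintro _ ⟨z, hz, rfl⟩
    have hz' : z • (NSet.mk (n := n) Q i (QuotientGroup.mk a)) = ⟨Q, i, QuotientGroup.mk a⟩ := hz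
    rw [nset_smul] at hz'
    simp only [NSet.mk.injEq, heq_eq_eq, true_and] at hz'
    simpa [MulAut.conj_apply] using mem_stabilizer_mk.mp hz'
  let R : S →* ↥(S.prod S) :=
    { toFun := fun t => ⟨(1, (t : Ω)), S.one_mem, t.2⟩
      map_one' := rfl
      map_mul' := fun a b => Subtype.ext (Prod.ext (one_mul (1 : Ω)).symm rfl) }
  let L : S →* ↥(S.prod S) :=
    { toFun := fun t => ⟨((t : Ω), 1), t.2, S.one_mem⟩
      map_one' := rfl
      map_mul' := fun a b => Subtype.ext (Prod.ext rfl (one_mul (1 : Ω)).symm) }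
  have hLR : ∀ s t, L s * R t = R t * L s := fun s t =>
    Subtype.ext (Prod.ext (by simp [L, R]) (by simp [L, R]))
  let G : Subgroup (Equiv.Perm X) :=
    Subgroup.centralizer (Set.range fun t : S => MulAction.toPermHom ↥(S.prod S) X (R t))
  have hmemG : ∀ e : Equiv.Perm X, e ∈ G ↔ ∀ t x, e (R t • x) = R t • e x := by
    intro e
    constructor
    · exact fun h t x => (Equiv.ext_iff.mp (h _ ⟨t, rfl⟩) x).symm
    · rintro h _ ⟨t, rfl⟩
      exact Equiv.ext fun x => (h t x).symm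
  let ι : S →* G := ((MulAction.toPermHom ↥(S.prod S) X).comp L).codRestrict G fun s =>
    (hmemG _).mpr fun t x => by
      show L s • R t • x = R t • L s • x
      rw [← mul_smul, hLR, mul_smul]
  -- the base point
  set x₀ : X := ⟨D₀, ⟨0, Nat.pos_of_ne_zero (hn₀ D₀ (by simp [n₀]))⟩, QuotientGroup.mk 1⟩ with hx₀
  have hx₀stab : ∀ z : ↥(S.prod S), z • x₀ = x₀ ↔ z ∈ D₀ := by
    intro z
    refine Iff.trans ⟨fun h => ?_, fun h => congrArg (NSet.mk D₀ _) h⟩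
      (Iff.trans (mem_stabilizer_mk (Q := D₀) (h := z) (a := 1)) (by rw [inv_one, one_mul, mul_one]))
    exact eq_of_heq (NSet.mk.inj h).2.2
  have hdiag : ∀ s : S, L s * R s ∈ D₀ := fun s =>
    ⟨s, Subtype.ext (Prod.ext (by simp [graphHom, L, R]) (by simp [graphHom, L, R]))⟩
  refine ⟨G, inferInstance, inferInstance, ι, fun a b hab => ?_, fun P hP φ hφ => ⟨fun hmem => ?_, ?_⟩⟩
  · have h1 : L a • x₀ = L b • x₀ := Equiv.ext_iff.mp (congrArg Subtype.val hab) x₀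
    have h2 : (L (b⁻¹ * a)) • x₀ = x₀ := by rw [map_mul, mul_smul, h1, map_inv, inv_smul_smul]
    obtain ⟨s, hs⟩ := (hx₀stab _).mp h2
    have e1 : (s : Ω) = ((b⁻¹ * a : S) : Ω) := congrArg (fun u : ↥(S.prod S) => u.1.1) hs
    have e2 : (s : Ω) = 1 := congrArg (fun u : ↥(S.prod S) => u.1.2) hs
    exact (inv_mul_eq_one.mp (Subtype.ext (e1.symm.trans e2))).symm
  · -- a map of the system becomes a conjugation
    set f := extFun φ
    have hf : Mor F P f := mor_of_mem hmem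
    set Δ := (P.subgroupOf S).prod (⊤ : Subgroup S)
    have hm : ∀ w : ↥Δ, ((w : S × S).1 : Ω) ∈ P := fun w => w.2.1
    let ψ₁ : ↥Δ →* ↥(S.prod S) := (S.prodEquiv S).symm.toMonoidHom.comp Δ.subtype
    let ψ₂ : ↥Δ →* ↥(S.prod S) :=
      { toFun := fun w => ⟨(f (w : S × S).1, ((w : S × S).2 : Ω)), hf.map_mem (hm w), (w : S × S).2.2⟩
        map_one' := Subtype.ext (Prod.ext hf.map_one rfl)
        map_mul' := fun a b => Subtype.ext (Prod.ext (hf.map_mul (hm a) (hm b)) rfl) }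
    obtain ⟨ε, hε⟩ := exists_equiv_of_mark (X := Pull ψ₁ X) (Y := Pull ψ₂ X) (Γ := ↥Δ) fun H => by
      rw [mark_pull, mark_pull]
      refine hst _ _ ?_
      have hm' : Mor E (up (H.map ψ₁)) (fun z => (f z.1, z.2)) := by
        refine prod_mor_iff.mpr ⟨up_le _, f, id, hf.restrict ?_, Mor.id' ?_, fun _ _ => rfl⟩
        · rintro _ ⟨_, ⟨_, ⟨w, -, rfl⟩, rfl⟩, rfl⟩
          exact hm w
        · rintro _ ⟨_, ⟨_, ⟨w, -, rfl⟩, rfl⟩, rfl⟩
          exact (w : S × S).2.2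
      refine isConj_iff.mpr ⟨_, hm', ?_, hm'.injOn, ?_⟩
      · rintro _ ⟨_, ⟨w, hw, rfl⟩, rfl⟩
        exact ⟨_, ⟨w, hw, rfl⟩, rfl⟩
      · rintro _ ⟨_, ⟨w, hw, rfl⟩, rfl⟩
        exact ⟨_, ⟨_, ⟨w, hw, rfl⟩, rfl⟩, rfl⟩
    let εX : Equiv.Perm X := ε
    have hεψ : ∀ (w : ↥Δ) (x : X), εX (ψ₁ w • x) = ψ₂ w • εX x := fun w x => hε w x
    have hεG : εX ∈ G := (hmemG _).mpr fun t x => by
      set w : ↥Δ := ⟨(1, t), Subgroup.mem_prod.mpr ⟨(P.subgroupOf S).one_mem, Subgroup.mem_top _⟩⟩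
      have e1 : ψ₁ w = R t := rfl
      have e2 : ψ₂ w = R t := Subtype.ext (Prod.ext hf.map_one rfl)
      rw [← e1, hεψ w x, e2, e1]
    refine ⟨⟨εX, hεG⟩, fun x => Subtype.ext (Equiv.ext fun y => ?_)⟩
    set w : ↥Δ := ⟨(⟨x, hP x.2⟩, 1), Subgroup.mem_prod.mpr ⟨x.2, Subgroup.mem_top _⟩⟩
    have e1 : ψ₁ w = L ⟨x, hP x.2⟩ := rfl
    have e2 : ψ₂ w = L ⟨φ x, hφ x⟩ := Subtype.ext (Prod.ext (extFun_coe φ x) rfl)
    show L ⟨φ x, hφ x⟩ • y = εX (L ⟨x, hP x.2⟩ • εX.symm y)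
    rw [← e1, hεψ w, e2, Equiv.apply_symm_apply]
  · -- a conjugation comes from the system
    rintro ⟨⟨g, hg⟩, hgx⟩
    set x₁ := g x₀
    obtain ⟨P', f, hf, ef⟩ := hstab x₁
    have hkey : ∀ x : P, φ x ∈ P' ∧ f (φ x) = x := by
      intro x
      have h1 : ∀ y, L ⟨φ x, hφ x⟩ • g y = g (L ⟨x, hP x.2⟩ • y) := fun y => by
        have := Equiv.ext_iff.mp (congrArg Subtype.val (hgx x)) (g y)
        simpa [Equiv.Perm.mul_apply, ι] using this
      have h2 : (R ⟨x, hP x.2⟩ * L ⟨φ x, hφ x⟩) • x₁ = x₁ := by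
        rw [mul_smul, h1, ← (hmemG g).mp hg, ← mul_smul, ← hLR, (hx₀stab _).mpr (hdiag _)]
      have := ef _ h2
      simpa [R, L] using this
    set Q := φ.range
    have hQ : Q ≤ P' := by
      rintro _ ⟨x, rfl⟩
      exact (hkey x).1
    obtain ⟨b, hb, hbl, -⟩ := ((hf.restrict hQ).toIso).exists_symm
    have hPle : P ≤ (hf.restrict hQ).img := fun x hx =>
      (hf.restrict hQ).mem_img.mpr ⟨φ ⟨x, hx⟩, ⟨⟨x, hx⟩, rfl⟩, (hkey ⟨x, hx⟩).2⟩
    refine mem_of_mor (hb.mor.restrict hPle) fun x => ?_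
    have := hbl (φ x) ⟨x, rfl⟩
    rw [(hkey x).2] at this
    exact this.symm

end Cfsg.Agent.Fusion
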