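import Cfsg.Agent.Fusion.AutSystem
import Cfsg.Agent.Fusion.Series
import Cfsg.Agent.Core.ThompsonComplement
import Cfsg.Agent.LeadWork.SupersolvCrit
import Mathlib.GroupTheory.SpecificGroups.Cyclic

/-!
Supersoluble fusion systems: chains of strongly closed subgroups with cyclic steps.
-/

set_option autoImplicit false

namespace Cfsg.Agent.Fusion

open Cfsg Cfsg.FusionSystem
open scoped commutatorElement

variable {p : ℕ} [Fact p.Prime]

section Series

variable {G : Type*} [Group G]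

/-- A subgroup of a cyclic-by-`N` subgroup is cyclic over its intersection with `N`. -/
theorem exists_gen_inf {N K : Subgroup G} [N.Normal] {x : G} (h : K ≤ N ⊔ Subgroup.zpowers x) :
    ∃ y ∈ K, K ≤ (K ⊓ N) ⊔ Subgroup.zpowers y := by
  have hle : K.map (QuotientGroup.mk' N) ≤ Subgroup.zpowers (QuotientGroup.mk' N x) := by
    refine (Subgroup.map_mono h).trans ?_
    rw [Subgroup.map_sup, QuotientGroup.map_mk'_self, bot_sup_eq, MonoidHom.map_zpowers]
  have hc : IsCyclic ↥(K.map (QuotientGroup.mk' N)) :=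
    isCyclic_of_injective (Subgroup.inclusion hle) (Subgroup.inclusion_injective hle)
  obtain ⟨u, hu⟩ := LeadWork.eq_zpowers_of_isCyclic hc
  obtain ⟨y, hy, hyu⟩ := Subgroup.mem_map.mp (hu ▸ Subgroup.mem_zpowers u : u ∈ K.map (QuotientGroup.mk' N))
  refine ⟨y, hy, fun k hk => ?_⟩
  obtain ⟨i, hi⟩ := Subgroup.mem_zpowers_iff.mp (hu.le ⟨k, hk, rfl⟩)
  have h1 : k * (y ^ i)⁻¹ ∈ N := by
    rw [← QuotientGroup.eq_one_iff]
    show QuotientGroup.mk' N (k * (y ^ i)⁻¹) = 1
    rw [map_mul, map_inv, map_zpow, hyu, hi, mul_inv_cancel]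
  have h2 := Subgroup.mul_mem _ (Subgroup.mem_sup_left (T := Subgroup.zpowers y)
    (show k * (y ^ i)⁻¹ ∈ K ⊓ N from ⟨K.mul_mem hk (K.inv_mem (K.zpow_mem hy i)), h1⟩))
    (Subgroup.mem_sup_right (zpow_mem (Subgroup.mem_zpowers y) i))
  rwa [inv_mul_cancel_right] at h2

variable [Finite G]

/-- On a series with cyclic factors of a `p`-group, commutators and `p ^ e * (p - 1)`-st powers
stabilize. -/
theorem cyclicSeries_stab {e : ℕ} (he : Nat.card G = p ^ e) (A : Subgroup (MulAut G))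
    (D : ℕ → Subgroup G) (n : ℕ) (hinv : ∀ α ∈ A, ∀ j ≤ n, ∀ x ∈ D j, α x ∈ D j)
    (hn : ∀ j, (D j).Normal) (hcyc : ∀ j < n, ∃ x ∈ D (j + 1), D (j + 1) ≤ D j ⊔ Subgroup.zpowers x) :
    (∀ a b : A, ⁅a, b⁆ ∈ seriesStab A D n hinv) ∧
      ∀ a : A, a ^ (p ^ e * (p - 1)) ∈ seriesStab A D n hinv := by
  suffices H : ∀ j < n, ∀ x ∈ D (j + 1), (∀ a b : A, x⁻¹ * ((⁅a, b⁆ : A) : MulAut G) x ∈ D j) ∧
      ∀ a : A, x⁻¹ * ((a ^ (p ^ e * (p - 1)) : A) : MulAut G) x ∈ D j from
    ⟨fun a b j hj x hx => (H j hj x hx).1 a b, fun a j hj x hx => (H j hj x hx).2 a⟩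
  intro j hj
  haveI := hn j
  set M := D (j + 1)
  set N := (D j).subgroupOf M
  haveI hNn : N.Normal := (hn j).subgroupOf M
  obtain ⟨g, hg, hgen⟩ := hcyc j hj
  have hQc : IsCyclic (M ⧸ N) := ⟨QuotientGroup.mk ⟨g, hg⟩, fun q => by
    induction q using QuotientGroup.induction_on with
    | _ y =>
      obtain ⟨d, hd, z, hz, hdz⟩ := Subgroup.mem_sup_of_normal_left.mp (hgen y.2)
      obtain ⟨i, rfl⟩ := Subgroup.mem_zpowers_iff.mp hz
      refine Subgroup.mem_zpowers_iff.mpr ⟨i, ?_⟩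
      rw [← QuotientGroup.mk_zpow, QuotientGroup.eq, Subgroup.mem_subgroupOf]
      have h1 := (hn j).conj_mem d hd (g ^ i)⁻¹
      rw [inv_inv] at h1
      rw [Subgroup.coe_mul, Subgroup.coe_inv, Subgroup.coe_zpow, ← hdz]
      rwa [← mul_assoc]⟩
  let res : A →* MulAut M :=
    { toFun := fun a =>
        { toFun := fun y => ⟨(a : MulAut G) y, hinv _ a.2 (j + 1) hj y y.2⟩
          invFun := fun y => ⟨(a : MulAut G)⁻¹ y, hinv _ (inv_mem a.2) (j + 1) hj y y.2⟩
          left_inv := fun y => Subtype.ext ((a : MulAut G).symm_apply_apply y)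
          right_inv := fun y => Subtype.ext ((a : MulAut G).apply_symm_apply y)
          map_mul' := fun y z => Subtype.ext (map_mul (a : MulAut G) _ _) }
      map_one' := rfl
      map_mul' := fun _ _ => rfl }
  have hres : ∀ a : A, N.map (res a).toMonoidHom = N := fun a => by
    refine le_antisymm ?_ fun y hy => ⟨(res a)⁻¹ y, ?_, MulAut.apply_inv_self _ _ _⟩
    · rintro _ ⟨y, hy, rfl⟩; exact hinv _ a.2 j hj.le _ hy
    · rw [← map_inv]; exact hinv _ (a⁻¹).2 j hj.le _ hy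
  let θ : A →* MulAut (M ⧸ N) :=
    { toFun := fun a => QuotientGroup.congr N N (res a) (hres a)
      map_one' := MulEquiv.ext fun q => by induction q using QuotientGroup.induction_on with | _ y => rfl
      map_mul' := fun a b => MulEquiv.ext fun q => by
        induction q using QuotientGroup.induction_on with | _ y => rfl }
  have hker : ∀ a : A, θ a = 1 → ∀ x ∈ M, x⁻¹ * (a : MulAut G) x ∈ D j := fun a ha x hx => by
    have h1 := DFunLike.congr_fun ha (QuotientGroup.mk ⟨x, hx⟩)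
    exact Subgroup.mem_subgroupOf.mp (QuotientGroup.eq.mp h1.symm)
  haveI := hQc
  let E := IsCyclic.mulAutMulEquiv (M ⧸ N)
  have hcomm : ∀ u v : MulAut (M ⧸ N), u * v = v * u := fun u v =>
    E.injective (by rw [map_mul, map_mul, mul_comm])
  obtain ⟨f, hf, hfc⟩ := (Nat.dvd_prime_pow (Fact.out : p.Prime)).mp
    (show Nat.card (M ⧸ N) ∣ p ^ e from he ▸ (Subgroup.card_quotient_dvd_card N).trans (Subgroup.card_subgroup_dvd_card M))
  have hpow : ∀ u : MulAut (M ⧸ N), u ^ (p ^ e * (p - 1)) = 1 := by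
    intro u
    apply E.injective
    rw [map_pow, map_one]
    refine orderOf_dvd_iff_pow_eq_one.mp ((orderOf_dvd_natCard (E u)).trans ?_)
    haveI : NeZero (Nat.card (M ⧸ N)) := ⟨Nat.card_pos.ne'⟩
    rw [Nat.card_eq_fintype_card, ZMod.card_units_eq_totient, hfc]
    rcases Nat.eq_zero_or_pos f with rfl | hf0
    · simp
    · rw [Nat.totient_prime_pow Fact.out hf0]
      exact mul_dvd_mul_right (pow_dvd_pow p (by omega)) _
  refine fun x hx => ⟨fun a b => hker _ ?_ x hx, fun a => hker _ (by rw [map_pow]; exact hpow _) x hx⟩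
  rw [map_commutatorElement, commutatorElement_eq_one_iff_mul_comm]
  exact hcomm _ _

theorem seriesStab_isPGroup (hG : IsPGroup p G) {A : Subgroup (MulAut G)} {D : ℕ → Subgroup G} {n : ℕ}
    {hinv : ∀ α ∈ A, ∀ j ≤ n, ∀ x ∈ D j, α x ∈ D j} (h0 : D 0 = ⊥) (hn : D n = ⊤)
    (hmono : ∀ j < n, D j ≤ D (j + 1)) : IsPGroup p (seriesStab A D n hinv) := fun a => by
  obtain ⟨k, hk⟩ := stabilizes_pow_eq_one hG ((a : A) : MulAut G) D n h0 hn hmono a.2
  exact ⟨k, Subtype.ext (Subtype.ext hk)⟩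

end Series

variable {Ω : Type*} [Group Ω] {S : Subgroup Ω}

/-- A chain of strongly closed subgroups with cyclic steps. -/
def HasCyclicChain (F : FusionSystem S) : Prop :=
  ∃ (m : ℕ) (c : Fin (m + 1) → Subgroup Ω), c 0 = ⊥ ∧ c (Fin.last m) = S ∧
    (∀ i : Fin (m + 1), F.StronglyClosed (c i)) ∧
    ∀ i : Fin m, c i.castSucc ≤ c i.succ ∧ ∃ x ∈ S, c i.succ = c i.castSucc ⊔ Subgroup.zpowers x

/-- In a supersoluble system the automizers have series with cyclic factors. -/
theorem HasCyclicChain.series [Finite S] {F : FusionSystem S} (h : HasCyclicChain F) {R : Subgroup Ω}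
    (hR : R ≤ S) : ∃ (n : ℕ) (D : ℕ → Subgroup R), D 0 = ⊥ ∧ D n = ⊤ ∧
      (∀ j < n, D j ≤ D (j + 1)) ∧ (∀ α ∈ F.autGroup R, ∀ j ≤ n, ∀ x ∈ D j, α x ∈ D j) ∧
      (∀ j, (D j).Normal) ∧ ∀ j < n, ∃ x ∈ D (j + 1), D (j + 1) ≤ D j ⊔ Subgroup.zpowers x := by
  obtain ⟨m, c, h0, hm, hsc, hstep⟩ := h
  have hnorm : ∀ i, ((c i).subgroupOf S).Normal := fun i => ⟨fun x hx g =>
    stronglyClosed_mem (hsc i) (Mor.conj (P := S) le_rfl g.2) x.2 hx⟩
  let D : ℕ → Subgroup R := fun j => (c ⟨min j m, by omega⟩).subgroupOf R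
  refine ⟨m, D, ?_, ?_, fun j hj => ?_, fun α hα j _ x hx => ?_, fun j => ⟨fun x hx g => ?_⟩, fun j hj => ?_⟩
  · simp [D, h0]
  · refine Subgroup.subgroupOf_eq_top.mpr (hR.trans ?_)
    rw [show (⟨min m m, _⟩ : Fin (m + 1)) = Fin.last m from Fin.ext (min_self m), hm]
  · refine Subgroup.comap_mono ?_
    convert (hstep ⟨j, hj⟩).1 using 2 <;> ext <;> simp <;> omega
  · obtain ⟨f, hf, e⟩ := (mem_autGroup_iff hR).mp hα
    refine Subgroup.mem_subgroupOf.mpr ?_
    rw [← e]
    exact stronglyClosed_mem (hsc _) hf.mor x.2 hx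
  · exact stronglyClosed_mem (hsc _) (Mor.conj (P := R) hR (hR g.2)) x.2 hx
  · set i : Fin m := ⟨j, hj⟩
    obtain ⟨-, x, hxS, hxe⟩ := hstep i
    haveI := hnorm i.castSucc
    have hM : ((c i.succ ⊓ R).subgroupOf S) ≤
        (c i.castSucc).subgroupOf S ⊔ Subgroup.zpowers (⟨x, hxS⟩ : S) := by
      rintro y ⟨hy, -⟩
      rw [SetLike.mem_coe] at hy
      rw [← Subgroup.mem_map_iff_mem S.subtype_injective, Subgroup.map_sup,
        Subgroup.map_subgroupOf_eq_of_le (hsc i.castSucc).1, MonoidHom.map_zpowers]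
      exact hxe ▸ hy
    obtain ⟨y, hy, hgen⟩ := exists_gen_inf hM
    have hy' : (y : Ω) ∈ c i.succ ∧ (y : Ω) ∈ R := hy
    have hD0 : D j = (c i.castSucc).subgroupOf R := by
      simp only [D]; congr 2; ext; simp [i]; omega
    have hD1 : D (j + 1) = (c i.succ).subgroupOf R := by
      simp only [D]; congr 2; ext; simp [i]; omega
    refine ⟨⟨y, hy'.2⟩, hD1 ▸ hy'.1, fun z hz => ?_⟩
    rw [hD1] at hz
    have h1 := hgen (show (⟨z, hR z.2⟩ : S) ∈ (c i.succ ⊓ R).subgroupOf S from ⟨hz, z.2⟩)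
    have hle : (c i.succ ⊓ R).subgroupOf S ⊓ (c i.castSucc).subgroupOf S ⊔ Subgroup.zpowers y ≤
        (D j ⊔ Subgroup.zpowers (⟨y, hy'.2⟩ : R)).map (Subgroup.inclusion hR) := by
      refine sup_le (fun w hw => ?_) (Subgroup.zpowers_le.mpr
        ⟨⟨y, hy'.2⟩, Subgroup.mem_sup_right (Subgroup.mem_zpowers _), rfl⟩)
      refine ⟨⟨w, hw.1.2⟩, Subgroup.mem_sup_left ?_, rfl⟩
      rw [hD0]
      exact hw.2
    obtain ⟨z', hz', hzz⟩ := hle h1
    rwa [Subgroup.inclusion_injective hR (hzz.trans rfl : Subgroup.inclusion hR z' = Subgroup.inclusion hR z)] at hz'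

/-- A subgroup of automorphisms of order prime to `p` stabilizing a series with cyclic factors is
abelian of exponent dividing `p - 1`. -/
theorem cyclicSeries_coprime {G : Type*} [Group G] [Finite G] (hG : IsPGroup p G) (H : Subgroup (MulAut G))
    (hc : (Nat.card H).Coprime p) (D : ℕ → Subgroup G) (n : ℕ) (h0 : D 0 = ⊥) (hn : D n = ⊤)
    (hmono : ∀ j < n, D j ≤ D (j + 1)) (hinv' : ∀ α ∈ H, ∀ j ≤ n, ∀ x ∈ D j, α x ∈ D j)
    (hnor : ∀ j, (D j).Normal) (hcyc : ∀ j < n, ∃ x ∈ D (j + 1), D (j + 1) ≤ D j ⊔ Subgroup.zpowers x) :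
    IsMulCommutative H ∧ ∀ a ∈ H, a ^ (p - 1) = 1 := by
  obtain ⟨e, he⟩ := IsPGroup.iff_card.mp hG
  haveI := finite_mulAut (G := G)
  obtain ⟨hcm, hpw⟩ := cyclicSeries_stab he H D n hinv' hnor hcyc
  have hst := seriesStab_isPGroup (hinv := hinv') hG h0 hn hmono
  have hone : ∀ a : H, a ∈ seriesStab H D n hinv' → a = 1 := fun a ha =>
    Core.ThompsonComplement.eq_one_of_mem hst ha (hc.coprime_dvd_left (orderOf_dvd_natCard a))
  refine ⟨⟨⟨fun a b => commutatorElement_eq_one_iff_mul_comm.mp (hone _ (hcm a b))⟩⟩, fun a ha => ?_⟩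
  have h1 := hone _ (hpw ⟨a, ha⟩)
  rw [mul_comm, pow_mul] at h1
  have h2 : ((⟨a, ha⟩ : H) ^ (p - 1)) = 1 := orderOf_eq_one_iff.mp (Nat.eq_one_of_dvd_coprimes
    ((hc.coprime_dvd_left (orderOf_dvd_natCard _)).pow_right e) dvd_rfl (orderOf_dvd_of_pow_eq_one h1))
  exact congrArg Subtype.val h2

/-- In a supersoluble system every subgroup of `p'`-automorphisms is abelian of exponent dividing `p - 1`. -/
theorem HasCyclicChain.aut_coprime [Finite S] (hS : IsPGroup p S) {F : FusionSystem S} (h : HasCyclicChain F)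
    {H : Subgroup (MulAut S)} (hH : H ≤ F.autGroup S) (hc : (Nat.card H).Coprime p) :
    IsMulCommutative H ∧ ∀ a ∈ H, a ^ (p - 1) = 1 := by
  obtain ⟨n, D, h0, hn, hmono, hinv, hnor, hcyc⟩ := h.series le_rfl
  exact cyclicSeries_coprime hS H hc D n h0 hn hmono (fun α hα => hinv α (hH hα)) hnor hcyc

/-- A supersoluble saturated system has the Sylow group normal. -/
theorem HasCyclicChain.isNormal_self [Finite S] (hS : IsPGroup p S) {F : FusionSystem S}
    (hF : F.IsSaturated p) (h : HasCyclicChain F) : F.IsNormal S := by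
  refine isNormal_self_of_no_essential hS hF fun P hP => ?_
  haveI := finite_of_le hP.1.1
  haveI := finite_mulAut (G := P)
  obtain ⟨n, D, h0, hn, hmono, hinv, hnor, hcyc⟩ := h.series hP.1.1
  obtain ⟨e, he⟩ := IsPGroup.iff_card.mp (hS.to_le hP.1.1)
  obtain ⟨hcm, -⟩ := cyclicSeries_stab he (F.autGroup P) D n hinv hnor hcyc
  set K := seriesStab (F.autGroup P) D n hinv
  haveI : K.Normal := seriesStab_normal _ _ _ hinv
  set AS := (autInducedBy S P).subgroupOf (F.autGroup P)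
  refine not_essential_of_normal_pGroup hS hF hP (K ⊔ AS) ⟨fun x hx g => ?_⟩
    ((seriesStab_isPGroup (hS.to_le hP.1.1) h0 hn hmono).to_sup_of_normal_left
      ((isPGroup_autInducedBy hS P).comap_subtype)) le_sup_right
  have h1 := mul_mem (Subgroup.mem_sup_left (T := AS) (hcm g x)) hx
  simpa [commutatorElement_def] using h1

/-- A resistant group with automorphisms of order prime to `p` abelian of exponent dividing `p - 1` has
only supersoluble systems. -/
theorem hasCyclicChain_of_normal [Finite S] (hS : IsPGroup p S) {F : FusionSystem S}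
    (hF : F.IsSaturated p) (hn : F.IsNormal S)
    (hH : ∀ H : Subgroup (MulAut S), (Nat.card H).Coprime p → IsMulCommutative H ∧ ∀ a ∈ H, a ^ (p - 1) = 1) :
    HasCyclicChain F := by
  haveI := finite_mulAut (G := S)
  set A := F.autGroup S
  -- a complement of the inner automorphisms
  haveI hInn : ((Inn S).subgroupOf A).Normal := inn_normal_autGroup F S
  have hidx : ¬ p ∣ ((Inn S).subgroupOf A).index := by
    have h1 := ((fullyAutomized_iff hS).mp (IsSaturated_fullyNormalized hS hF fullyNormalized_self).2.1).2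
    rwa [← inn_eq_autInducedBy] at h1
  have hIp : IsPGroup p (Inn S) := hS.of_surjective _ (MulAut.conj : S →* MulAut S).rangeRestrict_surjective
  obtain ⟨K, hK⟩ := Subgroup.exists_right_complement'_of_coprime (N := (Inn S).subgroupOf A) (by
    obtain ⟨k, hk⟩ := IsPGroup.iff_card.mp (hIp.comap_subtype (K := A))
    rw [show Nat.card ↥((Inn S).subgroupOf A) = p ^ k from hk]
    exact (((Fact.out : p.Prime).coprime_iff_not_dvd.mpr hidx)).pow_left k)
  set H := K.map A.subtype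
  have hHA : H ≤ A := Subgroup.map_subtype_le _
  have hHc : (Nat.card H).Coprime p := by
    rw [Subgroup.card_map_of_injective A.subtype_injective, ← hK.symm.index_eq_card]
    exact ((Fact.out : p.Prime).coprime_iff_not_dvd.mpr hidx).symm
  obtain ⟨hHab, hHe⟩ := hH H hHc
  have hAH : ∀ a ∈ A, a ∈ Inn S ⊔ H := fun a ha => by
    obtain ⟨i, hi, k, hk, e⟩ := Subgroup.mem_sup_of_normal_left.mp
      (hK.sup_eq_top.ge (Subgroup.mem_top (⟨a, ha⟩ : A)))
    rw [show a = (i : MulAut S) * k from (congrArg Subtype.val e).symm]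
    exact mul_mem (Subgroup.mem_sup_left hi) (Subgroup.mem_sup_right ⟨k, hk, rfl⟩)
  -- the semidirect product
  let G := S ⋊[H.subtype] H
  haveI : Finite G := Finite.of_equiv _ SemidirectProduct.equivProd.symm
  let ι : S →* G := SemidirectProduct.inl
  have hinl : ∀ (g : G) (x : S), g * ι x * g⁻¹ = ι (g.left * (g.right : MulAut S) x * g.left⁻¹) := by
    rintro ⟨l, r⟩ x
    show _ = ι (l * (r : MulAut S) x * l⁻¹)
    rw [show (⟨l, r⟩ : G) = SemidirectProduct.inl l * SemidirectProduct.inr r from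
      (SemidirectProduct.inl_left_mul_inr_right (⟨l, r⟩ : G)).symm, show ((r : MulAut S) x) = H.subtype r x from rfl]
    simp only [ι, map_mul, map_inv, mul_inv_rev]
    rw [SemidirectProduct.inl_aut, map_inv]
    group
  have step : ∀ C : Subgroup S, C.Normal → (∀ h ∈ H, ∀ x ∈ C, h x ∈ C) → C ≠ ⊤ →
      ∃ D : Subgroup S, D.Normal ∧ (∀ h ∈ H, ∀ x ∈ D, h x ∈ D) ∧ C < D ∧
        ∃ x ∈ D, D ≤ C ⊔ Subgroup.zpowers x := by
    intro C hC hCi hCt
    haveI hCg : (C.map ι).Normal := ⟨by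
      rintro _ ⟨x, hx, rfl⟩ g
      rw [hinl]
      exact ⟨_, hC.conj_mem _ (hCi _ g.right.2 x hx) _, rfl⟩⟩
    set π := QuotientGroup.mk' (C.map ι)
    have hπ : Function.Surjective π := QuotientGroup.mk'_surjective _
    haveI hrn : ι.range.Normal := ⟨by rintro _ ⟨x, rfl⟩ g; exact ⟨_, (hinl g x).symm⟩⟩
    haveI : (ι.range.map π).Normal := Subgroup.Normal.map hrn π hπ
    have hne : ι.range.map π ≠ ⊥ := fun e => hCt (eq_top_iff.mpr fun x _ => by
      rw [Subgroup.map_eq_bot_iff, QuotientGroup.ker_mk'] at e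
      obtain ⟨y, hy, hye⟩ := e ⟨x, rfl⟩
      rwa [← SemidirectProduct.inl_injective hye])
    obtain ⟨N, hN, hNle⟩ := Core.exists_isMinNormal_le (inferInstance : (ι.range.map π).Normal) hne
    haveI := hN.1
    haveI : IsCyclic N := LeadWork.isCyclic_of_isMinNormal hN
      (((hS.of_surjective _ ι.rangeRestrict_surjective).map π).to_le hNle) (fun y hy hyp => ?_)
    swap
    · have h1 : LeadWork.powComm p G ≤ (SemidirectProduct.rightHom : G →* H).ker := by
        rw [LeadWork.powComm, Subgroup.closure_le]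
        rintro _ (⟨ab, rfl⟩ | ⟨a, rfl⟩)
        · rw [SetLike.mem_coe, MonoidHom.mem_ker, map_commutatorElement, commutatorElement_eq_one_iff_mul_comm]
          exact mul_comm' _ _
        · rw [SetLike.mem_coe, MonoidHom.mem_ker, map_pow]
          exact Subtype.ext (hHe _ (SemidirectProduct.rightHom a).2)
      rw [← SemidirectProduct.range_inl_eq_ker_rightHom] at h1
      rw [← LeadWork.map_powComm_of_surjective p hπ] at hy
      have h2 : y = 1 := Core.ThompsonComplement.eq_one_of_mem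
        ((hS.of_surjective _ ι.rangeRestrict_surjective).map π) (Subgroup.map_mono h1 hy) hyp
      rw [h2]
      exact one_mem _
    obtain ⟨u, hu⟩ := LeadWork.eq_zpowers_of_isCyclic (W := N) inferInstance
    obtain ⟨w, ⟨x, rfl⟩, hxu⟩ := Subgroup.mem_map.mp (hNle (hu.ge (Subgroup.mem_zpowers u)))
    refine ⟨(N.comap π).comap ι, inferInstance, fun h hh d hd => ?_, lt_of_le_of_ne (fun d hd => ?_) fun e => ?_,
      x, ?_, fun d hd => ?_⟩
    · have h1 := (inferInstance : (N.comap π).Normal).conj_mem _ hd (SemidirectProduct.inr ⟨h, hh⟩)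
      rw [hinl] at h1
      simpa [Subgroup.mem_comap] using h1
    · show π (ι d) ∈ N
      rw [show π (ι d) = 1 from (QuotientGroup.eq_one_iff _).mpr ⟨d, hd, rfl⟩]
      exact one_mem N
    · refine hN.2.1 (le_bot_iff.mp fun z hz => ?_)
      obtain ⟨w, ⟨d, rfl⟩, rfl⟩ := hNle hz
      have hd : d ∈ C := e ▸ (hz : d ∈ (N.comap π).comap ι)
      exact Subgroup.mem_bot.mpr ((QuotientGroup.eq_one_iff _).mpr ⟨d, hd, rfl⟩)
    · show π (ι x) ∈ N
      rw [hxu, hu]
      exact Subgroup.mem_zpowers u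
    · obtain ⟨k, hk⟩ := Subgroup.mem_zpowers_iff.mp (hu.le (hd : π (ι d) ∈ N))
      rw [← hxu, ← map_zpow, ← map_zpow] at hk
      obtain ⟨z, hz, hze⟩ := QuotientGroup.eq.mp hk
      rw [← map_inv, ← map_mul] at hze
      have h3 := SemidirectProduct.inl_injective hze
      have h4 := mul_mem (Subgroup.mem_sup_right (S := C) (zpow_mem (Subgroup.mem_zpowers x) k))
        (Subgroup.mem_sup_left (T := Subgroup.zpowers x) hz)
      rwa [h3, mul_inv_cancel_left] at h4
  have hsc : ∀ C : Subgroup S, C.Normal → (∀ h ∈ H, ∀ x ∈ C, h x ∈ C) →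
      F.StronglyClosed (C.map S.subtype) := by
    intro C hC hCi
    refine stronglyClosed_of_mor (Subgroup.map_subtype_le _) fun P f hf x hxP hx => ?_
    obtain ⟨y, hy, rfl⟩ := hx
    obtain ⟨g, hg, eg, mg⟩ := ExtStab.of_isNormal hn hf
    haveI := finite_of_le hf.dom_le
    have hgS : Iso F g S S := (hg.restrict le_sup_right).iso_of_card mg le_rfl
    obtain ⟨i, ⟨r, rfl⟩, k, hk, hik⟩ := Subgroup.mem_sup_of_normal_left.mp
      (hAH _ hgS.equiv_mem_autGroup)
    refine ⟨r * k y * r⁻¹, hC.conj_mem _ (hCi k hk y hy) r, ?_⟩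
    have h1 : ((hgS.equiv y : S) : Ω) = f y := (hgS.equiv_apply y).trans (eg _ hxP)
    show ((r * k y * r⁻¹ : S) : Ω) = f (y : Ω)
    rw [← h1, ← hik]
    rfl
  have chain : ∀ (k : ℕ) (C : Subgroup S), Nat.card S - Nat.card C = k → C.Normal →
      (∀ h ∈ H, ∀ x ∈ C, h x ∈ C) → ∃ (m : ℕ) (c : Fin (m + 1) → Subgroup Ω),
        c 0 = C.map S.subtype ∧ c (Fin.last m) = S ∧ (∀ i, F.StronglyClosed (c i)) ∧
        ∀ i : Fin m, c i.castSucc ≤ c i.succ ∧ ∃ x ∈ S, c i.succ = c i.castSucc ⊔ Subgroup.zpowers x := by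
    intro k
    induction k using Nat.strong_induction_on with
    | _ k IH =>
    intro C hk hC hCi
    by_cases hCt : C = ⊤
    · subst hCt
      exact ⟨0, fun _ => (⊤ : Subgroup S).map S.subtype, rfl,
        by rw [← MonoidHom.range_eq_map, Subgroup.range_subtype], fun _ => hsc _ hC hCi, fun i => i.elim0⟩
    obtain ⟨D, hD, hDi, hlt, x, hxD, hDle⟩ := step C hC hCi hCt
    have h1 : Nat.card C < Nat.card D := card_lt_of_lt hlt
    have h2 : Nat.card D ≤ Nat.card S := Subgroup.card_le_card_group D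
    obtain ⟨m, c, c0, cm, csc, cstep⟩ := IH _ (by omega) D rfl hD hDi
    refine ⟨m + 1, Fin.cons (C.map S.subtype) c, rfl, by rw [← Fin.succ_last, Fin.cons_succ, cm],
      Fin.cases (hsc C hC hCi) (fun i => by simpa using csc i), Fin.cases ?_ fun i => ?_⟩
    · simp only [Fin.castSucc_zero, Fin.cons_zero, Fin.cons_succ, c0]
      refine ⟨Subgroup.map_mono hlt.le, x, x.2, ?_⟩
      rw [show Subgroup.zpowers (x : Ω) = (Subgroup.zpowers x).map S.subtype from
        (MonoidHom.map_zpowers S.subtype x).symm, ← Subgroup.map_sup,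
        le_antisymm hDle (sup_le hlt.le (Subgroup.zpowers_le.mpr hxD))]
    · simpa [← Fin.succ_castSucc] using cstep i
  obtain ⟨m, c, c0, cm, csc, cstep⟩ := chain _ ⊥ rfl inferInstance
    (fun h _ x hx => by rw [Subgroup.mem_bot] at hx; subst hx; exact (map_one h).symm ▸ one_mem _)
  exact ⟨m, c, c0.trans (Subgroup.map_bot _), cm, csc, cstep⟩

end Cfsg.Agent.Fusion
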