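/-
Saturated systems over a group with a unique abelian subgroup of index `p`: the essential subgroups.
-/
import Cfsg.Agent.Fusion.SmallCenterIndex
import Cfsg.Agent.Fusion.EssentialShape
import Cfsg.Agent.Fusion.Alperin
import Cfsg.Agent.Fusion.Group
set_option autoImplicit false

namespace Cfsg.Agent.Fusion.UniqAb

open Cfsg Cfsg.FusionSystem Cfsg.Agent.Fusion.CenterSq Cfsg.Agent.Fusion.EssShape
open scoped commutatorElement

variable {Ω : Type*} [Group Ω] {S A : Subgroup Ω} {F : FusionSystem S} {p : ℕ} [hp : Fact p.Prime]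

/-- The hypotheses on `S` and `A`. -/
structure UA (p : ℕ) (S A : Subgroup Ω) : Prop where
  le : A ≤ S
  ab : ∀ u ∈ A, ∀ v ∈ A, u * v = v * u
  idx : Nat.card S = p * Nat.card A
  uniq : ∀ B : Subgroup Ω, B ≤ S → (∀ u ∈ B, ∀ v ∈ B, u * v = v * u) → Nat.card S = p * Nat.card B → B = A
  nab : ∃ u ∈ S, ∃ v ∈ S, u * v ≠ v * u
  pg : IsPGroup p S

/-- `[a, x]`. -/
def dl (x a : Ω) : Ω := a * cj x a⁻¹

omit hp in
theorem dl_eq (x a : Ω) : dl x a = a * x * a⁻¹ * x⁻¹ := by simp [dl, cj, mul_assoc]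

variable (h : UA p S A)
include h

theorem UA.finiteA [Finite S] : Finite A := finite_of_le h.le

theorem UA.eq_or_eq [Finite S] {X : Subgroup Ω} (hAX : A ≤ X) (hXS : X ≤ S) : X = A ∨ X = S := by
  haveI := finite_of_le hXS
  haveI := h.finiteA
  rcases eq_or_lt_of_le hAX with e | hlt
  · exact Or.inl e.symm
  right
  refine eq_of_le_of_card hXS ?_
  have h1 := card_lt_of_lt hlt
  obtain ⟨i, hi⟩ := IsPGroup.iff_card.mp (h.pg.to_le hXS)
  obtain ⟨j, hj⟩ := IsPGroup.iff_card.mp (h.pg.to_le h.le)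
  rw [hi, hj, Nat.pow_lt_pow_iff_right hp.out.one_lt] at h1
  rw [h.idx, hi, hj, ← pow_succ']
  exact Nat.pow_le_pow_right hp.out.pos h1

theorem UA.normal [Finite S] {s a : Ω} (hs : s ∈ S) (ha : a ∈ A) : cj s a ∈ A := by
  haveI := h.finiteA
  have hlt : A < S := lt_of_le_of_ne h.le fun e => by
    have h1 := h.idx
    rw [← e] at h1
    have := hp.out.two_le
    have h2 : 0 < Nat.card A := Nat.card_pos
    nlinarith
  rcases h.eq_or_eq (X := normalizerIn S A) (le_normalizerIn h.le) normalizerIn_le with e | e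
  · exact absurd e (lt_normalizerIn h.pg hlt).ne'
  · exact (cj_mem_iff ((e.symm ▸ hs : s ∈ normalizerIn S A)).2 a).mpr ha

theorem UA.decomp [Finite S] {x : Ω} (hx : x ∈ S) (hxA : x ∉ A) {g : Ω} (hg : g ∈ S) :
    ∃ a ∈ A, ∃ i : ℕ, g = a * x ^ i := by
  have hle : A ⊔ Subgroup.zpowers x ≤ S := sup_le h.le (Subgroup.zpowers_le.mpr hx)
  have htop : A ⊔ Subgroup.zpowers x = S := (h.eq_or_eq le_sup_left hle).resolve_left fun e =>
    hxA (e ▸ Subgroup.mem_sup_right (Subgroup.mem_zpowers x))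
  have hn : Subgroup.zpowers x ≤ Subgroup.normalizer (A : Set Ω) := Subgroup.zpowers_le.mpr
    (Subgroup.mem_normalizer_iff.mpr fun a => ⟨fun ha => h.normal hx ha, fun ha => by
      have := h.normal (S.inv_mem hx) ha
      simpa [cj, mul_assoc] using this⟩)
  have hg' : g ∈ ((A ⊔ Subgroup.zpowers x : Subgroup Ω) : Set Ω) := by rw [htop]; exact hg
  rw [Subgroup.coe_mul_of_right_le_normalizer_left A _ hn] at hg'
  obtain ⟨a, ha, w, hw, rfl⟩ := hg'
  obtain ⟨i, hi⟩ := Subgroup.mem_zpowers_iff.mp hw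
  obtain ⟨j, hj⟩ := (mem_powers_iff_mem_zpowers (x := (⟨x, hx⟩ : S))).mpr (Subgroup.mem_zpowers_iff.mpr ⟨i, rfl⟩)
  have hj' : x ^ j = x ^ i := by simpa using congrArg Subtype.val hj
  exact ⟨a, ha, j, by show a * w = a * x ^ j; rw [hj', hi]⟩

theorem UA.zS_le [Finite S] : zS S ≤ A := by
  intro z hz
  by_contra hzA
  obtain ⟨u, hu, v, hv, huv⟩ := h.nab
  obtain ⟨a, ha, i, rfl⟩ := h.decomp hz.1 hzA hu
  obtain ⟨b, hb, j, rfl⟩ := h.decomp hz.1 hzA hv
  have hc : ∀ g ∈ S, Commute g z := fun g hg => hz.2 g hg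
  refine huv ?_
  exact ((((show Commute a b from h.ab a ha b hb)).mul_right ((hc a (h.le ha)).pow_right j)).mul_left
    (((hc b (h.le hb)).pow_right i).symm.mul_right ((Commute.refl z).pow_pow i j))).eq

theorem UA.mem_zS_of_comm [Finite S] {x a : Ω} (hx : x ∈ S) (hxA : x ∉ A) (ha : a ∈ A)
    (hc : Commute a x) : a ∈ zS S := by
  refine ⟨h.le ha, fun g hg => ?_⟩
  obtain ⟨b, hb, i, rfl⟩ := h.decomp hx hxA hg
  exact ((show Commute b a from h.ab b hb a ha).mul_left (hc.symm.pow_left i)).eq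

theorem UA.dl_mem [Finite S] {x a : Ω} (hx : x ∈ S) (ha : a ∈ A) : dl x a ∈ A :=
  A.mul_mem ha (h.normal hx (A.inv_mem ha))

theorem UA.dl_eq_one [Finite S] {x a : Ω} (hx : x ∈ S) (hxA : x ∉ A) (ha : a ∈ A) :
    dl x a = 1 ↔ a ∈ zS S := by
  rw [dl_eq, mul_inv_eq_one, mul_inv_eq_iff_eq_mul]
  refine ⟨fun e => h.mem_zS_of_comm hx hxA ha e, fun hz => (hz.2 x hx).symm⟩

theorem UA.dl_mul [Finite S] {x a b : Ω} (hx : x ∈ S) (ha : a ∈ A) (hb : b ∈ A) :
    dl x (a * b) = dl x a * dl x b := by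
  unfold dl
  rw [mul_inv_rev, cj_map_mul]
  calc a * b * (cj x b⁻¹ * cj x a⁻¹) = a * ((b * cj x b⁻¹) * cj x a⁻¹) := by group
    _ = a * (cj x a⁻¹ * (b * cj x b⁻¹)) := by
      rw [h.ab _ (A.mul_mem hb (h.normal hx (A.inv_mem hb))) _ (h.normal hx (A.inv_mem ha))]
    _ = _ := by group

/-- `a ↦ [a, x]` on `A`. -/
def UA.dHom [Finite S] {x : Ω} (hx : x ∈ S) : A →* Ω :=
  MonoidHom.mk' (fun a => dl x a) fun a b => h.dl_mul hx a.2 b.2

/-- The image `[B, x]`. -/
def UA.dimg [Finite S] {x : Ω} (hx : x ∈ S) (B : Subgroup Ω) : Subgroup Ω :=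
  (B.subgroupOf A).map (h.dHom hx)

theorem UA.mem_dimg [Finite S] {x : Ω} (hx : x ∈ S) {B : Subgroup Ω} (hB : B ≤ A) {u : Ω} :
    u ∈ h.dimg hx B ↔ ∃ b ∈ B, dl x b = u :=
  ⟨fun ⟨b, hb, e⟩ => ⟨b, hb, e⟩, fun ⟨b, hb, e⟩ => ⟨⟨b, hB hb⟩, hb, e⟩⟩

theorem UA.dimg_le [Finite S] {x : Ω} (hx : x ∈ S) (B : Subgroup Ω) : h.dimg hx B ≤ A := by
  rintro _ ⟨b, -, rfl⟩
  exact h.dl_mem hx b.2

theorem UA.card_dimg [Finite S] {x : Ω} (hx : x ∈ S) (hxA : x ∉ A) {B : Subgroup Ω} (hB : B ≤ A) :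
    Nat.card (h.dimg hx B) * Nat.card (B ⊓ zS S : Subgroup Ω) = Nat.card B := by
  let f : B →* Ω := MonoidHom.mk' (fun b => dl x b) fun a b => h.dl_mul hx (hB a.2) (hB b.2)
  have hr : f.range = h.dimg hx B := by
    ext u
    exact ⟨fun ⟨b, e⟩ => (h.mem_dimg hx hB).mpr ⟨b, b.2, e⟩, fun hu => by
      obtain ⟨b, hb, e⟩ := (h.mem_dimg hx hB).mp hu
      exact ⟨⟨b, hb⟩, e⟩⟩
  have hk : f.ker = (B ⊓ zS S).subgroupOf B := by
    ext b
    show dl x b = 1 ↔ _
    rw [h.dl_eq_one hx hxA (hB b.2), Subgroup.mem_subgroupOf]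
    exact ⟨fun hz => ⟨b.2, hz⟩, fun hz => hz.2⟩
  have h1 := f.ker.card_mul_index
  rw [Subgroup.index_ker, hr, hk, Nat.card_congr (Subgroup.subgroupOfEquivOfLe inf_le_left).toEquiv] at h1
  rw [mul_comm]; exact h1

theorem UA.dl_pow_mem [Finite S] {x a : Ω} (hx : x ∈ S) (ha : a ∈ A) (i : ℕ) :
    dl (x ^ i) a ∈ h.dimg hx A := by
  induction i generalizing a with
  | zero => rw [pow_zero, show dl 1 a = 1 by simp [dl]]; exact one_mem _
  | succ i ih =>
    have e : dl (x ^ (i + 1)) a = dl x a * dl (x ^ i) (cj x a) := by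
      rw [pow_succ]
      simp only [dl, cj_apply]
      group
    rw [e]
    exact mul_mem ((h.mem_dimg hx le_rfl).mpr ⟨a, ha, rfl⟩) (ih (h.normal hx ha))

/-- `[A, x]` contains every commutator. -/
theorem UA.comm_mem [Finite S] {x u v : Ω} (hx : x ∈ S) (hxA : x ∉ A) (hu : u ∈ S) (hv : v ∈ S) :
    u * v * u⁻¹ * v⁻¹ ∈ h.dimg hx A := by
  obtain ⟨a, ha, i, rfl⟩ := h.decomp hx hxA hu
  obtain ⟨b, hb, j, rfl⟩ := h.decomp hx hxA hv
  have hxi : cj (x ^ i) b ∈ A := h.normal (S.pow_mem hx i) hb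
  have hxj : cj (x ^ j) a⁻¹ ∈ A := h.normal (S.pow_mem hx j) (A.inv_mem ha)
  have e : a * x ^ i * (b * x ^ j) * (a * x ^ i)⁻¹ * (b * x ^ j)⁻¹ =
      (a * cj (x ^ j) a⁻¹) * (b * cj (x ^ i) b⁻¹)⁻¹ := by
    calc a * x ^ i * (b * x ^ j) * (a * x ^ i)⁻¹ * (b * x ^ j)⁻¹
        = a * cj (x ^ i) b * (x ^ i * x ^ j * (x ^ i)⁻¹) * a⁻¹ * (x ^ j)⁻¹ * b⁻¹ := by simp only [cj_apply]; group
      _ = a * cj (x ^ i) b * cj (x ^ j) a⁻¹ * b⁻¹ := by
        rw [((Commute.refl x).pow_pow i j).eq, mul_inv_cancel_right]; simp only [cj_apply]; group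
      _ = a * (cj (x ^ j) a⁻¹ * cj (x ^ i) b) * b⁻¹ := by rw [h.ab _ hxj _ hxi]; group
      _ = _ := by simp only [cj_apply]; group
  rw [e]
  exact mul_mem (h.dl_pow_mem hx ha j) (inv_mem (h.dl_pow_mem hx hb i))

theorem UA.commutator_eq [Finite S] {x : Ω} (hx : x ∈ S) (hxA : x ∉ A) :
    (commutator S).map S.subtype = h.dimg hx A := by
  refine le_antisymm ?_ fun u hu => ?_
  · rw [Subgroup.map_le_iff_le_comap, commutator_def, Subgroup.commutator_le]
    intro u _ v _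
    show ((⁅u, v⁆ : S) : Ω) ∈ h.dimg hx A
    simpa [commutatorElement_def] using h.comm_mem hx hxA u.2 v.2
  · obtain ⟨a, ha, rfl⟩ := (h.mem_dimg hx le_rfl).mp hu
    refine ⟨⁅(⟨a, h.le ha⟩ : S), (⟨x, hx⟩ : S)⁆, ?_, ?_⟩
    · rw [commutator_def]
      exact Subgroup.commutator_mem_commutator (Subgroup.mem_top _) (Subgroup.mem_top _)
    · simp [commutatorElement_def, dl_eq]

/-- An essential subgroup other than `A` is not in `A`. -/
theorem UA.not_le [Finite S] (hF : F.IsSaturated p) {P : Subgroup Ω} (hP : F.IsEssential p P)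
    (hPA : P ≠ A) : ¬ P ≤ A := fun hle => hPA (le_antisymm hle fun a ha =>
  hP.1.2 P (isConj_refl hP.1.1) ⟨h.le ha, fun y hy => h.ab y (hle hy) a ha⟩)

/-- The shape of an essential subgroup other than `A`. -/
structure Shape (F : FusionSystem S) (p : ℕ) (A P : Subgroup Ω) (x : Ω) : Prop where
  ess : F.IsEssential p P
  xP : x ∈ P
  xA : x ∉ A

theorem UA.exists_shape [Finite S] (hF : F.IsSaturated p) {P : Subgroup Ω} (hP : F.IsEssential p P)
    (hPA : P ≠ A) : ∃ x, Shape F p A P x := by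
  obtain ⟨x, hx, hxA⟩ := SetLike.not_le_iff_exists.mp (h.not_le hF hP hPA)
  exact ⟨x, hP, hx, hxA⟩

variable {P : Subgroup Ω} {x : Ω} (hs : Shape F p A P x)
include hs

theorem UA.xS : x ∈ S := hs.ess.1.1 hs.xP

theorem UA.zS_le_P [Finite S] : zS S ≤ P := fun z hz =>
  hs.ess.1.2 P (isConj_refl hs.ess.1.1) ⟨hz.1, fun u hu => hz.2 u (hs.ess.1.1 hu)⟩

theorem UA.P_decomp [Finite S] {w : Ω} (hw : w ∈ P) : ∃ b ∈ P ⊓ A, ∃ i : ℕ, w = b * x ^ i := by
  obtain ⟨a, ha, i, e⟩ := h.decomp (h.xS hs) hs.xA (hs.ess.1.1 hw)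
  refine ⟨a, ⟨?_, ha⟩, i, e⟩
  have := P.mul_mem hw (P.inv_mem (P.pow_mem hs.xP i))
  rwa [e, mul_inv_cancel_right] at this

/-- An element of `A` normalizes `P` exactly when its commutator with `x` lies in `P`. -/
theorem UA.mem_normalizer_iff [Finite S] {a : Ω} (ha : a ∈ A) :
    a ∈ normalizerIn S P ↔ dl x a ∈ P := by
  have hx := h.xS hs
  constructor
  · intro hn
    rw [dl_eq]
    exact P.mul_mem ((cj_mem_iff hn.2 x).mpr hs.xP) (P.inv_mem hs.xP)
  · intro hd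
    refine ⟨h.le ha, ?_⟩
    haveI := finite_of_le hs.ess.1.1
    refine Subgroup.mem_normalizer_fintype fun w hw => ?_
    obtain ⟨b, hb, i, rfl⟩ := h.P_decomp hs hw
    have e : a * (b * x ^ i) * a⁻¹ = b * (cj a x) ^ i := by
      calc a * (b * x ^ i) * a⁻¹ = (a * b) * x ^ i * a⁻¹ := by group
        _ = b * (a * x ^ i * a⁻¹) := by rw [h.ab a ha b hb.2]; group
        _ = _ := by rw [cj_apply, conj_pow]
    rw [e]
    refine P.mul_mem hb.1 (P.pow_mem ?_ i)
    have := P.mul_mem hd hs.xP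
    rwa [dl_eq, inv_mul_cancel_right] at this

/-- An element of `A` normalizing `P` and outside `P`. -/
theorem UA.exists_outer_A [Finite S] (hF : F.IsSaturated p) :
    ∃ a ∈ A, a ∉ P ∧ a ∈ normalizerIn S P := by
  obtain ⟨g, hg, hgP⟩ := exists_outer h.pg hF hs.ess
  obtain ⟨a, ha, i, rfl⟩ := h.decomp (h.xS hs) hs.xA hg.1
  refine ⟨a, ha, fun e => hgP (P.mul_mem e (P.pow_mem hs.xP i)), ?_⟩
  have := (normalizerIn S P).mul_mem hg ((normalizerIn S P).inv_mem (le_normalizerIn hs.ess.1.1 (P.pow_mem hs.xP i)))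
  rwa [mul_inv_cancel_right] at this

omit hs in
theorem UA.conj_val [Finite S] {a w : Ω} (ha : a ∈ A) (hw : w ∈ A) : cj a w = w := by
  rw [cj_apply, h.ab a ha w hw, mul_inv_cancel_right]

/-- The index of `P` in its normalizer, once the elements of `A` normalizing `P` form a cyclic extension. -/
theorem UA.index_of_cover [Finite S] (hF : F.IsSaturated p) {a : Ω} (ha : a ∈ A) (han : a ∈ normalizerIn S P)
    (hap : a ^ p ∈ P) (hcov : ∀ a' ∈ A, a' ∈ normalizerIn S P → ∃ i : ℕ, a' * (a ^ i)⁻¹ ∈ P) :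
    (P.subgroupOf (S ⊓ Subgroup.normalizer (P : Set Ω))).index = p := by
  set N := S ⊓ Subgroup.normalizer (P : Set Ω) with hN
  haveI : Finite N := finite_of_le inf_le_left
  have hlt : P < N := lt_normalizerIn h.pg (essential_lt h.pg hF hs.ess)
  have hPn : (P.subgroupOf N).Normal :=
    Subgroup.normal_subgroupOf_of_le_normalizer inf_le_right
  have hle : (P.subgroupOf N).index ≤ p := by
    let f : Fin p → N ⧸ P.subgroupOf N := fun i => QuotientGroup.mk' _ (⟨a, han⟩ ^ (i : ℕ))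
    have hf : Function.Surjective f := by
      intro q
      obtain ⟨g, rfl⟩ := QuotientGroup.mk'_surjective _ q
      obtain ⟨a', ha', j, e⟩ := h.decomp (h.xS hs) hs.xA g.2.1
      have ha'n : a' ∈ normalizerIn S P := by
        have := N.mul_mem g.2 (N.inv_mem (le_normalizerIn hs.ess.1.1 (P.pow_mem hs.xP j)))
        rwa [e, mul_inv_cancel_right] at this
      obtain ⟨i, hi⟩ := hcov a' ha' ha'n
      refine ⟨⟨i % p, Nat.mod_lt _ hp.out.pos⟩, QuotientGroup.eq.mpr ?_⟩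
      show ((⟨a, han⟩ : N) ^ (i % p))⁻¹ * g ∈ P.subgroupOf N
      rw [Subgroup.mem_subgroupOf, Subgroup.coe_mul, Subgroup.coe_inv, SubmonoidClass.coe_pow, e]
      have hsplit : a ^ i = a ^ (i % p) * (a ^ p) ^ (i / p) := by
        rw [← pow_mul, ← pow_add, Nat.mod_add_div]
      have hconj : (a ^ (i % p))⁻¹ * a' ∈ P := by
        have h1 : (a ^ (i % p))⁻¹ * a' = (a ^ p) ^ (i / p) * (a' * (a ^ i)⁻¹) := by
          rw [h.ab a' ha' ((a ^ i)⁻¹) (A.inv_mem (A.pow_mem ha i)), hsplit]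
          group
        rw [h1]
        exact P.mul_mem (P.pow_mem hap _) hi
      show (a ^ (i % p))⁻¹ * (a' * x ^ j) ∈ P
      rw [← mul_assoc]
      exact P.mul_mem hconj (P.pow_mem hs.xP j)
    rw [Subgroup.index_eq_card]
    exact (Nat.card_le_card_of_surjective f hf).trans_eq (Nat.card_fin p)
  obtain ⟨k, hk⟩ := (h.pg.to_le (inf_le_left : N ≤ S)).index (P.subgroupOf N)
  rw [hk] at hle ⊢
  rcases Nat.eq_zero_or_pos k with hk0 | hk0
  · subst hk0
    rw [pow_zero, Subgroup.index_eq_one, Subgroup.subgroupOf_eq_top] at hk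
    exact absurd (le_antisymm hlt.le hk) hlt.ne
  · have : k ≤ 1 := (Nat.pow_le_pow_iff_right hp.out.one_lt).mp (by rwa [pow_one])
    rw [show k = 1 by omega, pow_one]

/-- Case of an abelian essential subgroup: the conjugates of the centre meet `[A, x]` trivially. -/
theorem UA.transverse [Finite S] (hF : F.IsSaturated p) (hB : P ⊓ A = zS S) {g : MulAut P}
    (hg : g ∈ F.autGroup P) {z₀ : P} (hz₀ : (z₀ : Ω) ∈ zS S) (hmove : ((g z₀ : P) : Ω) ∉ zS S)
    {w : P} (hwZ : (w : Ω) ∈ zS S) (hwg : ((g⁻¹ w : P) : Ω) ∈ zS S) {a : Ω} (ha : a ∈ A)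
    (hw : dl x a = w) : w = 1 := by
  haveI := finite_of_le hs.ess.1.1
  haveI := finite_mulAut (G := P)
  have hxS := h.xS hs
  have han : a ∈ normalizerIn S P := (h.mem_normalizer_iff hs ha).mpr (hw ▸ w.2)
  let K := autInducedBy S P
  let t : MulAut P := actHom S P ⟨a, han⟩
  have htfix : ∀ v : P, (v : Ω) ∈ zS S → t v = v := fun v hv => Subtype.ext (h.conj_val ha (h.zS_le hv))
  have hKfix : ∀ k ∈ K, ∀ v : P, (v : Ω) ∈ zS S → k v = v := by
    intro k hk v hv
    obtain ⟨s, hs', -, es⟩ := mem_autInducedBy.mp hk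
    exact Subtype.ext ((es v).trans (mul_inv_eq_iff_eq_mul.mpr (hv.2 s hs')))
  have htx : t ⟨x, hs.xP⟩ = w * ⟨x, hs.xP⟩ := Subtype.ext (by
    rw [actHom_apply]
    show cj a x = (w : Ω) * x
    rw [← hw, dl_eq, inv_mul_cancel_right, cj_apply])
  have hPab : ∀ u v : P, u * v = v * u := by
    intro u v
    obtain ⟨b, hb, i, eu⟩ := h.P_decomp hs u.2
    obtain ⟨c, hc, j, ev⟩ := h.P_decomp hs v.2
    rw [hB] at hb hc
    refine Subtype.ext ?_
    show (u : Ω) * v = v * u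
    rw [eu, ev]
    exact (((show Commute b c from (hb.2 c hc.1).symm).mul_right
      ((show Commute b x from (hb.2 x hxS).symm).pow_right j)).mul_left
      (((show Commute x c from hc.2 x hxS).pow_left i).mul_right ((Commute.refl x).pow_pow i j))).eq
  -- a common series
  let Zp : Subgroup P := (zS S).subgroupOf P
  let D : ℕ → Subgroup P := fun i => if i = 0 then ⊥ else if i = 1 then Zp ⊓ Zp.map g.toMonoidHom
    else if i = 2 then Zp.map g.toMonoidHom else ⊤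
  have hwD : w ∈ D 1 := ⟨hwZ, g⁻¹ w, hwg, MulAut.apply_inv_self _ g w⟩
  have htstep : ∀ v : P, v⁻¹ * t v ∈ D 1 := by
    intro v
    obtain ⟨b, hb, i, ev⟩ := h.P_decomp hs v.2
    rw [hB] at hb
    have e : v = ⟨b, h.zS_le_P hs hb⟩ * ⟨x, hs.xP⟩ ^ i := Subtype.ext (by simpa using ev)
    rw [e, map_mul, map_pow, htfix _ hb, htx, (show Commute w ⟨x, hs.xP⟩ from hPab _ _).mul_pow,
      hPab (w ^ i), mul_inv_rev, mul_assoc, inv_mul_cancel_left, inv_mul_cancel_left]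
    exact pow_mem hwD i
  have hgx : ∃ v : P, (v : Ω) ∈ zS S ∧ ((g v : P) : Ω) ∉ zS S := ⟨z₀, hz₀, hmove⟩
  have hKstep : ∀ k ∈ K, ∀ v : P, v⁻¹ * k v ∈ Zp := by
    intro k hk v
    obtain ⟨s, hs', hsn, es⟩ := mem_autInducedBy.mp hk
    show ((v⁻¹ * k v : P) : Ω) ∈ zS S
    rw [← hB, Subgroup.coe_mul, Subgroup.coe_inv, es]
    refine ⟨P.mul_mem (P.inv_mem v.2) ((cj_mem_iff hsn _).mpr v.2), ?_⟩
    have h1 := h.comm_mem hxS hs.xA (S.inv_mem (hs.ess.1.1 v.2)) hs'
    rw [inv_inv] at h1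
    have := h.dimg_le hxS A h1
    simpa [cj, mul_assoc] using this
  have hp2 : IsPGroup p (Subgroup.closure (insert t ((MulAut.conj g) '' (K : Set (MulAut P))))) := by
    refine CenterSq.closure_pGroup (h.pg.to_le hs.ess.1.1) _ D 3 rfl rfl (fun i hi => by
      interval_cases i
      · exact bot_le
      · exact inf_le_right
      · exact le_top) ?_
    intro r hr i hi m hm
    rcases hr with rfl | ⟨k, hk, rfl⟩
    · interval_cases i
      · show _ ∈ (⊥ : Subgroup P)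
        rw [htfix m hm.1, inv_mul_cancel]; exact one_mem _
      · exact htstep m
      · exact (inf_le_right : D 1 ≤ Zp.map g.toMonoidHom) (htstep m)
    · have e : (MulAut.conj g) k m = g (k (g⁻¹ m)) := rfl
      have hfix : ∀ m ∈ Zp.map g.toMonoidHom, (MulAut.conj g) k m = m := by
        rintro _ ⟨v, hv, rfl⟩
        show g (k (g⁻¹ (g v))) = g v
        rw [MulAut.inv_apply_self, hKfix k hk v hv]
      interval_cases i
      · show _ ∈ (⊥ : Subgroup P)
        rw [hfix m hm.2, inv_mul_cancel]; exact one_mem _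
      · rw [hfix m hm, inv_mul_cancel]; exact one_mem _
      · refine ⟨(g⁻¹ m)⁻¹ * k (g⁻¹ m), hKstep k hk _, ?_⟩
        show g _ = _
        rw [map_mul, map_inv, MulAut.apply_inv_self, e]
  have htF : t ∈ F.autGroup P := autInducedBy_le_autGroup hs.ess.1.1 ((range_actHom S P).le ⟨_, rfl⟩)
  have hsub : Subgroup.closure (insert t ((MulAut.conj g) '' (K : Set (MulAut P)))) ≤ F.autGroup P := by
    refine (Subgroup.closure_le _).mpr ?_
    rintro r (rfl | ⟨k, hk, rfl⟩)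
    exacts [htF, mul_mem (mul_mem hg (autInducedBy_le_autGroup hs.ess.1.1 hk)) (inv_mem hg)]
  obtain ⟨-, ⟨-, U, hU⟩, -⟩ := IsSaturated_fullyNormalized h.pg hF hs.ess.2.1
  let gU : Sylow p (F.autGroup P) := (⟨g, hg⟩ : F.autGroup P) • U
  have hgU : (gU : Subgroup (F.autGroup P)) ≤
      (Subgroup.closure (insert t ((MulAut.conj g) '' (K : Set (MulAut P))))).subgroupOf (F.autGroup P) := by
    intro r hr
    rw [Sylow.coe_subgroup_smul] at hr
    obtain ⟨u, hu, rfl⟩ := hr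
    refine Subgroup.subset_closure (Set.mem_insert_of_mem _ ⟨(u : MulAut P), ?_, rfl⟩)
    exact (show u ∈ (autInducedBy S P).subgroupOf (F.autGroup P) from hU ▸ hu)
  have ht : (⟨t, htF⟩ : F.autGroup P) ∈ (gU : Subgroup (F.autGroup P)) :=
    (gU.3 hp2.comap_subtype hgU).le (Subgroup.subset_closure (Set.mem_insert _ _))
  rw [Sylow.coe_subgroup_smul] at ht
  obtain ⟨u, hu, hut⟩ := ht
  have hu' : (u : MulAut P) ∈ K := show u ∈ (autInducedBy S P).subgroupOf (F.autGroup P) from hU ▸ hu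
  have hteq : t = g * (u : MulAut P) * g⁻¹ := (congrArg Subtype.val hut).symm
  obtain ⟨v, hv, hgv⟩ := hgx
  -- `g v` and the centre generate
  have hfixgv : t (g v) = g v := by
    rw [hteq, MulAut.mul_apply, MulAut.mul_apply, MulAut.inv_apply_self, hKfix _ hu' v hv]
  obtain ⟨b, hb, i, ev⟩ := h.P_decomp hs (g v).2
  rw [hB] at hb
  have e : g v = ⟨b, h.zS_le_P hs hb⟩ * ⟨x, hs.xP⟩ ^ i := Subtype.ext (by simpa using ev)
  rw [e, map_mul, map_pow, htfix _ hb, htx, mul_right_inj, (show Commute w ⟨x, hs.xP⟩ from hPab _ _).mul_pow,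
    mul_eq_right] at hfixgv
  have hi : ¬ p ∣ i := by
    rintro ⟨j, rfl⟩
    refine hgv ?_
    rw [ev]
    refine mul_mem hb ?_
    rw [← hB]
    refine ⟨P.pow_mem hs.xP _, ?_⟩
    rw [pow_mul]
    refine A.pow_mem ?_ j
    by_contra hxp
    obtain ⟨e', he'⟩ := IsPGroup.iff_orderOf.mp h.pg ⟨x, hxS⟩
    rw [Subgroup.orderOf_mk] at he'
    have hAn : ∀ g ∈ S, ∀ a ∈ A, cj g a ∈ A := fun g hg a ha => h.normal hg ha
    haveI hn : (A.subgroupOf S).Normal := ⟨fun a ha g => hAn g g.2 a ha⟩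
    have hidx : Nat.card (S ⧸ A.subgroupOf S) = p := by
      haveI := h.finiteA
      have := (A.subgroupOf S).card_mul_index
      rw [Nat.card_congr (Subgroup.subgroupOfEquivOfLe h.le).toEquiv, h.idx, mul_comm p] at this
      exact Nat.eq_of_mul_eq_mul_left Nat.card_pos this
    have h1 : ((⟨x, hxS⟩ : S) : S ⧸ A.subgroupOf S) ^ p = 1 := by rw [← hidx]; exact pow_card_eq_one'
    rw [← QuotientGroup.mk_pow, QuotientGroup.eq_one_iff] at h1
    exact hxp h1
  obtain ⟨e', he'⟩ := IsPGroup.iff_orderOf.mp (h.pg.to_le hs.ess.1.1) w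
  have hdvd : p ^ e' ∣ i := he' ▸ orderOf_dvd_of_pow_eq_one hfixgv
  rcases Nat.eq_zero_or_pos e' with hz | hz
  · exact orderOf_eq_one_iff.mp (by rw [he', hz, pow_zero])
  · exact absurd ((dvd_pow_self p hz.ne').trans hdvd) hi

/-- In the abelian case the centre is moved. -/
theorem UA.exists_move [Finite S] (hF : F.IsSaturated p) (hB : P ⊓ A = zS S) :
    ∃ g ∈ F.autGroup P, ∃ z₀ : P, (z₀ : Ω) ∈ zS S ∧ ((g z₀ : P) : Ω) ∉ zS S := by
  by_contra hno
  push_neg at hno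
  haveI := finite_of_le hs.ess.1.1
  obtain ⟨a, ha, haP, han⟩ := h.exists_outer_A hs hF
  let D : ℕ → Subgroup P := fun i => if i = 0 then ⊥ else if i = 1 then (zS S).subgroupOf P else ⊤
  refine haP (mem_of_stabilizes h.pg hs.ess.1 (essential_radical h.pg hs.ess) han D 2 (by simp [D])
    (by simp [D]) (by intro j hj; interval_cases j <;> simp [D]) ?_ ?_)
  · intro β hβ j hj v hv
    interval_cases j
    · simp only [D, if_true, Subgroup.mem_bot] at hv ⊢
      rw [hv, map_one]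
    · exact hno β hβ v hv
    · simp [D]
  · intro j hj v hv
    interval_cases j
    · show _ ∈ D 0
      have : actHom S P ⟨a, han⟩ v = v := Subtype.ext (h.conj_val ha (h.zS_le hv))
      simp [D, this]
    · show _ ∈ (zS S).subgroupOf P
      rw [Subgroup.mem_subgroupOf, ← hB, Subgroup.coe_mul, Subgroup.coe_inv, actHom_apply]
      refine ⟨P.mul_mem (P.inv_mem v.2) ((cj_mem_iff han.2 _).mpr v.2), ?_⟩
      have h1 := h.dimg_le (h.xS hs) A (h.comm_mem (h.xS hs) hs.xA (S.inv_mem (hs.ess.1.1 v.2)) han.1)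
      simpa [cj, mul_assoc] using h1

theorem UA.card_P [Finite S] : Nat.card P = p * Nat.card (P ⊓ A : Subgroup Ω) := by
  haveI := finite_of_le hs.ess.1.1
  haveI : Finite (P ⊓ A : Subgroup Ω) := finite_of_le (inf_le_left.trans hs.ess.1.1)
  set B := P ⊓ A with hBdef
  have hle : A ⊔ P ≤ S := sup_le h.le hs.ess.1.1
  have htop : A ⊔ P = S := (h.eq_or_eq le_sup_left hle).resolve_left fun e =>
    hs.xA (e ▸ Subgroup.mem_sup_right hs.xP)
  have hn : P ≤ Subgroup.normalizer (A : Set Ω) := fun g hg => Subgroup.mem_normalizer_iff.mpr fun a =>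
    ⟨fun ha => h.normal (hs.ess.1.1 hg) ha, fun ha => by
      have := h.normal (S.inv_mem (hs.ess.1.1 hg)) ha
      simpa [cj, mul_assoc] using this⟩
  have h1 := relIndex_sup_normalized (L := S) hs.ess.1.1 h.le hn
  rw [sup_comm, htop] at h1
  have h2 : Nat.card P * P.relIndex S = Nat.card S := by
    have := (P.subgroupOf S).card_mul_index
    rwa [Nat.card_congr (Subgroup.subgroupOfEquivOfLe hs.ess.1.1).toEquiv] at this
  have h3 : Nat.card B * B.relIndex A = Nat.card A := by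
    have := (B.subgroupOf A).card_mul_index
    rwa [Nat.card_congr (Subgroup.subgroupOfEquivOfLe (inf_le_right : B ≤ A)).toEquiv] at this
  have h4 := h.idx
  rw [← h2, ← h3, h1] at h4
  haveI := h.finiteA
  have hpos : 0 < B.relIndex A := Nat.pos_of_ne_zero (Subgroup.index_ne_zero_of_finite (H := B.subgroupOf A))
  exact Nat.eq_of_mul_eq_mul_right hpos (by rw [h4]; ring)

/-- In the nonabelian case. -/
theorem UA.nonabelian_case [Finite S] (hF : F.IsSaturated p) (hB : P ⊓ A ≠ zS S) :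
    Nat.card (P ⊓ A : Subgroup Ω) = p * Nat.card (zS S) ∧ (∀ a ∈ A, dl x a ∈ zS S ↔ a ∈ P) ∧
      ∃ a ∈ A, a ∈ normalizerIn S P ∧ a ∉ P ∧
        ∀ a' ∈ A, a' ∈ normalizerIn S P → ∃ i : ℕ, a' * (a ^ i)⁻¹ ∈ P := by
  have hxS := h.xS hs
  haveI := finite_of_le hs.ess.1.1
  haveI : Finite (P ⊓ A : Subgroup Ω) := finite_of_le (inf_le_left.trans hs.ess.1.1)
  set B := P ⊓ A with hBdef
  have hZB : zS S ≤ B := le_inf (h.zS_le_P hs) h.zS_le
  have hBn : ∀ w ∈ P, ∀ b ∈ B, cj w b ∈ B := fun w hw b hb => ⟨cj_mem hw hb.1, h.normal (hs.ess.1.1 hw) hb.2⟩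
  have hPB : Nat.card P = p * Nat.card B := h.card_P hs
  -- a second abelian subgroup of index `p`
  obtain ⟨g, hg, b₁, hb₁, hgb₁⟩ : ∃ g ∈ F.autGroup P, ∃ b : P, (b : Ω) ∈ B ∧ ((g b : P) : Ω) ∉ B := by
    by_contra hno
    push_neg at hno
    obtain ⟨a, ha, haP, han⟩ := h.exists_outer_A hs hF
    let D : ℕ → Subgroup P := fun i => if i = 0 then ⊥ else if i = 1 then B.subgroupOf P else ⊤
    refine haP (mem_of_stabilizes h.pg hs.ess.1 (essential_radical h.pg hs.ess) han D 2 (by simp [D])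
      (by simp [D]) (by intro j hj; interval_cases j <;> simp [D]) ?_ ?_)
    · intro β hβ j hj v hv
      interval_cases j
      · simp only [D, if_true, Subgroup.mem_bot] at hv ⊢
        rw [hv, map_one]
      · exact hno β hβ v hv
      · simp [D]
    · intro j hj v hv
      interval_cases j
      · show _ ∈ D 0
        have : actHom S P ⟨a, han⟩ v = v := Subtype.ext (h.conj_val ha (show (v : Ω) ∈ B from hv).2)
        simp [D, this]
      · show _ ∈ B.subgroupOf P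
        rw [Subgroup.mem_subgroupOf, Subgroup.coe_mul, Subgroup.coe_inv, actHom_apply]
        refine ⟨P.mul_mem (P.inv_mem v.2) ((cj_mem_iff han.2 _).mpr v.2), ?_⟩
        have h1 := h.dimg_le hxS A (h.comm_mem hxS hs.xA (S.inv_mem (hs.ess.1.1 v.2)) han.1)
        simpa [cj, mul_assoc] using h1
  obtain ⟨f, hf, ef⟩ := (mem_autGroup_iff hs.ess.1.1).mp hg
  let B' : Subgroup Ω := ((B.subgroupOf P).map g.toMonoidHom).map P.subtype
  have hB'P : B' ≤ P := Subgroup.map_subtype_le _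
  have hmemB' : ∀ u : P, (u : Ω) ∈ B' ↔ ((g⁻¹ u : P) : Ω) ∈ B := by
    intro u
    constructor
    · rintro ⟨_, ⟨v, hv, rfl⟩, hvu⟩
      obtain rfl : g v = u := Subtype.ext hvu
      rw [MulAut.inv_apply_self]; exact hv
    · intro hu
      exact ⟨u, ⟨g⁻¹ u, hu, MulAut.apply_inv_self _ g u⟩, rfl⟩
  have hB'ab : ∀ u ∈ B', ∀ v ∈ B', u * v = v * u := by
    rintro _ ⟨_, ⟨u, hu, rfl⟩, rfl⟩ _ ⟨_, ⟨v, hv, rfl⟩, rfl⟩
    show ((g u : P) : Ω) * (g v : P) = (g v : P) * (g u : P)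
    rw [← Subgroup.coe_mul, ← Subgroup.coe_mul, ← map_mul, ← map_mul,
      show u * v = v * u from Subtype.ext (h.ab _ (show (u : Ω) ∈ B from hu).2 _ (show (v : Ω) ∈ B from hv).2)]
  have hcard' : Nat.card B' = Nat.card B := by
    show Nat.card ↥(((B.subgroupOf P).map g.toMonoidHom).map P.subtype) = _
    rw [Subgroup.card_map_of_injective P.subtype_injective, Subgroup.card_map_of_injective g.injective,
      Nat.card_congr (Subgroup.subgroupOfEquivOfLe (inf_le_left : B ≤ P)).toEquiv]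
  have hmeet : B ⊓ B' = zS S := by
    refine le_antisymm ?_ (le_inf hZB fun z hz => ?_)
    · rintro u ⟨hu, hu'⟩
      have hub : ((g b₁ : P) : Ω) ∈ B' := (hmemB' _).mpr (by rw [MulAut.inv_apply_self]; exact hb₁)
      have hgA : ((g b₁ : P) : Ω) ∉ A := fun e => hgb₁ ⟨(g b₁).2, e⟩
      exact h.mem_zS_of_comm (hs.ess.1.1 (g b₁).2) hgA hu.2 (hB'ab u hu' _ hub)
    · refine (hmemB' ⟨z, h.zS_le_P hs hz⟩).mpr ⟨(g⁻¹ _).2, ?_⟩
      set v : P := g⁻¹ ⟨z, h.zS_le_P hs hz⟩ with hv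
      have hvx : Commute (v : Ω) x := by
        obtain ⟨x', hx'⟩ := g⁻¹.surjective ⟨x, hs.xP⟩
        have h1 : v * g⁻¹ x' = g⁻¹ x' * v := by
          rw [hv, ← map_mul, ← map_mul]
          exact congrArg _ (Subtype.ext (hz.2 _ (hs.ess.1.1 x'.2)).symm)
        rw [hx'] at h1
        exact congrArg Subtype.val h1
      by_contra hvA
      -- `P` would be abelian
      refine hB ?_
      refine le_antisymm (fun b hb => ?_) hZB
      refine h.mem_zS_of_comm (hs.ess.1.1 v.2) hvA hb.2 ?_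
      have h1 : v * ⟨b, hb.1⟩ = ⟨b, hb.1⟩ * v := by
        obtain ⟨b', hb'⟩ := g⁻¹.surjective ⟨b, hb.1⟩
        rw [← hb', hv, ← map_mul, ← map_mul]
        exact congrArg _ (Subtype.ext (hz.2 _ (hs.ess.1.1 b'.2)).symm)
      exact (congrArg Subtype.val h1).symm
  haveI : Finite B' := finite_of_le (hB'P.trans hs.ess.1.1)
  have hnotle : ¬ B' ≤ B := fun e => hgb₁ (e ((hmemB' _).mpr (by rw [MulAut.inv_apply_self]; exact hb₁)))
  have hB'n : ∀ w ∈ P, ∀ b ∈ B', cj w b ∈ B' := by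
    intro w hw b hb
    refine (hmemB' ⟨cj w b, cj_mem hw (hB'P hb)⟩).mpr ?_
    have e : g⁻¹ (⟨cj w b, cj_mem hw (hB'P hb)⟩ : P) = g⁻¹ ⟨w, hw⟩ * g⁻¹ ⟨b, hB'P hb⟩ * (g⁻¹ ⟨w, hw⟩)⁻¹ := by
      rw [show (⟨cj w b, cj_mem hw (hB'P hb)⟩ : P) = ⟨w, hw⟩ * ⟨b, hB'P hb⟩ * (⟨w, hw⟩ : P)⁻¹ from rfl,
        map_mul, map_mul, map_inv]
    rw [e]
    exact hBn _ (g⁻¹ ⟨w, hw⟩).2 _ ((hmemB' ⟨b, hB'P hb⟩).mp hb)
  have hlarge : Nat.card B = p * Nat.card (zS S) := by
    have hn : B' ≤ Subgroup.normalizer (B : Set Ω) := fun w hw => Subgroup.mem_normalizer_iff.mpr fun b =>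
      ⟨fun hb => hBn w (hB'P hw) b hb, fun hb => by
        have := hBn w⁻¹ (P.inv_mem (hB'P hw)) _ hb
        simpa [cj, mul_assoc] using this⟩
    have hsup : B' ⊔ B ≤ P := sup_le hB'P inf_le_left
    have htop : B' ⊔ B = P := by
      refine eq_of_le_of_card hsup ?_
      haveI := finite_of_le (hsup.trans hs.ess.1.1)
      have h1 := card_lt_of_lt (lt_of_le_of_ne (le_sup_right : B ≤ B' ⊔ B) fun e => hnotle (e ▸ le_sup_left))
      obtain ⟨i, hi⟩ := IsPGroup.iff_card.mp (h.pg.to_le (hsup.trans hs.ess.1.1))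
      obtain ⟨j, hj⟩ := IsPGroup.iff_card.mp (h.pg.to_le ((inf_le_left : B ≤ P).trans hs.ess.1.1))
      rw [hi, hj, Nat.pow_lt_pow_iff_right hp.out.one_lt] at h1
      rw [hPB, hi, hj, ← pow_succ']
      exact Nat.pow_le_pow_right hp.out.pos h1
    have h1 := relIndex_sup_normalized (L := P) hB'P (inf_le_left : B ≤ P) hn
    rw [htop, inf_comm, hmeet] at h1
    have h2 : Nat.card B' * B'.relIndex P = Nat.card P := by
      have := (B'.subgroupOf P).card_mul_index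
      rwa [Nat.card_congr (Subgroup.subgroupOfEquivOfLe hB'P).toEquiv] at this
    have h3 : Nat.card (zS S) * (zS S).relIndex B = Nat.card B := by
      have := ((zS S).subgroupOf B).card_mul_index
      rwa [Nat.card_congr (Subgroup.subgroupOfEquivOfLe hZB).toEquiv] at this
    rw [h1, hcard', hPB, mul_comm p] at h2
    rw [Nat.eq_of_mul_eq_mul_left Nat.card_pos h2] at h3
    rw [← h3]; ring
  have hdB : ∀ b ∈ B, dl x b ∈ zS S := by
    intro b hb
    rw [← hmeet]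
    refine ⟨B.mul_mem hb (hBn x hs.xP _ (B.inv_mem hb)), ?_⟩
    -- commutators of `P` lie in `B'`
    rw [dl_eq]
    have hsup : ∀ w ∈ P, ∃ u ∈ B', ∃ v ∈ B, w = u * v := by
      intro w hw
      have hn : B' ≤ Subgroup.normalizer (B : Set Ω) := fun w hw => Subgroup.mem_normalizer_iff.mpr fun b =>
        ⟨fun hb => hBn w (hB'P hw) b hb, fun hb => by
          have := hBn w⁻¹ (P.inv_mem (hB'P hw)) _ hb
          simpa [cj, mul_assoc] using this⟩
      have htop : B' ⊔ B = P := by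
        refine eq_of_le_of_card (sup_le hB'P inf_le_left) ?_
        have hle : B' ⊔ B ≤ P := sup_le hB'P inf_le_left
        haveI := finite_of_le (hle.trans hs.ess.1.1)
        have h1 := card_lt_of_lt (lt_of_le_of_ne (le_sup_right : B ≤ B' ⊔ B) fun e => hnotle (e ▸ le_sup_left))
        obtain ⟨i, hi⟩ := IsPGroup.iff_card.mp (h.pg.to_le (hle.trans hs.ess.1.1))
        obtain ⟨j, hj⟩ := IsPGroup.iff_card.mp (h.pg.to_le ((inf_le_left : B ≤ P).trans hs.ess.1.1))
        rw [hi, hj, Nat.pow_lt_pow_iff_right hp.out.one_lt] at h1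
        rw [hPB, hi, hj, ← pow_succ']
        exact Nat.pow_le_pow_right hp.out.pos h1
      have hw' : w ∈ ((B' ⊔ B : Subgroup Ω) : Set Ω) := by rw [htop]; exact hw
      rw [Subgroup.coe_mul_of_left_le_normalizer_right B' B hn] at hw'
      obtain ⟨u, hu, v, hv, rfl⟩ := hw'
      exact ⟨u, hu, v, hv, rfl⟩
    obtain ⟨u, hu, v, hv, e⟩ := hsup x hs.xP
    have e2 : b * x * b⁻¹ * x⁻¹ = cj b u * u⁻¹ := by
      rw [e, cj_apply, mul_inv_rev]
      calc b * (u * v) * b⁻¹ * (v⁻¹ * u⁻¹) = b * u * (v * b⁻¹ * v⁻¹) * u⁻¹ := by group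
        _ = _ := by rw [h.ab v hv.2 b⁻¹ (A.inv_mem hb.2), mul_inv_cancel_right]
    rw [e2]
    exact B'.mul_mem (hB'n b hb.1 u hu) (B'.inv_mem hu)
  -- stabilizing the series `1 < Z < P`
  have hstab : ∀ a ∈ A, dl x a ∈ zS S → a ∈ P := by
    intro a ha hd
    have han : a ∈ normalizerIn S P := (h.mem_normalizer_iff hs ha).mpr (h.zS_le_P hs hd)
    let D : ℕ → Subgroup P := fun i => if i = 0 then ⊥ else if i = 1 then (zS S).subgroupOf P else ⊤
    refine mem_of_stabilizes h.pg hs.ess.1 (essential_radical h.pg hs.ess) han D 2 (by simp [D])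
      (by simp [D]) (by intro j hj; interval_cases j <;> simp [D]) ?_ ?_
    · intro β hβ j hj v hv
      interval_cases j
      · simp only [D, if_true, Subgroup.mem_bot] at hv ⊢
        rw [hv, map_one]
      · show ((β v : P) : Ω) ∈ zS S
        have hc : ∀ u : P, Commute ((β v : P) : Ω) u := fun u => by
          obtain ⟨u', rfl⟩ := β.surjective u
          have h1 : β v * β u' = β u' * β v := by
            rw [← map_mul, ← map_mul]
            exact congrArg β (Subtype.ext ((show (v : Ω) ∈ zS S from hv).2 _ (hs.ess.1.1 u'.2)).symm)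
          exact congrArg Subtype.val h1
        obtain ⟨b, hb, i, e⟩ := h.P_decomp hs (β v).2
        by_cases hvA : ((β v : P) : Ω) ∈ A
        · exact h.mem_zS_of_comm hxS hs.xA hvA (hc ⟨x, hs.xP⟩)
        · exfalso
          refine hB (le_antisymm (fun b hb => ?_) hZB)
          exact h.mem_zS_of_comm (hs.ess.1.1 (β v).2) hvA hb.2 (hc ⟨b, hb.1⟩).symm
      · simp [D]
    · intro j hj v hv
      interval_cases j
      · show _ ∈ D 0
        have : actHom S P ⟨a, han⟩ v = v :=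
          Subtype.ext (h.conj_val ha (h.zS_le (show (v : Ω) ∈ zS S from hv)))
        simp [D, this]
      · show _ ∈ (zS S).subgroupOf P
        rw [Subgroup.mem_subgroupOf, Subgroup.coe_mul, Subgroup.coe_inv, actHom_apply]
        obtain ⟨b, hb, i, e⟩ := h.P_decomp hs v.2
        show (v : Ω)⁻¹ * cj a v ∈ zS S
        have hax : cj a x = dl x a * x := by rw [dl_eq, cj_apply]; group
        have hpow : cj a (x ^ i) = dl x a ^ i * x ^ i := by
          rw [cj_apply, ← conj_pow, ← cj_apply, hax, (show Commute (dl x a) x from (hd.2 x hxS).symm).mul_pow]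
        rw [e, cj_map_mul, h.conj_val ha hb.2, hpow,
          ((show Commute (dl x a) x from (hd.2 x hxS).symm).pow_pow i i).eq, ← mul_assoc b, inv_mul_cancel_left]
        exact pow_mem hd i
  have hiff : ∀ a ∈ A, dl x a ∈ zS S ↔ a ∈ P := fun a ha =>
    ⟨hstab a ha, fun haP => hdB a ⟨haP, ha⟩⟩
  refine ⟨hlarge, hiff, ?_⟩
  obtain ⟨a, ha, haP, han⟩ := h.exists_outer_A hs hF
  refine ⟨a, ha, han, haP, fun a' ha' han' => ?_⟩
  have hd : dl x a ∈ B := ⟨(h.mem_normalizer_iff hs ha).mp han, h.dl_mem hxS ha⟩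
  have hd' : dl x a' ∈ B := ⟨(h.mem_normalizer_iff hs ha').mp han', h.dl_mem hxS ha'⟩
  have hdZ : dl x a ∉ zS S := fun e => haP ((hiff a ha).mp e)
  -- `B = Z ⟨dl x a⟩`
  let X : Subgroup Ω := Subgroup.zpowers (dl x a) ⊔ zS S
  have hXB : X ≤ B := sup_le (Subgroup.zpowers_le.mpr hd) hZB
  have hXeq : X = B := by
    refine eq_of_le_of_card hXB ?_
    haveI := finite_of_le (hXB.trans ((inf_le_left : B ≤ P).trans hs.ess.1.1))
    haveI : Finite (zS S) := finite_of_le CenterSq.zS_le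
    have h1 := card_lt_of_lt (lt_of_le_of_ne (le_sup_right : zS S ≤ X) fun e =>
      hdZ (e.ge (Subgroup.mem_sup_left (Subgroup.mem_zpowers _))))
    obtain ⟨i, hi⟩ := IsPGroup.iff_card.mp (h.pg.to_le (hXB.trans ((inf_le_left : B ≤ P).trans hs.ess.1.1)))
    obtain ⟨j, hj⟩ := IsPGroup.iff_card.mp (h.pg.to_le (CenterSq.zS_le (S := S)))
    rw [hi, hj, Nat.pow_lt_pow_iff_right hp.out.one_lt] at h1
    rw [hlarge, hi, hj, ← pow_succ']
    exact Nat.pow_le_pow_right hp.out.pos h1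
  have hn : Subgroup.zpowers (dl x a) ≤ Subgroup.normalizer (zS S : Set Ω) := by
    refine Subgroup.zpowers_le.mpr (Subgroup.mem_normalizer_iff.mpr fun z => ?_)
    have hdS : dl x a ∈ S := h.le hd.2
    constructor
    · intro hz
      rwa [hz.2 _ hdS, mul_inv_cancel_right]
    · intro hz
      have h1 := hz.2 (dl x a)⁻¹ (S.inv_mem hdS)
      have h2 : z = dl x a * z * (dl x a)⁻¹ := by
        conv_lhs => rw [show z = (dl x a)⁻¹ * (dl x a * z * (dl x a)⁻¹) * dl x a by group, h1, inv_mul_cancel_right]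
      exact h2 ▸ hz
  have hmem : dl x a' ∈ ((X : Subgroup Ω) : Set Ω) := by rw [hXeq]; exact hd'
  rw [Subgroup.coe_mul_of_left_le_normalizer_right _ _ hn] at hmem
  obtain ⟨u, hu, z, hz, e⟩ := hmem
  obtain ⟨k, hk⟩ := Subgroup.mem_zpowers_iff.mp hu
  obtain ⟨i, hi⟩ := (mem_powers_iff_mem_zpowers (x := (⟨dl x a, h.le hd.2⟩ : S))).mpr (Subgroup.mem_zpowers_iff.mpr ⟨k, rfl⟩)
  have hi' : dl x a ^ i = dl x a ^ k := by simpa using congrArg Subtype.val hi
  refine ⟨i, (hiff _ (A.mul_mem ha' (A.inv_mem (A.pow_mem ha i)))).mp ?_⟩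
  have hpow : ∀ n : ℕ, dl x (a ^ n) = dl x a ^ n := fun n => by
    induction n with
    | zero => simp [dl, cj]
    | succ n ih => rw [pow_succ, h.dl_mul hxS (A.pow_mem ha n) ha, ih, pow_succ]
  have hinv : dl x (a ^ i)⁻¹ = (dl x a ^ i)⁻¹ := by
    have h1 := h.dl_mul hxS (A.pow_mem ha i) (A.inv_mem (A.pow_mem ha i))
    rw [mul_inv_cancel, show dl x 1 = 1 by simp [dl, cj], hpow] at h1
    exact (inv_eq_of_mul_eq_one_right h1.symm).symm
  rw [h.dl_mul hxS ha' (A.inv_mem (A.pow_mem ha i)), hinv, ← e, hi', hk,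
    show u * z * u⁻¹ = z by rw [hz.2 u (hk ▸ h.le (A.zpow_mem hd.2 k) : u ∈ S), mul_inv_cancel_right]]
  exact hz

omit hs in
theorem UA.dl_one [Finite S] {x : Ω} : dl x 1 = 1 := by simp [dl, cj]

omit hs in
theorem UA.dl_pow [Finite S] {x a : Ω} (hx : x ∈ S) (ha : a ∈ A) : ∀ n : ℕ, dl x (a ^ n) = dl x a ^ n
  | 0 => by simp [dl, cj]
  | n + 1 => by rw [pow_succ, h.dl_mul hx (A.pow_mem ha n) ha, UA.dl_pow hx ha n, pow_succ]

omit hs in
theorem UA.dl_inv [Finite S] {x a : Ω} (hx : x ∈ S) (ha : a ∈ A) : dl x a⁻¹ = (dl x a)⁻¹ := by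
  have h1 := h.dl_mul hx ha (A.inv_mem ha)
  rw [mul_inv_cancel, h.dl_one] at h1
  exact (inv_eq_of_mul_eq_one_right h1.symm).symm

/-- The centre meets the derived subgroup in order `p`. -/
theorem UA.card_inter [Finite S] (hF : F.IsSaturated p) :
    Nat.card (zS S ⊓ h.dimg (h.xS hs) A : Subgroup Ω) = p := by
  have hxS := h.xS hs
  haveI := finite_of_le hs.ess.1.1
  haveI : Finite (zS S ⊓ h.dimg hxS A : Subgroup Ω) := finite_of_le (inf_le_left.trans CenterSq.zS_le)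
  set U : Subgroup Ω := zS S ⊓ h.dimg hxS A with hU
  obtain ⟨a, ha, haP, han⟩ := h.exists_outer_A hs hF
  by_cases hB : P ⊓ A = zS S
  · have hne : U ≠ ⊥ := by
      intro e
      have hd : dl x a ∈ U := by
        refine ⟨?_, (h.mem_dimg hxS le_rfl).mpr ⟨a, ha, rfl⟩⟩
        rw [← hB]
        exact ⟨(h.mem_normalizer_iff hs ha).mp han, h.dl_mem hxS ha⟩
      rw [e, Subgroup.mem_bot] at hd
      exact haP (h.zS_le_P hs ((h.dl_eq_one hxS hs.xA ha).mp hd))
    obtain ⟨g, hg, z₀, hz₀, hmove⟩ := h.exists_move hs hF hB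
    haveI hN : ((zS S).subgroupOf P).Normal := ⟨fun v hv w => by
      show (w : Ω) * v * (w : Ω)⁻¹ ∈ zS S
      rw [(show (v : Ω) ∈ zS S from hv).2 _ (hs.ess.1.1 w.2), mul_inv_cancel_right]; exact hv⟩
    have hUP : ∀ u : U, (u : Ω) ∈ P := fun u => h.zS_le_P hs u.2.1
    let ψ : U →* P ⧸ (zS S).subgroupOf P :=
      (QuotientGroup.mk' _).comp ((g⁻¹ : MulAut P).toMonoidHom.comp
        (Subgroup.inclusion (show U ≤ P from inf_le_left.trans (h.zS_le_P hs))))
    have hinj : Function.Injective ψ := by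
      rw [← MonoidHom.ker_eq_bot_iff, eq_bot_iff]
      intro u hu
      have hu' : ((g⁻¹ ⟨(u : Ω), hUP u⟩ : P) : Ω) ∈ zS S :=
        Subgroup.mem_subgroupOf.mp ((QuotientGroup.eq_one_iff (N := (zS S).subgroupOf P) (g⁻¹ ⟨(u : Ω), hUP u⟩)).mp hu)
      obtain ⟨a₁, ha₁, hua⟩ := (h.mem_dimg hxS le_rfl).mp u.2.2
      have := h.transverse hs hF hB hg hz₀ hmove (w := ⟨(u : Ω), hUP u⟩) u.2.1 hu' ha₁ hua
      exact Subtype.ext (congrArg Subtype.val this :)
    have hle : Nat.card U ≤ p := by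
      refine (Nat.card_le_card_of_injective ψ hinj).trans ?_
      have h1 := ((zS S).subgroupOf P).card_mul_index
      rw [Nat.card_congr (Subgroup.subgroupOfEquivOfLe (h.zS_le_P hs)).toEquiv, h.card_P hs, hB, mul_comm p] at h1
      haveI : Finite (zS S) := finite_of_le CenterSq.zS_le
      exact (Nat.eq_of_mul_eq_mul_left Nat.card_pos h1).le
    obtain ⟨k, hk⟩ := IsPGroup.iff_card.mp (h.pg.to_le (inf_le_left.trans CenterSq.zS_le : U ≤ S))
    rw [hk] at hle ⊢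
    rcases Nat.eq_zero_or_pos k with hk0 | hk0
    · exact absurd (Subgroup.card_eq_one.mp (by rw [hk, hk0, pow_zero])) hne
    · have : k ≤ 1 := (Nat.pow_le_pow_iff_right hp.out.one_lt).mp (by rwa [pow_one])
      rw [show k = 1 by omega, pow_one]
  · obtain ⟨hlarge, hiff, -⟩ := h.nonabelian_case hs hF hB
    have hU2 : U = h.dimg hxS (P ⊓ A) := by
      refine le_antisymm ?_ ?_
      · rintro u ⟨huZ, hu⟩
        obtain ⟨a₁, ha₁, rfl⟩ := (h.mem_dimg hxS le_rfl).mp hu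
        exact (h.mem_dimg hxS inf_le_right).mpr ⟨a₁, ⟨(hiff a₁ ha₁).mp huZ, ha₁⟩, rfl⟩
      · intro u hu
        obtain ⟨b, hb, rfl⟩ := (h.mem_dimg hxS inf_le_right).mp hu
        exact ⟨(hiff b hb.2).mpr hb.1, (h.mem_dimg hxS le_rfl).mpr ⟨b, hb.2, rfl⟩⟩
    have h1 := h.card_dimg hxS hs.xA (inf_le_right : P ⊓ A ≤ A)
    rw [inf_eq_right.mpr (le_inf (h.zS_le_P hs) h.zS_le), hlarge, ← hU2] at h1
    haveI : Finite (zS S) := finite_of_le CenterSq.zS_le
    exact Nat.eq_of_mul_eq_mul_right Nat.card_pos h1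

end Cfsg.Agent.Fusion.UniqAb
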