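/-
Saturated systems over a group with a unique abelian subgroup of index `p`: structure of the group.
-/
import Cfsg.Agent.Fusion.UniqueAbelian
set_option autoImplicit false

namespace Cfsg.Agent.Fusion.UniqAb

open Cfsg Cfsg.FusionSystem Cfsg.Agent.Fusion.CenterSq Cfsg.Agent.Fusion.EssShape
open scoped commutatorElement

variable {Ω : Type*} [Group Ω] {S A : Subgroup Ω} {F : FusionSystem S} {p : ℕ} [hp : Fact p.Prime]

omit hp in
theorem card_mul_rel {H K : Subgroup Ω} (h : H ≤ K) : Nat.card H * H.relIndex K = Nat.card K := by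
  have := (H.subgroupOf K).card_mul_index
  rwa [Nat.card_congr (Subgroup.subgroupOfEquivOfLe h).toEquiv] at this

theorem pow_of_mem {U : Subgroup Ω} (hU : Nat.card U = p) {u v : Ω} (hu : u ∈ U) (hu1 : u ≠ 1) (hv : v ∈ U) :
    ∃ k : ℕ, u ^ k = v := by
  obtain ⟨k, hk⟩ := mem_powers_of_prime_card hU (g := ⟨u, hu⟩) (g' := ⟨v, hv⟩) fun e => hu1 (congrArg Subtype.val e)
  exact ⟨k, by simpa using congrArg Subtype.val hk⟩

/-- `Z₂(S)`. -/
def z2 (S : Subgroup Ω) : Subgroup Ω := (Subgroup.upperCentralSeries ↥S 2).map S.subtype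

omit hp in
theorem mem_z2 {u : Ω} : u ∈ z2 S ↔ u ∈ S ∧ ∀ g ∈ S, u * g * u⁻¹ * g⁻¹ ∈ zS S := by
  have key : ∀ v : S, v ∈ Subgroup.upperCentralSeries ↥S 2 ↔ ∀ g ∈ S, (v : Ω) * g * (v : Ω)⁻¹ * g⁻¹ ∈ zS S := by
    intro v
    rw [Subgroup.mem_upperCentralSeries_succ_iff, Subgroup.upperCentralSeries_one]
    constructor
    · intro hv g hg
      refine ⟨S.mul_mem (S.mul_mem (S.mul_mem v.2 hg) (S.inv_mem v.2)) (S.inv_mem hg), fun y hy => ?_⟩
      have := Subgroup.mem_center_iff.mp (hv ⟨g, hg⟩) ⟨y, hy⟩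
      simpa [commutatorElement_def] using congrArg Subtype.val this
    · intro hv g
      refine Subgroup.mem_center_iff.mpr fun y => Subtype.ext ?_
      simpa [commutatorElement_def] using (hv g g.2).2 y y.2
  constructor
  · rintro ⟨v, hv, rfl⟩
    exact ⟨v.2, (key v).mp hv⟩
  · rintro ⟨hu, hv⟩
    exact ⟨⟨u, hu⟩, (key _).mpr hv, rfl⟩

variable (h : UA p S A) {P : Subgroup Ω} {x : Ω}
include h

theorem UA.lt_card_zS [Finite S] : Nat.card (zS S) < Nat.card A := by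
  haveI := h.finiteA
  refine card_lt_of_lt (lt_of_le_of_ne h.zS_le fun e => ?_)
  obtain ⟨x, hx, hxA⟩ : ∃ x ∈ S, x ∉ A := by
    refine SetLike.not_le_iff_exists.mp fun hle => ?_
    obtain ⟨u, hu, v, hv, huv⟩ := h.nab
    exact huv (h.ab u (hle hu) v (hle hv))
  obtain ⟨u, hu, v, hv, huv⟩ := h.nab
  obtain ⟨a, ha, i, rfl⟩ := h.decomp hx hxA hu
  obtain ⟨b, hb, j, rfl⟩ := h.decomp hx hxA hv
  have hc : ∀ w ∈ A, ∀ g ∈ S, Commute g w := fun w hw g hg => (e.ge hw).2 g hg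
  exact huv (((hc b hb _ (S.mul_mem (h.le ha) (S.pow_mem hx i))).mul_right
    (((hc a ha x hx).symm.pow_right j).mul_left ((Commute.refl x).pow_pow i j))).eq)

variable (hs : Shape F p A P x)
include hs

/-- An essential subgroup other than `A` has index `p` in its normalizer. -/
theorem UA.index_normalizer [Finite S] (hF : F.IsSaturated p) :
    (P.subgroupOf (S ⊓ Subgroup.normalizer (P : Set Ω))).index = p := by
  have hxS := h.xS hs
  haveI := finite_of_le hs.ess.1.1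
  by_cases hB : P ⊓ A = zS S
  · obtain ⟨a, ha, haP, han⟩ := h.exists_outer_A hs hF
    have hU := h.card_inter hs hF
    have hmem : ∀ a ∈ A, a ∈ normalizerIn S P → dl x a ∈ zS S ⊓ h.dimg hxS A := fun a ha han =>
      ⟨hB ▸ ⟨(h.mem_normalizer_iff hs ha).mp han, h.dl_mem hxS ha⟩, (h.mem_dimg hxS le_rfl).mpr ⟨a, ha, rfl⟩⟩
    have hne : dl x a ≠ 1 := fun e => haP (h.zS_le_P hs ((h.dl_eq_one hxS hs.xA ha).mp e))
    refine h.index_of_cover hs hF ha han (h.zS_le_P hs ?_) fun a' ha' han' => ?_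
    · refine (h.dl_eq_one hxS hs.xA (A.pow_mem ha p)).mp ?_
      rw [h.dl_pow hxS ha]
      have := pow_card_eq_one' (G := (zS S ⊓ h.dimg hxS A : Subgroup Ω)) (x := ⟨_, hmem a ha han⟩)
      rw [hU] at this
      simpa using congrArg Subtype.val this
    · obtain ⟨i, hi⟩ := pow_of_mem hU (hmem a ha han) hne (hmem a' ha' han')
      refine ⟨i, h.zS_le_P hs ((h.dl_eq_one hxS hs.xA (A.mul_mem ha' (A.inv_mem (A.pow_mem ha i)))).mp ?_)⟩
      rw [h.dl_mul hxS ha' (A.inv_mem (A.pow_mem ha i)), h.dl_inv hxS (A.pow_mem ha i), h.dl_pow hxS ha, hi,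
        mul_inv_cancel]
  · obtain ⟨hlarge, hiff, a, ha, han, -, hcov⟩ := h.nonabelian_case hs hF hB
    refine h.index_of_cover hs hF ha han ((hiff _ (A.pow_mem ha p)).mp ?_) hcov
    rw [h.dl_pow hxS ha]
    have hd : dl x a ∈ P ⊓ A := ⟨(h.mem_normalizer_iff hs ha).mp han, h.dl_mem hxS ha⟩
    haveI : Finite (zS S) := finite_of_le CenterSq.zS_le
    haveI hn : ((zS S).subgroupOf (P ⊓ A)).Normal := ⟨fun v hv w => by
      show (w : Ω) * v * (w : Ω)⁻¹ ∈ zS S
      rw [(show (v : Ω) ∈ zS S from hv).2 _ (h.le w.2.2), mul_inv_cancel_right]; exact hv⟩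
    have hidx : ((zS S).subgroupOf (P ⊓ A)).index = p := by
      have := card_mul_rel (le_inf (h.zS_le_P hs) h.zS_le : zS S ≤ P ⊓ A)
      rw [hlarge, mul_comm p] at this
      exact Nat.eq_of_mul_eq_mul_left Nat.card_pos this
    have := ((zS S).subgroupOf (P ⊓ A)).pow_index_mem ⟨_, hd⟩
    rw [hidx] at this
    exact Subgroup.mem_subgroupOf.mp this

/-- `Z₂(S)` lies in `A`. -/
theorem UA.z2_le [Finite S] (hF : F.IsSaturated p) : z2 S ≤ A := by
  intro y hy
  by_contra hyA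
  obtain ⟨hyS, hyc⟩ := mem_z2.mp hy
  have hxS := h.xS hs
  have heq : h.dimg hxS A = h.dimg hyS A :=
    (h.commutator_eq hxS hs.xA).symm.trans (h.commutator_eq hyS hyA)
  have hle : h.dimg hxS A ≤ zS S := by
    rw [heq]
    intro u hu
    obtain ⟨a, ha, rfl⟩ := (h.mem_dimg hyS le_rfl).mp hu
    have h1 := (zS S).inv_mem (hyc a (h.le ha))
    rw [dl_eq]
    simpa [mul_assoc] using h1
  have h1 := h.card_inter hs hF
  rw [inf_eq_right.mpr hle] at h1
  have h2 := h.card_dimg hxS hs.xA le_rfl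
  rw [inf_eq_right.mpr h.zS_le, h1] at h2
  let X : Subgroup Ω := zS S ⊔ Subgroup.zpowers y
  have hXS : X ≤ S := sup_le CenterSq.zS_le (Subgroup.zpowers_le.mpr hyS)
  have hXy : X ≤ Subgroup.centralizer {y} := sup_le
    (fun z hz => Subgroup.mem_centralizer_singleton_iff.mpr (hz.2 y hyS).symm)
    (Subgroup.zpowers_le.mpr (Subgroup.mem_centralizer_singleton_iff.mpr rfl))
  have hXX : X ≤ Subgroup.centralizer (X : Set Ω) := sup_le
    (fun z hz w hw => hz.2 w (hXS hw))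
    (Subgroup.zpowers_le.mpr fun w hw => Subgroup.mem_centralizer_singleton_iff.mp (hXy hw))
  have hXab : ∀ u ∈ X, ∀ v ∈ X, u * v = v * u := fun u hu v hv => hXX hv u hu
  haveI : Finite (zS S) := finite_of_le CenterSq.zS_le
  haveI := finite_of_le hXS
  have hlo := card_lt_of_lt (lt_of_le_of_ne (le_sup_left : zS S ≤ X) fun e =>
    hyA (h.zS_le (e.ge (Subgroup.mem_sup_right (Subgroup.mem_zpowers y)))))
  have hhi := card_lt_of_lt (lt_of_le_of_ne hXS fun e => by
    obtain ⟨u, hu, v, hv, huv⟩ := h.nab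
    exact huv (hXab u (e ▸ hu) v (e ▸ hv)))
  obtain ⟨i, hi⟩ := IsPGroup.iff_card.mp (h.pg.to_le hXS)
  obtain ⟨j, hj⟩ := IsPGroup.iff_card.mp (h.pg.to_le (CenterSq.zS_le (S := S)))
  rw [h.idx, ← h2, hi, hj, ← pow_succ', ← pow_succ', Nat.pow_lt_pow_iff_right hp.out.one_lt] at hhi
  rw [hi, hj, Nat.pow_lt_pow_iff_right hp.out.one_lt] at hlo
  have hcard : Nat.card S = p * Nat.card X := by
    rw [h.idx, ← h2, hi, hj, show i = j + 1 by omega, pow_succ']
  exact hyA ((h.uniq X hXS hXab hcard) ▸ Subgroup.mem_sup_right (Subgroup.mem_zpowers y))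

theorem UA.mem_z2_iff [Finite S] (hF : F.IsSaturated p) {u : Ω} :
    u ∈ z2 S ↔ u ∈ A ∧ dl x u ∈ zS S := by
  have hxS := h.xS hs
  constructor
  · intro hu
    refine ⟨h.z2_le hs hF hu, ?_⟩
    rw [dl_eq]
    exact (mem_z2.mp hu).2 x hxS
  · rintro ⟨huA, hd⟩
    refine mem_z2.mpr ⟨h.le huA, fun g hg => ?_⟩
    obtain ⟨b, hb, i, rfl⟩ := h.decomp hxS hs.xA hg
    have hax : u * x * u⁻¹ = dl x u * x := by rw [dl_eq]; group
    have hpow : u * x ^ i * u⁻¹ = dl x u ^ i * x ^ i := by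
      rw [← conj_pow, hax, (show Commute (dl x u) x from (hd.2 x hxS).symm).mul_pow]
    have e : u * (b * x ^ i) * u⁻¹ * (b * x ^ i)⁻¹ = dl x u ^ i := by
      calc u * (b * x ^ i) * u⁻¹ * (b * x ^ i)⁻¹
          = (u * b) * x ^ i * u⁻¹ * ((x ^ i)⁻¹ * b⁻¹) := by group
        _ = b * (u * x ^ i * u⁻¹) * ((x ^ i)⁻¹ * b⁻¹) := by rw [h.ab u huA b hb]; group
        _ = b * dl x u ^ i * b⁻¹ := by rw [hpow]; group
        _ = _ := by rw [(pow_mem hd i).2 b (h.le hb), mul_inv_cancel_right]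
    rw [e]
    exact pow_mem hd i

theorem UA.zS_le_z2 [Finite S] (hF : F.IsSaturated p) : zS S ≤ z2 S := fun z hz =>
  (h.mem_z2_iff hs hF).mpr ⟨h.zS_le hz, by
    rw [(h.dl_eq_one (h.xS hs) hs.xA (h.zS_le hz)).mpr hz]; exact one_mem _⟩

theorem UA.card_z2 [Finite S] (hF : F.IsSaturated p) : Nat.card (z2 S) = p * Nat.card (zS S) := by
  have hxS := h.xS hs
  have hle := h.z2_le hs hF
  have h1 := h.card_dimg hxS hs.xA hle
  have e : h.dimg hxS (z2 S) = zS S ⊓ h.dimg hxS A := by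
    ext u
    rw [h.mem_dimg hxS hle, Subgroup.mem_inf, h.mem_dimg hxS le_rfl]
    constructor
    · rintro ⟨b, hb, rfl⟩
      exact ⟨((h.mem_z2_iff hs hF).mp hb).2, b, hle hb, rfl⟩
    · rintro ⟨hu, b, hb, rfl⟩
      exact ⟨b, (h.mem_z2_iff hs hF).mpr ⟨hb, hu⟩, rfl⟩
  rw [e, h.card_inter hs hF, inf_eq_right.mpr (h.zS_le_z2 hs hF)] at h1
  exact h1.symm

/-- The two shapes. -/
theorem UA.shape_cases [Finite S] (hF : F.IsSaturated p) :
    P = zS S ⊔ Subgroup.zpowers x ∨ (z2 S ≤ A ∧ P = z2 S ⊔ Subgroup.zpowers x) := by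
  have hsplit : P = (P ⊓ A) ⊔ Subgroup.zpowers x := by
    refine le_antisymm (fun w hw => ?_) (sup_le inf_le_left (Subgroup.zpowers_le.mpr hs.xP))
    obtain ⟨b, hb, i, rfl⟩ := h.P_decomp hs hw
    exact mul_mem (Subgroup.mem_sup_left hb)
      (pow_mem (Subgroup.mem_sup_right (Subgroup.mem_zpowers x)) i)
  by_cases hB : P ⊓ A = zS S
  · exact Or.inl (hB ▸ hsplit)
  · obtain ⟨-, hiff, -⟩ := h.nonabelian_case hs hF hB
    have e : P ⊓ A = z2 S := by
      ext u
      rw [h.mem_z2_iff hs hF, Subgroup.mem_inf]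
      exact ⟨fun hu => ⟨hu.2, (hiff u hu.2).mpr hu.1⟩, fun hu => ⟨(hiff u hu.1).mp hu.2, hu.1⟩⟩
    exact Or.inr ⟨h.z2_le hs hF, e ▸ hsplit⟩

theorem UA.card_sup [Finite S] (hF : F.IsSaturated p) :
    Nat.card (zS S ⊔ h.dimg (h.xS hs) A : Subgroup Ω) * p = Nat.card A := by
  have hxS := h.xS hs
  set D := h.dimg hxS A with hD
  have hDA : D ≤ A := h.dimg_le hxS A
  have hn : D ≤ Subgroup.normalizer (zS S : Set Ω) := fun d hd => Subgroup.mem_normalizer_iff.mpr fun z => by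
    constructor
    · intro hz
      rw [hz.2 d (h.le (hDA hd)), mul_inv_cancel_right]; exact hz
    · intro hz
      have h1 := hz.2 d⁻¹ (S.inv_mem (h.le (hDA hd)))
      have h2 : z = d * z * d⁻¹ := by
        conv_lhs => rw [show z = d⁻¹ * (d * z * d⁻¹) * d by group, h1, inv_mul_cancel_right]
      exact h2 ▸ hz
  have h1 := relIndex_sup_normalized (L := S) (hDA.trans h.le) CenterSq.zS_le hn
  have h2 := h.card_dimg hxS hs.xA le_rfl
  rw [inf_eq_right.mpr h.zS_le] at h2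
  have h3 := card_mul_rel (inf_le_right : D ⊓ zS S ≤ zS S)
  have h4 := card_mul_rel (le_sup_left : D ≤ D ⊔ zS S)
  have h5 := h.card_inter hs hF
  rw [inf_comm] at h5
  rw [h5] at h3
  rw [sup_comm, ← h4, h1, mul_assoc, mul_comm _ p, h3, h2]

/-- A lower bound along the lower central series. -/
theorem UA.lcs_large [Finite S] (hF : F.IsSaturated p) {m : ℕ}
    (hm : Nat.card S = p ^ m * Nat.card (zS S)) :
    ∀ j, 1 ≤ j → ∃ B : Subgroup Ω, B ≤ h.dimg (h.xS hs) A ∧ B ≤ Subgroup.lowerCentralSeries S j ∧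
      p ^ (m - j) ≤ Nat.card B := by
  have hxS := h.xS hs
  haveI : Finite (zS S) := finite_of_le CenterSq.zS_le
  have h2 := h.card_dimg hxS hs.xA le_rfl
  rw [inf_eq_right.mpr h.zS_le] at h2
  rw [h.idx, ← h2, ← mul_assoc] at hm
  have hD := Nat.eq_of_mul_eq_mul_right Nat.card_pos hm
  intro j hj
  induction j, hj using Nat.le_induction with
  | base =>
    refine ⟨_, le_rfl, fun u hu => ?_, ?_⟩
    · obtain ⟨a, ha, rfl⟩ := (h.mem_dimg hxS le_rfl).mp hu
      rw [dl_eq, Subgroup.lowerCentralSeries_succ, Subgroup.lowerCentralSeries_zero, ← commutatorElement_def]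
      exact Subgroup.commutator_mem_commutator (h.le ha) hxS
    · rcases Nat.eq_zero_or_pos m with hm0 | hm0
      · haveI : Finite (h.dimg hxS A) := finite_of_le ((h.dimg_le hxS A).trans h.le)
        rw [hm0]; exact Nat.card_pos
      · rw [show m = (m - 1) + 1 by omega, pow_succ'] at hD
        exact (Nat.eq_of_mul_eq_mul_left hp.out.pos hD).ge
  | succ j _ ih =>
    obtain ⟨B, hBD, hBl, hBc⟩ := ih
    have hBA : B ≤ A := hBD.trans (h.dimg_le hxS A)
    refine ⟨h.dimg hxS B, fun u hu => ?_, fun u hu => ?_, ?_⟩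
    · obtain ⟨b, hb, rfl⟩ := (h.mem_dimg hxS hBA).mp hu
      exact (h.mem_dimg hxS le_rfl).mpr ⟨b, hBA hb, rfl⟩
    · obtain ⟨b, hb, rfl⟩ := (h.mem_dimg hxS hBA).mp hu
      rw [dl_eq, Subgroup.lowerCentralSeries_succ, ← commutatorElement_def]
      exact Subgroup.commutator_mem_commutator (hBl hb) hxS
    · have h1 := h.card_dimg hxS hs.xA hBA
      haveI : Finite (zS S ⊓ h.dimg hxS A : Subgroup Ω) := finite_of_le (inf_le_left.trans CenterSq.zS_le)
      have hle : Nat.card (B ⊓ zS S : Subgroup Ω) ≤ p :=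
        (card_le_of_le (le_inf inf_le_right (inf_le_left.trans hBD))).trans (h.card_inter hs hF).le
      have h4 : p ^ (m - j) ≤ Nat.card (h.dimg hxS B) * p :=
        hBc.trans (h1 ▸ Nat.mul_le_mul_left _ hle)
      rcases Nat.eq_zero_or_pos (m - j) with h0 | h0
      · haveI : Finite (h.dimg hxS B) := finite_of_le ((h.dimg_le hxS B).trans h.le)
        rw [show m - (j + 1) = 0 by omega]; exact Nat.card_pos
      · rw [show m - j = (m - (j + 1)) + 1 by omega, pow_succ] at h4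
        exact Nat.le_of_mul_le_mul_right h4 hp.out.pos

end Cfsg.Agent.Fusion.UniqAb

namespace Cfsg.Agent.Fusion.UniqAb

open Cfsg Cfsg.FusionSystem

variable {Ω : Type*} [Group Ω] {S A : Subgroup Ω} {p : ℕ} [hp : Fact p.Prime]

omit hp in
theorem UA.mk' [Finite S] (hS : IsPGroup p S) (hna : ¬ IsMulCommutative ↥S)
    (hA : A ≤ S ∧ IsMulCommutative ↥A ∧ (A.subgroupOf S).index = p)
    (huniq : ∀ B : Subgroup Ω, B ≤ S → IsMulCommutative ↥B → (B.subgroupOf S).index = p → B = A) :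
    UA p S A where
  le := hA.1
  ab u hu v hv := congrArg Subtype.val (hA.2.1.is_comm.comm (⟨u, hu⟩ : A) ⟨v, hv⟩)
  idx := by rw [← card_mul_rel hA.1, Subgroup.relIndex, hA.2.2, mul_comm]
  uniq B hB hab hc := by
    haveI := finite_of_le hB
    refine huniq B hB ⟨⟨fun u v => Subtype.ext (hab u u.2 v v.2)⟩⟩ ?_
    rw [← card_mul_rel hB, mul_comm p] at hc
    exact Nat.eq_of_mul_eq_mul_left Nat.card_pos hc
  nab := by
    by_contra hno
    push_neg at hno
    exact hna ⟨⟨fun u v => Subtype.ext (hno u u.2 v v.2)⟩⟩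
  pg := hS

end Cfsg.Agent.Fusion.UniqAb
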