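/-
Unique abelian subgroup of index `p`, trivial core: the complement in the centre is normal, hence trivial.
-/
import Cfsg.Agent.Fusion.UniqueAbelianMain
import Cfsg.Agent.Fusion.SmallCenterOdd
import Cfsg.Agent.Fusion.Series
set_option autoImplicit false

namespace Cfsg.Agent.Fusion.UniqAb

open Cfsg Cfsg.FusionSystem Cfsg.Agent.Fusion.CenterSq Cfsg.Agent.Fusion.EssShape

variable {Ω : Type*} [Group Ω] {S A : Subgroup Ω} {F : FusionSystem S} {p : ℕ} [hp : Fact p.Prime]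

/-- `Z(S) ∩ S'`. -/
def uU (S : Subgroup Ω) : Subgroup Ω := zS S ⊓ (commutator ↥S).map S.subtype

omit hp in
theorem iso_map_zS {f : Ω → Ω} (hf : Iso F f S S) {x : Ω} (hx : x ∈ zS S) : f x ∈ zS S :=
  ⟨hf.mapsTo hx.1, fun u hu => by
    obtain ⟨u', hu', rfl⟩ := hf.surj hu
    show f u' * f x = f x * f u'
    rw [← hf.mor.map_mul hu' hx.1, ← hf.mor.map_mul hx.1 hu', hx.2 u' hu']⟩

/-- An automorphism of `S` inverting `Z(S) ∩ S'` and trivial on the quotient of `Z(S)` by it. -/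
structure Rf (F : FusionSystem S) (f : Ω → Ω) : Prop where
  iso : Iso F f S S
  inv : ∀ u ∈ uU S, f u = u⁻¹
  step : ∀ b ∈ zS S, b⁻¹ * f b ∈ uU S

/-- Morphisms of the centre extend to `S`. -/
theorem extend_zS [Finite S] (hS : IsPGroup p S) (hF : F.IsSaturated p) {f : Ω → Ω}
    (hf : Iso F f (zS S) (zS S)) : ∃ g, Iso F g S S ∧ ∀ b ∈ zS S, g b = f b := by
  have hn : S ≤ normalizerIn S (zS S) := fun s hs => ⟨hs, Subgroup.mem_normalizer_iff.mpr fun z => by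
    constructor
    · intro hz
      rw [hz.2 s hs, mul_inv_cancel_right]; exact hz
    · intro hz
      have h1 := hz.2 s⁻¹ (S.inv_mem hs)
      have h2 : z = s * z * s⁻¹ := by
        conv_lhs => rw [show z = s⁻¹ * (s * z * s⁻¹) * s by group, h1, inv_mul_cancel_right]
      exact h2 ▸ hz⟩
  have hfn : F.IsFullyNormalized (zS S) := ⟨CenterSq.zS_le, fun Q _ => by
    haveI := finite_of_le (normalizerIn_le (S := S) (P := zS S))
    exact card_le_of_le (normalizerIn_le.trans hn)⟩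
  obtain ⟨-, -, hrec⟩ := IsSaturated_fullyNormalized hS hF hfn
  obtain ⟨g, hg, e⟩ := (receptive_iff.mp hrec).2 _ f hf
  have hle : S ≤ nphi S (zS S) f := fun s hs => mem_nphi.mpr ⟨hs, (hn hs).2, 1, S.one_mem, fun b hb => by
    rw [cj_one, cj_apply, hb.2 s hs, mul_inv_cancel_right]⟩
  have hg' : Mor F S g := hg.restrict hle
  exact ⟨g, hg'.iso_of_card (fun x hx => hg'.map_mem hx) le_rfl, e⟩

omit hp in
theorem core_eq_bot (hcore : F.core = ⊥) {Q : Subgroup Ω} (hN : F.IsNormal Q) : Q = ⊥ := by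
  have h1 : Q ≤ F.core := le_sSup hN
  rwa [hcore, le_bot_iff] at h1

variable (h : UA p S A) {P : Subgroup Ω} {x : Ω}
include h

theorem UA.uU_eq [Finite S] {y : Ω} (hy : y ∈ S) (hyA : y ∉ A) : uU S = zS S ⊓ h.dimg hy A := by
  rw [uU, h.commutator_eq hy hyA]

theorem UA.map_uU [Finite S] {y : Ω} (hy : y ∈ S) (hyA : y ∉ A) {f : Ω → Ω} (hf : Iso F f S S)
    {u : Ω} (hu : u ∈ uU S) : f u ∈ uU S := by
  rw [h.uU_eq hy hyA] at hu ⊢
  refine ⟨iso_map_zS hf hu.1, ?_⟩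
  obtain ⟨a, ha, rfl⟩ := (h.mem_dimg hy le_rfl).mp hu.2
  have haS := h.le ha
  rw [dl_eq, hf.mor.map_mul (S.mul_mem (S.mul_mem haS hy) (S.inv_mem haS)) (S.inv_mem hy),
    hf.mor.map_mul (S.mul_mem haS hy) (S.inv_mem haS), hf.mor.map_mul haS hy, hf.mor.map_inv haS,
    hf.mor.map_inv hy]
  exact h.comm_mem hy hyA (hf.mapsTo haS) (hf.mapsTo hy)

variable (hs : Shape F p A P x)
include hs

theorem UA.card_uU [Finite S] (hF : F.IsSaturated p) : Nat.card (uU S) = p := by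
  rw [h.uU_eq (h.xS hs) hs.xA]; exact h.card_inter hs hF

theorem UA.fix_lemma [Finite S] (hF : F.IsSaturated p) {f : Ω → Ω} (hf : Iso F f S S)
    (hu : ∀ u ∈ uU S, f u = u) (hst : ∀ b ∈ zS S, b⁻¹ * f b ∈ uU S) {b : Ω} (hb : b ∈ zS S) : f b = b := by
  haveI := finite_mulAut (G := S)
  let e : MulAut S := hf.equiv
  have he : e ∈ F.autGroup S := hf.equiv_mem_autGroup
  have ev : ∀ w : S, ((e w : S) : Ω) = f w := fun _ => rfl
  let bs : S := ⟨b, hb.1⟩
  let us : S := ⟨b⁻¹ * f b, (hst b hb).1.1⟩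
  have h1 : e bs = bs * us := Subtype.ext (by
    rw [ev, Subgroup.coe_mul]
    show f b = b * (b⁻¹ * f b)
    rw [mul_inv_cancel_left])
  have h2 : e us = us := Subtype.ext (hu _ (hst b hb))
  have hn : ∀ n : ℕ, (e ^ n) bs = bs * us ^ n := by
    intro n
    induction n with
    | zero => simp
    | succ n ih => rw [pow_succ', MulAut.mul_apply, ih, map_mul, map_pow, h1, h2, mul_assoc, ← pow_succ']
  obtain ⟨a, s, hs', hord⟩ := Nat.exists_eq_pow_mul_and_not_dvd (n := orderOf e)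
    (orderOf_pos e).ne' p hp.out.ne_one
  have h3 := zS_fix_of_pow h.pg hF (Subgroup.pow_mem _ he s) (k := a)
    (by rw [← pow_mul, mul_comm, ← hord, pow_orderOf_eq_one]) bs hb
  rw [hn, mul_eq_left] at h3
  have h4 : us ^ p = 1 := by
    have := pow_card_eq_one' (G := uU S) (x := ⟨_, hst b hb⟩)
    rw [h.card_uU hs hF] at this
    exact Subtype.ext (by simpa using congrArg Subtype.val this)
  have h5 : us = 1 := by
    have := pow_gcd_eq_one.mpr ⟨h4, h3⟩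
    rwa [Nat.Coprime.gcd_eq_one ((hp.out.coprime_iff_not_dvd).mpr hs'), pow_one] at this
  exact (inv_mul_eq_one.mp (congrArg Subtype.val h5)).symm

theorem UA.agree [Finite S] (hF : F.IsSaturated p) {σ τ : Ω → Ω} (hσ : Rf F σ) (hτ : Rf F τ)
    {b : Ω} (hb : b ∈ zS S) : τ b = σ b := by
  have key : ∀ τ : Ω → Ω, Rf F τ → ∀ b ∈ zS S, τ (σ b) = b := by
    intro τ hτ b hb
    refine h.fix_lemma hs hF (hσ.iso.comp hτ.iso) (fun u hu => ?_) (fun w hw => ?_) hb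
    · show τ (σ u) = u
      rw [hσ.inv u hu, hτ.inv _ ((uU S).inv_mem hu), inv_inv]
    · show w⁻¹ * τ (σ w) ∈ uU S
      have hv := hσ.step w hw
      have e : σ w = w * (w⁻¹ * σ w) := (mul_inv_cancel_left _ _).symm
      rw [e, hτ.iso.mor.map_mul hw.1 hv.1.1, hτ.inv _ hv, ← mul_assoc]
      exact mul_mem (hτ.step w hw) (inv_mem hv)
  calc τ b = τ (σ (σ b)) := by rw [key σ hσ b hb]
    _ = σ b := key τ hτ _ (iso_map_zS hσ.iso hb)

theorem UA.inv_moves [Finite S] {g : MulAut P} {z₀ : P} (hz₀ : (z₀ : Ω) ∈ zS S)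
    (hmove : ((g z₀ : P) : Ω) ∉ zS S) :
    ∃ z₁ : P, (z₁ : Ω) ∈ zS S ∧ ((g⁻¹ z₁ : P) : Ω) ∉ zS S := by
  by_contra hno
  push Not at hno
  haveI := finite_of_le hs.ess.1.1
  let Zp : Subgroup P := (zS S).subgroupOf P
  have hle : Zp.map (g⁻¹).toMonoidHom ≤ Zp := by
    rintro _ ⟨v, hv, rfl⟩; exact hno v hv
  have heq : Zp.map (g⁻¹).toMonoidHom = Zp :=
    eq_of_le_of_card hle (Subgroup.card_map_of_injective (g⁻¹).injective).ge
  obtain ⟨v, hv, e⟩ := heq.ge (show z₀ ∈ Zp from hz₀)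
  refine hmove ?_
  rw [← e]
  show ((g (g⁻¹ v) : P) : Ω) ∈ zS S
  rw [MulAut.apply_inv_self]; exact hv

/-- An abelian essential subgroup moving the centre gives a reflection. -/
theorem UA.exists_rf [Finite S] (hF : F.IsSaturated p) (hp2 : p ≠ 2) (hB : P ⊓ A = zS S) {g : MulAut P}
    (hg : g ∈ F.autGroup P) {z₀ : P} (hz₀ : (z₀ : Ω) ∈ zS S) (hmove : ((g z₀ : P) : Ω) ∉ zS S) :
    ∃ σ, Rf F σ ∧ ∀ b, ∀ hb : b ∈ zS S,
      σ b = b ↔ ((g⁻¹ ⟨b, h.zS_le_P hs hb⟩ : P) : Ω) ∈ zS S := by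
  have hxS := h.xS hs
  haveI := finite_of_le hs.ess.1.1
  obtain ⟨z₁, hz₁, hmove'⟩ := h.inv_moves hs hz₀ hmove
  obtain ⟨a, ha, haP, han⟩ := h.exists_outer_A hs hF
  have hUc := h.card_uU hs hF
  haveI : Finite (uU S) := finite_of_le (inf_le_left.trans CenterSq.zS_le)
  have hUP : uU S ≤ P := inf_le_left.trans (h.zS_le_P hs)
  have hUd : ∀ u ∈ uU S, ∃ a' ∈ A, dl x a' = u := fun u hu => by
    rw [h.uU_eq hxS hs.xA] at hu
    exact (h.mem_dimg hxS le_rfl).mp hu.2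
  -- elements of `U` moved into the centre are trivial
  have htr : ∀ (γ : MulAut P), γ ∈ F.autGroup P → (∃ v : P, (v : Ω) ∈ zS S ∧ ((γ v : P) : Ω) ∉ zS S) →
      ∀ u : P, (u : Ω) ∈ uU S → ((γ⁻¹ u : P) : Ω) ∈ zS S → u = 1 := by
    rintro γ hγ ⟨v, hv, hv'⟩ u hu hu'
    obtain ⟨a', ha', e⟩ := hUd _ hu
    exact h.transverse hs hF hB hγ hv hv' hu.1 hu' ha' e
  -- splitting of the centre
  haveI hN : ((zS S).subgroupOf P).Normal := ⟨fun v hv w => by
    show (w : Ω) * v * (w : Ω)⁻¹ ∈ zS S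
    rw [(show (v : Ω) ∈ zS S from hv).2 _ (hs.ess.1.1 w.2), mul_inv_cancel_right]; exact hv⟩
  let ψ : uU S →* P ⧸ (zS S).subgroupOf P :=
    (QuotientGroup.mk' _).comp ((g⁻¹ : MulAut P).toMonoidHom.comp (Subgroup.inclusion hUP))
  have hinj : Function.Injective ψ := by
    rw [← MonoidHom.ker_eq_bot_iff, eq_bot_iff]
    intro u hu
    have hu' : ((g⁻¹ ⟨(u : Ω), hUP u.2⟩ : P) : Ω) ∈ zS S :=
      Subgroup.mem_subgroupOf.mp ((QuotientGroup.eq_one_iff (N := (zS S).subgroupOf P) (g⁻¹ ⟨(u : Ω), hUP u.2⟩)).mp hu)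
    exact Subtype.ext (congrArg Subtype.val (htr g hg ⟨z₀, hz₀, hmove⟩ ⟨(u : Ω), hUP u.2⟩ u.2 hu') :)
  have hidx : Nat.card (P ⧸ (zS S).subgroupOf P) = p := by
    have h1 := card_mul_rel (h.zS_le_P hs)
    rw [h.card_P hs, hB, mul_comm p] at h1
    haveI : Finite (zS S) := finite_of_le CenterSq.zS_le
    exact Nat.eq_of_mul_eq_mul_left Nat.card_pos h1
  have hsurj : Function.Surjective ψ :=
    ((Nat.bijective_iff_injective_and_card _).mpr ⟨hinj, hUc.trans hidx.symm⟩).2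
  have hsplit : ∀ b : P, (b : Ω) ∈ zS S → ∃ u c : P, (u : Ω) ∈ uU S ∧ (c : Ω) ∈ zS S ∧
      ((g⁻¹ c : P) : Ω) ∈ zS S ∧ b = u * c := by
    intro b hb
    obtain ⟨u, hu⟩ := hsurj (QuotientGroup.mk' _ (g⁻¹ b))
    have h1 := QuotientGroup.eq.mp hu
    refine ⟨⟨(u : Ω), hUP u.2⟩, (⟨(u : Ω), hUP u.2⟩ : P)⁻¹ * b, u.2, mul_mem (inv_mem u.2.1) hb, ?_, by group⟩
    rw [map_mul, map_inv]
    exact h1
  -- conjugation by `a`
  let t : MulAut P := actHom S P ⟨a, han⟩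
  have htfix : ∀ v : P, (v : Ω) ∈ zS S → t v = v := fun v hv => Subtype.ext (h.conj_val ha (h.zS_le hv))
  have htk : ∀ (k : ℕ) (v : P), (v : Ω) ∈ zS S → (t ^ k) v = v := by
    intro k v hv
    induction k with
    | zero => simp
    | succ k ih => rw [pow_succ', MulAut.mul_apply, ih, htfix v hv]
  have hshift : ∀ v : P, (v : Ω) ∉ zS S → ∀ u₀ : P, (u₀ : Ω) ∈ uU S → ∃ k : ℕ, (t ^ k) v = v * u₀ := by
    intro v hv u₀ hu₀
    set u : P := t v * v⁻¹ with hu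
    have huv : (u : Ω) = a * v * a⁻¹ * (v : Ω)⁻¹ := by
      rw [hu, Subgroup.coe_mul, Subgroup.coe_inv, actHom_apply]; rfl
    have huU : (u : Ω) ∈ uU S := by
      have hd : (u : Ω) ∈ h.dimg hxS A := huv ▸ h.comm_mem hxS hs.xA (h.le ha) (hs.ess.1.1 v.2)
      rw [h.uU_eq hxS hs.xA]
      exact ⟨hB ▸ ⟨u.2, h.dimg_le hxS A hd⟩, hd⟩
    have hu1 : (u : Ω) ≠ 1 := by
      intro e
      rw [huv, mul_inv_eq_one, mul_inv_eq_iff_eq_mul] at e
      by_cases hvA : (v : Ω) ∈ A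
      · exact hv (hB ▸ ⟨v.2, hvA⟩)
      · exact haP (h.zS_le_P hs (h.mem_zS_of_comm (hs.ess.1.1 v.2) hvA ha e))
    obtain ⟨k, hk⟩ := pow_of_mem hUc huU hu1 hu₀
    have huc : ∀ n : ℕ, Commute v (u ^ n) := fun n =>
      Subtype.ext (by simpa using (pow_mem huU.1 n).2 v (hs.ess.1.1 v.2))
    have htv : t v = v * u := by
      rw [(show Commute v u by simpa using huc 1).eq, hu, inv_mul_cancel_right]
    have hn : ∀ n : ℕ, (t ^ n) v = v * u ^ n := by
      intro n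
      induction n with
      | zero => simp
      | succ n ih =>
        rw [pow_succ', MulAut.mul_apply, ih, map_mul, map_pow, htfix u huU.1,
          htv, mul_assoc, ← pow_succ']
    refine ⟨k, (hn k).trans (congrArg (v * ·) (Subtype.ext ?_))⟩
    rw [SubmonoidClass.coe_pow]; exact hk
  -- the element `z`
  obtain ⟨z, hzU, hz1⟩ : ∃ z : P, (z : Ω) ∈ uU S ∧ z ≠ 1 := by
    have hne : uU S ≠ ⊥ := fun e => by
      rw [e, Subgroup.card_bot] at hUc
      exact hp.out.ne_one hUc.symm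
    obtain ⟨u, hu, hu1⟩ := (Subgroup.ne_bot_iff_exists_ne_one.mp hne) |> fun ⟨w, hw⟩ => (⟨(w : Ω), w.2, fun e => hw (Subtype.ext e)⟩ : ∃ u ∈ uU S, u ≠ (1 : Ω))
    exact ⟨⟨u, hUP hu⟩, hu, fun e => hu1 (congrArg Subtype.val e)⟩
  set y : P := g z with hy
  have hyZ : ((y : P) : Ω) ∉ zS S := fun e =>
    hz1 (htr g⁻¹ (inv_mem hg) ⟨z₁, hz₁, hmove'⟩ z hzU (by rwa [inv_inv]))
  have hzg : ((g⁻¹ z : P) : Ω) ∉ zS S := fun e => hz1 (htr g hg ⟨z₀, hz₀, hmove⟩ z hzU e)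
  obtain ⟨k₁, hk₁⟩ := hshift y hyZ z hzU
  obtain ⟨k₂, hk₂⟩ := hshift _ hzg z⁻¹ (inv_mem hzU)
  set T : MulAut P := g * t ^ k₂ * g⁻¹ with hT
  set t₁ : MulAut P := t ^ k₁ with ht₁
  have t1z : t₁ z = z := htk _ _ hzU.1
  have Tz : T z = z * y⁻¹ := by
    rw [hT, MulAut.mul_apply, MulAut.mul_apply, hk₂, map_mul, map_inv, MulAut.apply_inv_self]
  have Ty : T y = y := by
    rw [hT, MulAut.mul_apply, MulAut.mul_apply, hy, MulAut.inv_apply_self, htk _ _ hzU.1]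
  have hzc : Commute y z := Subtype.ext (hzU.1.2 _ (hs.ess.1.1 y.2))
  set w : MulAut P := t₁ * T * t₁ with hw
  have hwz : w z = y⁻¹ := by
    rw [hw, MulAut.mul_apply, MulAut.mul_apply, t1z, Tz, map_mul, map_inv, hk₁, t1z, mul_inv_rev, mul_inv_cancel_left]
  have hwy : w y = z := by
    rw [hw, MulAut.mul_apply, MulAut.mul_apply, hk₁, map_mul, Ty, Tz, map_mul, map_mul, map_inv, hk₁, t1z,
      mul_inv_rev, mul_inv_cancel_left, hzc.eq, mul_inv_cancel_right]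
  have hwfix : ∀ c : P, (c : Ω) ∈ zS S → ((g⁻¹ c : P) : Ω) ∈ zS S → w c = c := by
    intro c hc hc'
    rw [hw, MulAut.mul_apply, MulAut.mul_apply, htk _ _ hc, hT, MulAut.mul_apply, MulAut.mul_apply, htk _ _ hc',
      MulAut.apply_inv_self, htk _ _ hc]
  set β : MulAut P := w * w with hβ
  have htF : t ∈ F.autGroup P := autInducedBy_le_autGroup hs.ess.1.1 ((range_actHom S P).le ⟨_, rfl⟩)
  have hβF : β ∈ F.autGroup P := by
    have : w ∈ F.autGroup P :=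
      mul_mem (mul_mem (pow_mem htF _) (mul_mem (mul_mem hg (pow_mem htF _)) (inv_mem hg))) (pow_mem htF _)
    exact mul_mem this this
  have hβz : β z = z⁻¹ := by rw [hβ, MulAut.mul_apply, hwz, map_inv, hwy]
  have hβu : ∀ u : P, (u : Ω) ∈ uU S → β u = u⁻¹ := by
    intro u hu
    obtain ⟨k, hk⟩ := pow_of_mem hUc hzU (fun e => hz1 (Subtype.ext e)) hu
    rw [show u = z ^ k from Subtype.ext (by rw [SubmonoidClass.coe_pow]; exact hk.symm), map_pow, hβz, inv_pow]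
  have hβc : ∀ c : P, (c : Ω) ∈ zS S → ((g⁻¹ c : P) : Ω) ∈ zS S → β c = c := fun c hc hc' => by
    rw [hβ, MulAut.mul_apply, hwfix c hc hc', hwfix c hc hc']
  obtain ⟨f, hf, ef⟩ := (mem_autGroup_iff hs.ess.1.1).mp hβF
  have hfb : ∀ b : P, (b : Ω) ∈ zS S → ((β b : P) : Ω) ∈ zS S := by
    intro b hb
    obtain ⟨u, c, hu, hc, hc', rfl⟩ := hsplit b hb
    rw [map_mul, hβu u hu, hβc c hc hc']
    exact mul_mem (inv_mem hu.1) hc
  haveI : Finite (zS S) := finite_of_le CenterSq.zS_le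
  have hfZ : Iso F f (zS S) (zS S) :=
    (hf.mor.restrict (h.zS_le_P hs)).iso_of_card (fun b hb => by
      rw [show f b = _ from ef ⟨b, h.zS_le_P hs hb⟩]; exact hfb _ hb) le_rfl
  obtain ⟨σ, hσ, eσ⟩ := extend_zS h.pg hF hfZ
  have eσ' : ∀ b : P, (b : Ω) ∈ zS S → σ b = ((β b : P) : Ω) := fun b hb => (eσ _ hb).trans (ef b)
  refine ⟨σ, ⟨hσ, fun u hu => ?_, fun b hb => ?_⟩, fun b hb => ?_⟩
  · rw [eσ' ⟨u, hUP hu⟩ hu.1, hβu _ hu]; rfl
  · obtain ⟨u, c, hu, hc, hc', e⟩ := hsplit ⟨b, h.zS_le_P hs hb⟩ hb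
    rw [eσ' ⟨b, h.zS_le_P hs hb⟩ hb, e, map_mul, hβu u hu, hβc c hc hc']
    have eb : b = (u : Ω) * c := congrArg Subtype.val e
    rw [eb, Subgroup.coe_mul, Subgroup.coe_inv, mul_inv_rev]
    have hcu : Commute (c : Ω) (u : Ω)⁻¹ :=
      (show Commute (c : Ω) u from hu.1.2 c (hs.ess.1.1 c.2)).inv_right
    rw [show (c : Ω)⁻¹ * (u : Ω)⁻¹ * ((u : Ω)⁻¹ * c) = (c : Ω)⁻¹ * ((u : Ω)⁻¹ * (u : Ω)⁻¹ * c) by group,
      ← ((hcu.mul_right hcu)).eq, inv_mul_cancel_left]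
    exact mul_mem (inv_mem hu) (inv_mem hu)
  · obtain ⟨u, c, hu, hc, hc', e⟩ := hsplit ⟨b, h.zS_le_P hs hb⟩ hb
    rw [eσ' ⟨b, h.zS_le_P hs hb⟩ hb, e, map_mul, hβu u hu, hβc c hc hc']
    constructor
    · intro hfix
      have h1 : u⁻¹ * c = u * c := Subtype.ext (hfix.trans (congrArg Subtype.val e))
      rw [mul_left_inj, inv_eq_iff_mul_eq_one, ← sq] at h1
      have h2 : u ^ p = 1 := by
        have := pow_card_eq_one' (G := uU S) (x := ⟨_, hu⟩)
        rw [hUc] at this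
        exact Subtype.ext (by simpa using congrArg Subtype.val this)
      have h3 := pow_gcd_eq_one.mpr ⟨h2, h1⟩
      rw [((Nat.coprime_primes hp.out Nat.prime_two).mpr hp2).gcd_eq_one, pow_one] at h3
      rwa [h3, one_mul]
    · intro hbg
      have hu' : ((g⁻¹ u : P) : Ω) ∈ zS S := by
        rw [show u = u * c * c⁻¹ by group, map_mul, map_inv]
        exact mul_mem hbg (inv_mem hc')
      rw [htr g hg ⟨z₀, hz₀, hmove⟩ u hu hu', inv_one, one_mul]
      have := congrArg Subtype.val e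
      rw [htr g hg ⟨z₀, hz₀, hmove⟩ u hu hu', one_mul] at this
      exact this.symm

omit hs in
/-- For a nonabelian essential subgroup the centre of `S` is invariant. -/
theorem UA.zS_invariant [Finite S] (hF : F.IsSaturated p) (hs' : Shape F p A P x) (hB : P ⊓ A ≠ zS S)
    {f : Ω → Ω} (hf : Iso F f P P) {z : Ω} (hz : z ∈ zS S) : f z ∈ zS S := by
  have hc : ∀ u ∈ P, Commute (f z) u := fun u hu => by
    obtain ⟨v, hv, rfl⟩ := hf.surj hu
    show f z * f v = f v * f z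
    rw [← hf.mor.map_mul (h.zS_le_P hs' hz) hv, ← hf.mor.map_mul hv (h.zS_le_P hs' hz),
      hz.2 v (hs'.ess.1.1 hv)]
  have hfP : f z ∈ P := hf.mapsTo (h.zS_le_P hs' hz)
  by_cases hvA : f z ∈ A
  · exact h.mem_zS_of_comm (h.xS hs') hs'.xA hvA (hc x hs'.xP)
  · exfalso
    refine hB (le_antisymm (fun b hb => ?_) (le_inf (h.zS_le_P hs') h.zS_le))
    exact h.mem_zS_of_comm (hs'.ess.1.1 hfP) hvA hb.2 (hc b hb.1).symm

omit hs in
/-- A subgroup with trivial core situation: there is an abelian essential subgroup. -/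
theorem UA.exists_abelian_essential [Finite S] (hF : F.IsSaturated p) (hcore : F.core = ⊥)
    (hAe : ¬ F.IsEssential p A) : ∃ P x, Shape F p A P x ∧ P ⊓ A = zS S := by
  haveI : Fact p.Prime := hp
  by_contra hno
  push Not at hno
  have hall : ∀ R, F.IsEssential p R → ∃ y, Shape F p A R y ∧ R ⊓ A ≠ zS S := fun R hR => by
    obtain ⟨y, hy⟩ := h.exists_shape hF hR fun e => hAe (e ▸ hR)
    exact ⟨y, hy, hno R y hy⟩
  have hN : F.IsNormal (zS S) := isNormal_of_stronglyClosed h.pg hF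
    (stronglyClosed_of_gen h.pg hF CenterSq.zS_le (by
      rintro R (rfl | hR) f hf z hzR hz
      · exact iso_map_zS hf hz
      · obtain ⟨y, hy, hyB⟩ := hall R hR
        exact h.zS_invariant hF hy hyB hf hz))
    fun R hR => by
      obtain ⟨y, hy, -⟩ := hall R hR
      exact h.zS_le_P hy
  have hbot := core_eq_bot hcore hN
  obtain ⟨u, hu, v, hv, huv⟩ := h.nab
  haveI : Nontrivial S := ⟨⟨⟨u, hu⟩, 1, fun e => huv (by rw [show u = 1 from congrArg Subtype.val e]; simp)⟩⟩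
  haveI := (h.pg).center_nontrivial
  obtain ⟨c, hc⟩ := exists_ne (1 : Subgroup.center S)
  refine hc (Subtype.ext (Subtype.ext ?_))
  have : ((c : S) : Ω) ∈ zS S := ⟨(c : S).2, fun y hy =>
    congrArg Subtype.val (Subgroup.mem_center_iff.mp c.2 ⟨y, hy⟩)⟩
  rw [hbot] at this
  exact Subgroup.mem_bot.mp this

/-- The centre has order `p`. -/
theorem UA.zS_le_uU [Finite S] (hF : F.IsSaturated p) (hp2 : p ≠ 2) (hcore : F.core = ⊥)
    (hAe : ¬ F.IsEssential p A) (hB : P ⊓ A = zS S) : zS S ≤ uU S := by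
  have hxS := h.xS hs
  obtain ⟨g, hg, z₀, hz₀, hmove⟩ := h.exists_move hs hF hB
  obtain ⟨σ, hσ, hfix⟩ := h.exists_rf hs hF hp2 hB hg hz₀ hmove
  let C : Subgroup Ω :=
    { carrier := {b | b ∈ zS S ∧ σ b = b}
      one_mem' := ⟨one_mem _, hσ.iso.mor.map_one⟩
      mul_mem' := fun {a b} ha hb => ⟨mul_mem ha.1 hb.1, by rw [hσ.iso.mor.map_mul ha.1.1 hb.1.1, ha.2, hb.2]⟩
      inv_mem' := fun {a} ha => ⟨inv_mem ha.1, by rw [hσ.iso.mor.map_inv ha.1.1, ha.2]⟩ }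
  have hS' : ∀ φ, Iso F φ S S → ∀ b ∈ C, φ b ∈ C := by
    rintro φ hφ b ⟨hb, hb2⟩
    refine ⟨iso_map_zS hφ hb, ?_⟩
    obtain ⟨ψ, hψ, hψφ, hφψ⟩ := hφ.exists_symm
    have hτ : Rf F (φ ∘ σ ∘ ψ) := by
      refine ⟨(hψ.comp hσ.iso).comp hφ, fun u hu => ?_, fun w hw => ?_⟩
      · show φ (σ (ψ u)) = u⁻¹
        have hu' := h.map_uU hxS hs.xA hψ hu
        rw [hσ.inv _ hu', hφ.mor.map_inv hu'.1.1, hφψ u hu.1.1]
      · show w⁻¹ * φ (σ (ψ w)) ∈ uU S
        have hw' := iso_map_zS hψ hw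
        have hd := hσ.step _ hw'
        rw [show σ (ψ w) = ψ w * ((ψ w)⁻¹ * σ (ψ w)) from (mul_inv_cancel_left _ _).symm,
          hφ.mor.map_mul hw'.1 hd.1.1, hφψ w hw.1, inv_mul_cancel_left]
        exact h.map_uU hxS hs.xA hφ hd
    have := h.agree hs hF hσ hτ (iso_map_zS hφ hb)
    rw [← this]
    show φ (σ (ψ (φ b))) = φ b
    rw [hψφ b hb.1, hb2]
  have hN : F.IsNormal C := isNormal_of_stronglyClosed h.pg hF
    (stronglyClosed_of_gen h.pg hF (fun b hb => hb.1.1) (by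
      rintro R (rfl | hR) f hf b hbR hb
      · exact hS' f hf b hb
      · obtain ⟨y, hy⟩ := h.exists_shape hF hR fun e => hAe (e ▸ hR)
        have hZR := h.zS_le_P hy
        haveI := finite_of_le hR.1.1
        haveI : Finite (zS S) := finite_of_le CenterSq.zS_le
        by_cases hinv : ∀ z ∈ zS S, f z ∈ zS S
        · obtain ⟨φ, hφ, eφ⟩ := extend_zS h.pg hF ((hf.mor.restrict hZR).iso_of_card hinv le_rfl)
          rw [← eφ b hb.1]
          exact hS' φ hφ b hb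
        · push Not at hinv
          obtain ⟨z, hz, hzm⟩ := hinv
          have hRB : R ⊓ A = zS S := by
            by_contra hne
            exact hzm (h.zS_invariant hF hy hne hf hz)
          let γ : MulAut R := hf.equiv
          have hγ : γ ∈ F.autGroup R := hf.equiv_mem_autGroup
          have hγm : ((γ ⟨z, hZR hz⟩ : R) : Ω) ∉ zS S := hzm
          obtain ⟨w₁, hw₁, hw₁'⟩ := h.inv_moves hy (g := γ) (z₀ := ⟨z, hZR hz⟩) hz hγm
          obtain ⟨σ₁, hσ₁, hfix₁⟩ := h.exists_rf hy hF hp2 hRB hγ (z₀ := ⟨z, hZR hz⟩) hz hγm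
          obtain ⟨σ₂, hσ₂, hfix₂⟩ := h.exists_rf hy hF hp2 hRB (inv_mem hγ) hw₁ hw₁'
          have h2 : σ₂ b = b := (h.agree hs hF hσ hσ₂ hb.1).trans hb.2
          have hfb : f b ∈ zS S := by
            have := (hfix₂ b hb.1).mp h2
            rwa [inv_inv] at this
          refine ⟨hfb, ?_⟩
          have h1 : σ₁ (f b) = f b := by
            refine (hfix₁ _ hfb).mpr ?_
            rw [show (⟨f b, hZR hfb⟩ : R) = γ ⟨b, hbR⟩ from Subtype.ext rfl, MulAut.inv_apply_self]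
            exact hb.1
          exact (h.agree hs hF hσ₁ hσ hfb).trans h1))
    fun R hR => by
      obtain ⟨y, hy⟩ := h.exists_shape hF hR fun e => hAe (e ▸ hR)
      exact fun b hb => h.zS_le_P hy hb.1
  have hbot := core_eq_bot hcore hN
  intro b hb
  -- `b (σ b)` is fixed
  have hd := hσ.step b hb
  have hbb : σ (σ b) = b := by
    have := h.fix_lemma hs hF (hσ.iso.comp hσ.iso) (fun u hu => by
      show σ (σ u) = u
      rw [hσ.inv u hu, hσ.inv _ (inv_mem hu), inv_inv]) (fun w hw => by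
      show w⁻¹ * σ (σ w) ∈ uU S
      have hv := hσ.step w hw
      rw [show σ w = w * (w⁻¹ * σ w) from (mul_inv_cancel_left _ _).symm,
        hσ.iso.mor.map_mul hw.1 hv.1.1, hσ.inv _ hv, ← mul_assoc]
      exact mul_mem (hσ.step w hw) (inv_mem hv)) hb
    exact this
  have hsb := iso_map_zS hσ.iso hb
  have hmem : b * σ b ∈ C := ⟨mul_mem hb hsb, by
    rw [hσ.iso.mor.map_mul hb.1 hsb.1, hbb, hsb.2 b hb.1]⟩
  rw [hbot, Subgroup.mem_bot] at hmem
  rw [eq_inv_of_mul_eq_one_right hmem, ← sq] at hd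
  have hd' : b ^ 2 ∈ uU S := by
    have := inv_mem hd
    rwa [← inv_pow, inv_inv] at this
  obtain ⟨e, he⟩ := IsPGroup.iff_orderOf.mp h.pg ⟨b, hb.1⟩
  rw [Subgroup.orderOf_mk] at he
  obtain ⟨m, hm⟩ := exists_pow_eq_self_of_coprime (x := b) (n := 2) (by
    rw [he]
    exact Nat.Coprime.pow_right e ((Nat.coprime_primes Nat.prime_two hp.out).mpr hp2.symm))
  rw [← hm]
  exact pow_mem hd' m

end Cfsg.Agent.Fusion.UniqAb
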