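/-
A nilpotency criterion: if every subgroup of one order is weakly embedded and has inner normalizer
system, then the whole system is inner.
-/
import Cfsg.Agent.Fusion.FactorSat
import Cfsg.Agent.Fusion.TateMore
import Cfsg.Agent.Fusion.Solvable
set_option autoImplicit false

namespace Cfsg.Agent.Fusion

open Cfsg Cfsg.FusionSystem
open scoped Pointwise commutatorElement

variable {Ω : Type*} [Group Ω] {S : Subgroup Ω} {F : FusionSystem S} {p : ℕ}

theorem exists_card_between [Fact p.Prime] {L M : Subgroup Ω} [Finite M] (hM : IsPGroup p M) (hLM : L ≤ M)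
    {c : ℕ} (hL : Nat.card L ≤ p ^ c) (hc : p ^ c ≤ Nat.card M) :
    ∃ Q : Subgroup Ω, L ≤ Q ∧ Q ≤ M ∧ Nat.card Q = p ^ c := by
  obtain ⟨a, ha⟩ := IsPGroup.iff_card.mp (hM.to_subgroup (L.subgroupOf M))
  obtain ⟨b, hb⟩ := IsPGroup.iff_card.mp hM
  have hp1 : 1 < p := (Fact.out : p.Prime).one_lt
  have hLc : Nat.card (L.subgroupOf M) = Nat.card L :=
    Nat.card_congr (Subgroup.subgroupOfEquivOfLe hLM).toEquiv
  have hac : a ≤ c := (Nat.pow_le_pow_iff_right hp1).mp (ha ▸ hLc ▸ hL)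
  have hcb : c ≤ b := (Nat.pow_le_pow_iff_right hp1).mp (hb ▸ hc)
  obtain ⟨K, hK, hLK⟩ := Sylow.exists_subgroup_card_pow_prime_le (G := M) p
    (hb ▸ pow_dvd_pow p hcb) (L.subgroupOf M) ha hac
  refine ⟨K.map M.subtype, fun x hx => ⟨⟨x, hLM hx⟩, hLK hx, rfl⟩, Subgroup.map_subtype_le _, ?_⟩
  rw [← Nat.card_congr (K.equivMapOfInjective _ M.subtype_injective).toEquiv, hK]

/-- stable under all automorphisms of `R` in the system -/
def AutStable (F : FusionSystem S) (R L : Subgroup Ω) : Prop :=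
  L ≤ R ∧ ∀ f, Iso F f R R → ∀ x ∈ L, f x ∈ L

theorem AutStable.inf_closed {R L P : Subgroup Ω} (hL : AutStable F R L) (hP : F.StronglyClosed P) :
    AutStable F R (P ⊓ L) :=
  ⟨inf_le_right.trans hL.1, fun f hf x hx =>
    ⟨stronglyClosed_mem hP hf.mor (hL.1 hx.2) hx.1, hL.2 f hf x hx.2⟩⟩

theorem AutStable.sup {R A B : Subgroup Ω} (hA : AutStable F R A) (hB : AutStable F R B) :
    AutStable F R (A ⊔ B) := by
  refine ⟨sup_le hA.1 hB.1, fun f hf x hx => ?_⟩
  exact (hf.mor.restrict (sup_le hA.1 hB.1)).map_sup (fun y hy => Subgroup.mem_sup_left (hA.2 f hf y hy))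
    (fun y hy => Subgroup.mem_sup_right (hB.2 f hf y hy)) x hx

theorem AutStable.normalizes {R L : Subgroup Ω} (hRS : R ≤ S) (hL : AutStable F R L) [Finite L] :
    R ≤ Subgroup.normalizer (L : Set Ω) := by
  intro r hr
  have hc : ∀ x ∈ L, cj r x ∈ L :=
    hL.2 _ (Iso.conj_self (F := F) hRS (hRS hr) (Subgroup.le_normalizer hr))
  have hc' : ∀ x ∈ L, cj r⁻¹ x ∈ L :=
    hL.2 _ (Iso.conj_self (F := F) hRS (inv_mem (hRS hr)) (Subgroup.le_normalizer (inv_mem hr)))
  refine Subgroup.mem_normalizer_iff.mpr fun x => ⟨hc x, fun hx => ?_⟩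
  have := hc' _ hx
  rwa [← cj_apply, cj_inv_cancel] at this

/-- every subgroup of order `p ^ c` is weakly embedded -/
def AllWeaklyEmbedded (F : FusionSystem S) (p c : ℕ) : Prop :=
  ∀ Q : Subgroup Ω, Q ≤ S → Nat.card Q = p ^ c → ∃ P : Subgroup Ω, F.StronglyClosed P ∧
    F.StronglyClosed (Q ⊔ P) ∧ F.StronglyClosed (Q ⊓ P)

theorem exists_autStable_card [Fact p.Prime] [Finite S] (hS : IsPGroup p S) {c : ℕ}
    (hw : AllWeaklyEmbedded F p c) {R : Subgroup Ω} (hRS : R ≤ S) (hc : p ^ c ≤ Nat.card R) :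
    ∃ H : Subgroup Ω, AutStable F R H ∧ Nat.card H = p ^ c := by
  haveI := finite_of_le hRS
  have hfin : {L : Subgroup Ω | AutStable F R L}.Finite :=
    (Set.finite_range fun K : Subgroup R => K.map R.subtype).subset fun L hL =>
      ⟨L.subgroupOf R, by show (L.subgroupOf R).map R.subtype = L; rw [Subgroup.subgroupOf_map_subtype, inf_eq_left.mpr hL.1]⟩
  have hbot : AutStable F R ⊥ := ⟨bot_le, fun f hf x hx => by
    rw [Subgroup.mem_bot.mp hx, hf.mor.map_one]; exact one_mem _⟩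
  have hp0 : 0 < p := (Fact.out : p.Prime).pos
  obtain ⟨L, ⟨hL, hLc⟩, hLmax⟩ :=
    (hfin.subset (fun L (h : AutStable F R L ∧ Nat.card L ≤ p ^ c) => h.1)).exists_maximal
      ⟨⊥, hbot, by rw [Subgroup.card_bot]; exact Nat.one_le_pow _ _ hp0⟩
  by_contra hno
  have hLlt : Nat.card L < p ^ c := lt_of_le_of_ne hLc fun e => hno ⟨L, hL, e⟩
  have hLR : L < R := lt_of_le_of_ne hL.1 fun e => by subst e; omega
  obtain ⟨M, ⟨hM, hLM⟩, hMmin⟩ :=
    (hfin.subset (fun M (h : AutStable F R M ∧ L < M) => h.1)).exists_minimal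
      ⟨R, ⟨le_rfl, fun f hf x hx => hf.mapsTo hx⟩, hLR⟩
  have hMS : M ≤ S := hM.1.trans hRS
  haveI := finite_of_le hMS
  haveI := finite_of_le (hL.1.trans hRS)
  have hMc : p ^ c < Nat.card M := by
    by_contra hle
    push Not at hle
    exact hLM.not_ge (hLmax ⟨hM, hle⟩ hLM.le)
  obtain ⟨Q, hLQ, hQM, hQc⟩ := exists_card_between (hS.to_le hMS) hLM.le hLc hMc.le
  obtain ⟨P, hP, hQP, hQiP⟩ := hw Q (hQM.trans hMS) hQc
  have hQM' : Q ≠ M := fun e => by subst e; omega
  have hLQ' : L ≠ Q := fun e => by subst e; omega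
  -- the join contains `M`
  have hMQP : M ≤ Q ⊔ P := by
    have hX : AutStable F R ((Q ⊔ P) ⊓ M) := hM.inf_closed hQP
    have hlt : L < (Q ⊔ P) ⊓ M :=
      lt_of_lt_of_le (lt_of_le_of_ne hLQ hLQ') (le_inf le_sup_left hQM)
    exact (hMmin ⟨hX, hlt⟩ inf_le_right).trans inf_le_left
  have hMdec : M ≤ Q ⊔ P ⊓ M := by
    intro m hm
    have hm' : m ∈ (Q : Set Ω) * (P : Set Ω) := by
      rw [← Subgroup.coe_mul_of_left_le_normalizer_right _ _
        ((hQM.trans hMS).trans (stronglyClosed_normalized hP))]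
      exact hMQP hm
    obtain ⟨q, hq, u, hu, rfl⟩ := hm'
    refine mul_mem (Subgroup.mem_sup_left hq) (Subgroup.mem_sup_right ⟨hu, ?_⟩)
    have := mul_mem (inv_mem (hQM hq)) hm
    rwa [inv_mul_cancel_left] at this
  have hPM : AutStable F R (P ⊓ M) := hM.inf_closed hP
  by_cases hle : P ⊓ M ≤ L
  · exact hQM' (le_antisymm hQM (hMdec.trans (sup_le le_rfl (hle.trans hLQ))))
  have hfull : M ≤ L ⊔ P ⊓ M :=
    hMmin ⟨hL.sup hPM, lt_of_le_of_ne le_sup_left fun e => hle (le_sup_right.trans e.ge)⟩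
      (sup_le hLM.le inf_le_right)
  have hQdec : Q ≤ L ⊔ (Q ⊓ P) ⊓ M := by
    intro q hq
    have hq' : q ∈ (L : Set Ω) * ((P ⊓ M : Subgroup Ω) : Set Ω) := by
      haveI := finite_of_le (hPM.1.trans hRS)
      rw [← Subgroup.coe_mul_of_left_le_normalizer_right _ _
        (hL.1.trans (hPM.normalizes hRS))]
      exact hfull (hQM hq)
    obtain ⟨l, hl, u, hu, rfl⟩ := hq'
    refine mul_mem (Subgroup.mem_sup_left hl) (Subgroup.mem_sup_right ⟨⟨?_, hu.1⟩, hu.2⟩)
    have := mul_mem (inv_mem (hLQ hl)) hq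
    rwa [inv_mul_cancel_left] at this
  have hW : AutStable F R (L ⊔ (Q ⊓ P) ⊓ M) := hL.sup (hM.inf_closed hQiP)
  exact hQM' (le_antisymm hQM ((hMmin ⟨hW, lt_of_lt_of_le (lt_of_le_of_ne hLQ hLQ') hQdec⟩
    (sup_le hLM.le inf_le_right)).trans (sup_le hLQ (inf_le_left.trans inf_le_left))))

/-- the normalizer systems of the subgroups of order `p ^ c` are inner -/
def AllInnerNormalizers (F : FusionSystem S) (p c : ℕ) : Prop :=
  ∀ H : Subgroup Ω, F.IsFullyNormalized H → Nat.card H = p ^ c →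
    ∀ N : FusionSystem (normalizerIn S H), F.IsNormalizerSystem H N →
      ∀ P : Subgroup Ω, N.Hom P = (innerFusionSystem (normalizerIn S H)).Hom P

theorem autGroup_isPGroup_of_card_le [Fact p.Prime] [Finite S] (hS : IsPGroup p S) (hF : F.IsSaturated p)
    {c : ℕ} (hw : AllWeaklyEmbedded F p c) (hn : AllInnerNormalizers F p c) {R : Subgroup Ω}
    (hRS : R ≤ S) (hc : p ^ c ≤ Nat.card R) : IsPGroup p (F.autGroup R) := by
  obtain ⟨H, hH, hHc⟩ := exists_autStable_card hS hw hRS hc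
  have hHS : H ≤ S := hH.1.trans hRS
  haveI := finite_of_le hHS
  obtain ⟨H', hconj, hH'⟩ := exists_fullyNormalized (F := F) hHS
  obtain ⟨f, hf⟩ := isConj_iff.mp hconj
  obtain ⟨a, g, -, hg, -, hgN, hgi⟩ := exists_map_to_fullyNormalized hS hF hf hH'
  have hRN : R ≤ normalizerIn S H := fun x hx => ⟨hRS hx, hH.normalizes hRS hx⟩
  set R' := (hg.restrict hRN).img with hR'
  have hi : Iso F g R R' := (hg.restrict hRN).toIso
  obtain ⟨g', hg', hgl, hgr⟩ := hi.exists_symm
  have hR'N : R' ≤ normalizerIn S H' := fun y hy => by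
    obtain ⟨x, hx, rfl⟩ := hi.surj hy
    exact hgN x (hRN hx)
  have hHR' : H' ≤ R' := fun y hy => by
    obtain ⟨x, hx, rfl⟩ := hgi.surj hy
    exact hi.mapsTo (hH.1 hx)
  haveI := finite_of_le (hi.cod_le)
  haveI := finite_of_le hH'.1
  obtain ⟨N, hN⟩ := exists_normalizerSystem F H' hH'.1
  have hle : F.autGroup R' ≤ autInducedBy S R' := by
    intro β hβ
    obtain ⟨b, hb, eb⟩ := (mem_autGroup_iff hi.cod_le).mp hβ
    have hbH : ∀ y ∈ H', b y ∈ H' := fun y hy => by
      obtain ⟨x, hx, rfl⟩ := hgi.surj hy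
      have h1 := hH.2 _ ((hi.comp hb).comp hg') x hx
      have h2 := hgi.mapsTo h1
      simp only [Function.comp_apply] at h2
      rwa [hgr _ (hb.mapsTo (hi.mapsTo (hH.1 hx)))] at h2
    have hbi : Iso F b H' H' := (hb.mor.restrict hHR').iso_of_card hbH le_rfl
    have hsup : R' ⊔ H' = R' := sup_eq_left.mpr hHR'
    have hm : Mor F (R' ⊔ H') b := by rw [hsup]; exact hb.mor
    have hmem : hb.mor.hom ∈ N.Hom R' := by
      rw [hN R']
      refine ⟨hb.mor.hom_mem, hR'N, fun x => hR'N (hb.mapsTo x.2), hm.hom, hm.hom_mem, fun _ => rfl, ?_⟩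
      ext y
      constructor
      · rintro ⟨x, hx, rfl⟩
        exact hbi.mapsTo hx
      · intro hy
        obtain ⟨x, hx, rfl⟩ := hbi.surj hy
        exact ⟨⟨x, Subgroup.mem_sup_right hx⟩, hx, rfl⟩
    rw [hn H' hH' (hgi.card_eq.symm.trans hHc) N hN R'] at hmem
    obtain ⟨-, s, hs, es⟩ := hmem
    exact Subgroup.subset_closure ⟨s, hs.1, fun x => (eb x).symm.trans (es x)⟩
  have hp' : IsPGroup p (F.autGroup R') := (isPGroup_autInducedBy hS R').to_le hle
  refine hp'.of_equiv ((MulEquiv.subgroupCongr hg'.map_autGroup.symm).trans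
    (Subgroup.equivMapOfInjective (F.autGroup R') hg'.transport.toMonoidHom
      hg'.transport.injective).symm).symm

theorem eq_one_of_pPower_coprime [Fact p.Prime] {G : Type*} [Group G] {x : G} (hG : IsPGroup p G) {l : ℕ}
    (hl : l.Coprime p) (h : x ^ l = 1) : x = 1 := by
  obtain ⟨k, hk⟩ := hG x
  exact orderOf_eq_one_iff.mp (Nat.eq_one_of_dvd_coprimes (Nat.Coprime.pow_right k hl)
    (orderOf_dvd_of_pow_eq_one h) (orderOf_dvd_of_pow_eq_one hk))

/-- An automorphism of order prime to `p` of a subgroup with `p`-group of automorphisms is trivial. -/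
theorem iso_eq_id_of_isPGroup [Fact p.Prime] {R : Subgroup Ω} (hR : IsPGroup p (F.autGroup R))
    {ψ : Ω → Ω} (hψ : Iso F ψ R R) {l : ℕ} (hl : l.Coprime p) (hid : ∀ x ∈ R, ψ^[l] x = x) :
    ∀ x ∈ R, ψ x = x := by
  intro x hx
  have h1 : (⟨hψ.equiv, hψ.equiv_mem_autGroup⟩ : F.autGroup R) = 1 := by
    refine eq_one_of_pPower_coprime hR hl (Subtype.ext ?_)
    refine MulEquiv.ext fun y => Subtype.ext ?_
    rw [Subgroup.coe_pow]
    exact (equiv_pow_apply hψ l y).trans (hid y y.2)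
  exact congrArg (fun t : F.autGroup R => (((t : MulAut R) ⟨x, hx⟩ : R) : Ω)) h1

theorem hyperfocal_le_of_large [Fact p.Prime] [Finite S] (hS : IsPGroup p S) (hF : F.IsSaturated p)
    {c : ℕ} (hp : ∀ R ≤ S, p ^ c ≤ Nat.card R → IsPGroup p (F.autGroup R)) {Y : Subgroup Ω}
    (hY : F.StronglyClosed Y) (hYc : p ^ c ≤ Nat.card Y) : F.hyperfocalSubgroup p ≤ Y := by
  refine hyperfocal_le_of fun P f k hf hk hfk x hx => ?_
  obtain ⟨ψ, l, hψ, hl, hid, e⟩ := exists_pprime_lift hS hF hY hf hk hfk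
  haveI := finite_of_le hψ.dom_le
  have h1 := iso_eq_id_of_isPGroup (hp _ hψ.dom_le (hYc.trans (card_le_of_le le_sup_right))) hψ hl hid x
    (Subgroup.mem_sup_left hx)
  have h2 := e x hx
  rw [h1] at h2
  have := inv_mem h2
  rwa [mul_inv_rev, inv_inv] at this

/-- A layer of order `p` between two strongly closed subgroups is centralized when `Aut_F(S)` is a `p`-group. -/
theorem hyperfocal_le_of_cyclic_layer [Fact p.Prime] [Finite S] (hS : IsPGroup p S) (hF : F.IsSaturated p)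
    (hAut : IsPGroup p (F.autGroup S)) {J T : Subgroup Ω} (hJ : F.StronglyClosed J)
    (hT : F.StronglyClosed T) (hJT : J ≤ T) (hidx : Nat.card T = p * Nat.card J)
    (hhyp : F.hyperfocalSubgroup p ≤ T) : F.hyperfocalSubgroup p ≤ J := by
  haveI := stronglyClosed_subgroupOf_normal hJ
  haveI := stronglyClosed_subgroupOf_normal hT
  haveI : Group.IsNilpotent S := hS.isNilpotent
  haveI := finite_of_le hJ.1
  haveI := finite_of_le hT.1
  obtain ⟨E, hE⟩ := exists_factorSystem_quotient F J hJ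
  set θ := QuotientGroup.mk' (J.subgroupOf S) with hθ
  have hk := hE.2.1
  -- the layer is central
  have hcent : ∀ s : S, ∀ t : S, (t : Ω) ∈ T → ((s * t * s⁻¹ * t⁻¹ : S) : Ω) ∈ J := by
    set TS := T.subgroupOf S
    set JS := J.subgroupOf S
    set K := ⁅TS, (⊤ : Subgroup S)⁆ ⊔ JS
    have hKT : K ≤ TS := sup_le (Subgroup.commutator_le_left _ _) (Subgroup.comap_mono hJT)
    have hne : ¬ TS ≤ K := fun hle => by
      have h1 := le_of_le_commutator_sup hle
      have h2 : T ≤ J := fun x hx => h1 (show (⟨x, hT.1 hx⟩ : S) ∈ TS from hx)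
      have h3 := card_le_of_le h2
      have h4 := (Fact.out : p.Prime).two_le
      have h5 : 0 < Nat.card J := Nat.card_pos
      nlinarith
    have hcT : Nat.card TS = Nat.card T := Nat.card_congr (Subgroup.subgroupOfEquivOfLe hT.1).toEquiv
    have hcJ : Nat.card JS = Nat.card J := Nat.card_congr (Subgroup.subgroupOfEquivOfLe hJ.1).toEquiv
    have hKJ : K ≤ JS := by
      obtain ⟨u, hu⟩ := Subgroup.card_dvd_of_le (show JS ≤ K from le_sup_right)
      have h6 := Subgroup.card_dvd_of_le hKT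
      rw [hu, hcT, hidx, hcJ, mul_comm p] at h6
      rcases (Nat.dvd_prime (Fact.out : p.Prime)).mp (Nat.dvd_of_mul_dvd_mul_left Nat.card_pos h6) with h | h
      · exact (eq_of_le_of_card (show JS ≤ K from le_sup_right) (by rw [hu, h, mul_one])).ge
      · exact absurd (eq_of_le_of_card hKT (by rw [hu, hcT, hidx, hcJ, mul_comm p, h])).ge hne
    intro s t ht
    have h7 : s * t * s⁻¹ * t⁻¹ ∈ K := by
      rw [show s * t * s⁻¹ * t⁻¹ = (⁅t, s⁆)⁻¹ by rw [commutatorElement_def]; group]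
      exact inv_mem (Subgroup.mem_sup_left (Subgroup.commutator_mem_commutator ht (Subgroup.mem_top _)))
    exact hKJ h7
  -- every automorphism of `T` of order prime to `p` is trivial modulo `J`
  have hkey : ∀ ψ l, Iso F ψ T T → l.Coprime p → (∀ x ∈ T, ψ^[l] x = x) → ∀ x ∈ T, (ψ x)⁻¹ * x ∈ J := by
    intro ψ l hψ hl hid
    obtain ⟨g, hg, eg⟩ := factor_push_iso hJ hE hψ hJT
    set T' := imageAlong θ T with hT'
    have hEs := factor_saturated hS hF hJ hE
    have hpre : preimageAlong θ T' = T := preimage_image_eq hk hJ.1 hJT hT.1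
    have hT'top : T' ≤ ⊤ := le_top
    obtain ⟨Q', hQ', -, hrec⟩ := hEs T' hT'top
    have hQT : Q' = T' := by
      obtain ⟨u, hu⟩ := isConj_iff.mp hQ'
      obtain ⟨f, hf, -⟩ := factor_lift_iso hJ hE hu
      rw [hpre] at hf
      have hle : preimageAlong θ Q' ≤ T := fun z hz => by
        obtain ⟨x, hx, rfl⟩ := hf.surj hz
        exact stronglyClosed_mem hT hf.mor hx hx
      have heq := eq_of_le_of_card hle hf.card_eq.le
      refine le_antisymm (fun y hy => ?_) (fun y hy => ?_)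
      · obtain ⟨x, hx, rfl⟩ := exists_preimage hE hu.cod_le hy
        rw [heq] at hx
        exact (mem_imageAlong (hP := hT.1)).mpr ⟨x, hx, rfl⟩
      · obtain ⟨x, hx, rfl⟩ := (mem_imageAlong (hP := hT.1)).mp hy
        exact (mem_preimage_iff.mp (heq.ge hx)).2
    obtain ⟨g', hg', eg'⟩ := (receptive_iff.mp (hQT ▸ hrec)).2 T' g hg
    have hall : (⊤ : Subgroup (S ⧸ J.subgroupOf S)) ≤ nphi ⊤ T' g := by
      refine le_trans (fun y _ => ?_) centralizerIn_le_nphi
      refine ⟨Subgroup.mem_top _, fun z hz => ?_⟩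
      obtain ⟨x, hx, rfl⟩ := (mem_imageAlong (hP := hT.1)).mp hz
      obtain ⟨s, rfl⟩ := QuotientGroup.mk'_surjective _ y
      rw [extHom_apply θ (hT.1 hx)]
      have := (hk (s * ⟨x, hT.1 hx⟩ * s⁻¹ * ⟨x, hT.1 hx⟩⁻¹)).mpr (hcent s ⟨x, hT.1 hx⟩ hx)
      simp only [map_mul, map_inv] at this
      exact (mul_inv_eq_iff_eq_mul.mp (mul_inv_eq_one.mp this)).symm
    have hm := hg'.restrict hall
    have hiS : Iso E g' ⊤ ⊤ := by
      haveI : Finite (S ⧸ J.subgroupOf S) := inferInstance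
      exact hm.iso_of_card (fun y _ => Subgroup.mem_top _) le_rfl
    obtain ⟨φ, hφ, eφ⟩ := factor_lift_iso hJ hE hiS
    have hpreS : preimageAlong θ (⊤ : Subgroup (S ⧸ J.subgroupOf S)) = S := by
      refine le_antisymm (preimageAlong_le θ) fun x hx => ?_
      exact mem_preimage_iff.mpr ⟨hx, Subgroup.mem_top _⟩
    rw [hpreS] at hφ eφ
    -- `φ` has `p`-power order and agrees with `ψ` modulo `J`
    obtain ⟨k, hkp⟩ := hAut ⟨hφ.equiv, hφ.equiv_mem_autGroup⟩
    have hper : ∀ x ∈ S, φ^[p ^ k] x = x := fun x hx => by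
      have h1 := congrArg (fun t : F.autGroup S => (((t : MulAut S) ⟨x, hx⟩ : S) : Ω)) hkp
      simp only [Subgroup.coe_pow, OneMemClass.coe_one, MulAut.one_apply] at h1
      exact (equiv_pow_apply hφ (p ^ k) ⟨x, hx⟩).symm.trans h1
    have hagree : ∀ n, ∀ x ∈ T, extHom θ (φ^[n] x) = extHom θ (ψ^[n] x) := by
      intro n
      induction n with
      | zero => intro x _; rfl
      | succ n ih =>
        intro x hx
        have hxT : ψ^[n] x ∈ T := iterate_mapsTo (fun z hz => hψ.mapsTo hz) n x hx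
        have hxS : φ^[n] x ∈ S := iterate_mapsTo (fun z hz => hφ.mapsTo hz) n x (hT.1 hx)
        rw [Function.iterate_succ_apply', Function.iterate_succ_apply', ← eφ _ hxS, ih x hx,
          ← eg _ hxT]
        exact eg' _ ((mem_imageAlong (hP := hT.1)).mpr ⟨_, hxT, rfl⟩)
    intro x hx
    have hco : (p ^ k).Coprime l := (Nat.Coprime.pow_right k hl).symm
    obtain ⟨m, hm1, hm2⟩ := Nat.chineseRemainder hco 0 1
    obtain ⟨a, rfl⟩ := Nat.modEq_zero_iff_dvd.mp hm1
    have hψm : ψ^[p ^ k * a] x = ψ x := by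
      have h1 : Function.IsPeriodicPt ψ l x := hid x hx
      rw [← h1.iterate_mod_apply, show p ^ k * a % l = 1 % l from hm2, h1.iterate_mod_apply]
      rfl
    have hφm : φ^[p ^ k * a] x = x :=
      (show Function.IsPeriodicPt φ (p ^ k) x from hper x (hT.1 hx)).mul_const a
    have h2 := hagree (p ^ k * a) x hx
    rw [hψm, hφm] at h2
    exact (extHom_eq_iff hk (hψ.cod_le (hψ.mapsTo hx)) (hT.1 hx)).mp h2.symm
  refine hyperfocal_le_of fun P f k hf hk' hfk x hx => ?_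
  obtain ⟨ψ, l, hψ, hl, hid, e⟩ := exists_pprime_lift hS hF hJ hf hk' hfk
  haveI := finite_of_le hψ.dom_le
  have hxS := hf.dom_le hx
  have hxJ : x ∈ P ⊔ J := Subgroup.mem_sup_left hx
  suffices h : x⁻¹ * ψ x ∈ J by
    have := mul_mem h (inv_mem (e x hx))
    rwa [mul_inv_rev, inv_inv, mul_assoc, ← mul_assoc (ψ x), mul_inv_cancel, one_mul] at this
  have ht : x⁻¹ * ψ x ∈ T := hhyp (mem_hyperfocal_gen hψ hl hid hxJ)
  have ht' : x⁻¹ * ψ x ∈ P ⊔ J := mul_mem (inv_mem hxJ) (hψ.mapsTo hxJ)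
  by_cases hK : (P ⊔ J) ⊓ T ≤ J
  · exact hK ⟨ht', ht⟩
  have hTP : T ≤ P ⊔ J := by
    haveI := finite_of_le (show (P ⊔ J) ⊓ T ≤ S from inf_le_right.trans hT.1)
    obtain ⟨u, hu⟩ := Subgroup.card_dvd_of_le (show J ≤ (P ⊔ J) ⊓ T from le_inf le_sup_right hJT)
    have h6 := Subgroup.card_dvd_of_le (show (P ⊔ J) ⊓ T ≤ T from inf_le_right)
    rw [hu, hidx, mul_comm p] at h6
    rcases (Nat.dvd_prime (Fact.out : p.Prime)).mp (Nat.dvd_of_mul_dvd_mul_left Nat.card_pos h6) with h | h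
    · exact absurd (eq_of_le_of_card (le_inf le_sup_right hJT) (by rw [hu, h, mul_one])).ge hK
    · exact ((eq_of_le_of_card inf_le_right (by rw [hu, hidx, h, mul_comm p])).ge).trans inf_le_left
  have hψT : Iso F ψ T T :=
    (hψ.mor.restrict hTP).iso_of_card (fun y hy => stronglyClosed_mem hT hψ.mor (hTP hy) hy) le_rfl
  have hfix := hkey ψ l hψT hl fun y hy => hid y (hTP hy)
  set t := x⁻¹ * ψ x with ht0
  have hmap : ∀ n, ∀ y ∈ P ⊔ J, ψ^[n] y ∈ P ⊔ J :=
    fun n => iterate_mapsTo (fun z hz => hψ.mapsTo hz) n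
  have hfixn : ∀ n, θ ⟨ψ^[n] t, hψ.dom_le (hmap n t ht')⟩ = θ ⟨t, hT.1 ht⟩ := by
    intro n
    induction n with
    | zero => rfl
    | succ n ih =>
      refine Eq.trans ?_ ih
      have h3 : ψ^[n] t ∈ T := iterate_mapsTo (fun z hz => hψT.mapsTo hz) n t ht
      have h4 := (extHom_eq_iff hk (hψT.cod_le (hψT.mapsTo h3)) (hT.1 h3)).mpr (hfix _ h3)
      rw [extHom_apply θ (hψT.cod_le (hψT.mapsTo h3)), extHom_apply θ (hT.1 h3)] at h4
      simpa only [Function.iterate_succ_apply'] using h4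
  have hmul : ∀ n, ∀ y ∈ P ⊔ J, ∀ z ∈ P ⊔ J, ψ^[n] (y * z) = ψ^[n] y * ψ^[n] z := by
    intro n
    induction n with
    | zero => intro y _ z _; rfl
    | succ n ih =>
      intro y hy z hz
      simp only [Function.iterate_succ_apply']
      rw [ih y hy z hz, hψ.mor.map_mul (hmap n y hy) (hmap n z hz)]
  have hpow : ∀ n, θ ⟨ψ^[n] x, hψ.dom_le (hmap n x hxJ)⟩ = θ ⟨x, hxS⟩ * θ ⟨t, hT.1 ht⟩ ^ n := by
    intro n
    induction n with
    | zero => simp
    | succ n ih =>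
      have h5 : ψ^[n + 1] x = ψ^[n] x * ψ^[n] t := by
        rw [Function.iterate_succ_apply, ← hmul n x hxJ t ht', ht0, mul_inv_cancel_left]
      rw [pow_succ, ← mul_assoc, ← ih, ← hfixn n, ← map_mul]
      exact congrArg θ (Subtype.ext h5)
  have hl' : θ ⟨t, hT.1 ht⟩ ^ l = 1 := by
    have h6 := hpow l
    rw [show (⟨ψ^[l] x, hψ.dom_le (hmap l x hxJ)⟩ : S) = ⟨x, hxS⟩ from Subtype.ext (hid x hxJ)] at h6
    exact mul_eq_left.mp h6.symm
  exact (hk _).mp (eq_one_of_pPower_coprime (hS.to_quotient _) hl hl')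

theorem stronglyClosed_inf' {A B : Subgroup Ω} (hA : F.StronglyClosed A) (hB : F.StronglyClosed B) :
    F.StronglyClosed (A ⊓ B) :=
  ⟨inf_le_left.trans hA.1, fun P hP φ hφ x =>
    ⟨hA.2 P (hP.trans inf_le_left) φ hφ x, hB.2 P (hP.trans inf_le_right) φ hφ x⟩⟩

/-- If the hyperfocal subgroup is not in a strongly closed `J`, some maximal subgroup over `J` omits it. -/
theorem exists_coatom_not_hyperfocal [Fact p.Prime] [Finite S] (hS : IsPGroup p S) (hF : F.IsSaturated p)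
    {J : Subgroup Ω} (hJ : F.StronglyClosed J) (h : ¬ F.hyperfocalSubgroup p ≤ J) :
    ∃ M : Subgroup S, IsCoatom M ∧ J.subgroupOf S ≤ M ∧ ¬ (F.hyperfocalSubgroup p).subgroupOf S ≤ M := by
  by_contra hall
  push Not at hall
  haveI := stronglyClosed_subgroupOf_normal hJ
  obtain ⟨E, hE⟩ := exists_factorSystem_quotient F J hJ
  set θ := QuotientGroup.mk' (J.subgroupOf S) with hθ
  have hEs := factor_saturated hS hF hJ hE
  have hS' : IsPGroup p (⊤ : Subgroup (S ⧸ J.subgroupOf S)) := (hS.to_quotient _).to_subgroup ⊤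
  have hhyp := hyperfocal_factor hS hF hJ hE
  let θ₁ : S →* (⊤ : Subgroup (S ⧸ J.subgroupOf S)) := θ.codRestrict ⊤ fun _ => Subgroup.mem_top _
  have hsurj : Function.Surjective θ₁ := fun y => by
    obtain ⟨x, hx⟩ := QuotientGroup.mk'_surjective (J.subgroupOf S) y
    exact ⟨x, Subtype.ext hx⟩
  have hle : (E.hyperfocalSubgroup p).subgroupOf ⊤ ≤ frattini (⊤ : Subgroup (S ⧸ J.subgroupOf S)) ⊔ ⊥ := by
    rw [sup_bot_eq]
    intro y hy
    rw [Subgroup.mem_subgroupOf, hhyp] at hy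
    obtain ⟨x, hx, exy⟩ := hy
    simp only [frattini, Order.radical, Subgroup.mem_iInf]
    intro M₁ hM₁
    have hM := Subgroup.isCoatom_comap_of_surjective hsurj hM₁
    have hJM : J.subgroupOf S ≤ M₁.comap θ₁ := fun z hz => by
      rw [Subgroup.mem_comap, show θ₁ z = 1 from Subtype.ext ((QuotientGroup.eq_one_iff z).mpr hz)]
      exact one_mem _
    have := hall _ hM hJM hx
    rwa [Subgroup.mem_comap, show θ₁ x = y from Subtype.ext exy] at this
  have h1 := hyperfocal_le_of_le_frattini_sup hS' hEs ⊥ bot_le hle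
  refine h fun x hx => ?_
  have h2 : θ₁ ⟨x, hyperfocal_le hx⟩ ∈ (E.hyperfocalSubgroup p).subgroupOf ⊤ := by
    rw [Subgroup.mem_subgroupOf, hhyp]
    exact ⟨_, hx, rfl⟩
  exact (hE.2.1 _).mp (congrArg Subtype.val (Subgroup.mem_bot.mp (h1 h2)))

theorem hyperfocal_eq_bot_of_weaklyEmbedded [Fact p.Prime] [Finite S] (hS : IsPGroup p S)
    (hF : F.IsSaturated p) {c : ℕ} (hc : p ^ c < Nat.card S)
    (hw : AllWeaklyEmbedded F p c) (hn : AllInnerNormalizers F p c) :
    F.hyperfocalSubgroup p = ⊥ := by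
  have hp := fun R hR => autGroup_isPGroup_of_card_le (R := R) hS hF hw hn hR
  by_contra hne
  have hfin : {J : Subgroup Ω | F.StronglyClosed J ∧ ¬ F.hyperfocalSubgroup p ≤ J}.Finite :=
    (Set.finite_range fun K : Subgroup S => K.map S.subtype).subset fun J hJ =>
      ⟨J.subgroupOf S, by
        show (J.subgroupOf S).map S.subtype = J
        rw [Subgroup.subgroupOf_map_subtype, inf_eq_left.mpr hJ.1.1]⟩
  obtain ⟨J, ⟨hJ, hJh⟩, hJmax⟩ := hfin.exists_maximal
    ⟨⊥, stronglyClosed_bot F, fun h => hne (le_bot_iff.mp h)⟩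
  have hmax : ∀ J', F.StronglyClosed J' → J < J' → F.hyperfocalSubgroup p ≤ J' := fun J' h1 h2 => by
    by_contra h3
    exact h2.not_ge (hJmax ⟨h1, h3⟩ h2.le)
  haveI := finite_of_le hJ.1
  obtain ⟨j, hj⟩ := IsPGroup.iff_card.mp (hS.to_le hJ.1)
  have hp1 : 1 < p := (Fact.out : p.Prime).one_lt
  have hjc : j < c := by
    by_contra hle
    push Not at hle
    exact hJh (hyperfocal_le_of_large hS hF hp hJ (hj ▸ Nat.pow_le_pow_right hp1.le hle))
  set H := F.hyperfocalSubgroup p with hH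
  have hT : F.StronglyClosed (J ⊔ H) := stronglyClosed_sup hS hF hJ (hyperfocal_stronglyClosed hS hF)
  haveI := finite_of_le hT.1
  obtain ⟨i, hi⟩ := IsPGroup.iff_card.mp (hS.to_le hT.1)
  have hlt : J < J ⊔ H := lt_of_le_of_ne le_sup_left fun e => hJh (le_sup_right.trans e.ge)
  have hji : j < i := (Nat.pow_lt_pow_iff_right hp1).mp (hj ▸ hi ▸ card_lt_of_lt hlt)
  rcases eq_or_lt_of_le (Nat.succ_le_iff.mpr hji) with he | he
  · exact hJh (hyperfocal_le_of_cyclic_layer hS hF (hp S le_rfl hc.le) hJ hT le_sup_left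
      (by rw [hi, hj, ← he, pow_succ']) le_sup_right)
  obtain ⟨M, hM, hJM, hHM⟩ := exists_coatom_not_hyperfocal hS hF hJ hJh
  haveI := hS.isNilpotent
  haveI : M.Normal := Subgroup.NormalizerCondition.normal_of_coatom M (Group.normalizerCondition_of_isNilpotent (G := S)) hM
  have hidx := FGS3.index_of_coatom hS hM
  set M' := M.map S.subtype with hM'
  have hM'S : M' ≤ S := Subgroup.map_subtype_le _
  have hMs : M'.subgroupOf S = M := Subgroup.comap_map_eq_self_of_injective S.subtype_injective M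
  have hHM' : ¬ H ≤ M' := fun h => hHM (hMs ▸ Subgroup.comap_mono h)
  have hJM' : J ≤ M' := fun x hx => ⟨⟨x, hJ.1 hx⟩, hJM (show (⟨x, hJ.1 hx⟩ : S) ∈ J.subgroupOf S from hx), rfl⟩
  haveI := finite_of_le hM'S
  have hMc : Nat.card M' * p = Nat.card S := by
    rw [← hidx, hM', ← Nat.card_congr (M.equivMapOfInjective _ S.subtype_injective).toEquiv]
    exact M.card_mul_index
  have hrel : M'.relIndex (J ⊔ H) ∣ p := by
    haveI : (M'.subgroupOf S).Normal := hMs.symm ▸ ‹M.Normal›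
    rw [← hidx, ← hMs, ← Subgroup.relIndex_subgroupOf hT.1]
    exact Subgroup.relIndex_dvd_index_of_normal _ _
  have hinf : p ^ (i - 1) ≤ Nat.card (M' ⊓ (J ⊔ H) : Subgroup Ω) := by
    have h1 : Nat.card (M' ⊓ (J ⊔ H) : Subgroup Ω) * M'.relIndex (J ⊔ H) = p ^ i := by
      rw [← hi, ← Subgroup.inf_relIndex_right, Subgroup.relIndex,
        ← Subgroup.card_mul_index ((M' ⊓ (J ⊔ H)).subgroupOf (J ⊔ H))]
      congr 1
      exact Nat.card_congr (Subgroup.subgroupOfEquivOfLe inf_le_right).symm.toEquiv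
    have h2 := Nat.le_of_dvd (by omega) hrel
    have h3 : p ^ (i - 1) * p = p ^ i := by rw [← pow_succ, Nat.sub_add_cancel (by omega)]
    exact Nat.le_of_mul_le_mul_right (h3 ▸ h1 ▸ Nat.mul_le_mul_left _ h2) (by omega)
  haveI := finite_of_le (inf_le_left.trans hM'S : M' ⊓ (J ⊔ H) ≤ S)
  obtain ⟨X, hJX, hXM, hXc⟩ := exists_card_between (p := p) (hS.to_le (inf_le_left.trans hM'S))
    (le_inf hJM' (le_sup_left : J ≤ J ⊔ H)) (c := j + 1)
    (hj ▸ Nat.pow_le_pow_right hp1.le (Nat.le_succ j))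
    ((Nat.pow_le_pow_right hp1.le (by omega)).trans hinf)
  have hXS : X ≤ S := hXM.trans (inf_le_left.trans hM'S)
  obtain ⟨Q, hXQ, hQM, hQc⟩ := exists_card_between (p := p) (hS.to_le hM'S) (hXM.trans inf_le_left)
    (c := c) (hXc ▸ Nat.pow_le_pow_right hp1.le hjc) (by
      obtain ⟨m, hm⟩ := IsPGroup.iff_card.mp (hS.to_le hM'S)
      rw [← hMc, hm, ← pow_succ, Nat.pow_lt_pow_iff_right hp1] at hc
      exact hm ▸ Nat.pow_le_pow_right hp1.le (by omega))
  have hJXlt : J < X := lt_of_le_of_ne hJX fun e => by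
    subst e
    exact absurd (Nat.pow_right_injective hp1 (hj.symm.trans hXc)) (by omega)
  obtain ⟨P, hP, hQP, hQiP⟩ := hw Q (hQM.trans hM'S) hQc
  have hJQ : J ≤ Q := hJX.trans hXQ
  have hP' : F.StronglyClosed (P ⊔ J) := stronglyClosed_sup hS hF hP hJ
  by_cases hHP : H ≤ P ⊔ J
  · have hded : Q ⊓ (P ⊔ J) = Q ⊓ P ⊔ J := by
      refine le_antisymm (fun x hx => ?_) (sup_le (inf_le_inf_left _ le_sup_left) (le_inf hJQ le_sup_right))
      have hx2 : x ∈ (P : Set Ω) * (J : Set Ω) := by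
        rw [← Subgroup.coe_mul_of_left_le_normalizer_right _ _ (hP.1.trans (stronglyClosed_normalized hJ))]
        exact hx.2
      obtain ⟨u, hu, v, hv, rfl⟩ := hx2
      refine mul_mem (Subgroup.mem_sup_left ⟨?_, hu⟩) (Subgroup.mem_sup_right hv)
      have := Subgroup.mul_mem _ hx.1 (Subgroup.inv_mem _ (hJQ hv))
      rwa [mul_inv_cancel_right] at this
    have hX : F.StronglyClosed (Q ⊓ (J ⊔ H)) := by
      have h1 : Q ⊓ (J ⊔ H) = (Q ⊓ P ⊔ J) ⊓ (J ⊔ H) := by
        rw [← hded, inf_assoc, inf_eq_right.mpr (show J ⊔ H ≤ P ⊔ J from sup_le le_sup_right hHP)]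
      rw [h1]
      exact stronglyClosed_inf' (stronglyClosed_sup hS hF hQiP hJ) hT
    exact hHM' ((hmax _ hX (lt_of_lt_of_le hJXlt (le_inf hXQ (hXM.trans inf_le_right)))).trans
      (inf_le_left.trans hQM))
  · have hPJ : P ⊔ J = J := by
      by_contra hne'
      exact hHP (hmax _ hP' (lt_of_le_of_ne le_sup_right (Ne.symm hne')))
    have hQJ : Q ⊔ P = Q := sup_eq_left.mpr ((sup_eq_right.mp hPJ).trans hJQ)
    rw [hQJ] at hQP
    exact hHM' ((hmax _ hQP (lt_of_lt_of_le hJXlt hXQ)).trans hQM)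

theorem inner_stronglyClosed_of_index [Fact p.Prime] [Finite S] (hS : IsPGroup p S)
    (hI : ∀ P, F.Hom P = (innerFusionSystem S).Hom P) {Q : Subgroup Ω} (hQS : Q ≤ S)
    (hQ : Nat.card Q * p = Nat.card S) :
    F.StronglyClosed Q ∧ S ≤ Subgroup.normalizer (Q : Set Ω) := by
  have hcQ : Nat.card (Q.subgroupOf S) = Nat.card Q :=
    Nat.card_congr (Subgroup.subgroupOfEquivOfLe hQS).toEquiv
  haveI := finite_of_le hQS
  have hidx : (Q.subgroupOf S).index = p := by
    have h := (Q.subgroupOf S).card_mul_index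
    rw [hcQ, ← hQ] at h
    exact Nat.eq_of_mul_eq_mul_left Nat.card_pos h
  have hnorm : (Q.subgroupOf S).Normal := by
    refine Subgroup.normal_of_index_eq_minFac_card ?_
    obtain ⟨b, hb⟩ := IsPGroup.iff_card.mp hS
    have hb0 : b ≠ 0 := fun e => by
      rw [e, pow_zero] at hb
      have := hidx ▸ Subgroup.index_dvd_card (Q.subgroupOf S)
      rw [hb] at this
      exact (Fact.out : p.Prime).ne_one (Nat.dvd_one.mp this)
    rw [hidx, hb, (Fact.out : p.Prime).pow_minFac hb0]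
  have hn : S ≤ Subgroup.normalizer (Q : Set Ω) :=
    (Subgroup.normal_subgroupOf_iff_le_normalizer hQS).mp hnorm
  refine ⟨⟨hQS, fun P hP φ hφ x => ?_⟩, hn⟩
  rw [hI P] at hφ
  obtain ⟨-, g, hg, e⟩ := hφ
  rw [e x]
  exact (Subgroup.mem_normalizer_iff.mp (hn hg) _).mp (hP x.2)

end Cfsg.Agent.Fusion
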