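/-
A monomial representation with a non-vanishing total value gives a quotient `C_p ≀ C_p`, realised on
`p ^ 2` points (Yoshida's lemma).
-/
import Mathlib
set_option autoImplicit false

namespace Cfsg.Agent.Fusion

open Polynomial in
theorem endo_sub_one_pow {p : ℕ} [Fact p.Prime] {V : Type*} [AddCommGroup V] [Module (ZMod p) V]
    (T : Module.End (ZMod p) V) (hT : T ^ p = 1) :
    (T - 1) ^ p = 0 ∧ (T - 1) ^ (p - 1) = ∑ j ∈ Finset.range p, T ^ j := by
  have hp := (Fact.out : p.Prime)
  have h1 : ((X : (ZMod p)[X]) - 1) ^ p = X ^ p - 1 := by rw [sub_pow_char, one_pow]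
  have h2 : ((X : (ZMod p)[X]) - 1) ^ (p - 1) = ∑ j ∈ Finset.range p, X ^ j := by
    refine mul_right_cancel₀ (X_sub_C_ne_zero (1 : ZMod p)) ?_
    rw [map_one, ← pow_succ, Nat.sub_add_cancel hp.one_le, geom_sum_mul, h1]
  constructor
  · have h := congrArg (aeval T) h1
    simpa [hT] using h
  · have h := congrArg (aeval T) h2
    simpa using h

theorem exists_wreath_quotient {p : ℕ} [Fact p.Prime] {G : Type*} [Group G] [Finite G]
    (hG : IsPGroup p G) {M : Subgroup G} [M.Normal] (hidx : M.index = p) [Fintype (G ⧸ M)]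
    (k : G → G ⧸ M → ZMod p) (hk : ∀ s t q, k (s * t) q = k s ((t : G ⧸ M) * q) + k t q)
    {m : G} (hm : m ∈ M) (hsum : ∑ q, k m q ≠ 0) :
    ∃ (W : Sylow p (Equiv.Perm (Fin (p ^ 2))))
      (f : G →* (W : Subgroup (Equiv.Perm (Fin (p ^ 2))))), Function.Surjective f := by
  classical
  have hp := (Fact.out : p.Prime)
  have hQ : Nat.card (G ⧸ M) = p := by rw [← Subgroup.index_eq_card, hidx]
  have hk1 : ∀ q, k 1 q = 0 := fun q => by
    have h := hk 1 1 q
    rw [one_mul, QuotientGroup.mk_one, one_mul] at h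
    exact left_eq_add.mp h
  have hM : ∀ {x : G}, x ∈ M → (x : G ⧸ M) = 1 := fun hx => (QuotientGroup.eq_one_iff _).mpr hx
  obtain ⟨u, hu⟩ : ∃ u : G ⧸ M, u ≠ 1 := by
    haveI : Nontrivial (G ⧸ M) := Finite.one_lt_card_iff_nontrivial.mp (hQ ▸ hp.one_lt)
    exact exists_ne 1
  have huo : orderOf u = p := ((Nat.dvd_prime hp).mp (hQ ▸ orderOf_dvd_natCard u)).resolve_left
    (mt orderOf_eq_one_iff.mp hu)
  obtain ⟨s₀, rfl⟩ := QuotientGroup.mk_surjective u
  let T : Module.End (ZMod p) (G ⧸ M → ZMod p) :=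
    LinearMap.funLeft (ZMod p) (ZMod p) fun q => (s₀ : G ⧸ M) * q
  have hTj : ∀ j w q, (T ^ j) w q = w ((s₀ : G ⧸ M) ^ j * q) := by
    intro j
    induction j with
    | zero => intro w q; simp
    | succ j ih =>
      intro w q
      rw [pow_succ, Module.End.mul_apply, ih]
      show w (_ * (_ * q)) = _
      rw [pow_succ', mul_assoc]
  have hTp : T ^ p = 1 := LinearMap.ext fun w => funext fun q => by
    rw [hTj, show (s₀ : G ⧸ M) ^ p = 1 by simpa [huo] using pow_orderOf_eq_one (s₀ : G ⧸ M), one_mul, Module.End.one_apply]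
  obtain ⟨hDp, hDsum⟩ := endo_sub_one_pow T hTp
  -- the translations
  let V : AddSubgroup (G ⧸ M → ZMod p) :=
    { carrier := {w | ∃ x ∈ M, ∀ q, k x q = w q}
      zero_mem' := ⟨1, M.one_mem, hk1⟩
      add_mem' := by
        rintro a b ⟨x, hx, ex⟩ ⟨y, hy, ey⟩
        refine ⟨x * y, M.mul_mem hx hy, fun q => ?_⟩
        rw [hk, hM hy, one_mul, ex, ey]; rfl
      neg_mem' := by
        rintro a ⟨x, hx, ex⟩
        refine ⟨x⁻¹, M.inv_mem hx, fun q => eq_neg_of_add_eq_zero_left ?_⟩
        have h := hk x⁻¹ x q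
        rw [inv_mul_cancel, hk1, hM hx, one_mul] at h
        rw [← ex]; exact h.symm }
  let V' : Submodule (ZMod p) (G ⧸ M → ZMod p) := AddSubgroup.toZModSubmodule p V
  have hT : ∀ w ∈ V, T w ∈ V := by
    rintro w ⟨x, hx, ex⟩
    refine ⟨s₀⁻¹ * x * s₀, by simpa using ‹M.Normal›.conj_mem x hx s₀⁻¹, fun q => ?_⟩
    have h := hk s₀⁻¹ s₀ q
    rw [inv_mul_cancel, hk1] at h
    show _ = w ((s₀ : G ⧸ M) * q)
    rw [hk, hk, hM hx, one_mul, ex]
    linear_combination (norm := abel) -h
  have hD : ∀ (j : ℕ), ∀ w ∈ V', ((T - 1) ^ j : Module.End (ZMod p) (G ⧸ M → ZMod p)) w ∈ V' := by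
    intro j
    induction j with
    | zero => intro w hw; simpa using hw
    | succ j ih =>
      intro w hw
      rw [pow_succ', Module.End.mul_apply, LinearMap.sub_apply, Module.End.one_apply]
      exact V'.sub_mem (hT _ (ih w hw)) (ih w hw)
  set v : G ⧸ M → ZMod p := fun q => k m q with hv
  have hvV : v ∈ V' := ⟨m, hm, fun _ => rfl⟩
  have htop : ((T - 1) ^ (p - 1)) v ≠ 0 := by
    intro h
    apply hsum
    have h1 := congrFun h 1
    rw [hDsum, LinearMap.sum_apply, Finset.sum_apply, Pi.zero_apply] at h1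
    simp only [hTj, mul_one] at h1
    rw [← h1]
    refine (Finset.sum_bij (fun j _ => (s₀ : G ⧸ M) ^ j) (fun _ _ => Finset.mem_univ _) ?_ ?_
      fun _ _ => rfl).symm
    · intro a ha b hb e
      exact pow_injOn_Iio_orderOf (by rw [huo]; exact Finset.mem_range.mp ha)
        (by rw [huo]; exact Finset.mem_range.mp hb) e
    · intro q _
      obtain ⟨n, hn⟩ := mem_powers_of_prime_card (p := p) hQ hu (g' := q)
      refine ⟨n % p, Finset.mem_range.mpr (Nat.mod_lt _ hp.pos), ?_⟩
      simp only at hn ⊢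
      rw [← hn, ← huo, pow_mod_orderOf]
  have hall : ∀ w : G ⧸ M → ZMod p, ∃ x ∈ M, ∀ q, k x q = w q := by
    let Ψ : (Fin p → ZMod p) →ₗ[ZMod p] (G ⧸ M → ZMod p) :=
      ∑ i : Fin p, (LinearMap.proj i).smulRight (((T - 1) ^ (i : ℕ)) v)
    have hΨ : ∀ c, Ψ c = ∑ i : Fin p, c i • ((T - 1) ^ (i : ℕ)) v := fun c => by
      simp [Ψ, LinearMap.sum_apply]
    have hinj : Function.Injective Ψ := by
      rw [injective_iff_map_eq_zero]
      intro c hc
      have h : ∀ n, ∀ i : Fin p, (i : ℕ) = n → c i = 0 := by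
        intro n
        induction n using Nat.strong_induction_on with
        | _ n ih =>
          intro i hi
          have h := congrArg (((T - 1) ^ (p - 1 - n)) : Module.End (ZMod p) (G ⧸ M → ZMod p)) hc
          rw [hΨ, map_sum, map_zero, Finset.sum_eq_single i] at h
          · rw [map_smul, ← Module.End.mul_apply, ← pow_add,
              show p - 1 - n + (i : ℕ) = p - 1 by have := i.2; omega] at h
            exact (smul_eq_zero.mp h).resolve_right htop
          · intro j _ hj
            rcases lt_or_gt_of_ne (Fin.val_ne_iff.mpr hj) with hlt | hgt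
            · rw [ih j (hi ▸ hlt) j rfl, zero_smul, map_zero]
            · rw [map_smul, ← Module.End.mul_apply, ← pow_add,
                pow_eq_zero_of_le (by omega) hDp, LinearMap.zero_apply, smul_zero]
          · exact fun h' => absurd (Finset.mem_univ i) h'
      exact funext fun i => h _ i rfl
    have hb := hinj.bijective_of_nat_card_le (le_of_eq (by rw [Nat.card_fun, Nat.card_fun, hQ, Nat.card_fin]))
    intro w
    obtain ⟨c, hc⟩ := hb.2 w
    have hw : w ∈ V' := by
      rw [← hc, hΨ]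
      exact V'.sum_mem fun i _ => V'.smul_mem _ (hD _ v hvV)
    exact hw
  -- the permutation representation
  let act : G → Equiv.Perm ((G ⧸ M) × ZMod p) := fun s =>
    { toFun := fun z => ((s : G ⧸ M) * z.1, z.2 + k s z.1)
      invFun := fun z => ((s : G ⧸ M)⁻¹ * z.1, z.2 - k s ((s : G ⧸ M)⁻¹ * z.1))
      left_inv := fun z => by simp
      right_inv := fun z => by simp }
  let Φ : G →* Equiv.Perm ((G ⧸ M) × ZMod p) := MonoidHom.mk' act fun s t => Equiv.ext fun z => by
    show ((s * t : G) * z.1, z.2 + k (s * t) z.1) = ((s : G ⧸ M) * ((t : G ⧸ M) * z.1), z.2 + k t z.1 + k s _)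
    rw [hk, QuotientGroup.mk_mul, mul_assoc, add_assoc, add_comm (k t z.1)]
    rfl
  have hΦ : ∀ s z, Φ s z = ((s : G ⧸ M) * z.1, z.2 + k s z.1) := fun _ _ => rfl
  have hcX : Nat.card ((G ⧸ M) × ZMod p) = p ^ 2 := by rw [Nat.card_prod, hQ, Nat.card_zmod, sq]
  let e : (G ⧸ M) × ZMod p ≃ Fin (p ^ 2) := (Finite.equivFin _).trans (finCongr hcX)
  let ψ : G →* Equiv.Perm (Fin (p ^ 2)) := e.permCongrHom.toMonoidHom.comp Φ
  have hψ : ∀ x y, ψ x = ψ y → ∀ z, Φ x z = Φ y z := fun x y h z => by
    rw [show Φ x = Φ y from e.permCongrHom.injective h]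
  have hlow : p ^ p < Nat.card ψ.range := by
    haveI : Finite ψ.range := inferInstance
    choose pre hpreM hpre using hall
    let j : Option (G ⧸ M → ZMod p) → ψ.range := fun o => ⟨ψ (o.elim s₀ pre), _, rfl⟩
    have hj : Function.Injective j := by
      intro a b h
      have h' := hψ _ _ (congrArg Subtype.val h)
      cases a with
      | none =>
        cases b with
        | none => rfl
        | some b =>
          have := congrArg Prod.fst (h' (1, 0))
          simp only [hΦ, Option.elim, hM (hpreM b), mul_one] at this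
          exact absurd this hu
      | some a =>
        cases b with
        | none =>
          have := congrArg Prod.fst (h' (1, 0))
          simp only [hΦ, Option.elim, hM (hpreM a), mul_one] at this
          exact absurd this.symm hu
        | some b =>
          refine congrArg some (funext fun q => ?_)
          have := congrArg Prod.snd (h' (q, 0))
          simpa [hΦ, hpre] using this
    have := Nat.card_le_card_of_injective j hj
    rw [Finite.card_option, Nat.card_fun, Nat.card_zmod, hQ] at this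
    omega
  obtain ⟨W, hW⟩ := (hG.of_surjective ψ.rangeRestrict ψ.rangeRestrict_surjective).exists_le_sylow
  have hWc : Nat.card W = p ^ (p + 1) := by
    rw [W.card_eq_multiplicity, Nat.card_perm, Nat.card_fin, Nat.factorization_def _ hp, sq,
      padicValNat_factorial_mul, show padicValNat p p.factorial = 1 from ?_, add_comm]
    have h := padicValNat_factorial_mul (p := p) 1
    simpa using h
  have heq : ψ.range = (W : Subgroup (Equiv.Perm (Fin (p ^ 2)))) := by
    obtain ⟨i, hi⟩ := IsPGroup.iff_card.mp (hG.of_surjective ψ.rangeRestrict ψ.rangeRestrict_surjective)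
    have h1 : p < i := (Nat.pow_lt_pow_iff_right hp.one_lt).mp (hi ▸ hlow)
    exact Subgroup.eq_of_le_of_card_ge hW (by rw [hi, hWc]; exact Nat.pow_le_pow_right hp.pos h1)
  refine ⟨W, ψ.codRestrict _ fun x => hW ⟨x, rfl⟩, fun y => ?_⟩
  obtain ⟨x, hx⟩ := heq.ge y.2
  exact ⟨x, Subtype.ext hx⟩

end Cfsg.Agent.Fusion
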