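/-
Yoshida's theorem on control of transfer for fusion systems.
-/
import Cfsg.Agent.Fusion.TransferAb
import Cfsg.Agent.Fusion.WreathQuotient
import Cfsg.Agent.Fusion.TateMore
import Cfsg.Agent.Fusion.NormalizerSat
import Cfsg.Agent.Fusion.NormalMore
set_option autoImplicit false

namespace Cfsg.Agent.Fusion

open Cfsg Cfsg.FusionSystem

variable {Ω : Type*} [Group Ω] {S : Subgroup Ω} {F : FusionSystem S} {p : ℕ}

/-- Yoshida's evaluation: with a minimal focal element the transfer gives a wreath quotient. -/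
theorem exists_wreath_of_biset [Fact p.Prime] [Finite S] (hS : IsPGroup p S) (X : StableBiset F)
    (hdeg : ¬ p ∣ X.deg) (χ : S →* Multiplicative (ZMod p))
    (haut : ∀ f, Iso F f S S → ∀ s t : S, (t : Ω) = f s → χ t = χ s)
    (hne : ∃ x : S, (x : Ω) ∈ F.focalSubgroup ∧ χ x ≠ 1) :
    ∃ (W : Sylow p (Equiv.Perm (Fin (p ^ 2))))
      (g : S →* (W : Subgroup (Equiv.Perm (Fin (p ^ 2))))), Function.Surjective g := by
  classical
  have hp := (Fact.out : p.Prime)
  by_contra hno
  have hex : ∃ n, ∃ x : S, (x : Ω) ∈ F.focalSubgroup ∧ χ x ≠ 1 ∧ orderOf x = n :=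
    let ⟨x, h1, h2⟩ := hne
    ⟨_, x, h1, h2, rfl⟩
  obtain ⟨x, hxf, hxχ, hxn⟩ := Nat.find_spec hex
  have hmin : ∀ y : S, (y : Ω) ∈ F.focalSubgroup → orderOf y < orderOf x → χ y = 1 := by
    intro y hy hlt
    by_contra hc
    exact Nat.find_min hex (hxn ▸ hlt) ⟨y, hy, hc, rfl⟩
  set π := X.σ x with hπ
  -- the points moved by `x` contribute nothing
  have hcyc : ∀ i, π i ≠ i →
      ∏ k ∈ Finset.range (Function.minimalPeriod π i), χ (X.c x (π^[k] i)) = 1 := by
    intro i hi
    rw [hπ, ← X.c_pow χ x i, ← hπ]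
    set r := Function.minimalPeriod π i with hr
    have hr0 : 0 < r := minimalPeriod_pos_perm π i
    have hr1 : r ≠ 1 := fun e => hi (Function.minimalPeriod_eq_one_iff_isFixedPt.mp e)
    have hfix : X.σ (x ^ r) i = i := by
      rw [map_pow, Equiv.Perm.coe_pow, ← hπ]
      exact Function.iterate_minimalPeriod
    obtain ⟨P, f, hf, e⟩ := X.orbit i
    obtain ⟨hzP, he⟩ := e _ hfix
    have hzf : ((x ^ r : S) : Ω) ∈ F.focalSubgroup := by
      rw [Subgroup.coe_pow]; exact Subgroup.pow_mem _ hxf r
    have hyf : (X.c (x ^ r) i : Ω) ∈ F.focalSubgroup := by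
      have := Subgroup.mul_mem _ hzf (mem_focal_gen hf hzP)
      rwa [mul_inv_cancel_left, he] at this
    refine hmin _ hyf ?_
    have hrd : r ∣ orderOf x := by
      refine Function.IsPeriodicPt.minimalPeriod_dvd ?_
      show π^[orderOf x] i = i
      rw [← Equiv.Perm.coe_pow, hπ, ← map_pow, pow_orderOf_eq_one, X.σ_one]
    have hz : orderOf (x ^ r) < orderOf x := by
      rw [orderOf_pow' x hr0.ne', Nat.gcd_eq_right hrd]
      exact Nat.div_lt_self (orderOf_pos x) (by omega)
    refine lt_of_le_of_lt (Nat.le_of_dvd (orderOf_pos _) (orderOf_dvd_of_pow_eq_one ?_)) hz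
    have hpow : ∀ n : ℕ, f (((x ^ r : S) : Ω) ^ n) = (X.c (x ^ r) i : Ω) ^ n := by
      intro n
      induction n with
      | zero => rw [pow_zero, pow_zero, hf.map_one]
      | succ n ih => rw [pow_succ, pow_succ, hf.map_mul (P.pow_mem hzP n) hzP, ih, he]
    apply Subtype.ext
    rw [Subgroup.coe_pow, ← hpow, ← Subgroup.coe_pow, pow_orderOf_eq_one, Subgroup.coe_one, hf.map_one]
  -- restriction to invariant sets
  have hred : ∀ A : Finset (Fin X.deg), (∀ i, i ∈ A ↔ π i ∈ A) →
      ∏ i ∈ A, χ (X.c x i) = ∏ i ∈ A.filter (fun i => π i = i), χ (X.c x i) := by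
    intro A hA
    rw [Finset.prod_filter, ← Fintype.prod_ite_mem A, ← Fintype.prod_ite_mem A]
    refine prod_eq_of_cycles π _ _ fun i => ?_
    by_cases hi : π i = i
    · have h1 : Function.minimalPeriod π i = 1 := Function.minimalPeriod_eq_one_iff_isFixedPt.mpr hi
      by_cases hiA : i ∈ A <;> simp [h1, hi, hiA]
    · have hAk : ∀ k : ℕ, π^[k] i ∈ A ↔ i ∈ A := by
        intro k
        induction k with
        | zero => rfl
        | succ k ih => rw [Function.iterate_succ_apply', ← hA, ih]
      have hne' : ∀ k : ℕ, π (π^[k] i) ≠ π^[k] i := fun k h => hi ((π.injective.iterate k) (by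
        rw [← Function.iterate_succ_apply, Function.iterate_succ_apply', h]))
      simp only [hne', hAk, if_false]
      by_cases hiA : i ∈ A
      · simp only [hiA, if_true]
        rw [hcyc i hi, Finset.prod_const_one]
      · simp [hiA]
  -- orbits
  let orb : Fin X.deg → Finset (Fin X.deg) := fun i =>
    Finset.univ.filter fun j => ∃ s : S, X.σ s i = j
  have horb : ∀ i j, j ∈ orb i ↔ ∃ s : S, X.σ s i = j := fun i j => by simp [orb]
  have hσmul : ∀ (s t : S) i, X.σ (s * t) i = X.σ s (X.σ t i) := fun s t i => by rw [map_mul]; rfl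
  have horbinv : ∀ (t : S) i j, j ∈ orb i ↔ X.σ t j ∈ orb i := by
    intro t i j
    rw [horb, horb]
    constructor
    · rintro ⟨s, rfl⟩; exact ⟨t * s, hσmul t s i⟩
    · rintro ⟨s, hs⟩
      exact ⟨t⁻¹ * s, by rw [hσmul, hs, ← hσmul, inv_mul_cancel, X.σ_one]⟩
  have hmain : ∀ i₀, (∃ s : S, X.σ s i₀ ≠ i₀) →
      ∏ i ∈ (orb i₀).filter (fun i => π i = i), χ (X.c x i) = 1 := by
    intro i₀ ⟨s₁, hs₁⟩
    let R : Subgroup S := (MulAction.stabilizer (Equiv.Perm (Fin X.deg)) i₀).comap X.σ
    have hR : ∀ s, s ∈ R ↔ X.σ s i₀ = i₀ := fun s => Iff.rfl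
    obtain ⟨M, hM, hRM⟩ := (eq_top_or_exists_le_coatom R).resolve_left fun e =>
      hs₁ ((hR s₁).mp (e ▸ Subgroup.mem_top s₁))
    haveI := hS.isNilpotent
    haveI : M.Normal := Subgroup.NormalizerCondition.normal_of_coatom M
      (Group.normalizerCondition_of_isNilpotent (G := S)) hM
    have hidx : M.index = p := FGS3.index_of_coatom hS hM
    haveI : Fintype (S ⧸ M) := Fintype.ofFinite _
    let q : Fin X.deg → S ⧸ M := fun i =>
      if h : ∃ s : S, X.σ s i₀ = i then (h.choose : S ⧸ M) else 1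
    have hq : ∀ s : S, q (X.σ s i₀) = (s : S ⧸ M) := by
      intro s
      have h : ∃ t : S, X.σ t i₀ = X.σ s i₀ := ⟨s, rfl⟩
      rw [show q (X.σ s i₀) = (h.choose : S ⧸ M) from dif_pos h]
      refine QuotientGroup.eq.mpr (hRM ((hR _).mpr ?_))
      have e := congrArg (X.σ h.choose⁻¹) h.choose_spec
      rw [← hσmul, inv_mul_cancel, X.σ_one] at e
      rw [hσmul]
      exact e.symm
    have hqmul : ∀ (t : S) i, i ∈ orb i₀ → q (X.σ t i) = (t : S ⧸ M) * q i := by
      intro t i hi
      obtain ⟨s, rfl⟩ := (horb _ _).mp hi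
      rw [← hσmul, hq, hq, QuotientGroup.mk_mul]
    by_cases hxM : x ∈ M
    · rw [← hred _ fun i => horbinv x i₀ i]
      by_contra hcne
      let a : S → Fin X.deg → ZMod p := fun s i => Multiplicative.toAdd (χ (X.c s i))
      let k : S → S ⧸ M → ZMod p := fun s b => ∑ i ∈ (orb i₀).filter (fun i => q i = b), a s i
      have hk : ∀ s t b, k (s * t) b = k s ((t : S ⧸ M) * b) + k t b := by
        intro s t b
        have h1 : k s ((t : S ⧸ M) * b) = ∑ i ∈ (orb i₀).filter (fun i => q i = b), a s (X.σ t i) := by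
          refine (Finset.sum_equiv (X.σ t) (fun i => ?_) fun _ _ => rfl).symm
          simp only [Finset.mem_filter]
          rw [← horbinv t i₀ i]
          constructor
          · rintro ⟨hi, rfl⟩; exact ⟨hi, hqmul t i hi⟩
          · rintro ⟨hi, h⟩; rw [hqmul t i hi] at h; exact ⟨hi, mul_left_cancel h⟩
        rw [h1, ← Finset.sum_add_distrib]
        exact Finset.sum_congr rfl fun i _ => by simp only [a, X.cocycle, map_mul, toAdd_mul]
      refine hno (exists_wreath_quotient hS hidx k hk hxM fun h => hcne ?_)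
      rw [Finset.sum_fiberwise_of_maps_to (fun i _ => Finset.mem_univ _)] at h
      apply Multiplicative.toAdd.injective
      rw [toAdd_prod, toAdd_one]
      exact h
    · refine Finset.prod_eq_one fun i hi => absurd ?_ hxM
      obtain ⟨hiO, hfx⟩ := Finset.mem_filter.mp hi
      have h := hqmul x i hiO
      rw [show X.σ x i = i from hfx, right_eq_mul] at h
      exact (QuotientGroup.eq_one_iff _).mp h
  -- invariant sets without global fixed points
  have hinv : ∀ A : Finset (Fin X.deg), (∀ (t : S) i, i ∈ A ↔ X.σ t i ∈ A) →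
      (∀ i ∈ A, ∃ s : S, X.σ s i ≠ i) →
      ∏ i ∈ A.filter (fun i => π i = i), χ (X.c x i) = 1 := by
    intro A
    induction A using Finset.strongInduction with
    | _ A ih =>
      intro hA hmoved
      rcases A.eq_empty_or_nonempty with rfl | ⟨i₀, hi₀⟩
      · simp
      have hsub : orb i₀ ⊆ A := fun j hj => by
        obtain ⟨s, rfl⟩ := (horb _ _).mp hj
        exact (hA s i₀).mp hi₀
      have hi₀o : i₀ ∈ orb i₀ := (horb _ _).mpr ⟨1, X.σ_one i₀⟩
      rw [← Finset.sdiff_union_of_subset hsub, Finset.filter_union, Finset.prod_union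
        (Finset.disjoint_filter_filter Finset.sdiff_disjoint), hmain i₀ (hmoved _ hi₀), mul_one]
      refine ih _ (Finset.sdiff_ssubset hsub ⟨i₀, hi₀o⟩) (fun t i => ?_) fun i hi =>
        hmoved i (Finset.mem_sdiff.mp hi).1
      rw [Finset.mem_sdiff, Finset.mem_sdiff, ← hA t i, ← horbinv t i₀ i]
  set Z := Finset.univ.filter fun i : Fin X.deg => ∀ s : S, X.σ s i = i with hZ
  have htot : χ x ^ Z.card = 1 := by
    have h0 := X.transfer_focal χ hxf
    rw [StableBiset.transfer_apply, hred Finset.univ (by simp),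
      ← Finset.prod_filter_mul_prod_filter_not (Finset.univ.filter fun i => π i = i)
        (fun i => ∀ s : S, X.σ s i = i)] at h0
    have hC := hinv (Finset.univ.filter fun i => ¬ ∀ s : S, X.σ s i = i) (fun t i => by
        simp only [Finset.mem_filter, Finset.mem_univ, true_and, not_iff_not]
        refine ⟨fun h s => ?_, fun h s => ?_⟩
        · rw [h t, h s]
        · have ht : X.σ t i = i := (X.σ t).injective (h t)
          have := h s
          rwa [ht] at this)
      (fun i hi => by simpa using hi)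
    rw [Finset.filter_comm] at hC
    rw [hC, mul_one] at h0
    have hZ' : (Finset.univ.filter fun i => π i = i).filter (fun i => ∀ s : S, X.σ s i = i) = Z := by
      rw [hZ, Finset.filter_filter]
      refine Finset.filter_congr fun i _ => ⟨fun h => h.2, fun h => ⟨h x, h⟩⟩
    rw [hZ'] at h0
    rw [← Finset.prod_const, ← h0]
    refine Finset.prod_congr rfl fun i hi => ?_
    have hi' : ∀ s : S, X.σ s i = i := (Finset.mem_filter.mp hi).2
    obtain ⟨P, f, hf, e⟩ := X.orbit i
    have hSP : S ≤ P := fun s hs => (e ⟨s, hs⟩ (hi' _)).1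
    have hiso : Iso F f S S := (hf.restrict hSP).iso_of_card (fun s hs => by
      rw [(e ⟨s, hs⟩ (hi' _)).2]; exact (X.c _ i).2) le_rfl
    exact (haut f hiso x (X.c x i) (e x (hi' x)).2.symm).symm
  have hZdeg : X.deg ≡ Z.card [MOD p] := by
    letI : MulAction S (Fin X.deg) := MulAction.compHom (Fin X.deg) X.σ
    have h := hS.card_modEq_card_fixedPoints (Fin X.deg)
    rw [Nat.card_fin] at h
    convert h using 1
    rw [hZ, ← Set.ncard_coe_finset, ← Nat.card_coe_set_eq]
    refine Nat.card_congr (Equiv.setCongr ?_)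
    ext i
    simp [MulAction.mem_fixedPoints]
    rfl
  have hco : Z.card.Coprime p :=
    ((Nat.Prime.coprime_iff_not_dvd hp).mpr fun h => hdeg
      (Nat.modEq_zero_iff_dvd.mp (hZdeg.trans (Nat.modEq_zero_iff_dvd.mpr h)))).symm
  have hxp : χ x ^ p = 1 := by
    apply Multiplicative.toAdd.injective
    rw [toAdd_pow, toAdd_one, nsmul_eq_mul, ZMod.natCast_self, zero_mul]
  exact hxχ (orderOf_eq_one_iff.mp (Nat.eq_one_of_dvd_coprimes hco
    (orderOf_dvd_of_pow_eq_one htot) (orderOf_dvd_of_pow_eq_one hxp)))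

/-- Yoshida: without a wreath quotient, a subsystem holding all automorphisms of `S` controls transfer. -/
theorem focal_eq_of_no_wreath [Fact p.Prime] [Finite S] (hS : IsPGroup p S) (hF : F.IsSaturated p)
    {T : Subgroup Ω} (hT : T = S) {E : FusionSystem T} (hE : E.IsSaturated p)
    (hsub : E.IsSubsystemOf F) (haut : ∀ f, Iso F f S S → Mor E T f)
    (hno : ¬ ∃ (W : Sylow p (Equiv.Perm (Fin (p ^ 2))))
      (g : S →* (W : Subgroup (Equiv.Perm (Fin (p ^ 2))))), Function.Surjective g) :
    E.focalSubgroup = F.focalSubgroup := by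
  subst hT
  have key : F.focalSubgroup ≤ (frattini T).map T.subtype ⊔ E.focalSubgroup := by
    by_contra hle
    obtain ⟨x, hx, hxK⟩ := SetLike.not_le_iff_exists.mp hle
    have hxS : x ∈ T := by
      refine (Subgroup.closure_le T).mpr ?_ hx
      rintro _ ⟨P, φ, z, hφ, rfl⟩
      exact T.mul_mem (T.inv_mem ((F.le_of_mem hφ).1 z.2)) ((F.le_of_mem hφ).2 z)
    set K : Subgroup T := frattini T ⊔ E.focalSubgroup.subgroupOf T
    have hcK : commutator T ≤ K := (FGS3.commutator_le_frattini hS).trans le_sup_left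
    haveI : K.Normal := Subgroup.Normal.of_commutator_le _ hcK
    have hxK' : (⟨x, hxS⟩ : T) ∉ K := by
      intro h
      apply hxK
      have h2 : x ∈ K.map T.subtype := ⟨_, h, rfl⟩
      rw [Subgroup.map_sup] at h2
      exact (sup_le_sup_left (Subgroup.map_le_iff_le_comap.mpr le_rfl) _ :
        (frattini T).map T.subtype ⊔ (E.focalSubgroup.subgroupOf T).map T.subtype ≤ _) h2
    obtain ⟨M, hM, hKM, hxM⟩ : ∃ M : Subgroup T, IsCoatom M ∧ K ≤ M ∧ (⟨x, hxS⟩ : T) ∉ M := by
      by_contra hall
      push Not at hall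
      refine hxK' ((QuotientGroup.eq_one_iff _).mp ?_)
      have h0 : frattini (T ⧸ K) = ⊥ := by
        refine le_bot_iff.mp (FGS3.frattini_le_of_elementary (p := p) ?_ fun a => ?_)
        · rw [commutator_def, Subgroup.commutator_le]
          intro a _ b _
          obtain ⟨a, rfl⟩ := QuotientGroup.mk'_surjective K a
          obtain ⟨b, rfl⟩ := QuotientGroup.mk'_surjective K b
          rw [Subgroup.mem_bot, ← map_commutatorElement]
          exact (QuotientGroup.eq_one_iff _).mpr
            (hcK (Subgroup.commutator_mem_commutator (Subgroup.mem_top _) (Subgroup.mem_top _)))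
        · obtain ⟨a, rfl⟩ := QuotientGroup.mk'_surjective K a
          rw [Subgroup.mem_bot, ← map_pow]
          exact (QuotientGroup.eq_one_iff _).mpr (Subgroup.mem_sup_left (FGS3.pow_mem_frattini hS a))
      rw [← Subgroup.mem_bot, ← h0]
      simp only [frattini, Order.radical, Subgroup.mem_iInf]
      intro M₁ hM₁
      refine hall (M₁.comap (QuotientGroup.mk' K))
        (Subgroup.isCoatom_comap_of_surjective (QuotientGroup.mk'_surjective K) hM₁) fun z hz => ?_
      rw [Subgroup.mem_comap, show QuotientGroup.mk' K z = 1 from (QuotientGroup.eq_one_iff z).mpr hz]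
      exact M₁.one_mem
    haveI := hS.isNilpotent
    haveI : M.Normal := Subgroup.NormalizerCondition.normal_of_coatom M
      (Group.normalizerCondition_of_isNilpotent (G := T)) hM
    have hMc : Nat.card (T ⧸ M) = p := by
      rw [← Subgroup.index_eq_card, FGS3.index_of_coatom hS hM]
    let e : T ⧸ M ≃* Multiplicative (ZMod p) :=
      mulEquivOfPrimeCardEq (p := p) hMc (by rw [Nat.card_congr Multiplicative.toAdd, Nat.card_zmod])
    let χ : T →* Multiplicative (ZMod p) := e.toMonoidHom.comp (QuotientGroup.mk' M)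
    have hχ : ∀ s, χ s = 1 ↔ s ∈ M := fun s => by
      show e _ = 1 ↔ _
      rw [EmbeddingLike.map_eq_one_iff]
      exact QuotientGroup.eq_one_iff s
    obtain ⟨X, hX⟩ := exists_stableBiset hS hF
    refine hno (exists_wreath_of_biset hS X hX χ (fun f hf s t e' => ?_)
      ⟨⟨x, hxS⟩, hx, fun h => hxM ((hχ _).mp h)⟩)
    refine (inv_mul_eq_one.mp ?_).symm
    rw [← map_inv, ← map_mul, hχ]
    refine hKM (Subgroup.mem_sup_right (Subgroup.mem_subgroupOf.mpr ?_))
    show (s : Ω)⁻¹ * (t : Ω) ∈ E.focalSubgroup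
    rw [e']
    exact mem_focal_gen (haut f hf) s.2
  rw [focal_eq hS hF, focal_eq hS hE, hyperfocal_eq_of_frattini hS hF hE hsub key]

/-- The automorphisms of `S` lie in the normalizer system of `S`. -/
theorem normalizerSystem_self_mor {N : FusionSystem (normalizerIn S S)}
    (hN : F.IsNormalizerSystem S N) {f : Ω → Ω} (hf : Iso F f S S) : Mor N S f := by
  have hsup : S ⊔ S = S := sup_idem S
  have hm : Mor F (S ⊔ S) f := by rw [hsup]; exact hf.mor
  refine ⟨hf.mor.hom, ?_, fun x => ?_⟩
  · rw [hN S]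
    refine ⟨hf.mor.hom_mem, le_normalizerIn le_rfl, fun x => le_normalizerIn le_rfl (hf.mapsTo x.2),
      hm.hom, hm.hom_mem, fun _ => rfl, ?_⟩
    ext y
    constructor
    · rintro ⟨x, hx, rfl⟩
      exact hf.mapsTo hx
    · intro hy
      obtain ⟨x, hx, rfl⟩ := hf.surj hy
      exact ⟨⟨x, Subgroup.mem_sup_left hx⟩, hx, rfl⟩
  · rfl

end Cfsg.Agent.Fusion
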